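import Cfsg.Agent.F11.Util
import Cfsg.Agent.M11.Count

/-! Groups without elements of order four: splitting off an involution, and a bound for the
Sylow 2-subgroup. -/

set_option autoImplicit false

namespace Cfsg.Agent.F11

open Subgroup Cfsg.Agent.M11

variable {G : Type*} [Group G] [Finite G]

namespace S8

omit [Finite G] in
theorem sq_of_two_pow (h4 : ∀ g : G, orderOf g ≠ 4) {g : G} {k : ℕ} (h : g ^ 2 ^ k = 1) :
    g * g = 1 := by
  have h1 := orderOf_dvd_of_pow_eq_one h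
  obtain ⟨j, -, hj⟩ := (Nat.dvd_prime_pow Nat.prime_two).1 h1
  have h3 : orderOf g ∣ 2 := by
    rcases j with _ | _ | j
    · simp [hj]
    · simp [hj]
    · exfalso
      apply h4 (g ^ 2 ^ j)
      rw [orderOf_pow' _ (by positivity), hj, show 2 ^ (j + 1 + 1) = 2 ^ j * 4 by ring,
        Nat.gcd_mul_right_left, Nat.mul_div_cancel_left _ (by positivity)]
  rw [← pow_two]; exact orderOf_dvd_iff_pow_eq_one.1 h3

omit [Finite G] in
theorem comm_of_sq {a b : G} (ha : a * a = 1) (hb : b * b = 1) (hab : a * b * (a * b) = 1) :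
    Commute a b := by
  have h1 : a⁻¹ = a := inv_eq_of_mul_eq_one_right ha
  have h2 : b⁻¹ = b := inv_eq_of_mul_eq_one_right hb
  have h3 : (a * b)⁻¹ = a * b := inv_eq_of_mul_eq_one_right hab
  rw [mul_inv_rev, h1, h2] at h3
  exact h3.symm

omit [Finite G] in
theorem sq_syl (h4 : ∀ g : G, orderOf g ≠ 4) (E : Sylow 2 G) {g : G} (hg : g ∈ E) : g * g = 1 := by
  obtain ⟨k, hk⟩ := E.isPGroup' ⟨g, hg⟩
  exact sq_of_two_pow h4 (k := k) (by simpa using congrArg Subtype.val hk)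

omit [Finite G] in
theorem comm_syl (h4 : ∀ g : G, orderOf g ≠ 4) (E : Sylow 2 G) {g h : G} (hg : g ∈ E)
    (hh : h ∈ E) : Commute g h :=
  comm_of_sq (sq_syl h4 E hg) (sq_syl h4 E hh) (sq_syl h4 E (mul_mem hg hh))

theorem split_central (h4 : ∀ g : G, orderOf g ≠ 4) {t : G} (ht : orderOf t = 2)
    (hc : ∀ g, Commute g t) : ∃ Y : Subgroup G, t ∉ Y ∧ ∀ y : G, y ∈ Y ∨ y * t ∈ Y := by
  obtain ⟨E, hE⟩ := exists_sylow_mem ht
  letI : CommGroup (E : Subgroup G) := { (inferInstance : Group (E : Subgroup G)) with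
    mul_comm := fun a b => Subtype.ext (comm_syl h4 E a.2 b.2).eq }
  have key : ∀ (k : ℕ) (g₀ : G), g₀⁻¹ * t ^ k * g₀ ∈ (E : Subgroup G) →
      g₀⁻¹ * t ^ k * g₀ = t ^ k := by
    intro k g _
    rw [mul_assoc, ← ((hc g).pow_right k).eq, inv_mul_cancel_left]
  have h2 := MonoidHom.transfer_eq_pow (MonoidHom.id (E : Subgroup G)) t key
  set V := MonoidHom.transfer (MonoidHom.id (E : Subgroup G))
  have h3 : V t = ⟨t, hE⟩ := by
    rw [h2]
    apply Subtype.ext
    change t ^ (E : Subgroup G).index = t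
    obtain ⟨k, hk⟩ : Odd (E : Subgroup G).index :=
      Nat.odd_iff.2 (Nat.two_dvd_ne_zero.1 E.not_dvd_index)
    rw [hk, pow_succ, pow_mul, pow_two, U.sq_of_two ht, one_pow, one_mul]
  have h5 : (⟨t, hE⟩ : (E : Subgroup G)) ≠ 1 := fun e =>
    U.ne_one_of_ord ht (by norm_num) (congrArg Subtype.val e)
  haveI : NeZero ((Monoid.exponent (E : Subgroup G) : ℕ) : ℂ) :=
    ⟨by exact_mod_cast Monoid.exponent_ne_zero_of_finite⟩
  obtain ⟨φ, hφ⟩ := CommGroup.exists_apply_ne_one_of_hasEnoughRootsOfUnity (E : Subgroup G) ℂ h5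
  have sq : ∀ e : (E : Subgroup G), φ e = 1 ∨ φ e = -1 := fun e => by
    have : φ e * φ e = 1 := by
      rw [← map_mul, show e * e = 1 from Subtype.ext (sq_syl h4 E e.2), map_one]
    have h : ((φ e : ℂˣ) : ℂ) * φ e = 1 := by rw [← Units.val_mul, this, Units.val_one]
    rcases mul_self_eq_one_iff.1 h with h | h
    · exact .inl (Units.ext h)
    · exact .inr (Units.ext h)
  refine ⟨(φ.comp V).ker, ?_, fun y => ?_⟩
  · rw [MonoidHom.mem_ker, MonoidHom.comp_apply, h3]; exact hφ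
  · simp only [MonoidHom.mem_ker, MonoidHom.comp_apply, map_mul, h3]
    rcases sq (V y) with e | e
    · exact .inl e
    · right
      rw [e, (sq _).resolve_left hφ]; simp

theorem no_swap (h4 : ∀ g : G, orderOf g ≠ 4) {u v g : G} (hu : u * u = 1) (hv : v * v = 1)
    (hc : Commute u v) (hne : u ≠ v) (h1 : g * u * g⁻¹ = v) (h2 : g * v * g⁻¹ = u) : False := by
  obtain ⟨k, m, hm, e⟩ := Nat.exists_eq_two_pow_mul_odd (orderOf_pos g).ne'
  obtain ⟨j, rfl⟩ := hm
  have c1 : Commute (g ^ 2) u := by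
    have : g ^ 2 * u * (g ^ 2)⁻¹ = u := by
      rw [show g ^ 2 * u * (g ^ 2)⁻¹ = g * (g * u * g⁻¹) * g⁻¹ by rw [pow_two]; group, h1, h2]
    exact mul_inv_eq_iff_eq_mul.1 this
  set h := g ^ (2 * j + 1) with hh
  have h3 : h * u * h⁻¹ = v := by
    rw [hh, pow_succ', pow_mul, mul_inv_rev, mul_assoc g, (c1.pow_left j).eq, ← h1]; group
  have h5 : h * h = 1 := sq_of_two_pow h4 (k := k) (by
    rw [hh, ← pow_mul, mul_comm, ← e, pow_orderOf_eq_one])
  have h6 : h * u * (h * u) = v * u := by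
    rw [inv_eq_of_mul_eq_one_right h5] at h3
    rw [← mul_assoc, h3]
  have h7 : h * u * (h * u) = 1 := sq_of_two_pow h4 (k := 2) (by
    rw [show 2 ^ 2 = 2 * 2 by norm_num, pow_mul, pow_two (h * u), h6, pow_two,
      hc.mul_mul_mul_comm, hu, hv, one_mul])
  rw [h7] at h6
  apply hne
  rw [← one_mul u, ← hv, mul_assoc, ← h6, mul_one]

theorem exists_notMem (S : Subgroup G) (l : List G) (h : l.length < Nat.card S) :
    ∃ x ∈ S, x ∉ l := by
  classical
  by_contra hc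
  push Not at hc
  have h1 : (S : Set G).ncard ≤ (l.toFinset : Set G).ncard :=
    Set.ncard_le_ncard fun x hx => by simpa using hc x hx
  rw [U.ncard_coe, Set.ncard_coe_finset] at h1
  have := l.toFinset_card_le
  omega

theorem pr0 {a y : Prop} : ((y ↔ a) ↔ y) ↔ a := by tauto

theorem pr1 {a t : Prop} (h : ¬ t) (k : a ↔ (a ↔ t)) : False := by tauto

theorem pr2 {a b : Prop} (h : ¬ (a ↔ ¬ b)) : a ↔ b := by tauto

theorem pr3 {a b c d e f : Prop} (k1 : a ↔ ¬ d) (k2 : b ↔ ¬ e) (k3 : c ↔ ¬ f)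
    (k4 : c ↔ (a ↔ b)) : ¬ (d ↔ (e ↔ f)) := by
  by_cases d <;> by_cases e <;> by_cases f <;> simp_all

theorem pr4 {a b c d e f : Prop} (p1 : ¬ (a ↔ (b ↔ c))) (p2 : ¬ (d ↔ (e ↔ f)))
    (p3 : ¬ ((a ↔ d) ↔ ((b ↔ e) ↔ (c ↔ f)))) : False := by
  by_cases a <;> by_cases b <;> by_cases c <;> by_cases d <;> by_cases e <;> by_cases f <;> simp_all

end S8

open S8

theorem split_inv (h4 : ∀ g : G, orderOf g ≠ 4) {t : G} (ht : orderOf t = 2) :
    ∃ Y₀ : Subgroup G, Y₀ ≤ centralizer {t} ∧ t ∉ Y₀ ∧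
      ∀ y : G, Commute y t → y ∈ Y₀ ∨ y * t ∈ Y₀ := by
  obtain ⟨Y, h1, h2⟩ := split_central (G := centralizer ({t} : Set G))
    (fun g => by rw [← orderOf_coe]; exact h4 g) (t := ⟨t, mem_centralizer_singleton_iff.2 rfl⟩)
    (by rw [← orderOf_coe]; exact ht)
    (fun g => Subtype.ext (mem_centralizer_singleton_iff.1 g.2))
  refine ⟨Y.map (centralizer ({t} : Set G)).subtype, map_subtype_le _, ?_, fun y hy => ?_⟩
  · rintro ⟨a, ha, e⟩
    exact h1 (by rwa [show a = ⟨t, _⟩ from Subtype.ext e] at ha)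
  · exact (h2 ⟨y, mem_centralizer_singleton_iff.2 hy.eq⟩).imp (fun h => ⟨_, h, rfl⟩)
      (fun h => ⟨_, h, rfl⟩)

theorem s8 (h4 : ∀ g : G, orderOf g ≠ 4) {t s : G} (ht : orderOf t = 2)
    (hone : ∀ u : G, orderOf u = 2 → IsConj t u)
    (htwo : ∀ u : G, orderOf u = 2 → Commute u t → u ≠ t →
      ∃ y : G, Commute y t ∧ (y * s * y⁻¹ = u ∨ y * (s * t) * y⁻¹ = u)) :
    ¬ 16 ∣ Nat.card G := by
  intro h16
  obtain ⟨Y, hY, htY, hs⟩ := split_inv h4 ht
  have t2 := U.sq_of_two ht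
  have mulY : ∀ a b : G, Commute a t → Commute b t → (a * b ∈ Y ↔ (a ∈ Y ↔ b ∈ Y)) := by
    intro a b ha hb
    by_cases h1 : a ∈ Y
    · simp [h1, mul_mem_cancel_left h1]
    by_cases h2 : b ∈ Y
    · simp [h1, h2, mul_mem_cancel_right h2]
    have := mul_mem ((hs a ha).resolve_left h1) ((hs b hb).resolve_left h2)
    rw [hb.symm.mul_mul_mul_comm, t2, mul_one] at this
    simp [h1, h2, this]
  have conjY : ∀ a y : G, Commute a t → Commute y t → (y * a * y⁻¹ ∈ Y ↔ a ∈ Y) := by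
    intro a y ha hy
    rw [mulY _ _ (hy.mul_left ha) hy.inv_left, mulY _ _ hy ha, inv_mem_iff]
    exact pr0
  -- pairs of the same type are conjugate
  have same : ∀ u v : G, orderOf u = 2 → Commute u t → u ≠ t → orderOf v = 2 → Commute v t →
      v ≠ t → (u ∈ Y ↔ v ∈ Y) → ∃ y, Commute y t ∧ y * u * y⁻¹ = v := by
    intro u v a b c a' b' c' huv
    obtain ⟨y, hy, e⟩ := htwo u a b c
    obtain ⟨y', hy', e'⟩ := htwo v a' b' c'
    have hst : Commute s t := by
      rcases e with e | e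
      · have : s = y⁻¹ * u * y := by rw [← e]; group
        rw [this]; exact (hy.inv_left.mul_left b).mul_left hy
      · have : s = y⁻¹ * u * y * t⁻¹ := by rw [← e]; group
        rw [this]; exact ((hy.inv_left.mul_left b).mul_left hy).mul_left (Commute.refl t).inv_left
    have hst' : Commute (s * t) t := hst.mul_left (Commute.refl t)
    have k := mulY s t hst (Commute.refl t)
    rcases e with rfl | rfl <;> rcases e' with rfl | rfl
    · exact ⟨y' * y⁻¹, hy'.mul_left hy.inv_left, by group⟩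
    · rw [conjY _ _ hst hy, conjY _ _ hst' hy', k] at huv; exact (pr1 htY huv).elim
    · rw [conjY _ _ hst hy', conjY _ _ hst' hy, k] at huv; exact (pr1 htY huv.symm).elim
    · exact ⟨y' * y⁻¹, hy'.mul_left hy.inv_left, by group⟩
  have hone' : ∀ u : G, ∃ g : G, orderOf u = 2 → g * u * g⁻¹ = t := fun u => by
    by_cases h : orderOf u = 2
    · obtain ⟨g, hg⟩ := isConj_iff.1 (hone u h).symm
      exact ⟨g, fun _ => hg⟩
    · exact ⟨1, fun h' => absurd h' h⟩
  choose γ hγ using hone'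
  let A : G → G → Prop := fun u v => γ u * v * (γ u)⁻¹ ∈ Y
  have cm : ∀ u v, orderOf u = 2 → Commute v u → Commute (γ u * v * (γ u)⁻¹) t := by
    intro u v hu h
    rw [← hγ u hu]
    exact h.map (MulAut.conj (γ u))
  have Amul : ∀ u v w, orderOf u = 2 → Commute v u → Commute w u →
      (A u (v * w) ↔ (A u v ↔ A u w)) := by
    intro u v w hu h1 h2
    rw [← mulY _ _ (cm u v hu h1) (cm u w hu h2)]
    simp only [A]
    rw [show γ u * v * (γ u)⁻¹ * (γ u * w * (γ u)⁻¹) = γ u * (v * w) * (γ u)⁻¹ by group]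
  have tour : ∀ u v, orderOf u = 2 → orderOf v = 2 → Commute u v → u ≠ v → (A u v ↔ ¬ A v u) := by
    intro u v hu hv hc hne
    by_contra hcon
    obtain ⟨y, hy, e⟩ := same (γ u * v * (γ u)⁻¹) (γ v * u * (γ v)⁻¹) (by rw [U.orderOf_conj, hv])
      (cm u v hu hc.symm) (by rw [← hγ u hu]; simpa using hne.symm) (by rw [U.orderOf_conj, hu])
      (cm v u hv hc) (by rw [← hγ v hv]; simpa using hne) (pr2 hcon)
    refine no_swap h4 (U.sq_of_two hu) (U.sq_of_two hv) hc hne (g := (γ v)⁻¹ * y * γ u) ?_ ?_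
    · calc _ = (γ v)⁻¹ * (y * (γ u * u * (γ u)⁻¹) * y⁻¹) * γ v := by group
        _ = v := by rw [hγ u hu, hy.eq, mul_inv_cancel_right, ← hγ v hv]; group
    · calc _ = (γ v)⁻¹ * (y * (γ u * v * (γ u)⁻¹) * y⁻¹) * γ v := by group
        _ = u := by rw [e]; group
  obtain ⟨E⟩ : Nonempty (Sylow 2 G) := inferInstance
  have hE : 16 ≤ Nat.card E := by
    refine Nat.le_of_dvd Nat.card_pos ?_
    have h1 : 2 ^ 4 ∣ Nat.card E * (E : Subgroup G).index := by
      rw [(E : Subgroup G).card_mul_index]; exact h16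
    exact (Nat.Coprime.pow_left 4
      ((Nat.Prime.coprime_iff_not_dvd Nat.prime_two).2 E.not_dvd_index)).dvd_of_dvd_mul_right h1
  obtain ⟨u, hu, nu⟩ := exists_notMem (E : Subgroup G) [1] (by simp; omega)
  obtain ⟨v, hv, nv⟩ := exists_notMem (E : Subgroup G) [1, u] (by simp; omega)
  obtain ⟨z, hz, nz⟩ := exists_notMem (E : Subgroup G) [1, u, v, u * v] (by simp; omega)
  obtain ⟨w, hw, nw⟩ := exists_notMem (E : Subgroup G)
    [1, u, v, u * v, z, z * u, z * v, z * (u * v)] (by simp; omega)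
  simp only [List.mem_cons, List.not_mem_nil, or_false, not_or] at nu nv nz nw
  have o2 : ∀ {a : G}, a ∈ E → a ≠ 1 → orderOf a = 2 := fun ha h1 => U.two_of_sq (sq_syl h4 E ha) h1
  have cc : ∀ {a b : G}, a ∈ E → b ∈ E → Commute a b := fun ha hb => comm_syl h4 E ha hb
  have huv := mul_mem hu hv
  have ou := o2 hu nu
  have ov := o2 hv nv.1
  have ouv := o2 huv (fun e => nv.2 (by
    rw [← one_mul v, ← sq_syl h4 E hu, mul_assoc, e, mul_one]))
  have psi : ∀ a ∈ E, a ≠ 1 → a ≠ u → a ≠ v → a ≠ u * v → ¬ (A u a ↔ (A v a ↔ A (u * v) a)) := by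
    intro a ha h1 h2 h3 h5
    have oa := o2 ha h1
    have k1 := tour a u oa ou (cc ha hu) h2
    have k2 := tour a v oa ov (cc ha hv) h3
    have k3 := tour a (u * v) oa ouv (cc ha huv) h5
    have k4 := Amul a u v oa (cc hu ha) (cc hv ha)
    exact pr3 k1 k2 k3 k4
  have ne : ∀ a, w ≠ z * a → z * w ≠ a := fun a h e => h (by
    rw [← e, ← mul_assoc, sq_syl h4 E hz, one_mul])
  have p1 := psi z hz nz.1 nz.2.1 nz.2.2.1 nz.2.2.2
  have p2 := psi w hw nw.1 nw.2.1 nw.2.2.1 nw.2.2.2.1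
  have p3 := psi (z * w) (mul_mem hz hw) (ne 1 (by simpa using nw.2.2.2.2.1)) (ne u nw.2.2.2.2.2.1)
    (ne v nw.2.2.2.2.2.2.1) (ne _ nw.2.2.2.2.2.2.2)
  rw [Amul u z w ou (cc hz hu) (cc hw hu), Amul v z w ov (cc hz hv) (cc hw hv),
    Amul (u * v) z w ouv (cc hz huv) (cc hw huv)] at p3
  exact pr4 p1 p2 p3

end Cfsg.Agent.F11
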