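import Cfsg.Agent.F11.ABase
import Cfsg.Agent.F11.S8

/-! Case A: counting the involutions of type II. -/

set_option autoImplicit false
set_option linter.unusedSectionVars false

namespace Cfsg.Agent.F11
open Subgroup Cfsg.Agent.Local U

theorem a1_dc {X Y : Type*} [Finite X] [Finite Y] (S : Set X) (T : Set Y) (R : X → Y → Prop) {m k : ℕ}
    (hm : ∀ x ∈ S, {y | y ∈ T ∧ R x y}.ncard = m) (hk : ∀ y ∈ T, {x | x ∈ S ∧ R x y}.ncard = k) :
    S.ncard * m = T.ncard * k := by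
  classical
  rw [Set.ncard_eq_toFinset_card S, Set.ncard_eq_toFinset_card T]
  refine Finset.card_mul_eq_card_mul R (fun x hx => ?_) fun y hy => ?_
  · rw [← hm x (by simpa using hx), ← Set.ncard_coe_finset]
    congr 1; ext; simp
  · rw [← hk y (by simpa using hy), ← Set.ncard_coe_finset]
    congr 1; ext; simp

theorem a1_conj {G : Type*} [Group G] (g : G) {p q : G → Prop} (h : ∀ t, p t ↔ q (g * t * g⁻¹)) :
    {t | p t}.ncard = {t | q t}.ncard :=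
  Nat.card_congr (Equiv.subtypeEquiv (MulAut.conj g).toEquiv h)

theorem a1_z2 {G : Type*} [Group G] {t a : G} (ht : orderOf t = 2) (h : a ∈ zpowers t) : a = 1 ∨ a = t := by
  obtain ⟨k, rfl⟩ := h
  have := zpow_mod_orderOf t k
  rw [ht] at this
  rcases Int.emod_two_eq_zero_or_one k with e | e <;> simp only [Nat.cast_ofNat, e] at this
  · exact Or.inl (by rw [← zpow_zero t]; exact this.symm)
  · exact Or.inr (by rw [← zpow_one t]; simpa using this.symm)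

namespace Geo
variable {G Ω : Type*} [Group G] [Finite G] [MulAction G Ω] {Γ : Geo G Ω}
variable {L : Subgroup G} {a b r : Ω} {g t : G}

theorem T2.conj (ht : Γ.T2 t) (g : G) : Γ.T2 (g * t * g⁻¹) :=
  ⟨(orderOf_conj g t).trans ht.1, ht.2.elim fun a ha => ⟨_, ha.conj g⟩⟩

theorem IsLine.nontrivial (hL : Γ.IsLine L) : Nontrivial Ω :=
  hL.exists_two.elim fun a h => h.elim fun b h => ⟨a, b, h.1⟩

/-- An involution of type II centralises a line. -/
theorem HypA.T2_line (h : Γ.HypA) [Nontrivial Ω] (ht : Γ.T2 t) :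
    ∃ L, Γ.IsLine L ∧ t ∈ centralizer (L : Set G) := by
  haveI := Γ.finite_pts
  obtain ⟨t2, a, ha⟩ := ht
  have := fix_mod_elt (k := 1) Nat.prime_two (show t ^ 2 ^ 1 = 1 by rw [pow_one, ← t2, pow_orderOf_eq_one])
    (Set.finite_univ (α := Ω)) fun _ _ => trivial
  rw [Set.ncard_univ, Nat.even_iff.1 h.even] at this
  obtain ⟨b, hb, ne⟩ := Set.exists_ne_of_one_lt_ncard (s := {r | r ∈ Set.univ ∧ t • r = r}) (by
    have := (Set.ncard_pos (s := {r | r ∈ Set.univ ∧ t • r = r})).2 ⟨a, trivial, ha.smul_eq⟩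
    omega) a
  exact ⟨_, h.isLine ne.symm, (h.isLine ne.symm).F1 le_sup_left le_sup_right ne.symm ha hb.2⟩

theorem HypA.T2_cent (h : Γ.HypA) [Nontrivial Ω] (ht : Γ.T2 t) (hr : t • r = r) : Γ.Cent t r := by
  obtain ⟨L, hL, hc⟩ := h.T2_line ht
  exact Γ.cent_of_le hc ((h.fix_cent hL hc (ne_one_of_ord ht.1 (by decide)) r).1 hr)

theorem HypA.T2_fix (h : Γ.HypA) [Nontrivial Ω] (ht : Γ.T2 t) : {r : Ω | t • r = r}.ncard = 12 := by
  obtain ⟨L, hL, hc⟩ := h.T2_line ht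
  rw [← hL.ncard]
  congr 1; ext r
  exact h.fix_cent hL hc (ne_one_of_ord ht.1 (by decide)) r

theorem HypA.inner_T2 (h : Γ.HypA) (hL : Γ.IsLine L) (hg : Γ.T2 g)
    (hN : g ∈ normalizer (L : Set G)) : Inner L g := by
  haveI := hL.nontrivial
  have g2 : g ^ 2 ∈ centralizer (L : Set G) := by rw [← hg.1, pow_orderOf_eq_one]; exact one_mem _
  by_cases e : ∃ r, Γ.pt r ≤ L ∧ g • r = r
  · obtain ⟨r, hr, gr⟩ := e
    obtain ⟨b, ne, hb, gb⟩ := hL.second_fix hN g2 hr gr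
    exact .of_cent (hL.F1 hr hb ne.symm (h.T2_cent hg gr) gb)
  · exact hL.inner_of_fpf hN g2 fun r hr gr => e ⟨r, hr, gr⟩

theorem IsLine.a1_sq (hL : Γ.IsLine L) {l c : G} (hl : l ∈ L) (hc : c ∈ centralizer (L : Set G))
    (h : (l * c) ^ 2 = 1) : l ^ 2 = 1 ∧ c ^ 2 = 1 := by
  rw [Commute.mul_pow (hc l hl), mul_eq_one_iff_eq_inv] at h
  have := hL.inf_cent (pow_mem hl 2) (h ▸ inv_mem (pow_mem hc 2))
  exact ⟨this, inv_eq_one.1 (h ▸ this)⟩

theorem HypA.a1_dc2 (h : Γ.HypA) (hab : a ≠ b) (R : G → Ω → Ω → Prop)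
    (hR : ∀ g t a b, R t a b → R (g * t * g⁻¹) (g • a) (g • b)) {m : ℕ}
    (hm : ∀ t, Γ.T2 t → {p : Ω × Ω | p.1 ≠ p.2 ∧ R t p.1 p.2}.ncard = m) :
    {t | Γ.T2 t}.ncard * m = {p : Ω × Ω | p.1 ≠ p.2}.ncard * {t | Γ.T2 t ∧ R t a b}.ncard := by
  haveI := Γ.finite_pts
  refine a1_dc _ _ (fun t (p : Ω × Ω) => R t p.1 p.2) hm fun p hp => ?_
  obtain ⟨g, g1, g2⟩ := h.two_trans hab hp
  refine (a1_conj g fun t => ⟨fun d => ⟨d.1.conj g, g1 ▸ g2 ▸ hR g t a b d.2⟩, fun d => ⟨?_, ?_⟩⟩).symm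
  · simpa [mul_assoc] using d.1.conj g⁻¹
  · simpa [mul_assoc, ← g1, ← g2] using hR g⁻¹ _ _ _ d.2

theorem HypA.a1_T2_iff (hL : Γ.IsLine L) {τ l c : G} (hτ : τ ∈ L) (hτ2 : orderOf τ = 2) (hl : l ∈ L)
    (hl2 : orderOf l = 2) (hc : c ∈ centralizer (L : Set G)) (ht : Γ.T2 (τ * c)) : Γ.T2 (l * c) := by
  obtain ⟨u, hu, rfl⟩ := hL.1.inv_conj hτ hl hτ2 hl2
  have := ht.conj u
  rwa [show u * (τ * c) * u⁻¹ = u * τ * (c * u⁻¹) by group, ← hc _ (inv_mem hu), ← mul_assoc] at this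

theorem HypA.count (h : Γ.HypA) (hL : Γ.IsLine L) {τ : G} (hτ : τ ∈ L) (hτ2 : orderOf τ = 2) :
    {s : G | s ∈ centralizer (L : Set G) ∧ orderOf s = 2}.ncard * (Nat.card Ω - 12) =
      660 * {c : G | c ∈ centralizer (L : Set G) ∧ c ^ 2 = 1 ∧ Γ.T2 (τ * c)}.ncard := by
  classical
  haveI := Γ.finite_pts
  haveI := hL.nontrivial
  obtain ⟨a, b, hab, ha, hb⟩ := hL.exists_two
  have k1 := h.a1_dc2 hab (fun t a b => t • a = a ∧ t • b = b)
    (fun g t a b d => by simp [mul_smul, d.1, d.2]) (m := 132) fun t ht => by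
      have := h.T2_fix ht
      rw [Set.ncard_eq_toFinset_card] at this
      rw [show 132 = 12 * 12 - 12 from rfl, ← this, ← Finset.offDiag_card, ← Set.ncard_coe_finset]
      congr 1; ext p; simp; tauto
  have k2 := h.a1_dc2 hab (fun t a b => t • a = b)
    (fun g t a b d => by simp [mul_smul, d]) (m := Nat.card Ω - 12) fun t ht => by
      rw [← h.T2_fix ht, ← Set.ncard_compl, ← Set.ncard_image_of_injective _
        (show Function.Injective fun r : Ω => (r, t • r) from fun _ _ e => congrArg Prod.fst e)]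
      congr 1; ext ⟨p, q⟩
      exact ⟨fun d => ⟨p, fun e => d.1 (e.symm.trans d.2), Prod.ext rfl d.2⟩, by
        rintro ⟨r, d, e⟩; cases e; exact ⟨Ne.symm d, rfl⟩⟩
  have e1 : {t | Γ.T2 t ∧ t • a = a ∧ t • b = b} = {s | s ∈ centralizer (L : Set G) ∧ orderOf s = 2} := by
    ext t
    exact ⟨fun d => ⟨hL.F1 ha hb hab (h.T2_cent d.1 d.2.1) d.2.2, d.1.1⟩, fun d =>
      ⟨⟨d.2, a, Γ.cent_of_le d.1 ha⟩, (Γ.cent_of_le d.1 ha).smul_eq, (Γ.cent_of_le d.1 hb).smul_eq⟩⟩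
  obtain ⟨x, σ, xL, σL, x5, σ2, xa, xb, σa, σb, inv, -, hx⟩ := hL.frame ha hb hab
  have e2 : {t | Γ.T2 t ∧ t • a = b} = (fun p : G × G => σ * p.1 * p.2) '' ((zpowers x : Set G) ×ˢ
      {c : G | c ∈ centralizer (L : Set G) ∧ c ^ 2 = 1 ∧ Γ.T2 (τ * c)}) := by
    ext t
    constructor
    · rintro ⟨ht, ta⟩
      have tb : t • b = a := by rw [← ta, ← mul_smul, sq_of_two ht.1, one_smul]
      obtain ⟨l, hl, c, hc, rfl⟩ := h.inner_T2 hL ht (hL.mem_norm ha hb hab (Or.inr ⟨ta, tb⟩))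
      rw [mul_smul, (Γ.cent_of_le hc ha).smul_eq] at ta
      rw [mul_smul, (Γ.cent_of_le hc hb).smul_eq] at tb
      obtain ⟨l2, c2⟩ := hL.a1_sq hl hc (ht.1 ▸ pow_orderOf_eq_one _)
      exact ⟨(σ * l, c), ⟨hx _ (mul_mem σL hl) (by rw [mul_smul, ta, σb]) (by rw [mul_smul, tb, σa]), hc, c2,
        a1_T2_iff hL hl (orderOf_eq_prime l2 fun e => hab (by rw [← ta, e, one_smul])) hτ hτ2 hc ht⟩,
        by simp only; rw [← mul_assoc, sq_of_two σ2, one_mul]⟩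
    · rintro ⟨⟨y, c⟩, ⟨⟨k, rfl⟩, hc, -, ht⟩, rfl⟩
      have ya : (σ * x ^ k) • a = b := by
        rw [mul_smul, MulAction.mem_stabilizer_iff.1 (zpow_mem (MulAction.mem_stabilizer_iff.2 xa) k), σa]
      refine ⟨a1_T2_iff hL hτ hτ2 (mul_mem σL (zpow_mem xL k)) (two_of_sq ?_ fun e => hab ?_) hc ht, ?_⟩
      · calc _ = (σ * x * σ⁻¹) ^ k * (σ * σ) * x ^ k := by rw [conj_zpow]; group
          _ = 1 := by rw [inv, sq_of_two σ2]; group
      · rw [← ya, e, one_smul]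
      · simp only; rw [mul_smul, (Γ.cent_of_le hc ha).smul_eq, ya]
  rw [e1] at k1
  rw [e2, Set.InjOn.ncard_image, Set.ncard_prod, ncard_coe, Nat.card_zpowers, x5] at k2
  · have pos := (Set.ncard_pos (s := {p : Ω × Ω | p.1 ≠ p.2})).2 ⟨(a, b), hab⟩
    refine Nat.eq_of_mul_eq_mul_left pos ?_
    rw [← mul_assoc, ← k1, mul_right_comm, k2]
    ring
  · rintro ⟨y, c⟩ ⟨hy, hc, -⟩ ⟨y', c'⟩ ⟨hy', hc', -⟩ e
    have e : y'⁻¹ * y = c' * c⁻¹ := by
      rw [inv_mul_eq_iff_eq_mul, ← mul_assoc, eq_mul_inv_iff_mul_eq]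
      simpa [mul_assoc] using e
    have := hL.inf_cent (mul_mem (inv_mem (zpowers_le.2 xL hy')) (zpowers_le.2 xL hy)) (e ▸ mul_mem hc' (inv_mem hc))
    exact Prod.ext (inv_mul_eq_one.1 this).symm (mul_inv_eq_one.1 (e ▸ this)).symm

theorem a1_sub (L : Subgroup G) (τ : G) : {c : G | c ∈ centralizer (L : Set G) ∧ c ^ 2 = 1 ∧ Γ.T2 (τ * c)} ⊆
    insert 1 {s : G | s ∈ centralizer (L : Set G) ∧ orderOf s = 2} := fun c hc =>
  (eq_or_ne c 1).imp id fun e => ⟨hc.1, orderOf_eq_prime hc.2.1 e⟩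

theorem IsLine.a1_inv (hL : Γ.IsLine L) : ∃ τ ∈ L, orderOf τ = 2 :=
  exists_mem_orderOf_eq_of_dvd_card Nat.prime_two (by rw [hL.1.1]; decide)

theorem HypA.a1_k (h : Γ.HypA) (hn : Nat.card Ω = 1332) (hL : Γ.IsLine L) {s : G}
    (hs : s ∈ centralizer (L : Set G)) (s2 : orderOf s = 2) :
    (∀ c ∈ centralizer (L : Set G), c ^ 2 = 1 → c = 1 ∨ c = s) ∧
      ∀ τ ∈ L, orderOf τ = 2 → Γ.T2 τ ∧ Γ.T2 (τ * s) := by
  have key : ∀ τ ∈ L, orderOf τ = 2 → {s : G | s ∈ centralizer (L : Set G) ∧ orderOf s = 2}.ncard ≤ 1 ∧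
      {c : G | c ∈ centralizer (L : Set G) ∧ c ^ 2 = 1 ∧ Γ.T2 (τ * c)} =
        insert 1 {s : G | s ∈ centralizer (L : Set G) ∧ orderOf s = 2} := fun τ hτ τ2 => by
    have k := h.count hL hτ τ2
    have k1 := Set.ncard_le_ncard (a1_sub (Γ := Γ) L τ)
    have k2 := Set.ncard_insert_le 1 {s : G | s ∈ centralizer (L : Set G) ∧ orderOf s = 2}
    have k3 := (Set.ncard_pos (s := {s : G | s ∈ centralizer (L : Set G) ∧ orderOf s = 2})).2 ⟨s, hs, s2⟩
    rw [hn] at k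
    exact ⟨by omega, Set.eq_of_subset_of_ncard_le (a1_sub L τ) (by omega)⟩
  obtain ⟨τ, hτ, τ2⟩ := hL.a1_inv
  refine ⟨fun c hc c2 => (eq_or_ne c 1).imp id fun e => (Set.ncard_le_one_iff (Set.toFinite _)).1 (key τ hτ τ2).1
    ⟨hc, orderOf_eq_prime c2 e⟩ ⟨hs, s2⟩, fun τ hτ τ2 => ⟨?_, ((key τ hτ τ2).2.ge (Or.inr ⟨hs, s2⟩)).2.2⟩⟩
  simpa using ((key τ hτ τ2).2.ge (Or.inl rfl)).2.2

theorem IsLine.a1_norm {W : Subgroup G} (hW : W ≤ L) {e : G} (he : e ∈ centralizer (L : Set G)) :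
    zpowers e ≤ normalizer (W : Set G) :=
  zpowers_le.2 (centralizer_le_normalizer _ (centralizer_le hW he))

theorem IsLine.a1_card (hL : Γ.IsLine L) {W : Subgroup G} (hW : W ≤ L) {e : G} (he : e ∈ centralizer (L : Set G))
    (e2 : orderOf e = 2) : Nat.card ↥(W ⊔ zpowers e) = Nat.card W * 2 := by
  rw [card_sup_of_disjoint (a1_norm hW he) (disjoint_def.2 fun h1 h2 =>
    hL.inf_cent (hW h1) (zpowers_le.2 he h2)), Nat.card_zpowers, e2]

theorem HypA.a1_1332 (h : Γ.HypA) (hL : Γ.IsLine L) {s : G} (hs : s ∈ centralizer (L : Set G))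
    (s2 : orderOf s = 2) : Nat.card Ω ≠ 1332 := fun hn => by
  haveI := hL.nontrivial
  obtain ⟨τ, hτ, τ2⟩ := hL.a1_inv
  obtain ⟨V, VL, V4, -⟩ := hL.1.exists_four hτ τ2
  obtain ⟨u1, u2⟩ := h.a1_k hn hL hs s2
  have sq := (hL.1.four V4 VL).1
  have mem : ∀ f ∈ V ⊔ zpowers s, ∃ v ∈ V, f = v ∨ f = v * s := fun f hf => by
    obtain ⟨v, hv, z, hz, rfl⟩ := (mem_sup_of_right_le_normalizer (IsLine.a1_norm VL hs)).1 hf
    exact ⟨v, hv, (a1_z2 s2 hz).imp (fun e => by rw [e, mul_one]) fun e => by rw [e]⟩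
  have c8 := hL.a1_card VL hs s2
  have sE : s ∈ V ⊔ zpowers s := mem_sup_right (mem_zpowers s)
  have VE : V ≤ V ⊔ zpowers s := le_sup_left
  generalize V ⊔ zpowers s = E at mem c8 sE VE
  have T : ∀ f ∈ E, f ≠ 1 → Γ.T2 f := fun f hf f1 => by
    obtain ⟨v, hv, rfl | rfl⟩ := mem f hf
    · exact (u2 _ (VL hv) (orderOf_eq_prime (sq _ hv) f1)).1
    · rcases eq_or_ne v 1 with rfl | v1
      · obtain ⟨a, ha⟩ := hL.2
        rw [one_mul]; exact ⟨s2, a, Γ.cent_of_le hs ha⟩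
      · exact (u2 _ (VL hv) (orderOf_eq_prime (sq _ hv) v1)).2
  have sq1 : ∀ f ∈ E, f * f = 1 := fun f hf => (eq_or_ne f 1).elim (fun e => by rw [e, one_mul])
    fun e => sq_of_two (T f hf e).1
  have cl : {y | ∃ u ∈ normalizer (E : Set G), u * s * u⁻¹ = y} = (E : Set G) \ {1} := by
    ext e
    refine ⟨?_, fun ⟨he, e1⟩ => ?_⟩
    · rintro ⟨u, hu, rfl⟩
      exact ⟨conj_mem_of_mem_normalizer hu sE, fun d => ne_one_of_ord s2 (by decide) (conj_eq_one_iff.1 d)⟩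
    have e2 := (T e he e1).1
    obtain ⟨L', hL', ec⟩ := h.T2_line (T e he e1)
    have w1 := (h.a1_k hn hL' ec e2).1
    have W4 : Nat.card ↥(E ⊓ L') = 4 := by
      have := hL'.a1_card (inf_le_right (a := E)) ec e2
      rw [le_antisymm (sup_le inf_le_left (zpowers_le.2 he)) fun f hf => ?_, c8, V4] at this
      · omega
      rcases eq_or_ne f 1 with rfl | f1
      · exact one_mem _
      obtain ⟨l, hl, c, hc, rfl⟩ := h.inner_T2 hL' (T f hf f1) (h.mem_normalizer hL' ec e1 (by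
        rwa [(S8.comm_of_sq (sq1 f hf) (sq1 e he) (sq1 _ (mul_mem hf he))).eq, mul_inv_cancel_right]))
      rcases w1 c hc (hL'.a1_sq hl hc (by rw [pow_two, sq1 _ hf])).2 with rfl | rfl
      · exact mem_sup_left ⟨hf, by rwa [mul_one]⟩
      · exact mul_mem (mem_sup_left ⟨(mul_mem_cancel_right he).1 hf, hl⟩) (mem_sup_right (mem_zpowers _))
    obtain ⟨g, rfl⟩ := h.line_conj hL hL'
    have gs : g * s * g⁻¹ = e := (w1 _ (by
      rw [map_conj_eq, centralizer_conj_smul]; exact conj_mem_conj_smul g hs) (by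
        rw [conj_pow, ← s2, pow_orderOf_eq_one]; simp)).resolve_left
      fun d => ne_one_of_ord s2 (by decide) (conj_eq_one_iff.1 d)
    obtain ⟨l, hl, lW⟩ := hL'.1.conj4 (V := V.map (MulAut.conj g).toMonoidHom) (by rw [map_conj_eq, card_conj_smul, V4])
      (map_mono VL) W4 inf_le_right
    have ls : l * g * s * (l * g)⁻¹ = e := by
      rw [show l * g * s * (l * g)⁻¹ = l * (g * s * g⁻¹) * l⁻¹ by group, gs, ec l hl, mul_inv_cancel_right]
    have lv : ∀ v ∈ V, l * g * v * (l * g)⁻¹ ∈ E := fun v hv => (lW.le (mem_map_conj.2 (mem_map_conj.2 (by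
      simpa [mul_assoc] using hv)))).1
    refine ⟨l * g, mem_normalizer_of_conj_mem fun f hf => ?_, ls⟩
    obtain ⟨v, hv, rfl | rfl⟩ := mem f hf
    · exact lv _ hv
    · rw [show l * g * (v * s) * (l * g)⁻¹ = l * g * v * (l * g)⁻¹ * (l * g * s * (l * g)⁻¹) by group, ls]
      exact mul_mem (lv _ hv) he
  have cs : ∀ c ∈ centralizer (L : Set G), c * s * c⁻¹ = s := fun c hc =>
    (u1 _ (mul_mem (mul_mem hc hs) (inv_mem hc)) (by rw [conj_pow, ← s2, pow_orderOf_eq_one]; simp)).resolve_left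
      fun d => ne_one_of_ord s2 (by decide) (conj_eq_one_iff.1 d)
  have d1 := card_dvd_of_le (show centralizer (L : Set G) ≤ normalizer (E : Set G) ⊓ centralizer {s} from fun c hc =>
    ⟨mem_normalizer_of_conj_mem fun f hf => by
      obtain ⟨v, hv, rfl | rfl⟩ := mem f hf
      · rwa [← hc _ (VL hv), mul_inv_cancel_right]
      · rwa [← mul_assoc, ← hc _ (VL hv), mul_assoc v, mul_assoc v, cs c hc],
      mem_centralizer_singleton_iff.2 (mul_inv_eq_iff_eq_mul.1 (cs c hc))⟩)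
  have d2 := card_subgroup_dvd_card (normalizer (E : Set G))
  obtain ⟨a, b, hab, ha, hb⟩ := hL.exists_two
  rw [card_class _ s, cl, Set.ncard_diff_singleton_of_mem (one_mem E), ncard_coe, c8, V4, (h.card_G hab).1, hn] at d2
  replace d2 := (Nat.mul_dvd_mul_left _ d1).trans d2
  have pos : 0 < Nat.card (centralizer (L : Set G)) := Nat.card_pos
  by_cases e : ∃ d : G, d • a = a ∧ d • b = b ∧ Γ.sc d a = -1
  · rw [(hL.card_stab ha hb hab).2.1 e, ← mul_assoc] at d2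
    exact absurd (Nat.dvd_of_mul_dvd_mul_right pos d2) (by decide)
  · rw [((hL.card_stab ha hb hab).2.2 e).1, ← mul_assoc] at d2
    exact absurd (Nat.dvd_of_mul_dvd_mul_right pos d2) (by decide)

theorem HypA.a1_cases (h : Γ.HypA) (hL : Γ.IsLine L)
    (hc : Even (Nat.card (centralizer (L : Set G)))) : Nat.card Ω = 12 ∨ Nat.card Ω = 672 := by
  haveI := hL.nontrivial
  obtain ⟨s, hs, s2⟩ := exists_mem_orderOf_eq_of_dvd_card Nat.prime_two hc.two_dvd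
  obtain ⟨τ, hτ, τ2⟩ := hL.a1_inv
  have k := h.count hL hτ τ2
  have k1 := (Set.ncard_le_ncard (a1_sub (Γ := Γ) L τ)).trans (Set.ncard_insert_le _ _)
  have k3 := (Set.ncard_pos (s := {s : G | s ∈ centralizer (L : Set G) ∧ orderOf s = 2})).2 ⟨s, hs, s2⟩
  have k4 := h.a1_1332 hL hs s2
  have k5 := h.mod
  obtain ⟨m, hm⟩ : ∃ m, Nat.card Ω = 660 * m + 12 := ⟨Nat.card Ω / 660, by omega⟩
  rw [hm, Nat.add_sub_cancel, mul_left_comm, mul_right_inj' (by decide)] at k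
  have : m < 3 := by
    by_contra! d
    have := Nat.mul_le_mul_left {s : G | s ∈ centralizer (L : Set G) ∧ orderOf s = 2}.ncard d
    omega
  omega

end Geo
end Cfsg.Agent.F11
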