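import Cfsg.Agent.F11.ABase

/-! Case A with 672 points: `11` does not divide the order of the centraliser of a line. -/

set_option autoImplicit false

namespace Cfsg.Agent.F11

open Subgroup Cfsg.Agent.Local U

namespace U

theorem dvd_of_free {G Ω : Type*} [Group G] [MulAction G Ω] (H : Subgroup G) {s : Set Ω}
    (hinv : ∀ h ∈ H, ∀ a ∈ s, h • a ∈ s) (hfree : ∀ h ∈ H, ∀ a ∈ s, h • a = a → h = 1) :
    Nat.card H ∣ s.ncard := by
  letI : MulAction H s :=
    { smul := fun h a => ⟨(h : G) • (a : Ω), hinv h h.2 a a.2⟩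
      one_smul := fun a => Subtype.ext (one_smul G (a : Ω))
      mul_smul := fun h k a => Subtype.ext (mul_smul (h : G) (k : G) (a : Ω)) }
  have e := MulAction.selfEquivOrbitsQuotientProd (G := H) (X := s) (fun b => by
    rw [eq_bot_iff]
    intro h hh
    exact Subtype.ext (hfree h h.2 b b.2 (congrArg Subtype.val hh)))
  rw [← Nat.card_coe_set_eq, Nat.card_congr e, Nat.card_prod]
  exact Dvd.intro_left _ rfl

theorem double_count {α β : Type*} {s : Set α} {t : Set β} (hs : s.Finite) (ht : t.Finite)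
    (r : α → β → Prop) {m n : ℕ} (h1 : ∀ a ∈ s, {b | b ∈ t ∧ r a b}.ncard = m)
    (h2 : ∀ b ∈ t, {a | a ∈ s ∧ r a b}.ncard = n) : s.ncard * m = t.ncard * n := by
  classical
  rw [Set.ncard_eq_toFinset_card s hs, Set.ncard_eq_toFinset_card t ht]
  refine Finset.card_mul_eq_card_mul r (fun a ha => ?_) (fun b hb => ?_)
  · rw [← h1 a (by simpa using ha), ← Set.ncard_coe_finset]
    congr 1
    ext b
    simp [Finset.bipartiteAbove]
  · rw [← h2 b (by simpa using hb), ← Set.ncard_coe_finset]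
    congr 1
    ext b
    simp [Finset.bipartiteBelow]

end U

namespace Geo

variable {G Ω : Type*} [Group G] [Finite G] [MulAction G Ω] {Γ : Geo G Ω}
variable {L : Subgroup G} {a b r : Ω} {g : G}

theorem dec_el : ∀ k t : ZMod 11, k ≠ 0 → t ≠ 0 →
    ∃ m : ZMod 11, m ^ 5 = 1 ∧ (t = m * k ∨ t = m * (4 * (0 - k) + k)) := by decide

omit [Finite G] in
theorem pow_val_add {p : G} (hp : p ∈ Γ.pt a) (k l : ZMod 11) :
    p ^ (k + l).val = p ^ k.val * p ^ l.val := by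
  rw [← pow_add, ← Γ.pow_val_eq hp (k.val + l.val)]
  simp

omit [Finite G] in
theorem pow_val_mul {p : G} (hp : p ∈ Γ.pt a) (k l : ZMod 11) :
    p ^ (k * l).val = (p ^ k.val) ^ l.val := by
  rw [← pow_mul, ← Γ.pow_val_eq hp (k.val * l.val)]
  simp

theorem el_inv (hL : Γ.IsLine L) (ha : Γ.pt a ≤ L) {c p : G} (hp : p ∈ Γ.pt a)
    (hc : c ∈ centralizer (L : Set G)) {k m : ZMod 11} (hm : m ^ 5 = 1)
    (hk : ∃ r, r ≠ a ∧ (p ^ k.val * c) • r = r) :
    ∃ r, r ≠ a ∧ (p ^ (m * k).val * c) • r = r := by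
  obtain ⟨b, hb, hbL⟩ := hL.exists_ne a
  obtain ⟨x, -, hx, -, hx5, -, hxa, -, -, -, -, hs, -⟩ := hL.frame ha hbL hb.symm
  obtain ⟨j, hj⟩ := dec_sq4 _ m (Γ.sc_pow_eq_one hxa (hx5 ▸ pow_orderOf_eq_one x)) hs hm
  obtain ⟨r, hr, e⟩ := hk
  set u := x ^ (j : ℕ) with hu
  have hua : u • a = a := pow_mem (show x ∈ MulAction.stabilizer G a from hxa) _
  have hsu : Γ.sc u a = m := by rw [hu, Γ.sc_pow hxa, hj]
  refine ⟨u • r, fun e => hr (smul_left_cancel u (e.trans hua.symm)), ?_⟩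
  have e1 : p ^ (m * k).val * c = u * (p ^ k.val * c) * u⁻¹ := by
    rw [mul_comm m, pow_val_mul hp, ← hsu, ← Γ.sc_spec hua _ (pow_mem hp _)]
    have := mem_centralizer_iff.1 hc u⁻¹ (inv_mem (pow_mem hx _))
    simp only [mul_assoc, this]
  rw [e1, mul_smul, mul_smul, inv_smul_smul, e]

theorem HypA.eleven (h : Γ.HypA) (hn : Nat.card Ω = 672) (hL : Γ.IsLine L) :
    ¬ 11 ∣ Nat.card (centralizer (L : Set G)) := by
  haveI := Γ.finite_pts
  intro hd
  obtain ⟨c, hc, hc11⟩ := exists_mem_orderOf_eq_of_dvd_card (by norm_num) hd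
  obtain ⟨a, ha⟩ := hL.2
  obtain ⟨p, hp11, hpa⟩ := Γ.exists_gen a
  have hp : p ∈ Γ.pt a := hpa ▸ mem_zpowers p
  have hp1 : p ≠ 1 := ne_one_of_ord hp11 (by norm_num)
  have hc1 : c ≠ 1 := ne_one_of_ord hc11 (by norm_num)
  have hca := Γ.cent_of_le hc ha
  have hqc : ∀ q ∈ Γ.pt a, Γ.Cent (q * c) a ∧ q * c ≠ 1 := fun q hq =>
    ⟨(Γ.cent_iff _ a).2 (mul_mem ((Γ.cent_iff _ a).1 (Γ.cent_of_mem hq)) ((Γ.cent_iff _ a).1 hca)),
      fun e => hc1 (hL.inf_cent (by rw [← inv_eq_of_mul_eq_one_right e]; exact inv_mem (ha hq)) hc)⟩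
  have hline : ∀ q ∈ Γ.pt a, (∃ r, r ≠ a ∧ (q * c) • r = r) → ∃ L', Γ.IsLine L' ∧ Γ.pt a ≤ L' ∧
      q * c ∈ centralizer (L' : Set G) ∧ {r : Ω | (q * c) • r = r} = {r | Γ.pt r ≤ L'} :=
    fun q hq ⟨r, hr, e⟩ => (h.fix_cases (hqc q hq).1 (hqc q hq).2).resolve_left
      fun h' => hr (h' r e)
  let A : Set (ZMod 11) := {k | ∃ r, r ≠ a ∧ (p ^ k.val * c) • r = r}
  have h0 : (0 : ZMod 11) ∈ A := by
    obtain ⟨b, hb, hbL⟩ := hL.exists_ne a
    exact ⟨b, hb, by simpa using (Γ.cent_of_le hc hbL).smul_eq⟩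
  have hinv : ∀ k0 ∈ A, ∀ k ∈ A, ∀ m : ZMod 11, m ^ 5 = 1 → m * (k - k0) + k0 ∈ A := by
    intro k0 hk0 k hk m hm
    obtain ⟨L', hL', ha', hc', -⟩ := hline _ (pow_mem hp _) hk0
    have := el_inv (k := k - k0) hL' ha' hp hc' hm (by
      rwa [← mul_assoc, ← pow_val_add hp, sub_add_cancel])
    rwa [← mul_assoc, ← pow_val_add hp] at this
  have hA : A.ncard = 1 ∨ A.ncard = 11 := by
    by_cases h1 : ∀ k ∈ A, k = 0
    · left
      rw [show A = {0} from Set.ext fun k => ⟨h1 k, fun e => e ▸ h0⟩, Set.ncard_singleton]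
    right
    push Not at h1
    obtain ⟨k, hk, hk0⟩ := h1
    rw [show A = Set.univ from Set.eq_univ_of_forall fun t => ?_, Set.ncard_univ, Nat.card_zmod]
    by_cases ht : t = 0
    · exact ht ▸ h0
    obtain ⟨m, hm, e | e⟩ := dec_el k t hk0 ht
    · have := hinv 0 h0 k hk m hm
      rwa [sub_zero, add_zero, ← e] at this
    · have := hinv 0 h0 _ (hinv k hk 0 h0 4 (by decide)) m hm
      rwa [sub_zero, add_zero, ← e] at this
  let S : Set Ω := {r | r ≠ a ∧ ∃ k : ZMod 11, (p ^ k.val * c) • r = r}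
  have hS : A.ncard * 11 = S.ncard * 1 := by
    refine double_count (Set.toFinite _) (Set.toFinite _) (fun k r => (p ^ k.val * c) • r = r)
      (fun k hk => ?_) (fun r hr => ?_)
    · obtain ⟨L', hL', ha', -, e⟩ := hline _ (pow_mem hp _) hk
      have : {r | r ∈ S ∧ (p ^ k.val * c) • r = r} = {r | Γ.pt r ≤ L'} \ {a} := by
        rw [← e]
        exact Set.ext fun r => ⟨fun hr => ⟨hr.2, hr.1.1⟩, fun hr => ⟨⟨hr.2, k, hr.1⟩, hr.1⟩⟩
      rw [this, Set.ncard_sdiff_singleton_of_mem (show a ∈ {r | Γ.pt r ≤ L'} from ha'), hL'.ncard]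
    · obtain ⟨hra, k, hk⟩ := hr
      rw [Set.ncard_eq_one]
      refine ⟨k, Set.ext fun l => ⟨fun hl => ?_, fun e => e ▸ ⟨⟨r, hra, hk⟩, hk⟩⟩⟩
      by_contra hne
      have h1 : (p ^ l.val * (p ^ k.val)⁻¹) • r = r := by
        have : p ^ l.val * (p ^ k.val)⁻¹ = (p ^ l.val * c) * (p ^ k.val * c)⁻¹ := by group
        rw [this, mul_smul, inv_smul_eq_iff.2 hk.symm, hl.2]
      exact hra (eq_of_mem_smul (mul_mem (pow_mem hp _) (inv_mem (pow_mem hp _)))
        (fun e => hne (Γ.pow_val_inj hp hp1 (mul_inv_eq_one.1 e))) h1).symm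
  have hcP : zpowers c ≤ centralizer (Γ.pt a : Set G) := zpowers_le.2 ((Γ.cent_iff c a).1 hca)
  have hB : Nat.card ↥(Γ.pt a ⊔ zpowers c) = 121 := by
    rw [card_sup_of_disjoint (hcP.trans (centralizer_le_normalizer _)) (disjoint_def.2
      fun hy hy' => hL.inf_cent (ha hy) (zpowers_le.2 hc hy')), Γ.card, Nat.card_zpowers, hc11]
  have hBc : Γ.pt a ⊔ zpowers c ≤ centralizer (Γ.pt a : Set G) ⊓ centralizer {c} :=
    sup_le (fun q hq => mem_inf.2 ⟨(Γ.cent_iff _ a).1 (Γ.cent_of_mem hq),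
      mem_centralizer_singleton_iff.2 (hca q hq).symm⟩)
      (le_inf hcP (zpowers_le.2 (mem_centralizer_singleton_iff.2 rfl)))
  have hcomm : ∀ u ∈ Γ.pt a ⊔ zpowers c, ∀ k : ZMod 11, Commute u (p ^ k.val * c) := fun u hu k =>
    Commute.mul_right (mem_centralizer_iff.1 (hBc hu).1 _ (pow_mem hp _)).symm
      (mem_centralizer_singleton_iff.1 (hBc hu).2)
  have hfree := dvd_of_free (Γ.pt a ⊔ zpowers c) (s := {r | r ≠ a} \ S) (fun u hu r hr => by
    have hua := ((Γ.cent_iff u a).2 (hBc hu).1).smul_eq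
    refine ⟨fun e => hr.1 (smul_left_cancel u (e.trans hua.symm)), fun hS => hr.2 ⟨hr.1, ?_⟩⟩
    obtain ⟨k, hk⟩ := hS.2
    have := smul_fix_of_comm (hcomm _ (inv_mem hu) k) hk
    exact ⟨k, by rwa [inv_smul_smul] at this⟩) (fun u hu r hr e => by
    obtain ⟨q, hq, w, hw, rfl⟩ := (mem_sup_of_right_le_normalizer
      (hcP.trans (centralizer_le_normalizer _))).1 hu
    by_cases hw1 : w = 1
    · subst hw1
      rw [mul_one] at e ⊢
      by_contra hq1
      exact hr.1 (eq_of_mem_smul hq hq1 e).symm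
    exfalso
    haveI : Fact (Nat.Prime 11) := ⟨by norm_num⟩
    have hcw : c ∈ zpowers w := by
      have hw11 : orderOf w = 11 := orderOf_eq_prime (orderOf_dvd_iff_pow_eq_one.1
        (by rw [← hc11, ← Nat.card_zpowers c]; exact orderOf_dvd_card_of_mem hw)) hw1
      rw [eq_of_le_of_card_ge (zpowers_le.2 hw) (by
        rw [Nat.card_zpowers, Nat.card_zpowers, hw11, hc11])]
      exact mem_zpowers c
    obtain ⟨m, hm⟩ := mem_powers_iff_mem_zpowers.2 hcw
    simp only at hm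
    have hqw : Commute q w := mem_centralizer_iff.1 (hcP hw) q hq
    have h1 : (q ^ m * c) • r = r := by
      rw [← hm, ← hqw.mul_pow]
      exact pow_mem (show q * w ∈ MulAction.stabilizer G r from e) m
    obtain ⟨j, hj⟩ := mem_powers_iff_mem_zpowers.2 (hpa ▸ pow_mem hq m : q ^ m ∈ zpowers p)
    simp only at hj
    exact hr.2 ⟨hr.1, (j : ZMod 11), by rw [Γ.pow_val_eq hp, hj, h1]⟩)
  rw [hB, Set.ncard_sdiff (fun r hr => hr.1), Γ.ncard_ne, hn] at hfree
  omega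

end Geo

end Cfsg.Agent.F11
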