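import Cfsg.Agent.F11.Defs
import Cfsg.Agent.M11.Count
import Cfsg.Agent.Perm2.SimpleCent

/-! Local structure of a simple group with the order and element orders of `J₁`. -/

set_option autoImplicit false
set_option linter.unusedSectionVars false

namespace Cfsg.Agent.F11

open Subgroup Cfsg.Agent.M11 Cfsg.Agent.Pres

namespace JP

variable {H : Type*} [Group H] [Finite H]

theorem cen_zpowers (x : H) : centralizer (zpowers x : Set H) = centralizer {x} := by
  ext g
  rw [mem_centralizer_iff, mem_centralizer_singleton_iff]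
  constructor
  · intro h; exact (h x (mem_zpowers x)).symm
  · rintro h _ ⟨k, rfl⟩; exact (Commute.zpow_right h k).eq.symm

theorem zpowers_eq_of_mem {p : ℕ} (hp : p.Prime) {x y : H} (hx : orderOf x = p)
    (hy : orderOf y = p) (h : y ∈ zpowers x) : zpowers y = zpowers x :=
  eq_of_le_of_card_ge (zpowers_le.2 h) (by rw [Nat.card_zpowers, Nat.card_zpowers, hx, hy])

theorem exists_sylow {p : ℕ} [hp : Fact p.Prime] {x : H} (hx : orderOf x = p)
    (hsq : ¬ p ^ 2 ∣ Nat.card H) : ∃ P : Sylow p H, (P : Subgroup H) = zpowers x := by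
  obtain ⟨P, hP⟩ := exists_sylow_mem hx
  refine ⟨P, (eq_of_le_of_card_ge (zpowers_le.2 hP) ?_).symm⟩
  obtain ⟨k, hk⟩ := IsPGroup.iff_card.1 P.isPGroup'
  have h1 : Nat.card (P : Subgroup H) ∣ Nat.card H := card_subgroup_dvd_card _
  rw [Nat.card_zpowers, hx, hk]
  rw [hk] at h1
  have : k ≤ 1 := by
    by_contra h
    exact hsq ((pow_dvd_pow p (by omega)).trans h1)
  calc p ^ k ≤ p ^ 1 := Nat.pow_le_pow_right hp.out.pos this
    _ = p := pow_one p

theorem prime_data [IsSimpleGroup H] (hna : ¬ IsMulCommutative H) {p : ℕ} [hp : Fact p.Prime]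
    {x : H} (hx : orderOf x = p) (hsq : ¬ p ^ 2 ∣ Nat.card H) :
    ∃ e n, Nat.card (normalizer (zpowers x : Set H)) = cc x * e ∧ e ∣ p - 1 ∧ e ≠ 1 ∧
      cc x * e * n = Nat.card H ∧ n % p = 1 := by
  obtain ⟨P, hP⟩ := exists_sylow hx hsq
  have h0 : Nat.card (normalizer (zpowers x : Set H)) =
      cc x * (centralizer (P : Set H)).relIndex (normalizer (P : Set H)) := by
    have := (centralizer (P : Set H)).subgroupOf (normalizer (P : Set H)) |>.card_mul_index
    rw [card_subgroupOf_of_le (centralizer_le_normalizer _)] at this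
    rw [cc, ← cen_zpowers, ← hP]
    exact this.symm
  have h2 : (P : Subgroup H) ≠ ⊥ := by
    rw [hP, Ne, zpowers_eq_bot]
    rintro rfl
    exact hp.out.ne_one (by simpa using hx.symm)
  refine ⟨_, Nat.card (Sylow p H), h0, ?_, fun e => ?_, ?_, ?_⟩
  · have key := card_dvd_of_injective _
      (QuotientGroup.kerLift_injective (P : Subgroup H).normalizerMonoidHom)
    have : IsCyclic (P : Subgroup H) := hP ▸ isCyclic_zpowers x
    rw [normalizerMonoidHom_ker, ← index, ← relIndex, IsCyclic.card_mulAut, hP, Nat.card_zpowers,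
      hx, Nat.totient_prime hp.out, ← hP] at key
    exact key
  · exact Perm2.not_normalizer_le_centralizer_of_simple hna P h2 (relIndex_eq_one.mp e)
  · rw [← h0, ← hP]; exact card_normalizer_mul P
  · have := card_sylow_modEq_one p H
    rwa [Nat.ModEq, Nat.mod_eq_of_lt hp.out.one_lt] at this

theorem cc_eq_of_prime {p : ℕ} [hp : Fact p.Prime] {x y : H} (hx : orderOf x = p)
    (hy : orderOf y = p) (hsq : ¬ p ^ 2 ∣ Nat.card H) : cc x = cc y := by
  obtain ⟨g, -, hg⟩ := exists_conj_of_card (p := p) (k := 1) (H := ⊤) (P := zpowers y)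
    (Q := zpowers x) le_top le_top (by rw [Nat.card_zpowers, hy, pow_one])
    (by rw [Nat.card_zpowers, hx, pow_one]) (by rwa [card_top])
  have h1 : g * y * g⁻¹ ∈ zpowers x := hg ▸ ⟨y, mem_zpowers y, rfl⟩
  have h2 : IsConj y (g * y * g⁻¹) := isConj_iff.2 ⟨g, rfl⟩
  rw [cc_eq_of_isConj h2, cc, cc, ← cen_zpowers, ← cen_zpowers,
    zpowers_eq_of_mem hp.out hx (by rw [← orderOf_eq_of_isConj h2, hy]) h1]

theorem orderOf_pow_eq {w : H} {a b : ℕ} (hw : orderOf w = a * b) (ha : a ≠ 0) :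
    orderOf (w ^ a) = b := by
  rw [orderOf_pow' _ ha, hw, Nat.gcd_mul_right_left, Nat.mul_div_cancel_left _ (Nat.pos_of_ne_zero ha)]

theorem comm_of_sq {a b : H} (ha : a * a = 1) (hb : b * b = 1) (hab : a * b * (a * b) = 1) :
    Commute a b := by
  have h1 : a⁻¹ = a := inv_eq_of_mul_eq_one_right ha
  have h2 : b⁻¹ = b := inv_eq_of_mul_eq_one_right hb
  have h3 : (a * b)⁻¹ = a * b := inv_eq_of_mul_eq_one_right hab
  rw [mul_inv_rev, h1, h2] at h3
  exact h3.symm

theorem sq_of_order {a : H} (ha : orderOf a = 2) : a * a = 1 := by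
  rw [← pow_two, ← ha, pow_orderOf_eq_one]

theorem order_of_sq {a : H} (ha : a * a = 1) (h1 : a ≠ 1) : orderOf a = 2 :=
  orderOf_eq_prime (by rw [pow_two, ha]) h1

theorem ne_one_of_order {a : H} {n : ℕ} (ha : orderOf a = n + 2) : a ≠ 1 := by
  rintro rfl
  simp at ha

theorem card_pair {s t : H} (hs : orderOf s = 2) (ht : orderOf t = 2) (hc : Commute s t)
    (hne : s ≠ t) : 4 ∣ Nat.card ↥(zpowers s ⊔ zpowers t) := by
  classical
  have hd : Disjoint (zpowers s) (zpowers t) := by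
    rw [disjoint_def]
    intro g h1 h2
    by_contra h
    have o1 : orderOf g = 2 := by
      have := orderOf_dvd_of_mem_zpowers h1
      rw [hs] at this
      rcases (Nat.dvd_prime Nat.prime_two).1 this with e | e
      · exact absurd (orderOf_eq_one_iff.1 e) h
      · exact e
    have e1 := zpowers_eq_of_mem Nat.prime_two hs o1 h1
    have e2 := zpowers_eq_of_mem Nat.prime_two ht o1 h2
    have h3 : s ∈ zpowers t := by rw [← e2, e1]; exact mem_zpowers s
    rw [mem_zpowers_iff_mem_range_orderOf, ht] at h3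
    simp only [Finset.mem_image, Finset.mem_range] at h3
    obtain ⟨i, hi, e⟩ := h3
    interval_cases i
    · exact ne_one_of_order hs (by simpa using e.symm)
    · exact hne (by simpa using e.symm)
  have hcm : ∀ a ∈ zpowers s, ∀ b ∈ zpowers t, Commute a b := by
    rintro _ ⟨i, rfl⟩ _ ⟨j, rfl⟩
    exact hc.zpow_zpow i j
  let f : zpowers s × zpowers t →* H := ((zpowers s).subtype.noncommCoprod (zpowers t).subtype
    fun a b => hcm _ a.2 _ b.2)
  have hf : Function.Injective f := by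
    rw [injective_iff_map_eq_one]
    rintro ⟨a, b⟩ h
    have h1 : (a : H) * b = 1 := h
    have h2 : (a : H) ∈ zpowers t := by
      rw [eq_inv_of_mul_eq_one_left h1]; exact inv_mem b.2
    have h3 : (a : H) = 1 := disjoint_def.1 hd a.2 h2
    rw [h3, one_mul] at h1
    exact Prod.ext (Subtype.ext h3) (Subtype.ext h1)
  have h4 : Nat.card f.range = 4 := by
    rw [← Nat.card_congr (MonoidHom.ofInjective hf).toEquiv, Nat.card_prod, Nat.card_zpowers,
      Nat.card_zpowers, hs, ht]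
  rw [← h4]
  apply card_dvd_of_le
  rintro _ ⟨⟨a, b⟩, rfl⟩
  exact mul_mem_sup a.2 b.2

section J
variable (hJ : JT H)
include hJ

theorem mem_spec (x : H) : orderOf x ∈ ({1, 2, 3, 5, 6, 7, 10, 11, 15, 19} : Set ℕ) :=
  hJ.2.2 ▸ ⟨x, rfl⟩

theorem exists_ord {n : ℕ} (hn : n ∈ ({1, 2, 3, 5, 6, 7, 10, 11, 15, 19} : Set ℕ)) :
    ∃ x : H, orderOf x = n := by
  rw [← hJ.2.2] at hn; exact hn

theorem hna : ¬ IsMulCommutative H := by
  intro h
  obtain ⟨x, hx⟩ := exists_ord hJ (n := 7) (by simp)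
  obtain ⟨y, hy⟩ := exists_ord hJ (n := 2) (by simp)
  have := mem_spec hJ (x * y)
  rw [(show Commute x y from h.is_comm.comm x y).orderOf_mul_eq_mul_orderOf_of_coprime
    (by rw [hx, hy]; norm_num), hx, hy] at this
  simp at this

theorem not_dvd_cc {x : H} {a q : ℕ} (hx : orderOf x = a) (hq : q.Prime) (hc : q.Coprime a)
    (hn : q * a ∉ ({1, 2, 3, 5, 6, 7, 10, 11, 15, 19} : Set ℕ)) : ¬ q ∣ cc x := by
  intro h
  obtain ⟨y, hy, hyx⟩ := exists_of_prime_dvd_cc hq h
  have := mem_spec hJ (y * x)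
  rw [hyx.orderOf_mul_eq_mul_orderOf_of_coprime (by rw [hx, hy]; exact hc), hx, hy] at this
  exact hn this

theorem sq_of_two_pow {g : H} {k : ℕ} (h : g ^ 2 ^ k = 1) : g * g = 1 := by
  have h1 := orderOf_dvd_of_pow_eq_one h
  have h2 := mem_spec hJ g
  obtain ⟨j, -, hj⟩ := (Nat.dvd_prime_pow Nat.prime_two).1 h1
  have h3 : orderOf g ∣ 2 := by
    rcases j with _ | _ | j
    · simp [hj]
    · simp [hj]
    · exfalso
      have : 4 ∣ orderOf g := by rw [hj]; exact ⟨2 ^ j, by ring⟩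
      simp only [Set.mem_insert_iff, Set.mem_singleton_iff] at h2
      omega
  rw [← pow_two]; exact orderOf_dvd_iff_pow_eq_one.1 h3

theorem cc_dvd_of {x : H} {a b : ℕ} (hab : a * b = 175560) (h : (cc x).Coprime a) : cc x ∣ b :=
  h.dvd_of_dvd_mul_left (by rw [hab, ← hJ.1]; exact cc_dvd x)

theorem cop {n q : ℕ} (hq : q.Prime) (h : ¬ q ∣ n) : n.Coprime q :=
  ((Nat.Prime.coprime_iff_not_dvd hq).2 h).symm

theorem cc11 {x : H} (hx : orderOf x = 11) : cc x = 11 := by
  have h2 := cop hJ Nat.prime_two (not_dvd_cc hJ hx Nat.prime_two (by norm_num) (by simp))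
  have h3 := cop hJ Nat.prime_three (not_dvd_cc hJ hx Nat.prime_three (by norm_num) (by simp))
  have h5 := cop hJ Nat.prime_five (not_dvd_cc hJ hx Nat.prime_five (by norm_num) (by simp))
  have h7 := cop hJ (q := 7) (by norm_num) (not_dvd_cc hJ hx (by norm_num) (by norm_num) (by simp))
  have h19 := cop hJ (q := 19) (by norm_num) (not_dvd_cc hJ hx (by norm_num) (by norm_num) (by simp))
  have h := cc_dvd_of hJ (a := 2 ^ 3 * 3 * 5 * 7 * 19) (b := 11) (by norm_num)
    (((((h2.pow_right 3).mul_right h3).mul_right h5).mul_right h7).mul_right h19)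
  exact Nat.dvd_antisymm h (hx ▸ orderOf_dvd_cc rfl)

theorem cc_dvd120 {x : H} {a : ℕ} (hx : orderOf x = a) (ha : a = 2 ∨ a = 3 ∨ a = 5) :
    cc x ∣ 120 := by
  have h7 := cop hJ (q := 7) (by norm_num) (not_dvd_cc hJ hx (by norm_num)
    (by rcases ha with rfl | rfl | rfl <;> norm_num) (by rcases ha with rfl | rfl | rfl <;> simp))
  have h11 := cop hJ (q := 11) (by norm_num) (not_dvd_cc hJ hx (by norm_num)
    (by rcases ha with rfl | rfl | rfl <;> norm_num) (by rcases ha with rfl | rfl | rfl <;> simp))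
  have h19 := cop hJ (q := 19) (by norm_num) (not_dvd_cc hJ hx (by norm_num)
    (by rcases ha with rfl | rfl | rfl <;> norm_num) (by rcases ha with rfl | rfl | rfl <;> simp))
  exact cc_dvd_of hJ (a := 7 * 11 * 19) (by norm_num) ((h7.mul_right h11).mul_right h19)

theorem nn11 {x : H} (hx : orderOf x = 11) :
    Nat.card (normalizer (zpowers x : Set H)) = 110 := by
  haveI : Fact (Nat.Prime 11) := ⟨by norm_num⟩
  haveI := hJ.2.1
  obtain ⟨e, n, h1, h2, h3, h4, h5⟩ := prime_data (hna hJ) hx (by rw [hJ.1]; norm_num)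
  rw [h1]
  rw [cc11 hJ hx, hJ.1] at *
  have := Nat.le_of_dvd (by norm_num) h2
  interval_cases e <;> omega

theorem dvd_cc_of_ord {p a : ℕ} [hp : Fact p.Prime] {x : H} (hx : orderOf x = p)
    (hsq : ¬ p ^ 2 ∣ 175560) (ha : a ≠ 0)
    (hn : a * p ∈ ({1, 2, 3, 5, 6, 7, 10, 11, 15, 19} : Set ℕ)) : a * p ∣ cc x := by
  obtain ⟨w, hw⟩ := exists_ord hJ hn
  rw [cc_eq_of_prime hx (orderOf_pow_eq hw ha) (by rwa [hJ.1]), ← hw]
  exact orderOf_dvd_cc (Commute.self_pow w a).eq

theorem c5 {x : H} (hx : orderOf x = 5) :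
    cc x = 30 ∧ Nat.card (normalizer (zpowers x : Set H)) = 60 := by
  haveI : Fact (Nat.Prime 5) := ⟨by norm_num⟩
  haveI := hJ.2.1
  obtain ⟨e, n, h1, h2, h3, h4, h5⟩ := prime_data (hna hJ) hx (by rw [hJ.1]; norm_num)
  have h6 := cc_dvd120 hJ hx (by simp)
  have h7 := dvd_cc_of_ord hJ (a := 2) hx (by norm_num) (by norm_num) (by simp)
  have h8 := dvd_cc_of_ord hJ (a := 3) hx (by norm_num) (by norm_num) (by simp)
  rw [h1]
  rw [hJ.1] at h4
  generalize cc x = c at *
  have h9 : c = 30 ∨ c = 60 ∨ c = 120 := by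
    have := Nat.le_of_dvd (by norm_num) h6
    obtain ⟨k, rfl⟩ : 30 ∣ c := by omega
    have : k ≤ 4 := by omega
    interval_cases k <;> omega
  have := Nat.le_of_dvd (by norm_num) h2
  rcases h9 with rfl | rfl | rfl <;> interval_cases e <;> omega

theorem c3 {x : H} (hx : orderOf x = 3) : cc x = 30 := by
  haveI : Fact (Nat.Prime 3) := ⟨by norm_num⟩
  haveI := hJ.2.1
  obtain ⟨e, n, -, h2, h3, h4, h5⟩ := prime_data (hna hJ) hx (by rw [hJ.1]; norm_num)
  have h6 := cc_dvd120 hJ hx (by simp)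
  have h7 := dvd_cc_of_ord hJ (a := 2) hx (by norm_num) (by norm_num) (by simp)
  have h8 := dvd_cc_of_ord hJ (a := 5) hx (by norm_num) (by norm_num) (by simp)
  rw [hJ.1] at h4
  generalize cc x = c at *
  have h9 : c = 30 ∨ c = 60 ∨ c = 120 := by
    have := Nat.le_of_dvd (by norm_num) h6
    obtain ⟨k, rfl⟩ : 30 ∣ c := by omega
    have : k ≤ 4 := by omega
    interval_cases k <;> omega
  have := Nat.le_of_dvd (by norm_num) h2
  rcases h9 with rfl | rfl | rfl <;> interval_cases e <;> omega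

/-- an element of order 3 or 5 does not centralise two distinct commuting involutions -/
theorem not_two {y s t : H} (hy : orderOf y = 3 ∨ orderOf y = 5) (hs : orderOf s = 2)
    (ht : orderOf t = 2) (hc : Commute s t) (hne : s ≠ t) (h1 : Commute y s) (h2 : Commute y t) :
    False := by
  have h3 : cc y = 30 := hy.elim (c3 hJ) fun h => (c5 hJ h).1
  have h4 : zpowers s ⊔ zpowers t ≤ centralizer {y} := by
    rw [sup_le_iff, zpowers_le, zpowers_le, mem_centralizer_singleton_iff,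
      mem_centralizer_singleton_iff]
    exact ⟨h1.eq.symm, h2.eq.symm⟩
  have := (card_pair hs ht hc hne).trans (card_dvd_of_le h4)
  change 4 ∣ cc y at this
  omega

theorem card_syl2 (E : Sylow 2 H) : Nat.card E = 8 :=
  card_sylow_eq E 3 21945 (by rw [hJ.1]; norm_num) (by norm_num)

theorem sq_syl2 (E : Sylow 2 H) {g : H} (hg : g ∈ E) : g * g = 1 := by
  obtain ⟨k, hk⟩ := E.isPGroup' ⟨g, hg⟩
  exact sq_of_two_pow hJ (k := k) (by simpa using congrArg Subtype.val hk)

theorem comm_syl2 (E : Sylow 2 H) {g h : H} (hg : g ∈ E) (hh : h ∈ E) : Commute g h :=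
  comm_of_sq (sq_syl2 hJ E hg) (sq_syl2 hJ E hh) (sq_syl2 hJ E (mul_mem hg hh))

theorem ncard_inv (E : Sylow 2 H) : {g : H | g ∈ E ∧ g ≠ 1}.ncard = 7 := by
  have h1 : {g : H | g ∈ E ∧ g ≠ 1} = ((E : Subgroup H) : Set H) \ {1} := by
    ext g; simp
  have h2 : ((E : Subgroup H) : Set H).ncard = 8 := card_syl2 hJ E
  rw [h1, Set.ncard_sdiff_singleton_of_mem (by simp), h2]

theorem not_central (E : Sylow 2 H) {t : H} (ht : t ∈ E) (h1 : t ≠ 1)
    (h : ∀ n ∈ normalizer ((E : Subgroup H) : Set H), Commute n t) : False := by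
  haveI := hJ.2.1
  haveI hc : IsMulCommutative (E : Subgroup H) :=
    ⟨⟨fun a b => Subtype.ext (comm_syl2 hJ E a.2 b.2).eq⟩⟩
  letI : CommGroup (E : Subgroup H) := { (inferInstance : Group (E : Subgroup H)) with
    mul_comm := fun a b => Subtype.ext (comm_syl2 hJ E a.2 b.2).eq }
  have key : ∀ (k : ℕ) (g₀ : H), g₀⁻¹ * t ^ k * g₀ ∈ (E : Subgroup H) → g₀⁻¹ * t ^ k * g₀ = t ^ k := by
    intro k g hg
    obtain ⟨n, hn, e⟩ := E.conj_eq_normalizer_conj_of_mem (t ^ k) g (pow_mem ht k) hg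
    rw [e, mul_assoc, ← ((h n hn).pow_right k).eq, inv_mul_cancel_left]
  have h2 := MonoidHom.transfer_eq_pow (MonoidHom.id (E : Subgroup H)) t key
  have h3 : (E : Subgroup H).index = 21945 := by
    have := (E : Subgroup H).card_mul_index
    rw [card_syl2 hJ E, hJ.1] at this
    omega
  rcases (MonoidHom.normal_ker (MonoidHom.transfer (MonoidHom.id (E : Subgroup H)))).eq_bot_or_eq_top
    with e | e
  · have := Nat.card_le_card_of_injective _ ((MonoidHom.ker_eq_bot_iff _).1 e)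
    rw [card_syl2 hJ E, hJ.1] at this
    omega
  · have h4 : t ∈ (MonoidHom.transfer (MonoidHom.id (E : Subgroup H))).ker := e ▸ mem_top t
    rw [MonoidHom.mem_ker, h2] at h4
    have h5 : t ^ (E : Subgroup H).index = 1 := congrArg Subtype.val h4
    have h6 := orderOf_dvd_of_pow_eq_one h5
    rw [order_of_sq (sq_syl2 hJ E ht) h1, h3] at h6
    omega

theorem conj_mem_inv (E : Sylow 2 H) {n : H} (hn : n ∈ normalizer ((E : Subgroup H) : Set H)) :
    ∀ u ∈ {g : H | g ∈ E ∧ g ≠ 1}, n * u * n⁻¹ ∈ {g : H | g ∈ E ∧ g ≠ 1} := by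
  rintro u ⟨h1, h2⟩
  refine ⟨(mem_normalizer_iff.1 hn u).1 h1, fun e => h2 ?_⟩
  simpa using e

theorem seven_dvd (E : Sylow 2 H) : 7 ∣ Nat.card (normalizer ((E : Subgroup H) : Set H)) := by
  by_contra h7
  set N := normalizer ((E : Subgroup H) : Set H) with hN
  have fix : ∀ {p : ℕ} (_ : p.Prime) (_ : p ≠ 7) {y : H}, y ∈ N → orderOf y = p →
      ∃ u ∈ E, orderOf u = 2 ∧ Commute y u := by
    intro p hp hp7 y hy ho
    obtain ⟨u, hu, hc⟩ := exists_commute_of_not_dvd hp (ho ▸ pow_orderOf_eq_one y)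
      (conj_mem_inv hJ E hy) (by
        rw [ncard_inv hJ E]
        intro h
        exact hp7 ((Nat.prime_dvd_prime_iff_eq hp (by norm_num)).1 h))
    exact ⟨u, hu.1, order_of_sq (sq_syl2 hJ E hu.1) hu.2, hc⟩
  have ex : ∀ {p : ℕ} (_ : p.Prime), p ∣ Nat.card N → ∃ y ∈ N, orderOf y = p := by
    intro p hp h
    haveI := Fact.mk hp
    obtain ⟨y, hy⟩ := exists_prime_orderOf_dvd_card' p h
    exact ⟨y, y.2, by rw [orderOf_coe, hy]⟩
  have big : ∀ {p : ℕ} (_ : p.Prime), p = 11 ∨ p = 19 → ¬ p ∣ Nat.card N := by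
    intro p hp hp' h
    obtain ⟨y, hy, ho⟩ := ex hp h
    obtain ⟨u, -, hu, hc⟩ := fix hp (by omega) hy ho
    have := (ho ▸ orderOf_dvd_cc hc.eq).trans (cc_dvd120 hJ hu (by simp))
    rcases hp' with rfl | rfl <;> omega
  have h5 : ¬ 5 ∣ Nat.card N := by
    intro h
    obtain ⟨y, hy, ho⟩ := ex Nat.prime_five h
    obtain ⟨u, hu, hu2, hc⟩ := fix Nat.prime_five (by omega) hy ho
    obtain ⟨v, hv, hc'⟩ := exists_commute_of_not_dvd (X := {g : H | g ∈ E ∧ g ≠ 1} \ {u})
      Nat.prime_five (ho ▸ pow_orderOf_eq_one y)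
      (fun w hw => ⟨conj_mem_inv hJ E hy w hw.1, fun e => hw.2 (by
        have e' : y * w * y⁻¹ = y * u * y⁻¹ := by
          rw [Set.mem_singleton_iff.1 e, hc.eq, mul_inv_cancel_right]
        simpa using e')⟩)
      (by rw [Set.ncard_sdiff_singleton_of_mem (by exact ⟨hu, ne_one_of_order hu2⟩), ncard_inv hJ E]
          norm_num)
    exact not_two hJ (.inr ho) (order_of_sq (sq_syl2 hJ E hv.1.1) hv.1.2) hu2
      (comm_syl2 hJ E hv.1.1 hu) hv.2 hc' hc
  have h24 : Nat.card N ∣ 24 := by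
    have h0 : Nat.card N ∣ 5 * 7 * 11 * 19 * 24 := by
      have := card_subgroup_dvd_card N
      rwa [hJ.1] at this
    exact ((((cop hJ Nat.prime_five h5).mul_right (cop hJ (by norm_num) h7)).mul_right
      (cop hJ (by norm_num) (big (by norm_num) (.inl rfl)))).mul_right
      (cop hJ (by norm_num) (big (by norm_num) (.inr rfl)))).dvd_of_dvd_mul_left h0
  have main : ∀ t ∈ E, t ≠ 1 → Nat.card N ∣ Nat.card ↥(N ⊓ centralizer {t}) → False := by
    intro t ht h1 hd
    have : N ⊓ centralizer {t} = N :=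
      eq_of_le_of_card_ge inf_le_left (Nat.le_of_dvd Nat.card_pos hd)
    refine not_central hJ E ht h1 fun n hn => ?_
    rw [← hN, ← this] at hn
    exact mem_centralizer_singleton_iff.1 hn.2
  have h8 : ∀ t ∈ E, 8 ∣ Nat.card ↥(N ⊓ centralizer {t}) := by
    intro t ht
    rw [← card_syl2 hJ E]
    exact card_dvd_of_le (le_inf le_normalizer fun g hg =>
      mem_centralizer_singleton_iff.2 (comm_syl2 hJ E hg ht).eq)
  by_cases h3 : 3 ∣ Nat.card N
  · obtain ⟨y, hy, ho⟩ := ex Nat.prime_three h3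
    obtain ⟨u, hu, hu2, hc⟩ := fix Nat.prime_three (by omega) hy ho
    refine main u hu (ne_one_of_order hu2) (h24.trans ?_)
    have h9 : 3 ∣ Nat.card ↥(N ⊓ centralizer {u}) := by
      rw [← ho]
      exact orderOf_dvd_natCard (⟨y, hy, mem_centralizer_singleton_iff.2 hc.eq⟩ :
        ↥(N ⊓ centralizer {u})) |> fun h => by rwa [← orderOf_coe] at h
    have := h8 u hu
    omega
  · obtain ⟨u, hu⟩ : {g : H | g ∈ E ∧ g ≠ 1}.Nonempty :=
      Set.nonempty_of_ncard_ne_zero (by rw [ncard_inv hJ E]; norm_num)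
    refine main u hu.1 hu.2 (Dvd.dvd.trans ?_ (h8 u hu.1))
    exact (cop hJ Nat.prime_three h3).dvd_of_dvd_mul_left h24

theorem inv_conj {s t : H} (hs : orderOf s = 2) (ht : orderOf t = 2) : IsConj s t := by
  obtain ⟨E, hE⟩ := exists_sylow_mem hs
  obtain ⟨E', hE'⟩ := exists_sylow_mem ht
  obtain ⟨g, rfl⟩ := MulAction.exists_smul_eq H E E'
  have h1 : g⁻¹ * t * g ∈ E := by
    have : t ∈ ((g • E : Sylow 2 H) : Subgroup H) := hE'
    rw [Sylow.coe_subgroup_smul, mem_pointwise_smul_iff_inv_smul_mem] at this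
    have h : g⁻¹ * t * g ∈ (E : Subgroup H) := by simpa using this
    exact h
  haveI : Fact (Nat.Prime 7) := ⟨by norm_num⟩
  obtain ⟨y, hy⟩ := exists_prime_orderOf_dvd_card' 7 (seven_dvd hJ E)
  have hy7 : orderOf (y : H) = 7 := by rw [orderOf_coe, hy]
  have h2 := card_inf_centralizer_mul (zpowers (y : H)) s
  have h3 : Nat.card ↥(zpowers (y : H) ⊓ centralizer {s}) = 1 := by
    have h4 : Nat.card ↥(zpowers (y : H) ⊓ centralizer {s}) ∣ 7 := by
      rw [← hy7, ← Nat.card_zpowers]; exact card_dvd_of_le inf_le_left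
    have h5 : Nat.card ↥(zpowers (y : H) ⊓ centralizer {s}) ∣ 120 :=
      (card_dvd_of_le inf_le_right).trans (cc_dvd120 hJ hs (by simp))
    exact Nat.eq_one_of_dvd_coprimes (by norm_num) h4 h5
  rw [h3, one_mul, Nat.card_zpowers, hy7] at h2
  have h4 : {w | ∃ r ∈ zpowers (y : H), r * s * r⁻¹ = w} = {g : H | g ∈ E ∧ g ≠ 1} := by
    refine Set.eq_of_subset_of_ncard_le ?_ ?_ (Set.toFinite _)
    · rintro _ ⟨r, hr, rfl⟩
      exact conj_mem_inv hJ E (zpowers_le.2 y.2 hr) s ⟨hE, ne_one_of_order hs⟩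
    · rw [h2, ncard_inv hJ E]
  have h5 : g⁻¹ * t * g ∈ {g : H | g ∈ E ∧ g ≠ 1} :=
    ⟨h1, fun e => ne_one_of_order ht (by
      rw [show t = g * (g⁻¹ * t * g) * g⁻¹ by group, e]; simp)⟩
  rw [← h4] at h5
  obtain ⟨r, -, hr⟩ := h5
  exact isConj_iff.2 ⟨g * r, by rw [mul_assoc g, mul_inv_rev, ← mul_assoc, mul_assoc g, hr]; group⟩

theorem c2 {t : H} (ht : orderOf t = 2) : cc t = 120 := by
  have h1 := cc_dvd120 hJ ht (by simp)
  obtain ⟨E, hE⟩ := exists_sylow_mem ht
  have h2 : 8 ∣ cc t := by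
    rw [← card_syl2 hJ E]
    exact card_dvd_cc fun r hr => (comm_syl2 hJ E hr hE).eq
  have h3 : ∀ a, a ≠ 0 → a * 2 ∈ ({1, 2, 3, 5, 6, 7, 10, 11, 15, 19} : Set ℕ) → a * 2 ∣ cc t := by
    intro a ha hn
    obtain ⟨w, hw⟩ := exists_ord hJ hn
    rw [cc_eq_of_isConj (inv_conj hJ ht (orderOf_pow_eq hw ha)), ← hw]
    exact orderOf_dvd_cc (Commute.self_pow w a).eq
  have h4 := h3 3 (by norm_num) (by simp)
  have h5 := h3 5 (by norm_num) (by simp)
  exact Nat.dvd_antisymm h1 (by omega)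

theorem card_cc2 {s t : H} (hs : orderOf s = 2) (ht : orderOf t = 2) (hc : Commute s t)
    (hne : s ≠ t) : Nat.card ↥(centralizer ({t} : Set H) ⊓ centralizer {s}) = 8 := by
  set K := centralizer ({t} : Set H) ⊓ centralizer {s}
  have h1 : Nat.card K ∣ 3 * 5 * 8 := (card_dvd_of_le inf_le_left).trans (by
    change cc t ∣ _; rw [c2 hJ ht])
  have nd : ∀ {p : ℕ} (_ : p.Prime), p = 3 ∨ p = 5 → ¬ p ∣ Nat.card K := by
    intro p hp hp' h
    haveI := Fact.mk hp
    obtain ⟨y, hy⟩ := exists_prime_orderOf_dvd_card' p h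
    rw [← orderOf_coe] at hy
    exact not_two hJ (by rw [hy]; exact hp') hs ht hc hne (mem_centralizer_singleton_iff.1 y.2.2)
      (mem_centralizer_singleton_iff.1 y.2.1)
  have h2 : Nat.card K ∣ 8 := ((cop hJ Nat.prime_three (nd Nat.prime_three (.inl rfl))).mul_right
    (cop hJ Nat.prime_five (nd Nat.prime_five (.inr rfl)))).dvd_of_dvd_mul_left h1
  refine Nat.dvd_antisymm h2 ?_
  have hp : IsPGroup 2 ↥(zpowers s ⊔ zpowers t) := by
    have hK : IsPGroup 2 K := by
      obtain ⟨j, -, hj⟩ := (Nat.dvd_prime_pow (m := 3) Nat.prime_two).1 h2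
      exact IsPGroup.of_card hj
    refine hK.to_le ?_
    rw [sup_le_iff, zpowers_le, zpowers_le]
    exact ⟨⟨mem_centralizer_singleton_iff.2 hc.eq, mem_centralizer_singleton_iff.2 rfl⟩,
      ⟨mem_centralizer_singleton_iff.2 rfl, mem_centralizer_singleton_iff.2 hc.eq.symm⟩⟩
  obtain ⟨E, hE⟩ := hp.exists_le_sylow
  rw [← card_syl2 hJ E]
  exact card_dvd_of_le fun g hg => ⟨mem_centralizer_singleton_iff.2
    (comm_syl2 hJ E hg (hE (mem_sup_right (mem_zpowers t)))).eq, mem_centralizer_singleton_iff.2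
    (comm_syl2 hJ E hg (hE (mem_sup_left (mem_zpowers s)))).eq⟩

theorem ncard_X {t : H} (ht : orderOf t = 2) :
    {s : H | orderOf s = 2 ∧ Commute s t ∧ s ≠ t}.ncard = 30 := by
  set X := {s : H | orderOf s = 2 ∧ Commute s t ∧ s ≠ t} with hX
  have hc := c2 hJ ht
  have dv : ∀ {p : ℕ} (_ : p.Prime), p = 3 ∨ p = 5 → p ∣ X.ncard := by
    intro p hp hp'
    by_contra h
    obtain ⟨y, hy, hyt⟩ := exists_of_prime_dvd_cc (g := t) hp (by rw [hc]; rcases hp' with rfl | rfl <;> omega)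
    obtain ⟨u, hu, hyu⟩ := exists_commute_of_not_dvd (X := X) hp (hy ▸ pow_orderOf_eq_one y)
      (fun u hu => ⟨by rw [← hu.1]; exact (orderOf_eq_of_isConj (isConj_iff.2 ⟨y, rfl⟩)).symm,
        (hyt.mul_left hu.2.1).mul_left hyt.inv_left, fun e => hu.2.2 (by
          have e' : y * u * y⁻¹ = y * t * y⁻¹ := by rw [e, hyt.eq, mul_inv_cancel_right]
          simpa using e')⟩) h
    exact not_two hJ (by rw [hy]; exact hp') hu.1 ht hu.2.1 hu.2.2 hyu hyt
  have h3 := dv Nat.prime_three (.inl rfl)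
  have h5 := dv Nat.prime_five (.inr rfl)
  have h8 := pow_dvd_ncard_pow_eq_one (G := centralizer ({t} : Set H)) Nat.prime_two (a := 3)
    (by change _ ∣ cc t; rw [hc]; norm_num)
  have e : (centralizer ({t} : Set H)).subtype '' {x | x ^ 2 ^ 3 = 1} = insert 1 (insert t X) := by
    ext g
    simp only [Set.mem_image, Set.mem_ofPred_eq, Set.mem_insert_iff, hX]
    constructor
    · rintro ⟨x, hx, rfl⟩
      have h1 : (x : H) * x = 1 := sq_of_two_pow hJ (k := 3) (by simpa using congrArg Subtype.val hx)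
      by_cases h2 : (x : H) = 1
      · exact .inl h2
      by_cases h3 : (x : H) = t
      · exact .inr (.inl h3)
      exact .inr (.inr ⟨order_of_sq h1 h2, mem_centralizer_singleton_iff.1 x.2, h3⟩)
    · have aux : ∀ g : H, g * g = 1 → g ^ 2 ^ 3 = 1 := fun g hg => by
        rw [show 2 ^ 3 = 2 * 4 by norm_num, pow_mul, pow_two, hg, one_pow]
      rintro (rfl | rfl | ⟨h1, h2, -⟩)
      · exact ⟨1, by simp, rfl⟩
      · exact ⟨⟨g, mem_centralizer_singleton_iff.2 rfl⟩, Subtype.ext (aux g (sq_of_order ht)), rfl⟩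
      · exact ⟨⟨g, mem_centralizer_singleton_iff.2 h2.eq⟩, Subtype.ext (aux g (sq_of_order h1)), rfl⟩
  have e2 := congrArg Set.ncard e
  rw [Set.ncard_image_of_injective _ (subtype_injective _), Set.ncard_insert_of_notMem (by
      rintro (h | h)
      · exact ne_one_of_order ht h.symm
      · exact ne_one_of_order h.1 rfl), Set.ncard_insert_of_notMem (fun h => h.2.2 rfl)] at e2
  have h9 : {x : centralizer ({t} : Set H) | x ^ 2 ^ 3 = 1}.ncard ≤ 120 := by
    rw [← hc, cc, ← Set.ncard_univ]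
    exact Set.ncard_le_ncard (Set.subset_univ _)
  rw [e2] at h8 h9
  omega

theorem two_classes {t : H} (ht : orderOf t = 2) :
    ∃ s₀ : H, orderOf s₀ = 2 ∧ Commute s₀ t ∧ s₀ ≠ t ∧
      ∀ s : H, orderOf s = 2 → Commute s t → s ≠ t →
        ∃ y : H, Commute y t ∧ (y * s₀ * y⁻¹ = s ∨ y * (s₀ * t) * y⁻¹ = s) := by
  have hX := ncard_X hJ ht
  set X := {s : H | orderOf s = 2 ∧ Commute s t ∧ s ≠ t} with hXd
  obtain ⟨s₀, h1, h2, h3⟩ : X.Nonempty := Set.nonempty_of_ncard_ne_zero (by rw [hX]; norm_num)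
  refine ⟨s₀, h1, h2, h3, ?_⟩
  have t2 := sq_of_order ht
  have s2 := sq_of_order h1
  have hst : s₀ * t ∈ X := by
    refine ⟨order_of_sq ?_ fun e => h3 ?_, h2.mul_left (Commute.refl t), fun e =>
      ne_one_of_order h1 (by simpa using e)⟩
    · rw [h2.symm.mul_mul_mul_comm, s2, t2, one_mul]
    · rw [eq_inv_of_mul_eq_one_left e, inv_eq_of_mul_eq_one_right t2]
  have cl : ∀ s ∈ X, {w | ∃ r ∈ centralizer ({t} : Set H), r * s * r⁻¹ = w}.ncard = 15 ∧
      {w | ∃ r ∈ centralizer ({t} : Set H), r * s * r⁻¹ = w} ⊆ X := by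
    intro s hs
    have := card_inf_centralizer_mul (centralizer ({t} : Set H)) s
    rw [card_cc2 hJ hs.1 ht hs.2.1 hs.2.2] at this
    have h4 : Nat.card (centralizer ({t} : Set H)) = 120 := c2 hJ ht
    refine ⟨by omega, ?_⟩
    rintro _ ⟨y, hy, rfl⟩
    have hyt : Commute y t := mem_centralizer_singleton_iff.1 hy
    exact ⟨by rw [← hs.1]; exact (orderOf_eq_of_isConj (isConj_iff.2 ⟨y, rfl⟩)).symm,
        (hyt.mul_left hs.2.1).mul_left hyt.inv_left, fun e => hs.2.2 (by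
          have e' : y * s * y⁻¹ = y * t * y⁻¹ := by rw [e, hyt.eq, mul_inv_cancel_right]
          simpa using e')⟩
  have dis : Disjoint {w | ∃ r ∈ centralizer ({t} : Set H), r * s₀ * r⁻¹ = w}
      {w | ∃ r ∈ centralizer ({t} : Set H), r * (s₀ * t) * r⁻¹ = w} := by
    rw [Set.disjoint_left]
    rintro _ ⟨a, ha, rfl⟩ ⟨b, hb, e⟩
    set n := b⁻¹ * a with hn
    have hnt : Commute n t := mem_centralizer_singleton_iff.1 (mul_mem (inv_mem hb) ha)
    have e1 : n * s₀ * n⁻¹ = s₀ * t := by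
      rw [hn, mul_inv_rev, inv_inv, mul_assoc b⁻¹, mul_assoc b⁻¹, ← mul_assoc (a * s₀), ← e]
      group
    have e2 : n * n * s₀ = s₀ * (n * n) := by
      have e3 : n * s₀ = s₀ * t * n := by rw [← e1]; group
      calc n * n * s₀ = n * (s₀ * t * n) := by rw [mul_assoc, e3]
        _ = (n * s₀) * t * n := by group
        _ = s₀ * t * (n * t) * n := by rw [e3]; group
        _ = s₀ * (t * t) * (n * n) := by rw [hnt.eq]; group
        _ = s₀ * (n * n) := by rw [t2, mul_one]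
    have e4 : n * n ∈ centralizer ({t} : Set H) ⊓ centralizer {s₀} :=
      ⟨mem_centralizer_singleton_iff.2 (hnt.mul_left hnt).eq, mem_centralizer_singleton_iff.2 e2⟩
    have e5 : (n * n) ^ 8 = 1 := by
      have := pow_card_eq_one' (x := (⟨n * n, e4⟩ : ↥(centralizer ({t} : Set H) ⊓ centralizer {s₀})))
      rw [card_cc2 hJ h1 ht h2 h3] at this
      simpa using congrArg Subtype.val this
    have e6 : n * n = 1 := sq_of_two_pow hJ (k := 4) (by rw [← pow_two, ← pow_mul] at e5; exact e5)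
    have e7 : n * s₀ * (n * s₀) = t := by
      have : n⁻¹ = n := inv_eq_of_mul_eq_one_right e6
      rw [this] at e1
      rw [← mul_assoc, e1, h2.eq, mul_assoc, s2, mul_one]
    have e8 : n * s₀ * (n * s₀) = 1 := sq_of_two_pow hJ (k := 2) (by
      rw [show 2 ^ 2 = 2 * 2 by norm_num, pow_mul, pow_two (n * s₀), e7, pow_two, t2])
    exact ne_one_of_order ht (e7.symm.trans e8)
  have un : {w | ∃ r ∈ centralizer ({t} : Set H), r * s₀ * r⁻¹ = w} ∪
      {w | ∃ r ∈ centralizer ({t} : Set H), r * (s₀ * t) * r⁻¹ = w} = X := by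
    apply Set.eq_of_subset_of_ncard_le (Set.union_subset (cl _ ⟨h1, h2, h3⟩).2 (cl _ hst).2)
    rw [Set.ncard_union_eq dis, (cl _ ⟨h1, h2, h3⟩).1, (cl _ hst).1, hX]
  intro s a b c
  have : s ∈ X := ⟨a, b, c⟩
  rw [← un] at this
  rcases this with ⟨y, hy, e⟩ | ⟨y, hy, e⟩
  · exact ⟨y, mem_centralizer_singleton_iff.1 hy, .inl e⟩
  · exact ⟨y, mem_centralizer_singleton_iff.1 hy, .inr e⟩

theorem three_in {x : H} (hx : orderOf x = 5) :
    ∃ y : H, orderOf y = 3 ∧ Commute y x ∧ (∀ g : H, Commute g x → g ^ 3 = 1 → g ∈ zpowers y) ∧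
      ∀ t : H, orderOf t = 2 → Commute t x → t * y * t⁻¹ = y⁻¹ := by
  classical
  have hc := (c5 hJ hx).1
  obtain ⟨y, hy, hyx⟩ := exists_of_prime_dvd_cc (g := x) Nat.prime_three (by rw [hc]; norm_num)
  have ho : orderOf (y * x) = 15 := by
    rw [hyx.orderOf_mul_eq_mul_orderOf_of_coprime (by rw [hx, hy]; norm_num), hx, hy]
  have hle : zpowers (y * x) ≤ centralizer {x} :=
    zpowers_le.2 (mem_centralizer_singleton_iff.2 (hyx.mul_left (Commute.refl x)).eq)
  have hi : ((zpowers (y * x)).subgroupOf (centralizer {x})).index = 2 := by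
    have := ((zpowers (y * x)).subgroupOf (centralizer {x})).card_mul_index
    rw [card_subgroupOf_of_le hle, Nat.card_zpowers, ho] at this
    change _ = cc x at this
    omega
  have key : ∀ g : H, Commute g x → g ^ 3 = 1 → g ∈ zpowers y := by
    intro g hg h3
    have h1 := mul_self_mem_of_index_two hi ⟨g, mem_centralizer_singleton_iff.2 hg.eq⟩
    have h2 : g * g ∈ zpowers (y * x) := h1
    have h4 : g ∈ zpowers (y * x) := by
      have : g = (g * g) ^ 2 := by
        rw [← pow_two, ← pow_mul, show 2 * 2 = 3 + 1 by norm_num, pow_succ, h3, one_mul]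
      rw [this]; exact pow_mem h2 2
    rw [← mem_powers_iff_mem_zpowers] at h4
    obtain ⟨k, rfl⟩ := h4
    simp only at h3 ⊢
    rw [← pow_mul] at h3
    have h5 := orderOf_dvd_of_pow_eq_one h3
    rw [ho] at h5
    obtain ⟨j, rfl⟩ : 5 ∣ k := by omega
    rw [pow_mul, hyx.mul_pow, ← hx, pow_orderOf_eq_one, mul_one]
    exact pow_mem (pow_mem (mem_zpowers y) _) _
  refine ⟨y, hy, hyx, key, fun t ht htx => ?_⟩
  have h1 := key (t * y * t⁻¹) ((htx.mul_left hyx).mul_left htx.inv_left)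
    (by rw [conj_pow, ← hy, pow_orderOf_eq_one]; simp)
  rw [mem_zpowers_iff_mem_range_orderOf, hy] at h1
  simp only [Finset.mem_image, Finset.mem_range] at h1
  obtain ⟨i, hi3, e⟩ := h1
  interval_cases i
  · exact absurd (by simpa using e.symm) (ne_one_of_order hy)
  · exfalso
    have hty : Commute t y := by
      rw [pow_one, eq_mul_inv_iff_mul_eq] at e
      exact e.symm
    have := mem_spec hJ (t * (y * x))
    rw [(hty.mul_right htx).orderOf_mul_eq_mul_orderOf_of_coprime (by rw [ht, ho]; norm_num), ht,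
      ho] at this
    simp at this
  · rw [← e]
    apply eq_inv_of_mul_eq_one_left
    rw [← pow_succ]; exact orderOf_dvd_iff_pow_eq_one.1 (by rw [hy])

theorem inverter {x t : H} (hx : orderOf x = 5) (ht : orderOf t = 2) (hxt : Commute t x) :
    ∃ r : H, orderOf r = 2 ∧ Commute r t ∧ r * x * r⁻¹ = x⁻¹ := by
  classical
  obtain ⟨hc, hn⟩ := c5 hJ hx
  have h1 : zpowers t ≤ normalizer (zpowers x : Set H) :=
    zpowers_le.2 (centralizer_le_normalizer _ (by
      rw [cen_zpowers]; exact mem_centralizer_singleton_iff.2 hxt.eq))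
  obtain ⟨S, h2, h3, h4⟩ := exists_le_card_pow_succ (p := 2) (k := 1) h1
    (by rw [Nat.card_zpowers, ht]; rfl) (by rw [hn]; norm_num)
  have sq : ∀ g ∈ S, g * g = 1 := fun g hg => sq_of_two_pow hJ (k := 1 + 1) (by
    have := pow_card_eq_one' (x := (⟨g, hg⟩ : S))
    rw [h4] at this
    simpa using congrArg Subtype.val this)
  have h5 : ¬ S ≤ centralizer {x} := fun h => by
    have := card_dvd_of_le h
    rw [h4] at this
    change _ ∣ cc x at this
    omega
  obtain ⟨r, hr, hr'⟩ := SetLike.not_le_iff_exists.1 h5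
  rw [mem_centralizer_singleton_iff] at hr'
  have htS := h2 (mem_zpowers t)
  refine ⟨r, order_of_sq (sq r hr) (by rintro rfl; simp at hr'),
    comm_of_sq (sq r hr) (sq t htS) (sq _ (mul_mem hr htS)), ?_⟩
  have h6 : r * x * r⁻¹ ∈ zpowers x := (mem_normalizer_iff.1 (h3 hr) x).1 (mem_zpowers x)
  rw [mem_zpowers_iff_mem_range_orderOf, hx] at h6
  simp only [Finset.mem_image, Finset.mem_range] at h6
  obtain ⟨i, hi5, e⟩ := h6
  have h7 : x ^ (i * i) = x ^ 1 := by
    have hri : r⁻¹ = r := inv_eq_of_mul_eq_one_right (sq r hr)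
    rw [pow_mul, e, conj_pow, e, hri, pow_one]
    calc r * (r * x * r) * r = (r * r) * x * (r * r) := by group
      _ = x := by rw [sq r hr]; simp
  rw [pow_eq_pow_iff_modEq, hx] at h7
  interval_cases i
  · simp [Nat.ModEq] at h7
  · exact absurd (by rw [pow_one, eq_mul_inv_iff_mul_eq] at e; exact e.symm) hr'
  · simp [Nat.ModEq] at h7
  · simp [Nat.ModEq] at h7
  · rw [← e]
    apply eq_inv_of_mul_eq_one_left
    rw [← pow_succ]; exact orderOf_dvd_iff_pow_eq_one.1 (by rw [hx])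

end J

/-! ### transfer to an ambient group -/

variable {G : Type*} [Group G] [Finite G]

theorem card_inf_cen (J : Subgroup G) {x : G} (hx : x ∈ J) :
    Nat.card ↥(J ⊓ centralizer {x}) = cc (⟨x, hx⟩ : J) := by
  rw [← card_subgroupOf_of_le (inf_le_left : J ⊓ centralizer {x} ≤ J), cc]
  congr 2
  ext g
  simp [mem_subgroupOf, mem_centralizer_singleton_iff, Subtype.ext_iff]

theorem card_inf_norm {J P : Subgroup G} (h : P ≤ J) :
    Nat.card ↥(J ⊓ normalizer (P : Set G)) = Nat.card (normalizer ((P.subgroupOf J : Subgroup J) : Set J)) := by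
  rw [← card_subgroupOf_of_le (inf_le_left : J ⊓ normalizer (P : Set G) ≤ J),
    ← subgroupOf_normalizer_eq h, inf_subgroupOf_left]

theorem zpowers_subgroupOf (J : Subgroup G) {x : G} (hx : x ∈ J) :
    (zpowers x).subgroupOf J = zpowers (⟨x, hx⟩ : J) := by
  ext g
  simp only [mem_subgroupOf, mem_zpowers_iff, Subtype.ext_iff, coe_zpow]

theorem exists_gen11 {P : Subgroup G} (hP : Nat.card P = 11) :
    ∃ x : G, orderOf x = 11 ∧ zpowers x = P := by
  haveI : Fact (Nat.Prime 11) := ⟨by norm_num⟩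
  obtain ⟨x, hx⟩ := exists_prime_orderOf_dvd_card' (G := P) 11 (by rw [hP])
  rw [← orderOf_coe] at hx
  exact ⟨x, hx, eq_of_le_of_card_ge (zpowers_le.2 x.2) (by rw [Nat.card_zpowers, hx, hP])⟩

theorem comm_coe {J : Subgroup G} {a b : J} : Commute a b ↔ Commute (a : G) b :=
  ⟨fun h => congrArg Subtype.val h, fun h => Subtype.ext h⟩

end JP

open JP

variable {G : Type*} [Group G] [Finite G]

theorem JT.cent11 {J P : Subgroup G} (hJ : JT ↥J) (hP : Nat.card P = 11) (hPJ : P ≤ J) {g : G}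
    (hg : g ∈ J) (hc : g ∈ centralizer (P : Set G)) : g ∈ P := by
  obtain ⟨x, hx, rfl⟩ := exists_gen11 hP
  have hxJ := hPJ (mem_zpowers x)
  have h1 : zpowers x = J ⊓ centralizer {x} := by
    apply eq_of_le_of_card_ge (le_inf hPJ (zpowers_le.2 (mem_centralizer_singleton_iff.2 rfl)))
    rw [card_inf_cen J hxJ, cc11 hJ (by rw [← orderOf_coe]; exact hx), hP]
  rw [cen_zpowers] at hc
  rw [h1]; exact ⟨hg, hc⟩

theorem JT.norm11 {J P : Subgroup G} (hJ : JT ↥J) (hP : Nat.card P = 11) (hPJ : P ≤ J) :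
    Nat.card ↥(J ⊓ normalizer (P : Set G)) = 110 := by
  obtain ⟨x, hx, rfl⟩ := exists_gen11 hP
  have hxJ := hPJ (mem_zpowers x)
  rw [card_inf_norm hPJ, zpowers_subgroupOf J hxJ]
  exact nn11 hJ (by rw [← orderOf_coe]; exact hx)

theorem JT.conj11 {J P Q : Subgroup G} (hJ : JT ↥J) (hP : Nat.card P = 11) (hPJ : P ≤ J)
    (hQ : Nat.card Q = 11) (hQJ : Q ≤ J) :
    ∃ g ∈ J, P.map (MulAut.conj g).toMonoidHom = Q := by
  haveI : Fact (Nat.Prime 11) := ⟨by norm_num⟩
  exact exists_conj_of_card (p := 11) (k := 1) hPJ hQJ hP hQ (by rw [hJ.1]; norm_num)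

theorem JT.cent5 {J : Subgroup G} (hJ : JT ↥J) {x : G} (hx : x ∈ J) (hx5 : orderOf x = 5) :
    Nat.card ↥(J ⊓ centralizer {x}) = 30 ∧ Nat.card ↥(J ⊓ normalizer (zpowers x : Set G)) = 60 ∧
      ∃ y ∈ J, orderOf y = 3 ∧ Commute y x ∧
        (∀ g ∈ J, Commute g x → g ^ 3 = 1 → g ∈ zpowers y) ∧
        ∀ t ∈ J, orderOf t = 2 → Commute t x → t * y * t⁻¹ = y⁻¹ := by
  have h5 : orderOf (⟨x, hx⟩ : J) = 5 := by rw [← orderOf_coe]; exact hx5
  refine ⟨by rw [card_inf_cen J hx]; exact (c5 hJ h5).1, ?_, ?_⟩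
  · rw [card_inf_norm (zpowers_le.2 hx), zpowers_subgroupOf J hx]
    exact (c5 hJ h5).2
  · obtain ⟨y, h1, h2, h3, h4⟩ := three_in hJ h5
    refine ⟨y, y.2, by rw [orderOf_coe, h1], comm_coe.1 h2, fun g hg a b => ?_, fun t ht a b => ?_⟩
    · obtain ⟨k, hk⟩ := h3 ⟨g, hg⟩ (comm_coe.2 a) (Subtype.ext b)
      exact ⟨k, by simpa using congrArg Subtype.val hk⟩
    · exact congrArg Subtype.val (h4 ⟨t, ht⟩ (by rw [← orderOf_coe]; exact a) (comm_coe.2 b))

theorem JT.inv_conj {J : Subgroup G} (hJ : JT ↥J) {s t : G} (hs : s ∈ J) (ht : t ∈ J)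
    (hs2 : orderOf s = 2) (ht2 : orderOf t = 2) : ∃ g ∈ J, g * s * g⁻¹ = t := by
  obtain ⟨g, hg⟩ := isConj_iff.1 (JP.inv_conj hJ (s := ⟨s, hs⟩) (t := ⟨t, ht⟩)
    (by rw [← orderOf_coe]; exact hs2) (by rw [← orderOf_coe]; exact ht2))
  exact ⟨g, g.2, congrArg Subtype.val hg⟩

theorem JT.cent2 {J : Subgroup G} (hJ : JT ↥J) {t : G} (ht : t ∈ J) (ht2 : orderOf t = 2) :
    Nat.card ↥(J ⊓ centralizer {t}) = 120 := by
  rw [card_inf_cen J ht]
  exact c2 hJ (by rw [← orderOf_coe]; exact ht2)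

theorem JT.inv_cent2 {J : Subgroup G} (hJ : JT ↥J) {t : G} (ht : t ∈ J) (ht2 : orderOf t = 2) :
    {s : G | s ∈ J ∧ orderOf s = 2 ∧ Commute s t ∧ s ≠ t}.ncard = 30 ∧
      ∃ s₀ ∈ J, orderOf s₀ = 2 ∧ Commute s₀ t ∧ s₀ ≠ t ∧
        ∀ s ∈ J, orderOf s = 2 → Commute s t → s ≠ t →
          ∃ y ∈ J, Commute y t ∧ (y * s₀ * y⁻¹ = s ∨ y * (s₀ * t) * y⁻¹ = s) := by
  have h2 : orderOf (⟨t, ht⟩ : J) = 2 := by rw [← orderOf_coe]; exact ht2
  constructor
  · rw [← ncard_X hJ h2, ← Set.ncard_image_of_injective _ (subtype_injective J)]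
    congr 1
    ext s
    constructor
    · rintro ⟨a, b, c, d⟩
      exact ⟨⟨s, a⟩, ⟨by rw [← orderOf_coe]; exact b, comm_coe.2 c,
        fun e => d (congrArg Subtype.val e)⟩, rfl⟩
    · rintro ⟨s, ⟨b, c, d⟩, rfl⟩
      exact ⟨s.2, by rw [← b, ← orderOf_coe]; rfl, comm_coe.1 c, fun e => d (Subtype.ext e)⟩
  · obtain ⟨s₀, a, b, c, d⟩ := two_classes hJ h2
    refine ⟨s₀, s₀.2, by rw [orderOf_coe, a], comm_coe.1 b, fun e => c (Subtype.ext e),
      fun s hs a' b' c' => ?_⟩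
    obtain ⟨y, h3, h4⟩ := d ⟨s, hs⟩ (by rw [← orderOf_coe]; exact a') (comm_coe.2 b')
      (fun e => c' (congrArg Subtype.val e))
    exact ⟨y, y.2, comm_coe.1 h3, h4.imp (congrArg Subtype.val) (congrArg Subtype.val)⟩

theorem JT.exists_inverter {J : Subgroup G} (hJ : JT ↥J) {x t : G} (hx : x ∈ J)
    (hx5 : orderOf x = 5) (ht : t ∈ J) (ht2 : orderOf t = 2) (hxt : Commute t x) :
    ∃ r ∈ J, orderOf r = 2 ∧ Commute r t ∧ r * x * r⁻¹ = x⁻¹ := by
  obtain ⟨r, a, b, c⟩ := inverter hJ (x := ⟨x, hx⟩) (t := ⟨t, ht⟩)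
    (by rw [← orderOf_coe]; exact hx5) (by rw [← orderOf_coe]; exact ht2) (comm_coe.2 hxt)
  exact ⟨r, r.2, by rw [orderOf_coe, a], comm_coe.1 b, congrArg Subtype.val c⟩

end Cfsg.Agent.F11
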