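import Cfsg.Agent.F11.A3
import Cfsg.Agent.F11.JPure
import Cfsg.Agent.F11.Eleven

/-! Case A2: `C(L)` has odd order and some element inverts a point. -/

set_option autoImplicit false

namespace Cfsg.Agent.F11

open Subgroup MulAction Cfsg.Agent.Local
open scoped Pointwise

namespace A2

variable {G : Type*} [Group G] [Finite G]

theorem eq_one {H : Subgroup G} (ho : Odd (Nat.card H)) {u : G} (hu : u ∈ H) {k : ℕ}
    (h : u ^ 2 ^ k = 1) : u = 1 :=
  orderOf_eq_one_iff.1 (Nat.Coprime.eq_one_of_dvd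
    ((A3.odd_ord ho hu).coprime_two_right.pow_right k) (orderOf_dvd_of_pow_eq_one h))

theorem conj_inv {K : Subgroup G} {m : ℕ} (hK : Nat.card K = 2 * m) (hm : Odd m) {s t : G}
    (hs : s ∈ K) (ht : t ∈ K) (s2 : orderOf s = 2) (t2 : orderOf t = 2) :
    ∃ k ∈ K, k * s * k⁻¹ = t := by
  have key : ∀ {s : G}, s ∈ K → orderOf s = 2 → IsSylowIn 2 (zpowers s) K := fun hs s2 =>
    U.syl_of_card (zpowers_le_of_mem hs) (k := 1) (by rw [Nat.card_zpowers, s2, pow_one])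
      (by rw [hK, pow_one]) hm.not_two_dvd_nat
  obtain ⟨k, hk, e⟩ := (key hs s2).exists_conj (key ht t2)
  have h1 : k * s * k⁻¹ ∈ zpowers t := e ▸ smul_mem_pointwise_smul s (MulAut.conj k) _ (mem_zpowers s)
  refine ⟨k, hk, ?_⟩
  obtain ⟨i, hi⟩ := mem_powers_iff_mem_zpowers.2 h1
  replace hi : t ^ i = k * s * k⁻¹ := hi
  rw [pow_eq_pow_mod i (t2 ▸ pow_orderOf_eq_one t : t ^ 2 = 1)] at hi
  obtain e | e : i % 2 = 0 ∨ i % 2 = 1 := by omega
  · exact absurd (by simpa [e] using hi.symm) (U.ne_one_of_ord s2 (by decide))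
  · simpa [e] using hi.symm

variable {Ω : Type*} [MulAction G Ω] {Γ : Geo G Ω}

/-- the setting -/
structure St (Γ : Geo G Ω) (d : G) (a b : Ω) : Prop where
  h : Γ.HypA
  odd : ∀ L, Γ.IsLine L → Odd (Nat.card (centralizer (L : Set G)))
  ne : a ≠ b
  o2 : orderOf d = 2
  da : d • a = a
  db : d • b = b
  sa : Γ.sc d a = -1

theorem exists_st (h : Γ.HypA) {L : Subgroup G} (hL : Γ.IsLine L)
    (hc : Odd (Nat.card (centralizer (L : Set G)))) {d : G} {a : Ω} (hda : d • a = a)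
    (hs : Γ.sc d a = -1) : ∃ d b, St Γ d a b := by
  have := Γ.finite_pts
  have odd : ∀ L', Γ.IsLine L' → Odd (Nat.card (centralizer (L' : Set G))) := fun L' hL' =>
    A3.card_cent h hL hL' ▸ hc
  obtain ⟨b₀, hb₀, -⟩ := hL.exists_ne a
  have : Nontrivial Ω := ⟨b₀, a, hb₀⟩
  obtain ⟨k, m, hm, e⟩ := Nat.exists_eq_two_pow_mul_odd (orderOf_pos d).ne'
  have h1 : (d ^ m) ^ 2 ^ k = 1 := by rw [← pow_mul, mul_comm, ← e, pow_orderOf_eq_one]
  have h2 : d ^ m • a = a := pow_mem (show d ∈ stabilizer G a from hda) m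
  have h3 : Γ.sc (d ^ m) a = -1 := by rw [Γ.sc_pow hda, hs, hm.neg_one_pow]
  have h4 := U.fix_mod_elt Nat.prime_two h1 (s := Set.univ \ {a}) (Set.toFinite _)
    fun r hr => ⟨trivial, fun e => hr.2 (smul_left_cancel (d ^ m) (e.trans h2.symm))⟩
  rw [Set.ncard_diff_singleton_of_mem (Set.mem_univ a), Set.ncard_univ,
    Nat.odd_iff.1 (Nat.Even.sub_odd Nat.card_pos h.even odd_one)] at h4
  obtain ⟨b, hb, h5⟩ := Set.nonempty_of_ncard_ne_zero (s := {r | r ∈ Set.univ \ {a} ∧ d ^ m • r = r})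
    fun e => by rw [e] at h4; omega
  have hab : a ≠ b := fun e => hb.2 e.symm
  have h6 : (d ^ m) ^ 2 ∈ centralizer ((Γ.pt a ⊔ Γ.pt b : Subgroup G) : Set G) :=
    (h.isLine hab).F1 le_sup_left le_sup_right hab
      ((Γ.sc_eq_one_iff (pow_mem (show d ^ m ∈ stabilizer G a from h2) 2)).1
        (by rw [Γ.sc_pow h2, h3]; simp)) (pow_mem (show d ^ m ∈ stabilizer G b from h5) 2)
  have h7 := eq_one (odd _ (h.isLine hab)) h6 (k := k) (by rw [← pow_mul, mul_comm, pow_mul, h1, one_pow])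
  refine ⟨d ^ m, b, h, odd, hab, orderOf_eq_prime h7 fun e => ?_, h2, h5, h3⟩
  rw [e, Γ.sc_one] at h3
  exact absurd h3 (by decide)

namespace St

variable {d : G} {a b r : Ω} (s : St Γ d a b) {L : Subgroup G}
include s

theorem d2 : d ^ 2 = 1 := s.o2 ▸ pow_orderOf_eq_one d

theorem not_cent (hL : Γ.IsLine L) : d ∉ centralizer (L : Set G) := fun e =>
  U.ne_one_of_ord s.o2 (by decide) (eq_one (s.odd L hL) e (k := 1) s.d2)

theorem sc_neg (hr : d • r = r) : Γ.sc d r = -1 := by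
  by_cases e : r = a
  · exact e ▸ s.sa
  have h1 := Γ.sc_pow_eq_one hr s.d2
  have h2 : Γ.sc d r ≠ 1 := fun e' => s.not_cent (s.h.isLine e)
    ((s.h.isLine e).F1 le_sup_left le_sup_right e ((Γ.sc_eq_one_iff hr).1 e') s.da)
  revert h1 h2
  generalize Γ.sc d r = k
  revert k
  decide

theorem of_fix {a' b' : Ω} (h : a' ≠ b') (ha : d • a' = a') (hb : d • b' = b') : St Γ d a' b' :=
  ⟨s.h, s.odd, h, s.o2, ha, hb, s.sc_neg ha⟩

theorem conj (g : G) : St Γ (g * d * g⁻¹) (g • a) (g • b) :=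
  ⟨s.h, s.odd, fun e => s.ne (smul_left_cancel g e), (U.orderOf_conj g d).trans s.o2,
    by simp [mul_smul, s.da], by simp [mul_smul, s.db], (Γ.sc_conj s.da g).trans s.sa⟩

theorem not_sq (u : G) : u ^ 2 ≠ d := by
  rintro rfl
  by_cases e : u • a = a
  · have := s.sa
    rw [Γ.sc_pow e] at this
    revert this
    generalize Γ.sc u a = k
    revert k
    decide
  · have hL := s.h.isLine (Ne.symm e)
    exact hL.not_inner le_sup_left s.da s.sa (hL.inner_sq (Γ.mem_normalizer_sup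
      (.inr ⟨rfl, by rw [← mul_smul, ← sq, s.da]⟩)))

theorem cardK : ∃ m, Odd m ∧ Nat.card ↥(stabilizer G a ⊓ stabilizer G b) = 2 * m ∧
    Nat.card (normalizer ((Γ.pt a ⊔ Γ.pt b : Subgroup G) : Set G)) = 2 ^ 3 * (33 * m) := by
  obtain ⟨h1, h2, -⟩ := (s.h.isLine s.ne).card_stab le_sup_left le_sup_right s.ne
  replace h2 := h2 ⟨d, s.da, s.db, s.sa⟩
  exact ⟨_, (by decide : Odd 5).mul (s.odd _ (s.h.isLine s.ne)), by rw [h2]; ring,
    by rw [h1, h2]; ring⟩

theorem is_sq {t : G} (ht : t ∈ Γ.pt a ⊔ Γ.pt b) (t2 : orderOf t = 2) : ∃ u, u ^ 2 = t := by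
  have hL := s.h.isLine s.ne
  obtain ⟨m, hm, -, h1⟩ := s.cardK
  obtain ⟨V, hVL, hV, -⟩ := hL.1.exists_four ht t2
  obtain ⟨S, hS, hVS⟩ := exists_isSylowIn_ge (p := 2) (IsPGroup.of_card (n := 2) hV)
    (hVL.trans le_normalizer)
  have h2 := U.syl_card hS h1 ((by decide : Odd 33).mul hm).not_two_dvd_nat
  obtain ⟨u, hu, h3⟩ : ∃ u ∈ S, u ^ 2 ≠ 1 := by
    by_contra hn
    push Not at hn
    have h3 : S ≤ V := fun g hg => by
      obtain ⟨v, hv, c, hc, e⟩ := hL.cent_four hV hVL (hS.le hg)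
        fun y hy => LP.comm_of_sq hn (hVS hy) hg
      have h4 : c ∈ S := by
        rw [eq_inv_mul_of_mul_eq e.symm]
        exact mul_mem (inv_mem (hVS hv)) hg
      rw [e, eq_one (s.odd _ hL) hc (k := 1) (hn c h4), mul_one]
      exact hv
    have := card_le_of_le h3
    omega
  have h4 : (V.subgroupOf S).index = 2 := by
    have := (V.subgroupOf S).card_mul_index
    rw [Nat.card_congr (subgroupOfEquivOfLe hVS).toEquiv, hV, h2] at this
    omega
  have h5 : u ^ 2 ∈ V := sq_mem_of_index_two h4 ⟨u, hu⟩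
  obtain ⟨g, -, e⟩ := hL.1.inv_conj (hVL h5) ht
    (orderOf_eq_prime ((hL.1.four hV hVL).1 _ h5) h3) t2
  exact ⟨g * u * g⁻¹, by rw [conj_pow, e]⟩

theorem not_mem (hL : Γ.IsLine L) : d ∉ L := fun e => by
  obtain ⟨a', b', hab, ha, hb⟩ := hL.exists_two
  obtain ⟨g, rfl, rfl⟩ := s.h.two_trans s.ne hab
  obtain ⟨u, hu⟩ := (s.conj g).is_sq ((hL.sup_eq ha hb hab).symm ▸ e) s.o2
  exact s.not_sq u hu

theorem fix_line (hr : Γ.pt r ≤ Γ.pt a ⊔ Γ.pt b) (h : d • r = r) : r = a ∨ r = b :=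
  (s.h.isLine s.ne).neg_fix le_sup_left le_sup_right hr s.ne s.da s.db s.sa h

theorem two_fix (hr : d • r ≠ r) : ∃ a' b', a' ≠ b' ∧ d • a' = a' ∧ d • b' = b' ∧
    Γ.pt a' ⊔ Γ.pt b' = Γ.pt r ⊔ Γ.pt (d • r) := by
  have hL := s.h.isLine hr.symm
  have hN := Γ.mem_normalizer_sup (g := d) (a := r) (b := d • r)
    (.inr ⟨rfl, by rw [← mul_smul, ← sq, s.d2, one_smul]⟩)
  have h2 : d ^ 2 ∈ centralizer ((Γ.pt r ⊔ Γ.pt (d • r) : Subgroup G) : Set G) := s.d2 ▸ one_mem _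
  obtain ⟨a', ha, h3⟩ : ∃ a', Γ.pt a' ≤ Γ.pt r ⊔ Γ.pt (d • r) ∧ d • a' = a' := by
    by_contra hn
    push Not at hn
    obtain ⟨l, hl, c, hc, e⟩ := hL.inner_of_fpf hN h2 hn
    have h4 := s.d2
    rw [e, (A3.comm hl hc).mul_pow, ← mul_one 1] at h4
    have h5 := (A3.uniq hL (pow_mem hl 2) (one_mem _) (pow_mem hc 2) (one_mem _) h4).2
    rw [eq_one (s.odd _ hL) hc (k := 1) h5, mul_one] at e
    exact s.not_mem hL (e ▸ hl)
  obtain ⟨b', h4, hb, h5⟩ := hL.second_fix hN h2 ha h3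
  exact ⟨a', b', h4.symm, h3, h5, hL.sup_eq ha hb h4.symm⟩

theorem count : Nat.card Ω + 4 * {r : Ω | d • r = r}.ncard =
    5 * ({r : Ω | d • r = r}.ncard * {r : Ω | d • r = r}.ncard) := by
  classical
  have := Γ.finite_pts
  have := Fintype.ofFinite Ω
  have h1 := Finset.card_mul_eq_card_mul (s := Finset.univ.filter fun r : Ω => ¬ d • r = r)
    (t := (Finset.univ.filter fun r : Ω => d • r = r).offDiag) (m := 2) (n := 10)
    (fun r z => Γ.pt r ≤ Γ.pt z.1 ⊔ Γ.pt z.2) (fun r hr => ?_) fun z hz => ?_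
  · have h2 := Finset.card_filter_add_card_filter_not (s := Finset.univ) fun r : Ω => d • r = r
    rw [Finset.offDiag_card] at h1
    rw [Set.ncard_eq_toFinset_card', Set.toFinset_ofPred, Nat.card_eq_fintype_card,
      ← Finset.card_univ, ← h2]
    have := Nat.le_mul_self (Finset.univ.filter fun r : Ω => d • r = r).card
    omega
  · replace hr := (Finset.mem_filter.1 hr).2
    obtain ⟨a', b', h1, h2, h3, h4⟩ := s.two_fix hr
    rw [← Finset.card_pair (a := (a', b')) (b := (b', a')) fun e => h1 (congrArg Prod.fst e)]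
    congr 1
    ext ⟨x, y⟩
    simp only [Finset.mem_bipartiteAbove, Finset.mem_offDiag, Finset.mem_filter, Finset.mem_univ,
      true_and, Finset.mem_insert, Finset.mem_singleton, Prod.mk.injEq]
    constructor
    · rintro ⟨⟨h5, h6, h7⟩, h8⟩
      have h9 := (s.h.isLine h7).sup_eq h8 (Γ.smul_le_of_mem_normalizer
        (Γ.mem_normalizer_sup (.inl ⟨h5, h6⟩)) h8) (Ne.symm hr)
      have s' := s.of_fix h1 h2 h3
      rcases s'.fix_line (r := x) (h4 ▸ h9 ▸ le_sup_left) h5 with e | e <;>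
        rcases s'.fix_line (r := y) (h4 ▸ h9 ▸ le_sup_right) h6 with e' | e'
      · exact absurd (e.trans e'.symm) h7
      · exact .inl ⟨e, e'⟩
      · exact .inr ⟨e, e'⟩
      · exact absurd (e.trans e'.symm) h7
    · rintro (⟨rfl, rfl⟩ | ⟨rfl, rfl⟩)
      · exact ⟨⟨h2, h3, h1⟩, h4 ▸ le_sup_left⟩
      · exact ⟨⟨h3, h2, h1.symm⟩, by rw [sup_comm, h4]; exact le_sup_left⟩
  · obtain ⟨x, y⟩ := z
    simp only [Finset.mem_offDiag, Finset.mem_filter, Finset.mem_univ, true_and] at hz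
    obtain ⟨h1, h2, h3⟩ := hz
    have h4 := (s.h.isLine h3).ncard
    have h5 := Set.ncard_diff (s := {x, y}) (t := {r | Γ.pt r ≤ Γ.pt x ⊔ Γ.pt y})
      (by
        rintro _ (rfl | rfl)
        exacts [le_sup_left (b := Γ.pt y), le_sup_right (a := Γ.pt x)])
    rw [h4, Set.ncard_pair h3] at h5
    rw [← Set.ncard_coe_finset, ← show 12 - 2 = 10 from rfl, ← h5]
    congr 1
    ext r
    simp only [Finset.mem_coe, Finset.mem_bipartiteBelow, Finset.mem_filter, Finset.mem_univ,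
      true_and, Set.mem_diff, Set.mem_ofPred_eq, Set.mem_insert_iff, Set.mem_singleton_iff]
    exact ⟨fun e => ⟨e.2, by rintro (rfl | rfl); exacts [e.1 h1, e.1 h2]⟩,
      fun e => ⟨fun e' => e.2 ((s.of_fix h3 h1 h2).fix_line e.1 e'), e.1⟩⟩

theorem trans2 {a' b' : Ω} (h : a' ≠ b') (ha : d • a' = a') (hb : d • b' = b') :
    ∃ g ∈ centralizer ({d} : Set G), g • a = a' ∧ g • b = b' := by
  obtain ⟨g, rfl, rfl⟩ := s.h.two_trans s.ne h
  obtain ⟨m, hm, h1, -⟩ := (s.conj g).cardK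
  obtain ⟨k, hk, e⟩ := conj_inv h1 hm ⟨(s.conj g).da, (s.conj g).db⟩ ⟨ha, hb⟩ (s.conj g).o2 s.o2
  refine ⟨k * g, mem_centralizer_singleton_iff.2 ?_, by rw [mul_smul, hk.1], by rw [mul_smul, hk.2]⟩
  nth_rewrite 2 [← e]
  group

theorem three {g : G} (hr : d • r = r) (h1 : r ≠ a) (h2 : r ≠ b) (ga : g • a = a) (gb : g • b = b)
    (gr : g • r = r) : g = 1 ∨ g = d := by
  have key : ∀ {g : G}, g • a = a → g • b = b → g • r = r → Γ.sc g a = 1 → g = 1 := by
    intro g ga gb gr e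
    by_contra g1
    have hL := s.h.isLine s.ne
    exact (s.fix_line ((s.h.fix_cent hL (hL.F1 le_sup_left le_sup_right s.ne
      ((Γ.sc_eq_one_iff ga).1 e) gb) g1 r).1 gr) hr).elim h1 h2
  have h3 : Γ.sc g a ^ 2 = 1 := by
    by_contra e
    exact (s.h.fix_two s.ne ga gb e gr).elim h1 h2
  have h4 : ∀ k : ZMod 11, k ^ 2 = 1 → k = 1 ∨ k * -1 = 1 := by decide
  refine (h4 _ h3).imp (key ga gb gr) fun e => ?_
  have := key (g := g * d) (by rw [mul_smul, s.da, ga]) (by rw [mul_smul, s.db, gb])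
    (by rw [mul_smul, hr, gr]) (by rw [Γ.sc_mul ga s.da, s.sa, e])
  rw [eq_inv_of_mul_eq_one_left this, U.inv_of_two s.o2]

theorem no_four {t : G} (t2 : orderOf t = 2) (hc : Commute t d) (hne : t ≠ d) (ta : t • a = a) :
    False := by
  have := Γ.finite_pts
  have : Nontrivial Ω := ⟨a, b, s.ne⟩
  obtain ⟨m, hm, h1, -⟩ := s.cardK
  have h2 := (JP.card_pair t2 s.o2 hc hne).trans (card_dvd_of_le (show _ ≤ stabilizer G a from
    sup_le (zpowers_le_of_mem ta) (zpowers_le_of_mem s.da)))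
  rw [(s.h.card_G s.ne).2, h1] at h2
  have h3 := (Nat.Even.sub_odd Nat.card_pos s.h.even odd_one).mul hm
  rw [mul_left_comm, show 4 = 2 * 2 from rfl, Nat.mul_dvd_mul_iff_left two_pos] at h2
  exact h3.not_two_dvd_nat h2

theorem frame : ∃ x τ : G, orderOf x = 5 ∧ Commute x d ∧ Commute τ d ∧ τ • a = b ∧
    (∀ y ∈ zpowers x, (τ * y) ^ 2 = 1) ∧ x • a = a ∧ x • b = b ∧
    ∀ t, t ^ 2 = 1 → Commute t d → t • a = b → τ⁻¹ * t ∈ zpowers x ∨ τ⁻¹ * (t * d) ∈ zpowers x := by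
  have hL := s.h.isLine s.ne
  obtain ⟨x, τ, x0, t0, x5, t2, e1, e2, e3, e4, e5, -, e6⟩ :=
    hL.frame le_sup_left le_sup_right s.ne
  have hN := Γ.mem_normalizer_sup (g := d) (.inl ⟨s.da, s.db⟩)
  have da' : d⁻¹ • a = a := inv_smul_eq_iff.2 s.da.symm
  have db' : d⁻¹ • b = b := inv_smul_eq_iff.2 s.db.symm
  have c1 : Commute x d := by
    have h1 : d * x * d⁻¹ * x⁻¹ ∈ Γ.pt a := by
      have xa : x⁻¹ • a = a := inv_smul_eq_iff.2 e1.symm
      have h2 : (d * x * d⁻¹) • a = a := by rw [mul_smul, mul_smul, da', e1, s.da]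
      refine hL.cent_mem le_sup_left (mul_mem ((mem_normalizer_iff.1 hN x).1 x0) (inv_mem x0))
        ((Γ.sc_eq_one_iff (by rw [mul_smul, xa, h2])).1 ?_)
      have h3 := Γ.sc_conj e1 d
      rw [s.da] at h3
      rw [Γ.sc_mul h2 xa, h3, mul_comm, Γ.sc_inv_mul e1]
    by_contra hn
    refine s.ne (Geo.eq_of_mem_smul h1 (fun e => hn ?_) ?_)
    · rw [mul_inv_eq_one, mul_inv_eq_iff_eq_mul] at e
      exact e.symm
    · rw [mul_smul, mul_smul, mul_smul, inv_smul_eq_iff.2 e2.symm, db', e2, s.db]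
  have sw : ∀ t ∈ Γ.pt a ⊔ Γ.pt b, t • a = b → t • b = a → τ⁻¹ * t ∈ zpowers x := fun t ht h1 h2 =>
    e6 _ (mul_mem (inv_mem t0) ht) (by rw [mul_smul, h1, inv_smul_eq_iff, e3])
      (by rw [mul_smul, h2, inv_smul_eq_iff, e4])
  have c2 : Commute τ d := by
    have h1 := sw _ ((mem_normalizer_iff.1 hN τ).1 t0) (by rw [mul_smul, mul_smul, da', e3, s.db])
      (by rw [mul_smul, mul_smul, db', e4, s.da])
    set y := τ⁻¹ * (d * τ * d⁻¹) with hy
    have h2 : Commute y d := by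
      obtain ⟨k, hk⟩ := h1
      exact hk ▸ c1.zpow_left k
    have h3 : d * τ * d⁻¹ = τ * y := by simp [hy]
    have h4 : y ^ 2 = 1 := by
      have h5 : d * (d * τ * d⁻¹) * d⁻¹ = τ := by
        rw [U.inv_of_two s.o2, ← mul_assoc, ← mul_assoc, U.sq_of_two s.o2, one_mul, mul_assoc,
          U.sq_of_two s.o2, mul_one]
      rw [h3, ← conj_mul, h3, ← h2.eq, mul_inv_cancel_right, mul_assoc, mul_eq_left] at h5
      rw [sq, h5]
    have h5 := orderOf_dvd_of_mem_zpowers h1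
    have h6 := Nat.dvd_gcd (x5 ▸ h5) (orderOf_dvd_of_pow_eq_one h4)
    rw [show Nat.gcd 5 2 = 1 from rfl, Nat.dvd_one, orderOf_eq_one_iff] at h6
    rw [h6, mul_one, mul_inv_eq_iff_eq_mul] at h3
    exact h3.symm
  refine ⟨x, τ, x5, c1, c2, e3, ?_, e1, e2, fun t h1 h2 h3 => ?_⟩
  · rintro _ ⟨k, rfl⟩
    have h2 : τ * x ^ k * τ⁻¹ = (x ^ k)⁻¹ := by rw [← conj_zpow, e5, inv_zpow]
    rw [U.inv_of_two t2] at h2
    change (τ * x ^ k) ^ 2 = 1
    rw [sq, ← mul_assoc, h2, inv_mul_cancel]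
  · have key : ∀ t, t ^ 2 = 1 → t • a = b → Inner (Γ.pt a ⊔ Γ.pt b) t → τ⁻¹ * t ∈ zpowers x := by
      rintro t h1 h3 ⟨l, hl, c, hc, e⟩
      have h4 := h1
      rw [e, (A3.comm hl hc).mul_pow, ← mul_one 1] at h4
      have h5 := (A3.uniq hL (pow_mem hl 2) (one_mem _) (pow_mem hc 2) (one_mem _) h4).2
      rw [eq_one (s.odd _ hL) hc (k := 1) h5, mul_one] at e
      exact sw t (e ▸ hl) h3 (by rw [← h3, ← mul_smul, ← sq, h1, one_smul])
    by_cases e : Inner (Γ.pt a ⊔ Γ.pt b) t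
    · exact .inl (key t h1 h3 e)
    · refine .inr (key _ (by rw [h2.mul_pow, h1, s.d2, mul_one]) (by rw [mul_smul, s.da, h3])
        (hL.inner_mul (Γ.mem_normalizer_sup (.inr ⟨h3, ?_⟩)) hN e
          (hL.not_inner le_sup_left s.da s.sa)))
      rw [← h3, ← mul_smul, ← sq, h1, one_smul]

omit s in
/-- the fixed points -/
def Ps (d : G) (Ω : Type*) [MulAction G Ω] : SubMulAction (centralizer ({d} : Set G)) Ω where
  carrier := {r | d • r = r}
  smul_mem' g r hr := by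
    change d • (g : G) • r = (g : G) • r
    rw [← mul_smul, ← mem_centralizer_singleton_iff.1 g.2, mul_smul, show d • r = r from hr]

theorem twelve (hr : d • r = r) (h1 : r ≠ a) (h2 : r ≠ b) : {r : Ω | d • r = r}.ncard = 12 := by
  have := Γ.finite_pts
  let π := toPermHom (centralizer ({d} : Set G)) (Ps d Ω)
  let ρ := π.rangeRestrict
  have hρ : Function.Surjective ρ := π.rangeRestrict_surjective
  have sm : ∀ g (z w : Ps d Ω), ρ g • z = w ↔ (g : G) • (z : Ω) = w := fun g z w =>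
    Subtype.ext_iff
  let d' : centralizer ({d} : Set G) := ⟨d, mem_centralizer_singleton_iff.2 rfl⟩
  have hd : ρ d' = 1 := Subtype.ext (Equiv.ext fun z => Subtype.ext z.2)
  have ker : ∀ g, ρ g = 1 → (g : G) = 1 ∨ (g : G) = d := fun g e =>
    s.three hr h1 h2 ((sm g ⟨a, s.da⟩ _).1 (by rw [e, one_smul]))
      ((sm g ⟨b, s.db⟩ _).1 (by rw [e, one_smul])) ((sm g ⟨r, hr⟩ _).1 (by rw [e, one_smul]))
  have sq1 : ∀ g, orderOf (ρ g) = 2 → (g : G) ^ 2 = 1 := fun g e =>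
    (ker (g ^ 2) (by rw [map_pow, ← e, pow_orderOf_eq_one])).resolve_right (s.not_sq _)
  change Nat.card (Ps d Ω) = 12
  refine z5 (G := π.range) (is_two_pretransitive_iff.2 fun {x y z w} e e' => ?_)
    (fun g x y z e1 e2 e3 e4 e5 e6 => ?_) (a := ⟨a, s.da⟩) (b := ⟨b, s.db⟩)
    (fun e => s.ne (congrArg Subtype.val e)) ?_ ?_
  · obtain ⟨g, hg, k1, k2⟩ := (s.of_fix (Subtype.coe_ne_coe.2 e) x.2 y.2).trans2
      (Subtype.coe_ne_coe.2 e') z.2 w.2
    exact ⟨ρ ⟨g, hg⟩, (sm _ _ _).2 k1, (sm _ _ _).2 k2⟩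
  · obtain ⟨g, rfl⟩ := hρ g
    rcases (s.of_fix (Subtype.coe_ne_coe.2 e1) x.2 y.2).three z.2 (Subtype.coe_ne_coe.2 e3.symm)
      (Subtype.coe_ne_coe.2 e2.symm) ((sm _ _ _).1 e4) ((sm _ _ _).1 e5) ((sm _ _ _).1 e6) with e | e
    · rw [show g = 1 from Subtype.ext e, map_one]
    · rw [show g = d' from Subtype.ext e, hd]
  · rw [← Nat.not_even_iff_odd, even_iff_two_dvd]
    intro e
    obtain ⟨⟨t, ht⟩, t2⟩ := exists_prime_orderOf_dvd_card' 2 e
    obtain ⟨t, rfl⟩ := hρ t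
    replace t2 : orderOf (ρ t) = 2 := (orderOf_coe _).trans t2
    have t1 : ρ t ≠ 1 := U.ne_one_of_ord t2 (by decide)
    exact s.no_four (orderOf_eq_prime (sq1 t t2) fun e => t1 (by rw [show t = 1 from Subtype.ext e, map_one]))
      (mem_centralizer_singleton_iff.1 t.2) (fun e => t1 (by rw [show t = d' from Subtype.ext e, hd]))
      ((sm _ _ _).1 ht)
  · obtain ⟨x, τ, x5, c1, c2, e1, e2, e3, e4, e5⟩ := s.frame
    have mem : ∀ y : zpowers x, τ * y ∈ centralizer ({d} : Set G) := by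
      rintro ⟨_, k, rfl⟩
      exact mem_centralizer_singleton_iff.2 (c2.mul_left (c1.zpow_left k))
    have e : {t : π.range | orderOf t = 2 ∧ t • (⟨a, s.da⟩ : Ps d Ω) = ⟨b, s.db⟩} =
        Set.range fun y : zpowers x => ρ ⟨τ * y, mem y⟩ := by
      ext t
      constructor
      · rintro ⟨t2, ht⟩
        obtain ⟨t, rfl⟩ := hρ t
        rcases e5 t (sq1 t t2) (mem_centralizer_singleton_iff.1 t.2) ((sm _ _ _).1 ht) with e | e
        · exact ⟨⟨_, e⟩, congrArg ρ (Subtype.ext (by simp))⟩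
        · refine ⟨⟨_, e⟩, ?_⟩
          rw [← mul_one (ρ t), ← hd, ← map_mul]
          exact congrArg ρ (Subtype.ext (by simp [d']))
      · rintro ⟨y, rfl⟩
        have k1 : ρ ⟨τ * y, mem y⟩ • (⟨a, s.da⟩ : Ps d Ω) = ⟨b, s.db⟩ := (sm _ _ _).2 (by
          change (τ * y) • a = b
          rw [mul_smul, show (y : G) • a = a from zpowers_le_of_mem (show x ∈ stabilizer G a from e3) y.2,
            e1])
        refine ⟨orderOf_eq_prime ?_ fun e => s.ne ?_, k1⟩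
        · rw [← map_pow, show (⟨τ * y, mem y⟩ : centralizer ({d} : Set G)) ^ 2 = 1 from
            Subtype.ext (e2 _ y.2), map_one]
        · beta_reduce at e
          rw [e, one_smul] at k1
          exact congrArg Subtype.val k1
    rw [e, Set.ncard_range_of_injective fun y z e => ?_, Nat.card_zpowers, x5]
    rw [← inv_mul_eq_one, ← map_inv, ← map_mul] at e
    have k1 : ((y⁻¹ * z : zpowers x) : G) = 1 ∨ ((y⁻¹ * z : zpowers x) : G) = d := by
      simpa [mul_assoc] using ker _ e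
    rcases k1 with k | k
    · exact inv_mul_eq_one.1 (Subtype.ext k)
    · have := orderOf_dvd_of_mem_zpowers (k ▸ (y⁻¹ * z).2)
      rw [s.o2, x5] at this
      omega

theorem not_twelve (hf : {r : Ω | d • r = r}.ncard = 12) : False := by
  have := Γ.finite_pts
  have hn : Nat.card Ω = 672 := by have := s.count; rw [hf] at this; omega
  have h1 := U.card_orbit (centralizer ({d} : Set G) ⊓ stabilizer G a) b
  have h2 : {r | ∃ h ∈ centralizer ({d} : Set G) ⊓ stabilizer G a, h • b = r} =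
      {r : Ω | d • r = r} \ {a} := by
    ext r
    constructor
    · rintro ⟨g, hg, rfl⟩
      exact ⟨(Ps d Ω).smul_mem ⟨g, hg.1⟩ s.db,
        fun e => s.ne (smul_left_cancel g (hg.2.trans e.symm))⟩
    · rintro ⟨h3, h4⟩
      obtain ⟨g, hg, e1, e2⟩ := s.trans2 (Ne.symm h4) s.da h3
      exact ⟨g, ⟨hg, e1⟩, e2⟩
  rw [h2, Set.ncard_diff_singleton_of_mem (show a ∈ {r : Ω | d • r = r} from s.da), hf] at h1
  have : Fact (Nat.Prime 11) := ⟨by norm_num⟩
  obtain ⟨⟨y, hy⟩, oy⟩ := exists_prime_orderOf_dvd_card' 11 (h1 ▸ dvd_mul_right _ _)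
  replace oy : orderOf y = 11 := (orderOf_coe _).trans oy
  have y1 : Γ.Cent y a := (Γ.sc_eq_one_iff hy.2).1 (by
    have h3 := Γ.sc_pow_eq_one hy.2 (oy ▸ pow_orderOf_eq_one y : y ^ 11 = 1)
    rwa [pow_succ, Γ.sc_pow_ten hy.2, one_mul] at h3)
  have y2 : y ∉ Γ.pt a := fun e => by
    have h3 := Geo.inv_of_sc_neg s.da s.sa e
    rw [← mem_centralizer_singleton_iff.1 hy.1, mul_inv_cancel_right, eq_inv_iff_mul_eq_one, ← sq,
      ← orderOf_dvd_iff_pow_eq_one, oy] at h3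
    omega
  have y3 : zpowers y ≤ centralizer (Γ.pt a : Set G) := zpowers_le_of_mem ((Γ.cent_iff y a).1 y1)
  have p1 : IsPGroup 11 (Γ.pt a) := IsPGroup.of_card (n := 1) (Γ.card a)
  have p2 : IsPGroup 11 (zpowers y) := IsPGroup.of_card (n := 1) (by rw [Nat.card_zpowers, oy]; rfl)
  obtain ⟨k, hk⟩ := (p1.to_sup_of_normal_left' p2
    (y3.trans (centralizer_le_normalizer _))).exists_card_eq
  have h3 : Nat.card (Γ.pt a) < Nat.card ↥(Γ.pt a ⊔ zpowers y) :=
    lt_of_le_of_ne (card_le_of_le le_sup_left) fun e =>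
      y2 (eq_of_le_of_card_ge le_sup_left e.ge ▸ mem_sup_right (mem_zpowers y))
  have h4 := card_dvd_of_le (sup_le (fun z hz => (Γ.cent_iff z a).1 (Γ.cent_of_mem hz)) y3)
  have hL := s.h.isLine s.ne
  rw [Γ.card, hk] at h3
  rw [hk, s.h.card_cent hL a, hn] at h4
  have h5 : 11 ^ 2 ∣ 11 ^ k := pow_dvd_pow 11 (by
    by_contra e
    obtain rfl | rfl : k = 0 ∨ k = 1 := by omega
    all_goals omega)
  have h6 := h5.trans h4
  have := s.h.eleven hn hL
  omega

end St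

end A2

variable {G Ω : Type*} [Group G] [Finite G] [MulAction G Ω] {Γ : Geo G Ω} {L : Subgroup G} {a : Ω}

theorem Geo.HypA.a2 (h : Γ.HypA) (hL : Γ.IsLine L) (hc : Odd (Nat.card (centralizer (L : Set G))))
    {d : G} (hda : d • a = a) (hs : Γ.sc d a = -1) : Nat.card Ω = 12 := by
  obtain ⟨d, b, s⟩ := A2.exists_st h hL hc hda hs
  by_cases e : ∃ r, d • r = r ∧ r ≠ a ∧ r ≠ b
  · obtain ⟨r, h1, h2, h3⟩ := e
    exact (s.not_twelve (s.twelve h1 h2 h3)).elim
  · have h1 : {r : Ω | d • r = r} = {a, b} := by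
      ext r
      refine ⟨fun hr => ?_, by rintro (rfl | rfl); exacts [s.da, s.db]⟩
      by_contra h2
      exact e ⟨r, hr, fun e => h2 (.inl e), fun e => h2 (.inr e)⟩
    have h2 := s.count
    rw [h1, Set.ncard_pair s.ne] at h2
    omega

end Cfsg.Agent.F11
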