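import Cfsg.Agent.F11.Defs
import Cfsg.Agent.Local.Coprime

/-! A transfer lemma for an element whose centraliser has a Sylow subgroup of order `p ^ 2`. -/

set_option autoImplicit false
set_option linter.unusedSectionVars false

namespace Cfsg.Agent.F11.MC
open Subgroup Cfsg.Agent.Local
open scoped Pointwise

universe u
variable {G : Type u} [Group G] [Finite G] {p r : ℕ} [hp : Fact p.Prime]

theorem tr {S : Subgroup G} (hS : ¬ p ∣ S.index) {c : G} (hc : orderOf c = p) (cS : c ∈ S)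
    (ψ : S →* Multiplicative (ZMod p)) (h1 : ψ ⟨c, cS⟩ ≠ 1)
    (key : ∀ g (h : g⁻¹ * c * g ∈ S), ψ ⟨_, h⟩ = ψ ⟨c, cS⟩) :
    ∃ φ : G →* Multiplicative (ZMod p), φ c ≠ 1 := by
  classical
  have k2 : ∀ (k : ℕ) g (h : g⁻¹ * c ^ k * g ∈ S), ψ ⟨_, h⟩ = ψ ⟨c, cS⟩ ^ k := fun k g h => by
    have e : g⁻¹ * c ^ k * g = (g⁻¹ * c * g) ^ k := by simpa using (conj_pow (a := g⁻¹) (b := c) (i := k)).symm
    by_cases hk : p ∣ k
    · have e1 : c ^ k = 1 := orderOf_dvd_iff_pow_eq_one.1 (hc ▸ hk)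
      rw [← map_pow]
      congr 1
      exact Subtype.ext (by simp [e1])
    · have h0 : g⁻¹ * c * g ∈ S := by
        refine zpowers_le.2 (e ▸ h) (mem_zpowers_pow_iff.2 ?_)
        rw [show orderOf (g⁻¹ * c * g) = p by simpa [hc] using (MulAut.conj g⁻¹).orderOf_eq c]
        exact ((Nat.Prime.coprime_iff_not_dvd hp.out).2 hk).symm
      rw [← key g h0, ← map_pow]
      exact congrArg ψ (Subtype.ext e)
  refine ⟨MonoidHom.transfer ψ, fun e => hS ?_⟩
  let := Fintype.ofFinite (Quotient (MulAction.orbitRel (zpowers c) (G ⧸ S)))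
  rw [MonoidHom.transfer_eq_prod_quotient_orbitRel_zpowers_quot, Finset.prod_congr rfl fun q _ => k2 _ _ _,
    Finset.prod_pow_eq_pow_sum, ← index_eq_sum_minimalPeriod S c] at e
  have o : orderOf (ψ ⟨c, cS⟩) = p := orderOf_eq_prime (by
    rw [← map_pow, show (⟨c, cS⟩ : S) ^ p = 1 from Subtype.ext (hc ▸ pow_orderOf_eq_one c), map_one]) h1
  exact o ▸ orderOf_dvd_of_pow_eq_one e

theorem dec {B : Subgroup G} (hB : Nat.card B = p ^ 2) {x y b : G} (hx : x ∈ B) (hy : y ∈ B) (ox : orderOf x = p)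
    (h : y ∉ zpowers x) (hb : b ∈ B) : ∃ i j : ℕ, b = x ^ i * y ^ j := by
  have cm : Commute x y := congrArg Subtype.val
    ((IsPGroup.isMulCommutative_of_card_eq_prime_sq hB).is_comm.comm (⟨x, hx⟩ : B) ⟨y, hy⟩)
  have le : zpowers x ⊔ zpowers y ≤ B := sup_le (zpowers_le.2 hx) (zpowers_le.2 hy)
  have e : zpowers x ⊔ zpowers y = B := by
    refine eq_of_le_of_card_ge le ?_
    obtain ⟨k, hk, e⟩ := (Nat.dvd_prime_pow hp.out).1 (hB ▸ card_dvd_of_le le)
    have l1 : Nat.card (zpowers x) < Nat.card ↥(zpowers x ⊔ zpowers y) := by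
      by_contra! c
      exact h (eq_of_le_of_card_ge le_sup_left c ▸ mem_sup_right (mem_zpowers y))
    rw [Nat.card_zpowers, ox, e] at l1
    rw [hB, e]
    exact Nat.pow_le_pow_right hp.out.pos (by
      by_contra! c
      exact (Nat.pow_le_pow_right hp.out.pos (Nat.lt_succ_iff.1 c)).not_gt (by simpa using l1))
  obtain ⟨_, h1, _, h2, rfl⟩ := (mem_sup_of_right_le_normalizer (N := zpowers x) (A := zpowers y) (zpowers_le.2
    (centralizer_le_normalizer _ fun w ⟨k, hw⟩ => hw ▸ (cm.zpow_left k).eq))).1 (e ▸ hb)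
  obtain ⟨i, rfl⟩ := mem_powers_iff_mem_zpowers.2 h1
  obtain ⟨j, rfl⟩ := mem_powers_iff_mem_zpowers.2 h2
  exact ⟨i, j, rfl⟩

theorem swap {x y : G} (oy : orderOf y = p) (h : x ∈ zpowers y) (h1 : x ≠ 1) : y ∈ zpowers x := by
  obtain ⟨k, rfl⟩ := mem_powers_iff_mem_zpowers.2 h
  exact mem_zpowers_pow_iff.2 (oy ▸ ((Nat.Prime.coprime_iff_not_dvd hp.out).2 fun d =>
    h1 (orderOf_dvd_iff_pow_eq_one.1 (oy ▸ d))).symm)

theorem gen {x y : G} (ox : orderOf x = p) (oy : orderOf y = p) (cm : Commute x y) (h : y ∉ zpowers x) :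
    Nat.card ↥(zpowers x ⊔ zpowers y) = p ^ 2 ∧ ∀ b ∈ zpowers x ⊔ zpowers y, b ^ p = 1 := by
  have n : zpowers y ≤ normalizer (zpowers x : Set G) :=
    zpowers_le.2 (centralizer_le_normalizer _ fun w ⟨k, hw⟩ => hw ▸ (cm.zpow_left k).eq)
  refine ⟨?_, fun b hb => ?_⟩
  · rw [card_sup_of_disjoint n, Nat.card_zpowers, Nat.card_zpowers, ox, oy, sq]
    exact disjoint_def.2 fun {w} h1 h2 => by_contra fun c => h (zpowers_le.2 h1 (swap oy h2 c))
  · obtain ⟨_, ⟨i, rfl⟩, _, ⟨j, rfl⟩, rfl⟩ := (mem_sup_of_right_le_normalizer n).1 hb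
    rw [(cm.zpow_zpow i j).mul_pow, ← zpow_natCast, ← zpow_natCast, ← zpow_mul, ← zpow_mul, mul_comm i, mul_comm j,
      zpow_mul, zpow_mul, zpow_natCast, zpow_natCast, ← ox, pow_orderOf_eq_one, ox, ← oy, pow_orderOf_eq_one]
    simp

theorem fermat {c z a : G} {i j k : ℕ} (cz : Commute c z) (az : Commute a z) (e : a * c * a⁻¹ = c ^ i * z ^ j)
    (ha : a ^ p ^ k = 1) (hc : c ^ p = 1) : c⁻¹ * (a * c * a⁻¹) ∈ zpowers z := by
  have h1 : ∀ n : ℕ, ∃ m : ℕ, a ^ n * c * (a ^ n)⁻¹ = c ^ i ^ n * z ^ m := fun n => by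
    induction n with
    | zero => exact ⟨0, by simp⟩
    | succ n ih =>
      obtain ⟨m, ih⟩ := ih
      refine ⟨j * i ^ n + m, ?_⟩
      calc a ^ (n + 1) * c * (a ^ (n + 1))⁻¹ = a * (a ^ n * c * (a ^ n)⁻¹) * a⁻¹ := by rw [pow_succ']; group
        _ = (a * c * a⁻¹) ^ i ^ n * (a * z ^ m * a⁻¹) := by rw [ih, conj_pow]; group
        _ = _ := by
          rw [e, (az.pow_right m).eq, mul_inv_cancel_right, (cz.pow_pow i j).mul_pow, ← pow_mul, ← pow_mul, pow_succ',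
            pow_add, mul_assoc]
  obtain ⟨m, h2⟩ := h1 (p ^ k)
  have h3 : c ^ i ^ p ^ k = c ^ i := by
    have : i ^ p ^ k ≡ i [MOD p] := (ZMod.natCast_eq_natCast_iff _ _ _).1 (by push_cast; exact ZMod.pow_card_pow _)
    exact pow_eq_pow_iff_modEq.2 (this.of_dvd (orderOf_dvd_of_pow_eq_one hc))
  rw [ha, h3, one_mul, inv_one, mul_one] at h2
  have h4 : c⁻¹ * c ^ i = (z ^ m)⁻¹ := by
    rw [eq_inv_iff_mul_eq_one, mul_assoc, ← h2, inv_mul_cancel]
  rw [e, ← mul_assoc, h4]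
  exact mul_mem (inv_mem (npow_mem_zpowers z m)) (npow_mem_zpowers z j)

structure H (p r : ℕ) (B : Subgroup G) (c σ : G) : Prop where
  hc : orderOf c = p
  cB : c ∈ B
  card : Nat.card B = p ^ 2
  exp : ∀ b ∈ B, b ^ p = 1
  syl : IsSylowIn p B (centralizer {c})
  h2 : ∀ g : G, g * c * g⁻¹ ∈ zpowers c → g * c * g⁻¹ = c
  two : ∀ u ∈ centralizer (B : Set G), ∀ v ∈ centralizer (B : Set G), u ∈ B ∨ v ∈ B ∨ u * v ∈ B
  σc : Commute σ c
  σB : σ ∈ normalizer (B : Set G)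
  σn : σ ∉ centralizer (B : Set G)
  σr : σ ^ r = 1
  case : (p = 3 ∧ r = 2) ∨ (p = 11 ∧ r = 5 ∧ ∀ R : Subgroup G, IsPGroup p R → ¬ p ∣ R.index →
    ∀ t ∈ normalizer (R : Set G), orderOf t ≠ 2)

namespace H
variable {B : Subgroup G} {c σ : G} (h : H p r B c σ)
include h

theorem comm {x y : G} (hx : x ∈ B) (hy : y ∈ B) : Commute x y := congrArg Subtype.val
  ((IsPGroup.isMulCommutative_of_card_eq_prime_sq h.card).is_comm.comm (⟨x, hx⟩ : B) ⟨y, hy⟩)

theorem c1 : c ≠ 1 := fun e => hp.out.ne_one (by rw [← h.hc, e, orderOf_one])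

theorem ord {x : G} (hx : x ∈ B) (h1 : x ≠ 1) : orderOf x = p := orderOf_eq_prime (h.exp x hx) h1

theorem cent {u y : G} (hy : y ∈ B) (h1 : y ∉ zpowers c) (uc : Commute u c) (uy : Commute u y) :
    u ∈ centralizer (B : Set G) := fun b hb => by
  obtain ⟨i, j, rfl⟩ := dec h.card h.cB hy h.hc h1 hb
  exact ((uc.pow_right i).mul_right (uy.pow_right j)).symm.eq

theorem mem {R : Subgroup G} (hR : IsPGroup p R) (le : B ≤ R) {g : G} (hg : g ∈ R) (gc : Commute g c) : g ∈ B :=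
  h.syl.eq_of_le (hR.to_inf_left (K := centralizer {c})) (le_inf le h.syl.le) inf_le_right ▸
    ⟨hg, mem_centralizer_singleton_iff.2 gc⟩

theorem into {R : Subgroup G} (hR : IsPGroup p R) (hc : ∀ x ∈ R, Commute x c) :
    ∃ u, Commute u c ∧ ∀ x ∈ R, u * x * u⁻¹ ∈ B := by
  obtain ⟨n, h1, h2⟩ := h.syl.exists_le_conj hR fun x hx => mem_centralizer_singleton_iff.2 (hc x hx)
  refine ⟨n⁻¹, (Commute.inv_left (mem_centralizer_singleton_iff.1 h1)), fun x hx => ?_⟩
  simpa [mem_pointwise_smul_iff_inv_smul_mem] using h2 hx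

theorem small {R : Subgroup G} (hR : IsPGroup p R) {g : G} (hc : ∀ x ∈ R, Commute x (g * c * g⁻¹)) :
    Nat.card R ≤ Nat.card B := by
  obtain ⟨u, -, hu⟩ := h.into (R := MulAut.conj g⁻¹ • R) (hR.map _) fun x hx => by
    have := hc _ (mem_pointwise_smul_iff_inv_smul_mem.1 hx)
    simpa [mul_assoc] using this.map (MulAut.conj g⁻¹)
  rw [← card_conj_smul (u * g⁻¹) R, ← conj_smul_conj_smul]
  refine card_le_of_le fun x ⟨y, hy, e⟩ => e ▸ hu y hy

theorem fix (hB : ¬ p ∣ B.index) {g : G} (hg : g ∈ normalizer (B : Set G)) : g * c * g⁻¹ = c := by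
  let N := normalizer (B : Set G)
  let _ : MulAction N G := MulAction.compHom G (MulAut.conj.comp N.subtype)
  have sm : ∀ (n : N) (x : G), n • x = n * x * n⁻¹ := fun _ _ => rfl
  have oB : ∀ w : MulAction.orbit N c, w.1 ∈ B := fun ⟨_, n, rfl⟩ => conj_mem_of_mem_normalizer n.2 h.cB
  have oo : ∀ w : MulAction.orbit N c, orderOf w.1 = p := fun ⟨_, n, rfl⟩ => ((MulAut.conj n.1).orderOf_eq c).trans h.hc
  have o2 : ∀ w w' : MulAction.orbit N c, w'.1 ∈ zpowers w.1 → w' = w := fun ⟨_, n, rfl⟩ ⟨_, m, rfl⟩ ⟨k, e⟩ => by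
    have e1 : (n.1⁻¹ * m) * c * (n.1⁻¹ * m)⁻¹ = c ^ k := by
      have e2 : (n.1 * c * n.1⁻¹) ^ k = m.1 * c * m.1⁻¹ := e
      rw [conj_zpow] at e2
      calc _ = n.1⁻¹ * (m.1 * c * m.1⁻¹) * n := by group
        _ = _ := by rw [← e2]; group
    have e3 := h.h2 _ (e1 ▸ zpow_mem_zpowers c k)
    refine Subtype.ext (show m.1 * c * m.1⁻¹ = n.1 * c * n.1⁻¹ from ?_)
    conv_rhs => rw [← e3]
    group
  have idx : Nat.card (MulAction.orbit N c) = (MulAction.stabilizer N c).index := (MulAction.index_stabilizer N c).symm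
  have k1 : Nat.card (MulAction.orbit N c) * (p - 1) ≤ p ^ 2 := by
    have := Nat.card_le_card_of_injective (fun x : MulAction.orbit N c × (ZMod p)ˣ =>
      (⟨x.1.1 ^ x.2.1.val, pow_mem (oB _) _⟩ : B)) fun ⟨w, i⟩ ⟨w', j⟩ e => by
        have e1 : w.1 ^ i.1.val = w'.1 ^ j.1.val := congrArg Subtype.val e
        obtain rfl : w' = w := o2 _ _ (zpowers_le.2 (e1 ▸ npow_mem_zpowers _ _) (mem_zpowers_pow_iff.2
          (oo w' ▸ ZMod.val_coe_unit_coprime j)))
        rw [pow_eq_pow_iff_modEq, oo] at e1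
        exact Prod.ext rfl (Units.ext (by simpa using (ZMod.natCast_eq_natCast_iff _ _ _).2 e1))
    rwa [Nat.card_prod, Nat.card_eq_fintype_card (α := (ZMod p)ˣ), ZMod.card_units, h.card] at this
  have k2 : ¬ p ∣ Nat.card (MulAction.orbit N c) := fun d => hB (d.trans (idx ▸
    (index_dvd_of_le (H := B.subgroupOf N) fun b hb => by
      exact mul_inv_eq_iff_eq_mul.2 (h.comm hb h.cB).eq).trans (relIndex_dvd_index_of_le le_normalizer)))
  have hr : Fact r.Prime := ⟨by rcases h.case with ⟨-, rfl⟩ | ⟨-, rfl, -⟩ <;> norm_num⟩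
  have k3 : Nat.card (MulAction.orbit N c) ≡ 1 [MOD r] := by
    have hσ : IsPGroup r (zpowers (⟨σ, h.σB⟩ : N)) := IsPGroup.of_card (n := 1) (by
      rw [Nat.card_zpowers, pow_one]
      exact orderOf_eq_prime (Subtype.ext h.σr) fun e => h.σn (by rw [show σ = 1 from congrArg Subtype.val e]; exact one_mem _))
    refine (hσ.card_modEq_card_fixedPoints (MulAction.orbit N c)).trans (congrArg (· % r) ?_)
    refine Nat.card_eq_one_iff_exists.2 ⟨⟨⟨c, MulAction.mem_orbit_self c⟩, fun ⟨⟨_, _⟩, k, rfl⟩ => Subtype.ext ?_⟩,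
      fun ⟨w, hw⟩ => Subtype.ext (o2 _ _ ?_)⟩
    · show σ ^ k * c * (σ ^ k)⁻¹ = c
      rw [(h.σc.zpow_left k).eq, mul_inv_cancel_right]
    · by_contra n
      have e : σ * w.1 * σ⁻¹ = w.1 := congrArg Subtype.val (hw ⟨_, mem_zpowers _⟩)
      exact h.σn (h.cent (oB w) n h.σc (mul_inv_eq_iff_eq_mul.1 e))
  have k4 : Nat.card (MulAction.orbit N c) = 1 := by
    rcases h.case with ⟨rfl, rfl⟩ | ⟨rfl, rfl, o⟩
    · unfold Nat.ModEq at k3
      omega
    · have : ¬ 2 ∣ Nat.card (MulAction.orbit N c) := fun d => by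
        obtain ⟨t, t1, t2⟩ := exists_mem_orderOf_eq_of_dvd_card (H := N) Nat.prime_two
          (d.trans (idx ▸ index_dvd_card _))
        exact o B h.syl.isPGroup hB t t1 t2
      unfold Nat.ModEq at k3
      omega
  exact congrArg Subtype.val ((Nat.card_eq_one_iff_unique.1 k4).1.elim
    (⟨_, ⟨g, hg⟩, rfl⟩ : MulAction.orbit N c) ⟨c, MulAction.mem_orbit_self c⟩)

theorem base (hB : ¬ p ∣ B.index) : ∃ φ : G →* Multiplicative (ZMod p), φ c ≠ 1 := by
  obtain ⟨y, y1, y2⟩ : ∃ y ∈ B, y ∉ zpowers c := by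
    by_contra! n
    have := card_le_of_le (show B ≤ zpowers c from n)
    rw [h.card, Nat.card_zpowers, h.hc] at this
    nlinarith [hp.out.two_le]
  have oy := h.ord y1 fun e => y2 (e ▸ one_mem _)
  have : (zpowers (⟨y, y1⟩ : B)).Normal := ⟨fun n hn g => by
    rwa [show g * n = n * g from Subtype.ext (h.comm g.2 n.2), mul_inv_cancel_right]⟩
  have cq : Nat.card (B ⧸ zpowers (⟨y, y1⟩ : B)) = p := by
    have := card_eq_card_quotient_mul_card_subgroup (zpowers (⟨y, y1⟩ : B))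
    rw [h.card, Nat.card_zpowers, orderOf_mk, oy, sq] at this
    exact (Nat.eq_of_mul_eq_mul_right hp.out.pos this).symm
  let e := mulEquivOfPrimeCardEq (G' := Multiplicative (ZMod p)) cq (by simp)
  refine tr hB h.hc h.cB (e.toMonoidHom.comp (QuotientGroup.mk' _)) (fun e1 => y2 ?_) fun g hg => ?_
  · obtain ⟨k, hk⟩ := (QuotientGroup.eq_one_iff _).1 (e.map_eq_one_iff.1 e1)
    exact swap oy ⟨k, congrArg Subtype.val hk⟩ h.c1
  · obtain ⟨u, u1, u2⟩ := h.into (R := MulAut.conj g • B) (h.syl.isPGroup.map _) fun _ ⟨x, hx, e⟩ => by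
      simpa [← e, mul_assoc] using (h.comm hx hg).map (MulAut.conj g)
    have h1 := h.fix hB (inv_mem (mem_normalizer_of_conj_mem (g := u * g) fun x hx => by
      simpa [mul_assoc] using u2 _ (conj_mem_conj_smul g hx)))
    congr 2
    conv_rhs => rw [← h1, mul_inv_rev, mul_inv_rev, inv_inv, inv_inv, mul_assoc g⁻¹, u1.inv_left.eq]
    group

theorem ncen {R : Subgroup G} (hR : IsPGroup p R) (lt : B < R) {g : G} (hc : ∀ x ∈ R, Commute x (g * c * g⁻¹)) :
    False := (h.small hR hc).not_gt (by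
  by_contra! n
  exact lt.ne (eq_of_le_of_card_ge lt.le n))

theorem step {R : Subgroup G} (hR : IsPGroup p R) (lt : B < R) : ∃ z ∈ B, ∃ a ∈ R, z ≠ 1 ∧ (∀ x ∈ R, Commute x z) ∧
    a ∈ normalizer (B : Set G) ∧ a * c * a⁻¹ = c * z := by
  have : Nontrivial R := (nontrivial_iff_ne_bot R).2 (bot_le.trans_lt lt).ne'
  have := hR.center_nontrivial
  obtain ⟨⟨⟨w, wR⟩, w1⟩, w2⟩ := exists_ne (1 : center R)
  have wc : ∀ x ∈ R, Commute x w := fun x hx => congrArg Subtype.val (mem_center_iff.1 w1 ⟨x, hx⟩)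
  have wB := h.mem hR lt.le wR (wc c (lt.le h.cB)).symm
  have w3 : w ∉ zpowers c := fun e => by
    obtain ⟨k, hk⟩ := swap h.hc e fun e => w2 (Subtype.ext (Subtype.ext e))
    exact h.ncen hR lt (g := 1) fun x hx => by simpa [← hk] using (wc x hx).zpow_right k
  obtain ⟨a, a1, a2, a3⟩ := exists_mem_normalizer_of_lt_of_isNilpotent hR.isNilpotent lt
  obtain ⟨i, j, e⟩ := dec h.card h.cB wB h.hc w3 (conj_mem_of_mem_normalizer a2 h.cB)
  obtain ⟨k, hk⟩ := hR ⟨a, a1⟩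
  obtain ⟨n, hn⟩ := fermat (h.comm h.cB wB) (wc a a1) e (congrArg Subtype.val hk) (h.exp c h.cB)
  refine ⟨_, zpow_mem wB n, a, a1, fun e => a3 (h.mem hR lt.le a1 ?_), fun x hx => (wc x hx).zpow_right n, a2,
    by rw [show w ^ n = _ from hn, mul_inv_cancel_left]⟩
  rw [show w ^ n = _ from hn, inv_mul_eq_one] at e
  exact mul_inv_eq_iff_eq_mul.1 e.symm

omit h hp in
theorem itr {c z a : G} (az : Commute a z) (e : a * c * a⁻¹ = c * z) (n : ℕ) : a ^ n * c * (a ^ n)⁻¹ = c * z ^ n := by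
  induction n with
  | zero => simp
  | succ n ih =>
    calc a ^ (n + 1) * c * (a ^ (n + 1))⁻¹ = a * (a ^ n * c * (a ^ n)⁻¹) * a⁻¹ := by rw [pow_succ']; group
      _ = (a * c * a⁻¹) * (a * z ^ n * a⁻¹) := by rw [ih]; group
      _ = _ := by rw [e, (az.pow_right n).eq, mul_inv_cancel_right, pow_succ', mul_assoc]

variable {z a : G} (zB : z ∈ B) (z1 : z ≠ 1) (az : Commute a z) (e : a * c * a⁻¹ = c * z)
include zB z1 az e

theorem pw {w : G} (wB : w ∈ B) (n : w ∉ zpowers z) : ∃ i j : ℕ, a ^ i * c * (a ^ i)⁻¹ = w ^ j := by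
  have oz := h.ord zB z1
  obtain ⟨i, j, e1⟩ := dec h.card zB wB oz n h.cB
  refine ⟨i * (p - 1), j, ?_⟩
  rw [itr az e, e1, ((h.comm zB wB).pow_pow i j).eq, mul_assoc, ← pow_add, ← mul_one_add,
    Nat.add_sub_cancel' hp.out.one_le, mul_comm i, pow_mul, h.exp z zB, one_pow, mul_one]

theorem uniq {R : Subgroup G} (hR : IsPGroup p R) (lt : B < R) {w : G} (wB : w ∈ B) (hw : ∀ x ∈ R, Commute x w) :
    w ∈ zpowers z := by
  by_contra n
  obtain ⟨i, j, e1⟩ := h.pw zB z1 az e wB n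
  exact h.ncen hR lt fun x hx => e1 ▸ (hw x hx).pow_right j

omit zB z1 az e in
theorem uB {x u : G} (hx : x ∈ normalizer (B : Set G)) (hu : u ∈ centralizer (B : Set G)) (h1 : x ^ p ∈ B)
    (h2 : (x * u) ^ p ∈ B) : u ∈ B := by
  by_contra n
  let m := QuotientGroup.mk' (B.subgroupOf (normalizer (B : Set G)))
  have k : ∀ y, m y = 1 ↔ y.1 ∈ B := fun y => QuotientGroup.eq_one_iff y
  have uN := centralizer_le_normalizer _ hu
  have c1 : Commute (m ⟨x, hx⟩) (m ⟨u, uN⟩) := by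
    rw [← commutatorElement_eq_one_iff_commute, ← map_commutatorElement, k]
    refine ((h.two _ (conj_mem_of_mem_normalizer (normalizer_le_normalizer_centralizer _ hx) hu) _
      (inv_mem hu)).resolve_left fun d => n ?_).resolve_left fun d => n (inv_mem_iff.1 d)
    simpa [mul_assoc] using inv_conj_mem_of_mem_normalizer hx d
  have c2 : m ⟨u, uN⟩ ^ p = 1 := by
    have := (k ((⟨x, hx⟩ * ⟨u, uN⟩) ^ p)).2 h2
    rwa [map_pow, map_mul, c1.mul_pow, ← map_pow, (k (⟨x, hx⟩ ^ p)).2 h1, one_mul] at this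
  have c3 : m ⟨u, uN⟩ ^ 2 = 1 := by
    rw [← map_pow, k, sq]
    simpa [n] using h.two u hu u hu
  refine n ((k ⟨u, uN⟩).1 ((pow_eq_one_iff_of_coprime ?_).1 ⟨c2, c3⟩))
  rcases h.case with ⟨rfl, -⟩ | ⟨rfl, -⟩ <;> norm_num

theorem quo {S N : Subgroup G} (hS : IsPGroup p S) (iS : ¬ p ∣ S.index) (lt : B < S) (aS : a ∈ S)
    (aB : a ∈ normalizer (B : Set G)) (hN : N ≤ normalizer (zpowers z : Set G)) (SN : S ≤ N) (σN : σ ∈ N)
    {Q : Type u} [Group Q] [Finite Q] (f : N →* Q) (hf : Function.Surjective f)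
    (ker : ∀ x : N, f x = 1 ↔ x.1 ∈ zpowers z) :
    H p r (zpowers (f ⟨c, SN (lt.le h.cB)⟩) ⊔ zpowers (f ⟨a, SN aS⟩)) (f ⟨c, SN (lt.le h.cB)⟩) (f ⟨σ, σN⟩) := by
  set c' : N := ⟨c, SN (lt.le h.cB)⟩
  set a' : N := ⟨a, SN aS⟩
  have cz := h.comm h.cB zB
  have zc : z ∉ zpowers c := fun d => z1 (by simpa [e] using h.h2 a (e ▸ mul_mem (mem_zpowers c) d))
  have eqv : ∀ x y : N, f x = f y ↔ ∃ k : ℕ, x.1 = y * z ^ k := fun x y => by
    rw [eq_comm, ← inv_mul_eq_one, ← map_inv, ← map_mul, ker, ← mem_powers_iff_mem_zpowers]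
    exact exists_congr fun k => by rw [← inv_mul_eq_iff_eq_mul]; exact eq_comm
  have cm : ∀ x y : N, Commute (f x) (f y) ↔ ∃ k : ℕ, x.1 * y * x.1⁻¹ = y * z ^ k := fun x y => by
    rw [commute_iff_eq, ← mul_inv_eq_iff_eq_mul, ← map_inv, ← map_mul, ← map_mul, eqv]
    rfl
  have W : ∀ x : N, Commute (f x) (f c') → ∃ (k : ℕ) (u : N), Commute u.1 c ∧ x = a' ^ k * u := fun x hx => by
    obtain ⟨k, hk⟩ := (cm x c').1 hx
    refine ⟨k, (a' ^ k)⁻¹ * x, mul_inv_eq_iff_eq_mul.1 ?_, by simp⟩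
    calc (a ^ k)⁻¹ * x * c * ((a ^ k)⁻¹ * x)⁻¹ = (a ^ k)⁻¹ * (x.1 * c * x.1⁻¹) * a ^ k := by group
      _ = c := by rw [hk, ← itr az e]; group
  have K : ∀ u : N, Commute u.1 c → Commute (f u) (f a') → u.1 ∈ centralizer (B : Set G) := fun u uc hu => by
    obtain ⟨k, hk⟩ := (cm u a').1 hu
    refine h.cent zB zc uc (mul_inv_eq_iff_eq_mul.1 (mul_left_cancel (a := c) ?_))
    calc c * (u * z * u.1⁻¹) = (u * a * u.1⁻¹) * (u * c * u.1⁻¹) * (u * a * u.1⁻¹)⁻¹ := by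
          conv_lhs => rw [← mul_inv_eq_iff_eq_mul.2 uc.eq]
          calc _ = u * (c * z) * u.1⁻¹ := by group
            _ = _ := by rw [← e]; group
      _ = a * (z ^ k * c * (z ^ k)⁻¹) * a⁻¹ := by
          rw [show u.1 * a * u.1⁻¹ = a * z ^ k from hk, mul_inv_eq_iff_eq_mul.2 uc.eq]
          group
      _ = c * z := by rw [← (cz.pow_right k).eq, mul_inv_cancel_right, e]
  have fB : ∀ b : N, b.1 ∈ B → f b ∈ zpowers (f c') := fun b hb => by
    obtain ⟨i, j, e1⟩ := dec h.card h.cB zB h.hc zc hb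
    rw [(eqv b (c' ^ i)).2 ⟨j, e1⟩, map_pow]
    exact npow_mem_zpowers _ _
  have apB : a ^ p ∈ B := h.mem hS lt.le (pow_mem aS p)
    (mul_inv_eq_iff_eq_mul.1 (by rw [itr az e, h.exp z zB, mul_one]))
  have anB : a ∉ B := fun d => z1 (by simpa [(h.comm d h.cB).eq] using e.symm)
  have ap : a ^ p ∈ zpowers z := h.uniq zB z1 az e (R := B ⊔ zpowers a) (hS.to_le (sup_le lt.le (zpowers_le.2 aS)))
    (le_sup_left.lt_of_ne fun d => anB (d ▸ mem_sup_right (mem_zpowers a))) apB fun x hx =>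
      mem_centralizer_singleton_iff.1 ((sup_le (fun b hb => mem_centralizer_singleton_iff.2 (h.comm hb apB))
        (zpowers_le.2 (mem_centralizer_singleton_iff.2 (Commute.self_pow a p))) : _ ≤ centralizer {a ^ p}) hx)
  have oc : orderOf (f c') = p := orderOf_eq_prime (by rw [← map_pow, show c' ^ p = 1 from Subtype.ext (h.exp c h.cB), map_one])
    fun d => zc (swap (h.ord zB z1) ((ker _).1 d) h.c1)
  have ac : f a' ∉ zpowers (f c') := fun d => by
    obtain ⟨i, hi⟩ := mem_powers_iff_mem_zpowers.2 d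
    obtain ⟨k, hk⟩ := (eqv a' (c' ^ i)).1 (by rw [map_pow]; exact hi.symm)
    exact anB ((show a = c ^ i * z ^ k from hk) ▸ mul_mem (pow_mem h.cB i) (pow_mem zB k))
  have oa : orderOf (f a') = p := orderOf_eq_prime (by rw [← map_pow, ker]; exact ap) fun d => ac (d ▸ one_mem _)
  have ca : Commute (f a') (f c') := (cm a' c').2 ⟨1, by simpa using e⟩
  obtain ⟨g1, g2⟩ := gen oc oa ca.symm ac
  have mc := mem_sup_left (T := zpowers (f a')) (mem_zpowers (f c'))
  have ma := mem_sup_right (S := zpowers (f c')) (mem_zpowers (f a'))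
  have inB : ∀ (k : ℕ) (u : N), u.1 ∈ B → f (a' ^ k * u) ∈ zpowers (f c') ⊔ zpowers (f a') := fun k u hu => by
    rw [map_mul, map_pow]
    exact mul_mem (pow_mem ma k) (mem_sup_left (fB u hu))
  have kp : IsPGroup p f.ker := fun x => ⟨1, Subtype.ext (Subtype.ext (by
    simpa using h.exp _ (zpowers_le.2 zB ((ker _).1 x.2))))⟩
  refine ⟨oc, mc, g1, g2, isSylowIn_of_maximal (sup_le (zpowers_le.2 (mem_centralizer_singleton_iff.2 rfl))
    (zpowers_le.2 (mem_centralizer_singleton_iff.2 ca))) (IsPGroup.of_card g1) fun R hR le1 le2 =>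
      le_antisymm (fun y hy => ?_) le1, fun g hg => ?_, fun x hx y hy => ?_,
    (cm ⟨σ, σN⟩ c').2 ⟨0, by simpa using mul_inv_eq_iff_eq_mul.2 h.σc.eq⟩, ?_,
    fun d => h.σn (K ⟨σ, σN⟩ h.σc (d _ ma).symm), by rw [← map_pow, show (⟨σ, σN⟩ : N) ^ r = 1 from Subtype.ext h.σr, map_one],
    h.case.imp_right fun ⟨e1, e2, o⟩ => ⟨e1, e2, fun R hR iR t ht t2 => ?_⟩⟩
  · obtain ⟨x, rfl⟩ := hf y
    obtain ⟨k, u, uc, rfl⟩ := W x (mem_centralizer_singleton_iff.1 (le2 hy))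
    have uR : u ∈ R.comap f := by simpa using mul_mem (inv_mem (pow_mem (le1 ma) k)) hy
    refine inB k u (h.syl.le_of_le_normalizer' (Q := zpowers u.1) (((hR.comap_of_ker_isPGroup f kp).map N.subtype).to_le
      (zpowers_le.2 ⟨u, uR, rfl⟩)) (zpowers_le.2 (mem_centralizer_singleton_iff.2 uc))
      (zpowers_le.2 (mem_normalizer_of_conj_mem fun b hb => ?_)) (mem_zpowers _))
    obtain ⟨i, j, rfl⟩ := dec h.card h.cB zB h.hc zc hb
    rw [← mul_assoc, (uc.pow_right i).eq, mul_assoc, mul_assoc, ← mul_assoc u.1]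
    exact mul_mem (pow_mem h.cB i) (zpowers_le.2 zB (conj_mem_of_mem_normalizer (hN u.2) (npow_mem_zpowers z j)))
  · obtain ⟨g, rfl⟩ := hf g
    obtain ⟨i, hi⟩ := mem_powers_iff_mem_zpowers.2 hg
    obtain ⟨k, hk⟩ := (eqv (g * c' * g⁻¹) (c' ^ i)).1 (by simpa using hi.symm)
    have hk' : g.1 * c * g.1⁻¹ = c ^ i * z ^ k := hk
    obtain ⟨m, j, e1⟩ := h.pw zB z1 az e (w := g.1 * c * g.1⁻¹) (hk' ▸ mul_mem (pow_mem h.cB i) (pow_mem zB k))
      fun d => zc (swap (h.ord zB z1) (by simpa [mul_assoc] using inv_conj_mem_of_mem_normalizer (hN g.2) d) h.c1)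
    have e2 : (g.1⁻¹ * a ^ m) * c * (g.1⁻¹ * a ^ m)⁻¹ = c ^ j := by
      calc _ = g.1⁻¹ * (a ^ m * c * (a ^ m)⁻¹) * g := by group
        _ = _ := by rw [e1, conj_pow]; group
    have e3 := h.h2 _ (e2 ▸ npow_mem_zpowers c j)
    rw [← map_inv, ← map_mul, ← map_mul, eqv]
    refine ⟨m, show g.1 * c * g.1⁻¹ = c * z ^ m from ?_⟩
    rw [← itr az e]
    conv_lhs => rw [← e3]
    group
  · obtain ⟨x, rfl⟩ := hf x
    obtain ⟨y, rfl⟩ := hf y
    obtain ⟨k, u, uc, rfl⟩ := W x (hx _ mc).symm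
    obtain ⟨l, v, vc, rfl⟩ := W y (hy _ mc).symm
    have t : ∀ (k : ℕ) (u : N), f a' * f (a' ^ k * u) = f (a' ^ k * u) * f a' → Commute (f u) (f a') := fun k u d => by
      simpa using ((Commute.refl (f a')).pow_left k).inv_left.mul_left (Commute.symm d)
    refine (h.two _ (K u uc (t k u (hx _ ma))) _ (K v vc (t l v (hy _ ma)))).imp (inB k u) (Or.imp (inB l v) fun d => ?_)
    have := inB (k + l) (u * v) d
    simp only [map_mul, map_pow] at this ⊢
    rwa [mul_assoc, ← mul_assoc (f u), ((t k u (hx _ ma)).pow_right l).eq, mul_assoc, ← mul_assoc, ← pow_add]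
  · set s : N := ⟨σ, σN⟩
    have sc : f s * f c' * (f s)⁻¹ = f c' := mul_inv_eq_iff_eq_mul.2
      ((cm s c').2 ⟨0, by simpa using mul_inv_eq_iff_eq_mul.2 h.σc.eq⟩).eq
    obtain ⟨k, u, uc, e1⟩ := W (s * a' * s⁻¹) (by simpa [sc] using ca.map (MulAut.conj (f s)))
    have e2 : σ * a * σ⁻¹ = a ^ k * u := congrArg Subtype.val e1
    have uz : Commute u.1 z := by
      obtain ⟨n, hn⟩ := inv_conj_mem_of_mem_normalizer (hN σN) (mem_zpowers z)
      have t : Commute (σ * a * σ⁻¹) z := by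
        simpa [show z ^ n = _ from hn, mul_assoc] using (az.zpow_right n).map (MulAut.conj σ)
      simpa [e2] using (az.pow_left k).inv_left.mul_left t
    have uB := h.uB (pow_mem aB k) (h.cent zB zc uc uz) (by rw [← pow_mul, mul_comm, pow_mul]; exact pow_mem apB k)
      (by rw [← e2, conj_pow]; exact conj_mem_of_mem_normalizer h.σB apB)
    refine mem_normalizer_of_conj_mem fun y hy => (sup_le (zpowers_le.2 ?_) (zpowers_le.2 ?_) :
      _ ≤ (zpowers (f c') ⊔ zpowers (f a')).comap (MulAut.conj (f s)).toMonoidHom) hy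
    · simpa [sc] using mc
    · simpa [← e1] using inB k u uB
  · obtain ⟨t, rfl⟩ := hf t
    refine o ((R.comap f).map N.subtype) ((hR.comap_of_ker_isPGroup f kp).map _) (fun d => ?_) (t.1 ^ p)
      (pow_mem (mem_normalizer_of_conj_mem fun y hy => ?_) p) (orderOf_eq_prime ?_ fun d => ?_)
    · rw [index_map_subtype, index_comap_of_surjective _ hf] at d
      exact (hp.out.dvd_mul.1 d).elim iR fun d => iS (d.trans (index_dvd_of_le SN))
    · obtain ⟨y, hy, rfl⟩ := hy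
      exact ⟨t * y * t⁻¹, by simpa using conj_mem_of_mem_normalizer ht hy, rfl⟩
    · rw [← pow_mul, mul_comm, pow_mul]
      exact h.exp _ (zpowers_le.2 zB ((ker (t ^ 2)).1 (by rw [map_pow, ← t2, pow_orderOf_eq_one])))
    · have := orderOf_dvd_of_pow_eq_one (show f t ^ p = 1 by rw [← map_pow, show t ^ p = 1 from Subtype.ext d, map_one])
      rw [t2, e1] at this
      norm_num at this

end H

theorem main (n : ℕ) : ∀ {G : Type u} [Group G] [Finite G] {B : Subgroup G} {c σ : G}, Nat.card G = n → H p r B c σ →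
    ∃ φ : G →* Multiplicative (ZMod p), φ c ≠ 1 := by
  induction n using Nat.strong_induction_on with
  | _ n ih =>
  intro G _ _ B c σ hn h
  obtain ⟨S, hS, le⟩ := exists_isSylowIn_ge h.syl.isPGroup (le_top (a := B))
  have iS : ¬ p ∣ S.index := relIndex_top_right S ▸ hS.not_dvd
  rcases le.eq_or_lt with rfl | lt
  · exact h.base iS
  obtain ⟨z, zB, a, aS, z1, zS, aB, e⟩ := h.step hS.isPGroup lt
  have oz := h.ord zB z1
  have nz : ∀ g : G, g * z * g⁻¹ ∈ B → B ≤ MulAut.conj g • S → g ∈ normalizer (zpowers z : Set G) := fun g g1 g2 => by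
    have := h.uniq zB z1 (zS a aS) e (R := MulAut.conj g • S) (hS.isPGroup.map _) (g2.lt_of_ne fun d => lt.ne
      (eq_of_le_of_card_ge le (by rw [d, card_conj_smul]))) g1 fun _ ⟨x, hx, d⟩ => d ▸ (zS x hx).map (MulAut.conj g)
    exact mem_normalizer_of_conj_mem fun _ ⟨k, d⟩ => by
      rw [← d, ← conj_zpow]
      exact zpow_mem this k
  let N := normalizer (zpowers z : Set G)
  have SN : S ≤ N := fun x hx => centralizer_le_normalizer _ fun _ ⟨k, d⟩ => d ▸ ((zS x hx).zpow_right k).symm.eq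
  have σN : σ ∈ N := nz σ (conj_mem_of_mem_normalizer h.σB zB) fun b hb => by
    simpa [mul_assoc] using conj_mem_conj_smul σ (le (inv_conj_mem_of_mem_normalizer h.σB hb))
  let f := QuotientGroup.mk' ((zpowers z).subgroupOf N)
  obtain ⟨φ, hφ⟩ := ih _ (by
    have h1 := card_eq_card_quotient_mul_card_subgroup ((zpowers z).subgroupOf N)
    rw [Nat.card_congr (subgroupOfEquivOfLe le_normalizer).toEquiv, Nat.card_zpowers, oz] at h1
    have h2 : Nat.card N ≤ n := hn ▸ card_le_card_group N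
    nlinarith [hp.out.two_le, Nat.card_pos (α := N ⧸ (zpowers z).subgroupOf N)]) rfl
    (h.quo zB z1 (zS a aS) e hS.isPGroup iS lt aS aB le_rfl SN σN f (QuotientGroup.mk'_surjective _)
      fun x => QuotientGroup.eq_one_iff x)
  refine tr iS h.hc (le h.cB) ((φ.comp f).comp (inclusion SN)) hφ fun g hg => ?_
  obtain ⟨u, u1, u2⟩ := h.into (R := zpowers (g * z * g⁻¹)) (IsPGroup.of_card (n := 1) (by
    simpa [Nat.card_zpowers, oz] using (MulAut.conj g).orderOf_eq z)) fun _ ⟨k, d⟩ => d ▸ Commute.zpow_left (by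
      simpa [mul_assoc] using (zS _ hg).symm.map (MulAut.conj g)) k
  have w1 : u * g * z * (u * g)⁻¹ ∈ B := by simpa [mul_assoc] using u2 _ (mem_zpowers _)
  have e1 : (u * g)⁻¹ * c * (u * g) = g⁻¹ * c * g := by
    rw [mul_inv_rev, mul_assoc g⁻¹, u1.inv_left.eq]
    group
  have cS : c ∈ MulAut.conj (u * g) • S := by
    simpa [mul_assoc] using conj_mem_conj_smul (u * g) (e1 ▸ hg : (u * g)⁻¹ * c * (u * g) ∈ S)
  have hN := nz (u * g) w1 fun b hb => by
    obtain ⟨i, j, rfl⟩ := dec h.card h.cB w1 h.hc (fun d => by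
      obtain ⟨k, hk⟩ := swap h.hc d fun e => z1 (conj_eq_one_iff.1 e)
      refine h.ncen hS.isPGroup lt (g := (u * g)⁻¹) fun x hx => ?_
      rw [← hk]
      simp only [conj_zpow]
      simpa [mul_assoc] using (zS x hx).zpow_right k) hb
    exact mul_mem (pow_mem cS i) (pow_mem (conj_mem_conj_smul _ (le zB)) j)
  show φ (f ⟨_, SN hg⟩) = φ (f ⟨c, SN (le h.cB)⟩)
  rw [show (⟨_, SN hg⟩ : N) = (⟨_, hN⟩ : N)⁻¹ * ⟨c, SN (le h.cB)⟩ * ⟨_, hN⟩ from Subtype.ext e1.symm]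
  simp

end MC

open Subgroup Cfsg.Agent.Local Pointwise in
theorem mc {G : Type*} [Group G] [Finite G] (p : ℕ) [Fact p.Prime] {c z σ : G} (hc : orderOf c = p) (hz : orderOf z = p)
    (hcz : Commute c z) (hzc : z ∉ zpowers c)
    (h1 : ¬ p ^ 3 ∣ Nat.card (centralizer ({c} : Set G)))
    (h2 : ∀ g : G, g * c * g⁻¹ ∈ zpowers c → g * c * g⁻¹ = c)
    (h6 : Nat.card (centralizer ({c, z} : Set G)) ∣ 2 * p ^ 2)
    (hσc : Commute σ c) (hσz : σ * z * σ⁻¹ ∈ zpowers z) (hσz' : ¬ Commute σ z)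
    (hcase : (p = 3 ∧ orderOf σ = 2) ∨ (p = 11 ∧ orderOf σ = 5 ∧
      ∀ S : Sylow p G, z ∈ S → Odd (Nat.card (normalizer ((S : Subgroup G) : Set G))))) :
    ∃ φ : G →* Multiplicative (ZMod p), φ c ≠ 1 := by
  have hp : p.Prime := Fact.out
  obtain ⟨g1, g2⟩ := MC.gen hc hz hcz hzc
  have mc := mem_sup_left (T := zpowers z) (mem_zpowers c)
  have mz := mem_sup_right (S := zpowers c) (mem_zpowers z)
  have le : ∀ x, Commute c x → Commute z x → zpowers c ⊔ zpowers z ≤ centralizer {x} := fun x a b =>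
    sup_le (zpowers_le.2 (mem_centralizer_singleton_iff.2 a)) (zpowers_le.2 (mem_centralizer_singleton_iff.2 b))
  refine MC.main (r := orderOf σ) _ rfl ⟨hc, mc, g1, g2, ⟨le c rfl hcz.symm, .of_card g1, fun d => h1 ?_⟩, h2,
    fun u hu v hv => ?_, hσc, mem_normalizer_of_conj_mem fun y hy => (sup_le (zpowers_le.2 ?_) (zpowers_le.2 ?_) :
      _ ≤ (zpowers c ⊔ zpowers z).comap (MulAut.conj σ).toMonoidHom) hy, fun d => hσz' (d z mz).symm,
    pow_orderOf_eq_one σ, hcase.imp_right fun ⟨e1, e2, o⟩ => ⟨e1, e2, fun R hR iR t ht t2 => ?_⟩⟩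
  · rw [← card_mul_relIndex (le c rfl hcz.symm), g1, pow_succ]
    exact mul_dvd_mul_left _ d
  · have l2 : zpowers c ⊔ zpowers z ≤ centralizer {c, z} := fun b hb x hx => by
      rcases hx with rfl | rfl
      exacts [(mem_centralizer_singleton_iff.1 (le x rfl hcz.symm hb)).symm,
        (mem_centralizer_singleton_iff.1 (le x hcz rfl hb)).symm]
    have l3 : centralizer ((zpowers c ⊔ zpowers z : Subgroup G) : Set G) ≤ centralizer {c, z} :=
      centralizer_le fun x hx => by rcases hx with rfl | rfl <;> assumption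
    rw [← card_mul_relIndex l2, g1, mul_comm, Nat.mul_dvd_mul_iff_right (pow_pos hp.pos 2)] at h6
    rcases (Nat.dvd_prime Nat.prime_two).1 h6 with d | d
    · exact .inl (relIndex_eq_one.1 d (l3 hu))
    · have := mul_mem_iff_of_index_two d (a := ⟨u, l3 hu⟩) (b := ⟨v, l3 hv⟩)
      simp only [mem_subgroupOf, coe_mul] at this
      tauto
  · simpa [mul_inv_eq_iff_eq_mul.2 hσc.eq] using mc
  · exact mem_sup_right hσz
  · obtain ⟨S, hS⟩ := (IsPGroup.of_card (n := 1) (by simpa using hz) : IsPGroup p (zpowers z)).exists_le_sylow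
    obtain ⟨g, hg⟩ := MulAction.exists_smul_eq G S (hR.toSylow iR)
    have o1 := o S (hS (mem_zpowers z))
    rw [← card_conj_smul g, ← normalizer_conj_smul, show MulAut.conj g • (S : Subgroup G) = R from
      congrArg Sylow.toSubgroup hg] at o1
    exact o1.not_two_dvd_nat (t2 ▸ orderOf_dvd_card_of_mem ht)

end Cfsg.Agent.F11
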