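import Cfsg.Agent.F11.Util
import Cfsg.Agent.Zass.Main
import Cfsg.Agent.PSL2Rec.Card

/-! Doubly transitive groups with odd point stabiliser and five involutions swapping two points. -/

set_option autoImplicit false

namespace Cfsg.Agent.F11

open Subgroup MulAction Cfsg.Agent.Char Cfsg.Agent.Zass

universe u

namespace Z5

variable {G : Type*} [Group G] [Finite G] {Ψ : Type*} [MulAction G Ψ]

omit [Finite G] in
theorem mem_of_trans {N : Subgroup G} [N.Normal] (hN : IsPretransitive N Ψ) {a : Ψ}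
    (hodd : Odd (Nat.card (stabilizer G a))) {t : G} (ht : orderOf t = 2) : t ∈ N := by
  have hs : Function.Surjective ((QuotientGroup.mk' N).comp (stabilizer G a).subtype) := by
    intro q
    obtain ⟨g, rfl⟩ := QuotientGroup.mk'_surjective N q
    obtain ⟨n, hn⟩ := hN.exists_smul_eq a (g⁻¹ • a)
    refine ⟨⟨g * n, ?_⟩, ?_⟩
    · rw [mem_stabilizer_iff, mul_smul]
      have : (n : G) • a = g⁻¹ • a := hn
      rw [this, smul_inv_smul]
    · simp
  have h1 := card_dvd_of_surjective _ hs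
  have h2 : orderOf (QuotientGroup.mk' N t) ∣ 2 := ht ▸ orderOf_map_dvd _ t
  have h3 := (orderOf_dvd_natCard (QuotientGroup.mk' N t)).trans h1
  have h4 : orderOf (QuotientGroup.mk' N t) = 1 :=
    Nat.eq_one_of_dvd_coprimes (Nat.coprime_two_left.2 hodd) h2 h3
  exact (QuotientGroup.eq_one_iff t).1 (orderOf_eq_one_iff.1 h4)

theorem simple [Finite Ψ] (hZ : IsZassenhausGroup G Ψ) [IsSimpleGroup G] {a b : Ψ} (hab : a ≠ b)
    (hodd : Odd (Nat.card (stabilizer G a)))
    (h5 : {t : G | orderOf t = 2 ∧ t • a = b}.ncard = 5) : Nat.card Ψ = 12 := by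
  have := Fintype.ofFinite G
  have := hZ.1
  obtain ⟨K, hK⟩ := exists_isZKernel hZ.2.1 hZ.2.2.1 hab
  obtain ⟨D, rfl, rfl, -, -⟩ := exists_data_of_odd hZ hab hK
    (hodd.of_dvd_nat (card_dvd_of_le inf_le_left))
  have hKo : Odd (Nat.card D.K) :=
    hodd.of_dvd_nat (card_dvd_of_le fun k hk => mem_stabilizer_iff.2 (D.Ka hk))
  have hH : Nat.card D.H = 5 := by
    rw [← h5, ← U.ncard_coe,
      ← Set.ncard_image_of_injective _ (mul_right_injective D.t)]
    congr 1
    ext t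
    constructor
    · rintro ⟨h, hh, rfl⟩
      have e : (D.t * h) • D.a = D.b := by rw [mul_smul, D.Ha hh, D.ta]
      refine ⟨U.two_of_sq (D.t_mul_sq hh) fun e1 => hab ?_, e⟩
      rw [← e]
      simp only at e1
      rw [e1, one_smul]
    · rintro ⟨h1, h2⟩
      refine ⟨D.t * t, D.t_mul_mem h2 ?_, by simp only [← mul_assoc, D.tt, one_mul]⟩
      rw [← h2, ← mul_smul, U.sq_of_two h1, one_smul]
  have := D.isNilpotent
  rw [← D.hK.card]
  rcases D.classify with ⟨F, _, _, h1, ⟨e⟩⟩ | ⟨k, hk, h1, -⟩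
  · have h2 := PSL2Rec.card_psl2 (F := F)
    rw [← Nat.card_congr e.toEquiv, D.card_G, hH, h1] at h2
    obtain ⟨m, hm⟩ := hKo
    have hg : Nat.gcd 2 (Nat.card D.K - 1) = 2 := Nat.gcd_eq_left (by omega)
    rw [hg, hm] at h2
    simp only [Nat.add_sub_cancel] at h2
    have : (2 * m + 1) * (2 * m + 1 + 1) * m = (2 * m + 1) * (2 * m + 1 + 1) * 5 := by nlinarith
    have := Nat.eq_of_mul_eq_mul_left (by positivity) this
    omega
  · rw [h1, ← pow_mul, Nat.odd_pow_iff (by omega)] at hKo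
    exact absurd hKo (by decide)

end Z5

theorem Z5.aux (n : ℕ) : ∀ (G : Type u) [Group G] [Finite G] {Ψ : Type*} [MulAction G Ψ] [Finite Ψ]
    [FaithfulSMul G Ψ] (_ : MulAction.IsMultiplyPretransitive G Ψ 2)
    (_ : ∀ g : G, ∀ a b c : Ψ, a ≠ b → b ≠ c → a ≠ c → g • a = a → g • b = b → g • c = c → g = 1)
    {a b : Ψ} (_ : a ≠ b) (_ : Odd (Nat.card (MulAction.stabilizer G a)))
    (_ : {t : G | orderOf t = 2 ∧ t • a = b}.ncard = 5), Nat.card G = n → Nat.card Ψ = 12 := by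
  induction n using Nat.strong_induction_on with
  | _ n ih =>
  intro G _ _ Ψ _ _ _ h2 h3 a b hab hodd h5 hn
  obtain ⟨s, ⟨hs, hsa⟩, t, ⟨ht, hta⟩, hst⟩ := (Set.one_lt_ncard (Set.toFinite _)).1
    (by rw [h5]; norm_num : 1 < {t : G | orderOf t = 2 ∧ t • a = b}.ncard)
  have hsb : s • b = a := by rw [← hsa, ← mul_smul, U.sq_of_two hs, one_smul]
  have htb : t • b = a := by rw [← hta, ← mul_smul, U.sq_of_two ht, one_smul]
  have hne : s * t ≠ 1 := fun e => hst (by
    rw [← U.inv_of_two ht]; exact eq_inv_of_mul_eq_one_left e)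
  have hZ : IsZassenhausGroup G Ψ := by
    refine ⟨inferInstance, h2, h3, ⟨s * t, hne, a, b, hab, by rw [mul_smul, hta, hsb],
      by rw [mul_smul, htb, hsa]⟩, fun N _ hN => ⟨a, fun hb => hne ?_⟩⟩
    have h1 : (⟨s * t, N.mul_mem (Z5.mem_of_trans hN hodd hs) (Z5.mem_of_trans hN hodd ht)⟩ : N) ∈
        stabilizer N a := by
      rw [mem_stabilizer_iff]
      show (s * t) • a = a
      rw [mul_smul, hta, hsb]
    rw [hb, mem_bot] at h1
    exact congrArg Subtype.val h1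
  by_cases hS : IsSimpleGroup G
  · exact Z5.simple hZ hab hodd h5
  have : Nontrivial G := ⟨⟨_, _, hne⟩⟩
  obtain ⟨N, hN, hb, htop⟩ : ∃ N : Subgroup G, N.Normal ∧ N ≠ ⊥ ∧ N ≠ ⊤ := by
    by_contra hc
    push Not at hc
    exact hS ⟨fun N hN => or_iff_not_imp_left.2 (hc N hN)⟩
  have hZN := zass_normal hZ N hb
  have := hZN.2.1
  have hT : IsPretransitive N Ψ := isPretransitive_of_is_two_pretransitive
  refine ih (Nat.card N) ?_ N hZN.2.1 hZN.2.2.1 hab ?_ ?_ rfl
  · rw [← hn]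
    exact lt_of_le_of_ne (card_le_card_group N) fun e => htop (eq_top_of_card_eq N e)
  · refine hodd.of_dvd_nat ?_
    have e : stabilizer N a = (stabilizer G a).subgroupOf N := by ext x; rfl
    rw [e, ← inf_subgroupOf_right, Nat.card_congr (subgroupOfEquivOfLe inf_le_right).toEquiv]
    exact card_dvd_of_le inf_le_left
  · rw [← h5, ← Set.ncard_image_of_injective _ Subtype.val_injective]
    congr 1
    ext u
    constructor
    · rintro ⟨x, ⟨h1, h4⟩, rfl⟩
      exact ⟨by rw [orderOf_coe, h1], h4⟩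
    · rintro ⟨h1, h4⟩
      exact ⟨⟨u, Z5.mem_of_trans hT hodd h1⟩, ⟨by rw [← orderOf_coe]; exact h1, h4⟩, rfl⟩

theorem z5 {G : Type*} [Group G] [Finite G] {Ψ : Type*} [MulAction G Ψ] [Finite Ψ]
    [FaithfulSMul G Ψ] (h2 : MulAction.IsMultiplyPretransitive G Ψ 2)
    (h3 : ∀ g : G, ∀ a b c : Ψ, a ≠ b → b ≠ c → a ≠ c → g • a = a → g • b = b → g • c = c → g = 1)
    {a b : Ψ} (hab : a ≠ b) (hodd : Odd (Nat.card (MulAction.stabilizer G a)))
    (h5 : {t : G | orderOf t = 2 ∧ t • a = b}.ncard = 5) : Nat.card Ψ = 12 :=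
  Z5.aux _ G h2 h3 hab hodd h5 rfl

end Cfsg.Agent.F11
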