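import Cfsg.Agent.F11.ABase
import Cfsg.Agent.F11.Z5
import Cfsg.Agent.F11.MC
import Cfsg.Agent.FT.Final

/-! Case A3: `C(L)` has odd order and no element inverts a point. -/

set_option autoImplicit false

namespace Cfsg.Agent.F11

open Subgroup MulAction

namespace A3

variable {G : Type*} [Group G] [Finite G]

theorem transfer_single {H : Subgroup G} {A : Type*} [CommGroup A] (ϕ : H →* A) {g : G}
    (hg : g ∈ H) (h : ∀ x ∉ H, ∀ k : ℕ, x⁻¹ * g ^ k * x ∈ H → g ^ k = 1) :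
    MonoidHom.transfer ϕ g = ϕ ⟨g, hg⟩ := by
  classical
  have := Fintype.ofFinite (Quotient (orbitRel (zpowers g) (G ⧸ H)))
  have h1 : ∀ z : zpowers g, z • ((1 : G) : G ⧸ H) = (1 : G) := fun z =>
    QuotientGroup.eq.2 (by simpa using zpowers_le_of_mem hg z.2)
  rw [MonoidHom.transfer_eq_prod_quotient_orbitRel_zpowers_quot,
    Finset.prod_eq_single (Quotient.mk _ ((1 : G) : G ⧸ H)) (fun q _ hq => ?_) (by simp)]
  · set q : Quotient (orbitRel (zpowers g) (G ⧸ H)) := Quotient.mk _ ((1 : G) : G ⧸ H)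
    obtain ⟨z, hz⟩ : q.out ∈ orbit (zpowers g) ((1 : G) : G ⧸ H) := Quotient.exact q.out_eq
    have h2 : q.out = (1 : G) := hz.symm.trans (h1 z)
    have h3 : q.out.out ∈ H := by
      have := QuotientGroup.eq.1 ((QuotientGroup.out_eq' q.out).trans h2)
      simpa using this
    have h4 : Function.minimalPeriod (g • ·) q.out = 1 := by
      rw [Function.minimalPeriod_eq_one_iff_isFixedPt, h2]
      exact h1 ⟨g, mem_zpowers g⟩
    have h5 : ϕ ⟨g, hg⟩ = ϕ (⟨_, h3⟩⁻¹ * ⟨g, hg⟩ * ⟨_, h3⟩) := by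
      simp only [map_mul, map_inv, inv_mul_cancel_comm]
    rw [h5]
    congr 1
    exact Subtype.ext (by simp [h4])
  · have h2 : q.out.out ∉ H := fun e => hq (by
      rw [← q.out_eq, ← QuotientGroup.out_eq' q.out]
      congr 1
      exact QuotientGroup.eq.2 (by simpa using e))
    rw [← map_one ϕ]
    congr 1
    exact Subtype.ext (by simp [h _ h2 _ (QuotientGroup.out_conj_pow_minimalPeriod_mem H g q.out)])

theorem comm_of_sq {u c : G} (hu : Odd (orderOf u)) (h : Commute (u ^ 2) c) : Commute u c := by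
  obtain ⟨k, hk⟩ := hu
  have : u = (u ^ 2) ^ (k + 1) := by
    rw [← pow_mul, show 2 * (k + 1) = orderOf u + 1 by omega, pow_succ, pow_orderOf_eq_one, one_mul]
  rw [this]
  exact h.pow_left _

theorem not_inv {u c : G} (hu : Odd (orderOf u)) (hc : Odd (orderOf c)) (h : u * c * u⁻¹ = c⁻¹) :
    c = 1 := by
  have h1 : Commute u c := comm_of_sq hu (by
    have : u * (u * c * u⁻¹) * u⁻¹ = c := by rw [h, ← conj_inv, h, inv_inv]
    rw [Commute, SemiconjBy, ← this]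
    nth_rewrite 1 [this]
    simp [sq, mul_assoc])
  rw [h1.eq, mul_inv_cancel_right, eq_inv_iff_mul_eq_one, ← sq, ← orderOf_dvd_iff_pow_eq_one] at h
  exact orderOf_eq_one_iff.1 (Nat.Coprime.eq_one_of_dvd hc.coprime_two_right h)

variable {Ω : Type*} [MulAction G Ω] {Γ : Geo G Ω} {L : Subgroup G}

theorem uniq (hL : Γ.IsLine L) {l l' c c' : G} (hl : l ∈ L) (hl' : l' ∈ L)
    (hc : c ∈ centralizer (L : Set G)) (hc' : c' ∈ centralizer (L : Set G)) (e : l * c = l' * c') :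
    l = l' ∧ c = c' := by
  have h1 : l'⁻¹ * l = c' * c⁻¹ := by rw [inv_mul_eq_iff_eq_mul, ← mul_assoc, ← e]; simp
  have h2 := hL.inf_cent (mul_mem (inv_mem hl') hl) (h1 ▸ mul_mem hc' (inv_mem hc))
  rw [inv_mul_eq_one] at h2
  subst h2
  exact ⟨rfl, mul_left_cancel e⟩

omit [Finite G] in
theorem comm {l c : G} (hl : l ∈ L) (hc : c ∈ centralizer (L : Set G)) : Commute l c := hc l hl

theorem card_eq_mul (hL : Γ.IsLine L) {X Y H : Subgroup G} (hX : X ≤ L)
    (hY : Y ≤ centralizer (L : Set G)) (h : ∀ g, g ∈ H ↔ ∃ l ∈ X, ∃ c ∈ Y, g = l * c) :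
    Nat.card H = Nat.card X * Nat.card Y := by
  rw [← Nat.card_prod]
  refine (Nat.card_eq_of_bijective (fun z : X × Y => (⟨z.1 * z.2, (h _).2 ⟨_, z.1.2, _, z.2.2, rfl⟩⟩ : H))
    ⟨fun z w e => ?_, fun g => ?_⟩).symm
  · have := uniq hL (hX z.1.2) (hX w.1.2) (hY z.2.2) (hY w.2.2) (congrArg Subtype.val e)
    exact Prod.ext (Subtype.ext this.1) (Subtype.ext this.2)
  · obtain ⟨l, hl, c, hc, e⟩ := (h g).1 g.2
    exact ⟨(⟨l, hl⟩, ⟨c, hc⟩), Subtype.ext e.symm⟩

theorem card_dvd (hL : Γ.IsLine L) {X D : Subgroup G} (hX : X ≤ L)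
    (h : ∀ d ∈ D, ∃ l ∈ X, ∃ c ∈ centralizer (L : Set G), d = l * c)
    (h1 : ∀ d ∈ D, d ∈ centralizer (L : Set G) → d = 1) : Nat.card D ∣ Nat.card X := by
  choose f hf c hc e using h
  let F : D →* X := MonoidHom.mk' (fun d => ⟨f d d.2, hf d d.2⟩) fun a b => Subtype.ext (by
    refine (uniq hL (hX (hf _ (a * b).2)) (hX (mul_mem (hf _ a.2) (hf _ b.2))) (hc _ (a * b).2)
      (mul_mem (hc _ a.2) (hc _ b.2)) ?_).1
    rw [← e _ (a * b).2, ← (comm (hX (hf _ b.2)) (hc _ a.2)).symm.mul_mul_mul_comm, ← e _ a.2,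
      ← e _ b.2]
    rfl)
  refine card_dvd_of_injective F ((injective_iff_map_eq_one F).2 fun d hd => Subtype.ext ?_)
  have h2 : f d d.2 = 1 := congrArg Subtype.val hd
  have h3 := e d d.2
  rw [h2, one_mul] at h3
  exact h1 d d.2 (h3 ▸ hc d d.2)

theorem no_hom (h : Γ.HypA) (hL : Γ.IsLine L) {A : Type*} [CommGroup A] (φ : G →* A) (c : G) :
    φ c = 1 := by
  obtain ⟨a, b, hab, ha, hb⟩ := hL.exists_two
  have : Nontrivial Ω := ⟨a, b, hab⟩
  have := h.faith.simple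
  obtain ⟨x, τ, -, -, x5, -, -, -, -, -, e, -⟩ := hL.frame ha hb hab
  rcases φ.normal_ker.eq_bot_or_eq_top with k | k
  · have h1 : φ (x ^ 2) = 1 := by
      have := congrArg φ e
      rw [map_mul, map_mul, map_inv, mul_inv_cancel_comm, map_inv, eq_inv_iff_mul_eq_one] at this
      rw [sq, map_mul, this]
    rw [← MonoidHom.mem_ker, k, mem_bot, ← orderOf_dvd_iff_pow_eq_one, x5] at h1
    omega
  · rw [← MonoidHom.mem_ker, k]; trivial

theorem card_cent (h : Γ.HypA) (hL : Γ.IsLine L) {L' : Subgroup G} (hL' : Γ.IsLine L') :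
    Nat.card (centralizer (L' : Set G)) = Nat.card (centralizer (L : Set G)) := by
  obtain ⟨g, rfl⟩ := h.line_conj hL hL'
  rw [← card_map_of_injective (K := centralizer (L : Set G))
    (f := (MulAut.conj g).toMonoidHom) (MulAut.conj g).injective]
  congr 2
  ext z
  rw [U.mem_map_conj, mem_centralizer_iff, mem_centralizer_iff]
  constructor
  · intro e y hy
    have := e (g * y * g⁻¹) (U.mem_map_conj.2 (by simpa [mul_assoc] using hy))
    have := congrArg (fun t => g⁻¹ * t * g) this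
    simpa [mul_assoc] using this
  · intro e y hy
    have := e _ (U.mem_map_conj.1 hy)
    have := congrArg (fun t => g * t * g⁻¹) this
    simpa [mul_assoc] using this

section
variable (h : Γ.HypA) (hs : ∀ (d : G) (a : Ω), d • a = a → Γ.sc d a ≠ -1)
include h hs

omit h in
theorem inner (hL : Γ.IsLine L) {g : G} (hg : g ∈ normalizer (L : Set G)) : Inner L g := by
  obtain ⟨a, b, hab, ha, hb⟩ := hL.exists_two
  exact ((hL.card_stab ha hb hab).2.2 fun ⟨d, h1, _, h2⟩ => hs d a h1 h2).2 g hg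

theorem odd_stab (hL : Γ.IsLine L) (hc : Odd (Nat.card (centralizer (L : Set G)))) (a : Ω) :
    Odd (Nat.card (stabilizer G a)) := by
  obtain ⟨b, hb, -⟩ := hL.exists_ne a
  have : Nontrivial Ω := ⟨b, a, hb⟩
  have := Γ.finite_pts
  have hL' := h.isLine hb.symm
  rw [(h.card_G hb.symm).2, ((hL'.card_stab le_sup_left le_sup_right hb.symm).2.2
    fun ⟨d, h1, _, h2⟩ => hs d a h1 h2).1, card_cent h hL hL']
  exact (Nat.Even.sub_odd Nat.card_pos h.even odd_one).mul ((by decide : Odd 5).mul hc)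

theorem triv (hL : Γ.IsLine L) (hc : Nat.card (centralizer (L : Set G)) = 1) :
    Nat.card Ω = 12 := by
  have := Γ.finite_pts
  have : FaithfulSMul G Ω := ⟨fun {g k} e => by
    rw [← inv_mul_eq_one]
    exact h.faith _ fun a => by rw [mul_smul, ← e, inv_smul_smul]⟩
  have key : ∀ {a b : Ω} {x : G}, a ≠ b → orderOf x = 5 → x • a = a → x • b = b →
      ∀ g : G, g • a = a → g • b = b → g ∈ zpowers x := by
    intro a b x hab x5 h1 h2 g h3 h4
    have hL' := h.isLine hab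
    have h5 := ((hL'.card_stab le_sup_left le_sup_right hab).2.2
      fun ⟨d, h1, _, h2⟩ => hs d a h1 h2).1
    rw [card_cent h hL hL', hc] at h5
    rw [eq_of_le_of_card_ge (zpowers_le_of_mem (show x ∈ stabilizer G a ⊓ stabilizer G b from ⟨h1, h2⟩))
      (by rw [Nat.card_zpowers, x5, h5])]
    exact ⟨h3, h4⟩
  obtain ⟨a, b, hab, ha, hb⟩ := hL.exists_two
  refine z5 (G := G) (is_two_pretransitive_iff.2 fun h1 h2 => h.two_trans h1 h2)
    (fun g a b r h1 h2 h3 h4 h5 h6 => ?_) hab (odd_stab h hs hL (hc ▸ odd_one) a) ?_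
  · obtain ⟨x, τ, -, -, x5, -, e1, e2, -⟩ := (h.isLine h1).frame le_sup_left le_sup_right h1
    have h7 := orderOf_dvd_of_mem_zpowers (key h1 x5 e1 e2 g h4 h5)
    by_cases h8 : Γ.sc g a = 1
    · have := (h.isLine h1).F1 le_sup_left le_sup_right h1 ((Γ.sc_eq_one_iff h4).1 h8) h5
      rwa [card_eq_one.1 ((card_cent h hL (h.isLine h1)).trans hc), mem_bot] at this
    · have h9 : Γ.sc g a ^ 2 ≠ 1 := by
        have := hs g a h4
        revert this h8
        generalize Γ.sc g a = k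
        revert k
        decide
      rcases h.fix_two h1 h4 h5 h9 h6 with e | e
      exacts [absurd e.symm h3, absurd e.symm h2]
  · obtain ⟨x, τ, -, -, x5, t2, e1, e2, e3, e4, e5, -⟩ := hL.frame ha hb hab
    have e : {t : G | orderOf t = 2 ∧ t • a = b} = (τ * ·) '' (zpowers x : Set G) := by
      ext t
      constructor
      · rintro ⟨h1, h2⟩
        refine ⟨τ⁻¹ * t, key hab x5 e1 e2 _ ?_ ?_, by simp⟩
        · rw [mul_smul, h2, inv_smul_eq_iff, e3]
        · rw [mul_smul, inv_smul_eq_iff, e4, ← h2, ← mul_smul, U.sq_of_two h1, one_smul]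
      · rintro ⟨_, ⟨k, rfl⟩, rfl⟩
        have h1 : (τ * x ^ k) • a = b := by
          rw [mul_smul, show x ^ k • a = a from zpow_mem (show x ∈ stabilizer G a from e1) k, e3]
        refine ⟨U.two_of_sq ?_ fun e : τ * x ^ k = 1 => hab (by rw [← h1, e, one_smul]), h1⟩
        have h2 : τ * x ^ k * τ⁻¹ = (x ^ k)⁻¹ := by rw [← conj_zpow, e5, inv_zpow]
        rw [U.inv_of_two t2] at h2
        rw [← mul_assoc, h2, inv_mul_cancel]
    rw [e, Set.ncard_image_of_injective _ (mul_right_injective τ), U.ncard_coe, Nat.card_zpowers, x5]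

theorem unfused (hL : Γ.IsLine L) (hc : Odd (Nat.card (centralizer (L : Set G))))
    (h1 : Nat.card (centralizer (L : Set G)) ≠ 1) : ∃ L', Γ.IsLine L' ∧ L' ≠ L ∧
      ∃ w ∈ centralizer (L : Set G), w ≠ 1 ∧ w ∈ normalizer (L' : Set G) := by
  by_contra hn
  push Not at hn
  set M := normalizer (L : Set G)
  have hM : Nat.card M = 660 * Nat.card (centralizer (L : Set G)) := by
    rw [← hL.1.1]
    exact card_eq_mul hL le_rfl le_rfl fun g => ⟨inner hs hL, Inner.mem_norm⟩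
  have hQ : Nat.card (M ⧸ L.subgroupOf M) = Nat.card (centralizer (L : Set G)) := by
    have := card_eq_card_quotient_mul_card_subgroup (L.subgroupOf M)
    rw [Nat.card_congr (subgroupOfEquivOfLe (le_normalizer (H := L))).toEquiv, hL.1.1, hM] at this
    omega
  have := FT.oddOrder (M ⧸ L.subgroupOf M) (hQ ▸ hc)
  have : Nontrivial (M ⧸ L.subgroupOf M) :=
    Finite.one_lt_card_iff_nontrivial.1 (by have := hc.pos; omega)
  obtain ⟨m, -, hm⟩ := SetLike.exists_of_lt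
    (IsSolvable.commutator_lt_top_of_nontrivial (M ⧸ L.subgroupOf M))
  obtain ⟨m, rfl⟩ := QuotientGroup.mk_surjective m
  obtain ⟨l, hl, w, hw, e⟩ := inner hs hL m.2
  have hwM : w ∈ M := centralizer_le_normalizer _ hw
  let φ := Abelianization.of.comp (QuotientGroup.mk' (L.subgroupOf M))
  have h2 := transfer_single φ hwM fun x hx k hk => by
    by_contra e
    refine hn _ (hL.conj x) (fun e' => hx ?_) _ (pow_mem hw k) e ?_
    · rw [mem_normalizer_iff'']
      intro y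
      rw [← U.mem_map_conj, e']
    · rw [mem_normalizer_iff'']
      intro y
      rw [U.mem_map_conj, U.mem_map_conj, mem_normalizer_iff''.1 hk]
      simp [mul_assoc]
  rw [no_hom h hL] at h2
  apply hm
  have h3 : m = ⟨l, le_normalizer hl⟩ * ⟨w, hwM⟩ := Subtype.ext e
  rw [← Abelianization.ker_of, MonoidHom.mem_ker, h3, QuotientGroup.mk_mul, map_mul,
    (QuotientGroup.eq_one_iff _).2 (mem_subgroupOf.2 hl), map_one, one_mul]
  exact h2.symm

/-- the fused configuration -/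
structure Fus (Γ : Geo G Ω) (L₀ L₁ : Subgroup G) (p : ℕ) (l c : G) : Prop where
  h0 : Γ.IsLine L₀
  h1 : Γ.IsLine L₁
  ne : L₀ ≠ L₁
  o0 : Odd (Nat.card (centralizer (L₀ : Set G)))
  o1 : Odd (Nat.card (centralizer (L₁ : Set G)))
  hl : l ∈ L₀
  hc : c ∈ centralizer (L₀ : Set G)
  hw : l * c ∈ centralizer (L₁ : Set G)
  ol : orderOf l = p
  oc : orderOf c = p
  hp : p = 3 ∨ p = 11

omit h hs in
theorem odd_ord {H : Subgroup G} (ho : Odd (Nat.card H)) {u : G} (hu : u ∈ H) : Odd (orderOf u) :=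
  ho.of_dvd_nat (orderOf_dvd_natCard _ hu)

theorem exists_fus (hL : Γ.IsLine L) (hc : Odd (Nat.card (centralizer (L : Set G))))
    (h1 : Nat.card (centralizer (L : Set G)) ≠ 1) : ∃ L₀ p l c, Fus Γ L₀ L p l c := by
  obtain ⟨L', hL', hne, w, hw, w1, hn⟩ := unfused h hs hL hc h1
  have hc' := card_cent h hL hL' ▸ hc
  obtain ⟨l, hl, c, hcc, rfl⟩ := inner hs hL' hn
  have k1 : ∀ k : ℕ, (l * c) ^ k = l ^ k * c ^ k := (comm hl hcc).mul_pow
  have k2 : ∀ k : ℕ, l ^ k = 1 → c ^ k = 1 := fun k e => by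
    by_contra e'
    refine hne (h.line_eq hL' hL (pow_mem hcc k) ?_ e')
    have := pow_mem hw k
    rwa [k1, e, one_mul] at this
  have l1 : l ≠ 1 := fun e => w1 (by simpa [e] using k2 1 (by simpa using e))
  have k3 : Odd (orderOf l) := by
    refine (odd_ord hc hw).of_dvd_nat (orderOf_dvd_of_pow_eq_one ?_)
    have := pow_orderOf_eq_one (l * c)
    rw [k1, mul_eq_one_iff_eq_inv] at this
    exact hL'.inf_cent (pow_mem hl _) (this ▸ inv_mem (pow_mem hcc _))
  have fx : ∀ a, Γ.pt a ≤ L' → l • a = a → Γ.pt a ≤ L := fun a ha e =>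
    (h.fix_cent hL hw w1 a).1 (by rw [mul_smul, (Γ.cent_of_le hcc ha).smul_eq, e])
  have hp : orderOf l = 3 ∨ orderOf l = 11 := by
    have h2 := hL'.1.orderOf_mem hl
    simp only [Set.mem_insert_iff, Set.mem_singleton_iff] at h2
    rcases h2 with e | e | e | e | e | e
    · exact absurd (orderOf_eq_one_iff.1 e) l1
    · exact absurd (e ▸ k3) (by decide)
    · exact .inl e
    · obtain ⟨a, b, -, ha, -, e1, -⟩ := hL'.five_fix hl e
      have h3 : Γ.Cent l a := fun y hy => by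
        have h4 := Γ.cent_of_le hw (fx a ha e1) y hy
        rw [mul_assoc, Γ.cent_of_le hcc ha y hy, ← mul_assoc, ← mul_assoc] at h4
        exact mul_right_cancel h4
      have := Γ.orderOf_mem (hL'.cent_mem ha hl h3) l1
      omega
    · exact absurd (e ▸ k3) (by decide)
    · exact .inr e
  have c1 : c ≠ 1 := by
    rintro rfl
    rw [mul_one] at hw
    rcases hp with e | e
    · obtain ⟨-, τ, -, σ, -, -, -, -, -, e1⟩ := hL'.1.three hl e
      obtain ⟨m, hm, u, hu, rfl⟩ := inner hs hL (h.mem_normalizer hL hw l1 (e1 ▸ inv_mem hw))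
      refine l1 (not_inv (odd_ord hc hu) k3 ?_)
      have h2 := comm hm (mul_mem (mul_mem hu hw) (inv_mem hu))
      rw [← e1, mul_inv_rev, ← mul_assoc, mul_assoc m, mul_assoc m, h2.eq, mul_inv_cancel_right]
    · obtain ⟨a, ha⟩ := hL'.exists_pt (P := zpowers l) (by rw [Nat.card_zpowers, e])
        (zpowers_le_of_mem hl)
      obtain ⟨b, hb, hb'⟩ := hL.exists_ne a
      exact hb (Geo.eq_of_mem_smul (ha ▸ mem_zpowers l) l1 (Γ.cent_of_le hw hb').smul_eq).symm
  have hpr : (orderOf l).Prime := by rcases hp with e | e <;> rw [e] <;> norm_num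
  have := Fact.mk hpr
  exact ⟨L', _, l, c, hL', hL, hne, hc', hc, hl, hcc, hw, rfl,
    orderOf_eq_prime (k2 _ (pow_orderOf_eq_one l)) c1, hp⟩

namespace Fus

variable {L₀ L₁ : Subgroup G} {p : ℕ} {l c : G} (f : Fus Γ L₀ L₁ p l c)
include f

omit h hs in
theorem l1 : l ≠ 1 := fun e => by have := f.ol; have := f.hp; simp [e] at *; omega

omit h hs in
theorem c1 : c ≠ 1 := fun e => by have := f.oc; have := f.hp; simp [e] at *; omega

omit h hs in
theorem w1 : l * c ≠ 1 := fun e =>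
  f.l1 (f.h0.inf_cent f.hl (eq_inv_of_mul_eq_one_left e ▸ inv_mem f.hc))

theorem inn {g : G} (h1 : Commute g l) (h2 : Commute g c) : Inner L₁ g :=
  inner hs f.h1 (h.mem_normalizer f.h1 f.hw f.w1
    (by rw [(h1.mul_right h2).eq, mul_inv_cancel_right]; exact f.hw))

omit hs in
theorem pt (e : p = 11) : ∃ a, Γ.pt a = zpowers l ∧ Γ.pt a ≤ L₀ ∧ Γ.pt a ≤ L₁ := by
  obtain ⟨a, ha⟩ := f.h0.exists_pt (P := zpowers l) (by rw [Nat.card_zpowers, f.ol, e])
    (zpowers_le_of_mem f.hl)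
  have h1 : Γ.pt a ≤ L₀ := ha ▸ zpowers_le_of_mem f.hl
  exact ⟨a, ha, h1, (h.fix_cent f.h1 f.hw f.w1 a).1 (by
    rw [mul_smul, (Γ.cent_of_le f.hc h1).smul_eq, Γ.smul_of_mem (ha ▸ mem_zpowers l)])⟩

theorem cardD : Nat.card ↥(centralizer (L₀ : Set G) ⊓ centralizer {c}) = p := by
  have h1 : p ∣ Nat.card ↥(centralizer (L₀ : Set G) ⊓ centralizer {c}) :=
    f.oc ▸ orderOf_dvd_natCard _ ⟨f.hc, mem_centralizer_singleton_iff.2 rfl⟩
  have h2 := f.o0.of_dvd_nat (card_dvd_of_le (inf_le_left (b := centralizer {c})))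
  have h3 : ∀ X ≤ L₁, (∀ d ∈ centralizer (L₀ : Set G), ∀ m ∈ L₁, ∀ u ∈ centralizer (L₁ : Set G),
      d = m * u → m ∈ X) → Nat.card ↥(centralizer (L₀ : Set G) ⊓ centralizer {c}) ∣ Nat.card X := by
    intro X hX hh
    refine card_dvd f.h1 hX (fun d hd => ?_) fun d hd e => ?_
    · obtain ⟨m, hm, u, hu, e⟩ := f.inn h hs (comm f.hl hd.1).symm
        (mem_centralizer_singleton_iff.1 hd.2)
      exact ⟨m, hh d hd.1 m hm u hu e, u, hu, e⟩
    · by_contra e'
      exact f.ne (h.line_eq f.h0 f.h1 hd.1 e e')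
  have h4 : ∀ {d m u z : G}, d = m * u → Commute z d → Commute z u → Commute m z := by
    intro d m u z e h1 h2
    rw [eq_mul_inv_of_mul_eq e.symm]
    exact (h1.mul_right h2.inv_right).symm
  rcases f.hp with e | e
  · obtain ⟨-, τ, t0, -, -, t2, -, t3, -⟩ := f.h0.1.three f.hl (f.ol.trans e)
    obtain ⟨m, hm, u, hu, e1⟩ := f.inn h hs t3 (comm t0 f.hc)
    have h5 : u ^ 2 = 1 := by
      have := pow_orderOf_eq_one τ
      rw [t2, e1, (comm hm hu).mul_pow, ← mul_one 1] at this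
      exact (uniq f.h1 (pow_mem hm 2) (one_mem _) (pow_mem hu 2) (one_mem _) this).2
    have h6 : u = 1 := orderOf_eq_one_iff.1 (Nat.Coprime.eq_one_of_dvd
      (odd_ord f.o1 hu).coprime_two_right (orderOf_dvd_of_pow_eq_one h5))
    rw [h6, mul_one] at e1
    subst e1
    have h7 := h3 (L₁ ⊓ centralizer {τ}) inf_le_left fun d hd m hm' u hu e =>
      ⟨hm', mem_centralizer_singleton_iff.2 (h4 e (comm t0 hd) (comm hm hu))⟩
    rw [f.h1.1.cent2 hm t2] at h7
    subst e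
    exact Nat.dvd_antisymm (Nat.Coprime.dvd_of_dvd_mul_left (m := 4)
      (h2.coprime_two_right.pow_right 2) h7) h1
  · obtain ⟨a, -, a0, a1⟩ := f.pt h e
    have h7 := h3 (Γ.pt a) a1 fun d hd m hm u hu e => f.h1.cent_mem a1 hm fun y hy =>
      h4 e (comm (a0 hy) hd) (comm (a1 hy) hu)
    rw [Γ.card, ← e] at h7
    exact Nat.dvd_antisymm h7 h1

theorem dec {g : G} (hg : g * c * g⁻¹ ∈ centralizer (L₀ : Set G)) :
    ∃ m ∈ L₀, ∃ u ∈ centralizer (L₀ : Set G), g = m * u ∧ g * c * g⁻¹ = u * c * u⁻¹ := by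
  obtain ⟨m, hm, u, hu, rfl⟩ := inner hs f.h0 (h.mem_normalizer f.h0 f.hc f.c1 hg)
  refine ⟨m, hm, u, hu, rfl, ?_⟩
  have h2 := comm hm (mul_mem (mul_mem hu f.hc) (inv_mem hu))
  rw [mul_inv_rev, ← mul_assoc, mul_assoc m, mul_assoc m, h2.eq, mul_inv_cancel_right]

theorem cardC (S : Set G) (hS : S ⊆ L₀) : Nat.card (centralizer (insert c S)) =
    Nat.card ↥(L₀ ⊓ centralizer S) * p := by
  rw [← f.cardD h hs]
  refine card_eq_mul f.h0 inf_le_left inf_le_left fun g => ⟨fun hg => ?_, ?_⟩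
  · have h1 : g * c * g⁻¹ = c := by rw [← hg c (Set.mem_insert _ _), mul_inv_cancel_right]
    obtain ⟨m, hm, u, hu, e, e'⟩ := f.dec h hs (h1.symm ▸ f.hc)
    refine ⟨m, ⟨hm, fun y hy => ?_⟩, u, ⟨hu, mem_centralizer_singleton_iff.2 ?_⟩, e⟩
    · have h2 := hg y (Set.mem_insert_of_mem _ hy)
      rw [e, ← mul_assoc, mul_assoc m, ← hu y (hS hy), ← mul_assoc] at h2
      exact mul_right_cancel h2
    · rw [h1] at e'
      exact mul_inv_eq_iff_eq_mul.1 e'.symm
  · rintro ⟨m, hm, u, hu, rfl⟩ y (rfl | hy)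
    · exact ((comm hm.1 f.hc).symm.mul_right (mem_centralizer_singleton_iff.1 hu.2).symm).eq
    · exact (Commute.mul_right (hm.2 y hy) (hu.1 y (hS hy))).eq

theorem fix {g : G} (hg : g * c * g⁻¹ ∈ zpowers c) : g * c * g⁻¹ = c := by
  obtain ⟨m, -, u, hu, -, e⟩ := f.dec h hs (zpowers_le_of_mem f.hc hg)
  rw [e] at hg ⊢
  have ou := odd_ord f.o0 hu
  obtain ⟨k, hk⟩ := mem_powers_iff_mem_zpowers.2 hg
  replace hk : c ^ k = u * c * u⁻¹ := hk
  rcases f.hp with e | e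
  · have h3 : c ^ 3 = 1 := by rw [← e, ← f.oc, pow_orderOf_eq_one]
    rw [pow_eq_pow_mod k h3] at hk
    obtain e' | e' | e' : k % 3 = 0 ∨ k % 3 = 1 ∨ k % 3 = 2 := by omega
    · exact absurd (by simpa [e'] using hk.symm) f.c1
    · simpa [e'] using hk.symm
    · refine absurd (not_inv ou (odd_ord f.o0 f.hc) ?_) f.c1
      rw [← hk, e', eq_inv_iff_mul_eq_one, ← pow_succ, h3]
  obtain ⟨a, al, a0, a1⟩ := f.pt h e
  obtain ⟨b, hb, b0⟩ := f.h0.exists_ne a
  obtain ⟨x, τ, x0, -, x5, -, e1, e2, -, -, -, e3, -⟩ := f.h0.frame a0 b0 hb.symm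
  have hn : ∀ n : ℕ, u ^ n * c * (u ^ n)⁻¹ = c ^ k ^ n := fun n => by
    induction n with
    | zero => simp
    | succ n ih =>
      rw [pow_succ', mul_inv_rev, mul_assoc u, mul_assoc u, ← mul_assoc _ _ u⁻¹, ih, ← mul_assoc,
        ← conj_pow, ← hk, ← pow_mul, ← pow_succ']
  have h5 : (k : ZMod 11) ^ 5 = 1 := by
    have h1 := hn (orderOf u)
    rw [pow_orderOf_eq_one, one_mul, inv_one, mul_one] at h1
    nth_rewrite 1 [← pow_one c] at h1
    rw [pow_eq_pow_iff_modEq, f.oc, e, ← ZMod.natCast_eq_natCast_iff] at h1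
    push_cast at h1
    obtain ⟨j, hj⟩ := ou
    have h2 : ∀ z : ZMod 11, z ^ 5 ≠ 1 → z = 0 ∨ z ^ 5 = -1 := by decide
    by_contra h3
    have h4 : ((k : ZMod 11) ^ 5) ^ orderOf u = 1 := by rw [← pow_mul, mul_comm, pow_mul, ← h1, one_pow]
    rcases h2 _ h3 with h6 | h6 <;> rw [h6, hj] at h4
    · simp at h4
      exact absurd h4 (by decide)
    · rw [pow_succ, pow_mul] at h4
      simp at h4
      exact absurd h4 (by decide)
  by_contra hne
  have k1 : (k : ZMod 11) ≠ 1 := fun e' => hne (by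
    rw [← hk]
    nth_rewrite 2 [← pow_one c]
    rw [pow_eq_pow_iff_modEq, f.oc, e, ← ZMod.natCast_eq_natCast_iff]
    simpa using e')
  obtain ⟨j, hj⟩ := Geo.dec_sq4 _ _ (Γ.sc_pow_eq_one e1 (x5 ▸ pow_orderOf_eq_one x)) e3 h5
  have ua := Γ.cent_of_le hu a0
  have xa : x ^ (j : ℕ) • a = a := pow_mem (show x ∈ stabilizer G a from e1) _
  have va : (x ^ (j : ℕ) * u) • a = a := by rw [mul_smul, ua.smul_eq, xa]
  have vb : (x ^ (j : ℕ) * u) • b = b := by
    rw [mul_smul, (Γ.cent_of_le hu b0).smul_eq]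
    exact pow_mem (show x ∈ stabilizer G b from e2) _
  have vs : Γ.sc (x ^ (j : ℕ) * u) a = k := by
    rw [Γ.sc_mul xa ua.smul_eq, Γ.sc_pow e1, hj, (Γ.sc_eq_one_iff ua.smul_eq).2 ua, mul_one]
  have la : l ∈ Γ.pt a := al ▸ mem_zpowers l
  have vc : (x ^ (j : ℕ) * u) * c * (x ^ (j : ℕ) * u)⁻¹ = c ^ k := by
    rw [mul_inv_rev, ← mul_assoc, mul_assoc _ u, mul_assoc _ _ u⁻¹, ← hk,
      (comm (pow_mem x0 _) (pow_mem f.hc k)).eq, mul_inv_cancel_right]
  have vl := Γ.sc_spec va l la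
  rw [vs, Γ.pow_val_eq la] at vl
  obtain ⟨m, hm, w, hw, e4⟩ := inner hs f.h1 (h.mem_normalizer (g := x ^ (j : ℕ) * u) f.h1 f.hw f.w1
    (by rw [← conj_mul, vl, vc, ← (comm f.hl f.hc).mul_pow]; exact pow_mem f.hw k))
  have fx : ∀ r, Γ.pt r ≤ L₁ → (x ^ (j : ℕ) * u) • r = m • r := fun r hr => by
    rw [e4, mul_smul, (Γ.cent_of_le hw hr).smul_eq]
  have ma : m • a = a := (fx a a1).symm.trans va
  have wa := Γ.cent_of_le hw a1
  rcases f.h1.fix_order a1 hm ma with e5 | e5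
  · rw [e4, Γ.sc_mul ma wa.smul_eq, (Γ.sc_eq_one_iff ma).2 (Γ.cent_of_mem e5),
      (Γ.sc_eq_one_iff wa.smul_eq).2 wa, mul_one] at vs
    exact k1 vs.symm
  obtain ⟨a', b', ab, a2, b2, e6, e7⟩ := f.h1.five_fix hm e5.1
  have k2 : Γ.sc (x ^ (j : ℕ) * u) a ^ 2 ≠ 1 := by
    rw [vs]
    revert h5 k1
    generalize (k : ZMod 11) = z
    revert z
    decide
  have b1 : Γ.pt b ≤ L₁ := by
    rcases h.fix_two hb.symm va vb k2 ((fx _ a2).trans e6) with e8 | e8
    · rcases h.fix_two hb.symm va vb k2 ((fx _ b2).trans e7) with e9 | e9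
      · exact absurd (e8.trans e9.symm) ab
      · exact e9 ▸ b2
    · exact e8 ▸ a2
  exact f.ne ((f.h0.sup_eq a0 b0 hb.symm).symm.trans (f.h1.sup_eq a1 b1 hb.symm))

theorem false : False := by
  have hp : p.Prime := by rcases f.hp with e | e <;> rw [e] <;> norm_num
  have := Fact.mk hp
  have h1 := f.cardC h hs ∅ (Set.empty_subset _)
  have h2 := f.cardC h hs {l} (Set.singleton_subset_iff.2 f.hl)
  rw [inf_eq_left.2 fun g _ y hy => absurd hy (Set.notMem_empty y), f.h0.1.1,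
    LawfulSingleton.insert_empty_eq] at h1
  obtain ⟨σ, s0, s1, s2, s3, s4⟩ : ∃ σ ∈ L₀, σ * l * σ⁻¹ ∈ zpowers l ∧ ¬ Commute σ l ∧
      Nat.card ↥(L₀ ⊓ centralizer {l}) ∣ 2 * p ∧ ((p = 3 ∧ orderOf σ = 2) ∨ (p = 11 ∧ orderOf σ = 5 ∧
      ∀ S : Sylow p G, l ∈ S → Odd (Nat.card (normalizer ((S : Subgroup G) : Set G))))) := by
    rcases f.hp with e | e
    · obtain ⟨e1, -, -, σ, s0, -, s2, -, -, s3⟩ := f.h0.1.three f.hl (f.ol.trans e)
      refine ⟨σ, s0, s3 ▸ inv_mem (mem_zpowers l), fun hc => ?_, by rw [e1, e], .inl ⟨e, s2⟩⟩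
      rw [hc.eq, mul_inv_cancel_right, eq_inv_iff_mul_eq_one, ← sq, ← orderOf_dvd_iff_pow_eq_one,
        f.ol, e] at s3
      omega
    · obtain ⟨a, al, a0, a1⟩ := f.pt h e
      obtain ⟨b, hb, b0⟩ := f.h0.exists_ne a
      obtain ⟨x, τ, x0, -, x5, -, e1, e2, -, -, -, e3, -⟩ := f.h0.frame a0 b0 hb.symm
      have la : l ∈ Γ.pt a := al ▸ mem_zpowers l
      refine ⟨x, x0, by rw [Γ.sc_spec e1 l la]; exact pow_mem (mem_zpowers l) _, fun hc => e3 ?_,
        by rw [LP.cent_card11 f.h0.1 f.hl (f.ol.trans e), e]; decide, .inr ⟨e, x5, fun S hS => ?_⟩⟩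
      · exact Γ.sc_eq e1 la f.l1 (by rw [hc.eq, mul_inv_cancel_right]; exact (pow_one l).symm)
      · refine (odd_stab h hs f.h0 f.o0 a).of_dvd_nat (card_dvd_of_le fun g hg => ?_)
        have aS : Γ.pt a ≤ S := al ▸ zpowers_le_of_mem hS
        by_contra hne
        obtain ⟨n, hn⟩ := (S.isPGroup'.to_le (sup_le (Γ.smul_le_of_mem_normalizer hg aS) aS)).exists_card_eq
        rw [(h.lt _ _ hne).1, e] at hn
        have h3 : 2 ∣ 11 ^ n := hn ▸ (by decide)
        exact absurd (Nat.prime_two.dvd_of_dvd_pow h3) (by decide)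
  obtain ⟨φ, hφ⟩ := mc p f.oc f.ol (comm f.hl f.hc).symm
    (fun e => f.l1 (f.h0.inf_cent f.hl (zpowers_le_of_mem f.hc e)))
    (by rw [h1]; rcases f.hp with e | e <;> rw [e] <;> decide) (fun g => f.fix h hs)
    (by rw [h2, sq, ← mul_assoc]; exact Nat.mul_dvd_mul_right s3 p) (comm s0 f.hc) s1 s2 s4
  exact hφ (no_hom h f.h0 φ c)

end Fus

end

end A3

variable {G Ω : Type*} [Group G] [Finite G] [MulAction G Ω] {Γ : Geo G Ω} {L : Subgroup G}

theorem Geo.HypA.a3 (h : Γ.HypA) (hL : Γ.IsLine L) (hc : Odd (Nat.card (centralizer (L : Set G))))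
    (hs : ∀ (d : G) (a : Ω), d • a = a → Γ.sc d a ≠ -1) : Nat.card Ω = 12 := by
  by_cases h1 : Nat.card (centralizer (L : Set G)) = 1
  · exact A3.triv h hs hL h1
  · obtain ⟨L₀, p, l, c, f⟩ := A3.exists_fus h hs hL hc h1
    exact (f.false h hs).elim

end Cfsg.Agent.F11
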