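import Cfsg.Agent.F11.A1
import Cfsg.Agent.F11.Eleven

/-! Case A with 672 points, first part. -/

set_option autoImplicit false
set_option linter.unusedSectionVars false
set_option linter.style.haveILetI false

namespace Cfsg.Agent.F11
open Subgroup Cfsg.Agent.Local U

theorem a6_pm {G : Type*} [Group G] [Finite G] {ρ g : G} (hρ : orderOf ρ = 61) (hg : g ∈ normalizer (zpowers ρ : Set G))
    (g2 : g * g = 1) : Commute g ρ ∨ g * ρ * g⁻¹ = ρ⁻¹ := by
  haveI : Fact (Nat.Prime 61) := ⟨by norm_num⟩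
  have m := conj_mem_of_mem_normalizer hg (mem_zpowers ρ)
  refine (eq_or_ne (ρ * (g * ρ * g⁻¹)) 1).symm.imp (fun e => ?_) fun e => eq_inv_of_mul_eq_one_right e
  have m2 := mul_mem (mem_zpowers ρ) m
  have c : Commute g (ρ * (g * ρ * g⁻¹)) := mul_inv_eq_iff_eq_mul.1 (by
    obtain ⟨k, hk⟩ := m
    calc _ = g * ρ * g⁻¹ * (g * g * ρ * (g * g)⁻¹) := by group
      _ = _ := by rw [g2, ← hk]; group)
  have : zpowers (ρ * (g * ρ * g⁻¹)) = zpowers ρ := eq_of_le_of_card_ge (zpowers_le.2 m2) (by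
    rw [Nat.card_zpowers, Nat.card_zpowers, hρ, orderOf_eq_prime (p := 61) _ e]
    rw [← hρ, ← Nat.card_zpowers, ← orderOf_dvd_iff_pow_eq_one]
    exact orderOf_dvd_card_of_mem m2)
  obtain ⟨k, hk⟩ := this.ge (mem_zpowers ρ)
  exact hk ▸ c.zpow_right k

namespace Geo
variable {G Ω : Type*} [Group G] [Finite G] [MulAction G Ω] {Γ : Geo G Ω}
variable {L : Subgroup G} {a b r : Ω} {g t s : G}

theorem Cent.a6_mul {u : G} (hg : Γ.Cent g a) (hu : Γ.Cent u a) : Γ.Cent (g * u) a :=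
  fun y hy => (Commute.mul_left (hg y hy) (hu y hy)).eq

theorem HypA.a6_le (h : Γ.HypA) (hn : Nat.card Ω = 672) (hL : Γ.IsLine L) :
    Nat.card (centralizer (L : Set G)) ≤ 60 := by
  haveI := Γ.finite_pts
  obtain ⟨a, ha⟩ := hL.2
  have n12 := hL.ncard
  obtain ⟨r, hr⟩ : ∃ r, ¬ Γ.pt r ≤ L := by
    by_contra! d
    rw [Set.eq_univ_of_forall (s := {r | Γ.pt r ≤ L}) d, Set.ncard_univ] at n12
    omega
  have ar : a ≠ r := fun e => hr (e ▸ ha)
  have cN : centralizer (L : Set G) ≤ normalizer (Γ.pt a : Set G) := fun c hc =>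
    (Γ.smul_eq_iff _ _).1 (Γ.cent_of_le hc ha).smul_eq
  have k := card_orbit (Γ.pt a ⊔ centralizer (L : Set G)) r
  have st : (Γ.pt a ⊔ centralizer (L : Set G)) ⊓ MulAction.stabilizer G r = ⊥ := eq_bot_iff.2 fun g ⟨hg, gr⟩ => by
    obtain ⟨p, hp, c, hc, rfl⟩ := (mem_sup_of_right_le_normalizer cN).1 hg
    have g1 := (h.isLine ar).F1 le_sup_left le_sup_right ar ((Γ.cent_of_mem hp).a6_mul (Γ.cent_of_le hc ha)) gr
    have c11 : c ^ 11 = 1 := by
      by_contra e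
      replace g1 := pow_mem g1 11
      rw [Commute.mul_pow (hc p (ha hp)), Γ.pow_eleven hp, one_mul] at g1
      exact hr (h.line_eq hL (h.isLine ar) (pow_mem hc 11) g1 e ▸ le_sup_right)
    haveI : Fact (Nat.Prime 11) := ⟨by norm_num⟩
    obtain rfl : c = 1 := by
      by_contra e
      exact h.eleven hn hL (orderOf_eq_prime c11 e ▸ orderOf_dvd_card_of_mem hc)
    rw [mul_one] at gr ⊢
    by_contra e
    exact ar (eq_of_mem_smul hp e gr)
  rw [st, card_bot, card_sup_of_disjoint cN (disjoint_def.2 fun h1 h2 => hL.inf_cent (ha h1) h2), Γ.card] at k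
  have := Set.ncard_le_ncard (show {b | ∃ u ∈ Γ.pt a ⊔ centralizer (L : Set G), u • r = b} ⊆ {r | Γ.pt r ≤ L}ᶜ by
    rintro _ ⟨u, hu, rfl⟩ d
    have := Γ.smul_le_of_mem_normalizer (inv_mem (sup_le (ha.trans le_normalizer) (centralizer_le_normalizer _) hu)) d
    rw [inv_smul_smul] at this
    exact hr this)
  rw [Set.ncard_compl, hn, n12] at this
  omega

theorem HypA.a6_faith (h : Γ.HypA) (hn : Nat.card Ω = 672) (hL : Γ.IsLine L) {ρ : G} (hρ : orderOf ρ = 61)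
    (hg : g ∈ centralizer (L : Set G)) (hc : Commute g ρ) : g = 1 := by
  by_contra e
  have d := orderOf_dvd_card_of_mem (h.mem_normalizer (g := ρ) hL hg e (by rwa [← hc.eq, mul_inv_cancel_right]))
  obtain ⟨a, b, hab, ha, hb⟩ := hL.exists_two
  obtain ⟨k1, k2, k3⟩ := hL.card_stab ha hb hab
  have le := h.a6_le hn hL
  have pos : 0 < Nat.card (centralizer (L : Set G)) := Nat.card_pos
  rw [hρ, k1] at d
  by_cases q : ∃ d : G, d • a = a ∧ d • b = b ∧ Γ.sc d a = -1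
  · rw [k2 q] at d; omega
  · rw [(k3 q).1] at d; omega

theorem HypA.a6_syl (h : Γ.HypA) (hn : Nat.card Ω = 672) (hL : Γ.IsLine L) (a : Ω) :
    ∃ ρ : G, orderOf ρ = 61 ∧ Γ.Cent ρ a ∧ ∀ g : G, g • a = a → g ∈ normalizer (zpowers ρ : Set G) := by
  haveI : Fact (Nat.Prime 61) := ⟨by norm_num⟩
  have k := h.card_cent hL a
  have le := h.a6_le hn hL
  have pos : 0 < Nat.card (centralizer (L : Set G)) := Nat.card_pos
  rw [hn] at k
  obtain ⟨ρ, hρ, o⟩ := exists_mem_orderOf_eq_of_dvd_card (H := centralizer (Γ.pt a : Set G)) (p := 61) Fact.out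
    (by rw [k]; omega)
  have hS := syl_of_card (p := 61) (k := 1) (m := 11 * Nat.card (centralizer (L : Set G))) (zpowers_le.2 hρ)
    (by rw [Nat.card_zpowers, o]; rfl) (by rw [k]; ring) (by omega)
  obtain ⟨m, m1, m2⟩ := sylow_mod hS
  have d1 := card_dvd_of_le (le_inf hS.le le_normalizer)
  have d2 := card_dvd_of_le (show Γ.pt a ≤ centralizer (Γ.pt a : Set G) ⊓ normalizer (zpowers ρ : Set G) from
    fun p hp => ⟨(Γ.cent_iff _ _).1 (Γ.cent_of_mem hp), centralizer_le_normalizer _ (by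
      rw [cent_zpowers]; exact mem_centralizer_singleton_iff.2 (hρ p hp))⟩)
  rw [Nat.card_zpowers, o] at d1
  rw [Γ.card] at d2
  obtain ⟨j, hj⟩ := Nat.Coprime.mul_dvd_of_dvd_of_dvd (by norm_num) d1 d2
  have m3 : m = 1 := by
    rw [hj, k, mul_left_comm, mul_right_inj' (by decide)] at m1
    have := Nat.le_of_dvd pos ⟨j, m1⟩
    omega
  rw [m3, one_mul] at m1
  have le2 := (eq_of_le_of_card_ge inf_le_left m1.le).ge.trans inf_le_right
  refine ⟨ρ, o, (Γ.cent_iff _ _).2 hρ, fun g ga => ?_⟩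
  obtain ⟨n, hn, e⟩ := hS.frattini (normalizer_le_normalizer_centralizer _ ((Γ.smul_eq_iff _ _).1 ga))
  exact (mul_mem_cancel_left (inv_mem (le2 hn))).1 e

theorem HypA.a6_uniq (h : Γ.HypA) (hn : Nat.card Ω = 672) (hL : Γ.IsLine L) (hs : s ∈ centralizer (L : Set G))
    (s2 : orderOf s = 2) (hg : g ∈ centralizer (L : Set G)) (g2 : g ^ 2 = 1) : g = 1 ∨ g = s := by
  obtain ⟨a, ha⟩ := hL.2
  obtain ⟨ρ, o, -, hN⟩ := h.a6_syl hn hL a
  have k1 := (a6_pm o (hN s (Γ.cent_of_le hs ha).smul_eq) (sq_of_two s2)).resolve_left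
    fun d => ne_one_of_ord s2 (by decide) (h.a6_faith hn hL o hs d)
  refine (a6_pm o (hN g (Γ.cent_of_le hg ha).smul_eq) (by rw [← sq, g2])).imp (h.a6_faith hn hL o hg) fun k2 => ?_
  refine (inv_mul_eq_one.1 (h.a6_faith hn hL o (mul_mem (inv_mem hs) hg) (mul_inv_eq_iff_eq_mul.1 ?_))).symm
  rw [show s⁻¹ * g * ρ * (s⁻¹ * g)⁻¹ = s⁻¹ * (g * ρ * g⁻¹) * s by group, k2, ← k1]
  group

theorem HypA.a6_one (h : Γ.HypA) (hn : Nat.card Ω = 672) (hL : Γ.IsLine L) (hs : s ∈ centralizer (L : Set G))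
    (s2 : orderOf s = 2) (ht : t ∈ L) (t2 : orderOf t = 2) : (Γ.T2 t ∨ Γ.T2 (t * s)) ∧ ¬ (Γ.T2 t ∧ Γ.T2 (t * s)) := by
  have k := h.count hL ht t2
  have s1 := ne_one_of_ord s2 (by decide)
  rw [hn, show {s : G | s ∈ centralizer (L : Set G) ∧ orderOf s = 2} = {s} from Set.eq_singleton_iff_unique_mem.2
    ⟨⟨hs, s2⟩, fun g hg => (h.a6_uniq hn hL hs s2 hg.1 (hg.2 ▸ pow_orderOf_eq_one g)).resolve_left
      (ne_one_of_ord hg.2 (by decide))⟩, Set.ncard_singleton] at k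
  obtain ⟨c, hc⟩ := Set.ncard_eq_one.1 (show {c : G | c ∈ centralizer (L : Set G) ∧ c ^ 2 = 1 ∧ Γ.T2 (t * c)}.ncard = 1 by
    omega)
  obtain ⟨c1, c2, c3⟩ := hc.ge rfl
  refine ⟨(h.a6_uniq hn hL hs s2 c1 c2).imp (fun e => by rwa [e, mul_one] at c3) fun e => by rwa [e] at c3, fun d => s1 ?_⟩
  exact (hc.le ⟨hs, s2 ▸ pow_orderOf_eq_one s, d.2⟩).trans (hc.le ⟨one_mem _, one_pow 2, by rw [mul_one]; exact d.1⟩).symm

theorem HypA.a6_dec (h : Γ.HypA) (hn : Nat.card Ω = 672) (hL : Γ.IsLine L) (hs : s ∈ centralizer (L : Set G))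
    (s2 : orderOf s = 2) (ht : Γ.T2 t) (hm : Commute t s) : t ∈ L ∨ t * s ∈ L := by
  obtain ⟨l, hl, c, hc, rfl⟩ := h.inner_T2 hL ht (h.mem_normalizer hL hs (ne_one_of_ord s2 (by decide))
    (by rwa [hm.eq, mul_inv_cancel_right]))
  exact (h.a6_uniq hn hL hs s2 hc (hL.a1_sq hl hc (ht.1 ▸ pow_orderOf_eq_one _)).2).imp
    (fun e => by rwa [e, mul_one]) fun e => by rwa [e, mul_assoc, sq_of_two s2, mul_one]

theorem HypA.a6_not (h : Γ.HypA) (hn : Nat.card Ω = 672) (hL : Γ.IsLine L) (ht : t ∈ L) : ¬ Γ.T2 t := fun T => by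
  haveI := hL.nontrivial
  obtain ⟨V, VL, V4, tV⟩ := hL.1.exists_four ht T.1
  have sq := (hL.1.four V4 VL).1
  have TV : ∀ v ∈ V, v ≠ 1 → Γ.T2 v := fun v hv v1 => by
    obtain ⟨u, -, rfl⟩ := hL.1.inv_conj ht (VL hv) T.1 (orderOf_eq_prime (sq v hv) v1)
    exact T.conj u
  obtain ⟨v, hv, v1⟩ := S8.exists_notMem V [1, t] (by simp [V4])
  simp only [List.mem_cons, List.not_mem_nil, or_false, not_or] at v1
  have T1 := TV v hv v1.1
  have T2 := TV _ (mul_mem hv tV) fun e => v1.2 ((eq_inv_of_mul_eq_one_left e).trans (inv_of_two T.1))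
  obtain ⟨L', hL', hc⟩ := h.T2_line T
  rcases h.a6_dec hn hL' hc T.1 T1 (LP.comm_of_sq sq hv tV) with e | e
  · exact (h.a6_one hn hL' hc T.1 e T1.1).2 ⟨T1, T2⟩
  · exact (h.a6_one hn hL' hc T.1 e T2.1).2 ⟨T2, by rwa [mul_assoc, sq_of_two T.1, mul_one]⟩

theorem HypA.a6_two (h : Γ.HypA) (hn : Nat.card Ω = 672) (hL : Γ.IsLine L)
    (hc : Even (Nat.card (centralizer (L : Set G)))) : Nat.card (centralizer (L : Set G)) = 2 := by
  haveI := hL.nontrivial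
  obtain ⟨s, hs, s2⟩ := exists_mem_orderOf_eq_of_dvd_card Nat.prime_two hc.two_dvd
  obtain ⟨t, ht, t2⟩ := hL.a1_inv
  obtain ⟨V, VL, V4, tV⟩ := hL.1.exists_four ht t2
  have sq := (hL.1.four V4 VL).1
  have TV : ∀ v ∈ V, Γ.T2 (v * s) := fun v hv => by
    rcases eq_or_ne v 1 with rfl | v1
    · obtain ⟨a, ha⟩ := hL.2
      rw [one_mul]; exact ⟨s2, a, Γ.cent_of_le hs ha⟩
    · exact (h.a6_one hn hL hs s2 (VL hv) (orderOf_eq_prime (sq v hv) v1)).1.resolve_left (h.a6_not hn hL (VL hv))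
  obtain ⟨L', hL', he⟩ := h.T2_line (TV t tV)
  have e2 := (TV t tV).1
  have k : ∀ v ∈ V, v * t ∈ L' := fun v hv => by
    have := (h.a6_dec hn hL' he e2 (TV v hv) (Commute.mul_left (Commute.mul_right (LP.comm_of_sq sq hv tV)
      (hs v (VL hv))) (Commute.mul_right (hs t ht).symm (Commute.refl s)))).resolve_left fun d => h.a6_not hn hL' d (TV v hv)
    rwa [mul_assoc, ← mul_assoc s, ← hs t ht, mul_assoc, sq_of_two s2, mul_one] at this
  have VL' : V ≤ L' := fun v hv => (mul_mem_cancel_right (one_mul t ▸ k 1 (one_mem V))).1 (k v hv)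
  have ne : L ≠ L' := fun e => ne_one_of_ord t2 (by decide) (hL.inf_cent ht ((mul_mem_cancel_right hs).1 (e ▸ he)))
  rw [← h.card_cent_eq hL hL', ← e2, ← Nat.card_zpowers]
  congr 2
  refine le_antisymm (fun g hg => ?_) (zpowers_le.2 he)
  have ge : g * (t * s) * g⁻¹ = t * s := (h.a6_uniq hn hL' he e2 (mul_mem (mul_mem hg he) (inv_mem hg)) (by
    rw [conj_pow, ← e2, pow_orderOf_eq_one]; simp)).resolve_left
      fun d => ne_one_of_ord e2 (by decide) (conj_eq_one_iff.1 d)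
  rw [← mul_assoc, ← hg t (VL' tV), mul_assoc t, mul_assoc t, mul_right_inj] at ge
  obtain ⟨v, hv, c, hc, rfl⟩ := hL.cent_four V4 VL (h.mem_normalizer hL hs (ne_one_of_ord s2 (by decide)) (ge.symm ▸ hs))
    (centralizer_le VL' hg)
  have g2 : (v * c) ^ 2 = 1 := by
    by_contra d
    refine ne (h.line_eq hL hL' ?_ (pow_mem hg 2) d)
    rw [Commute.mul_pow (hc v (VL hv)), sq v hv, one_mul]
    exact pow_mem hc 2
  rcases h.a6_uniq hn hL' he e2 hg g2 with e | e <;> rw [e]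
  exacts [one_mem _, mem_zpowers _]

theorem HypA.a6_fix (h : Γ.HypA) (hL : Γ.IsLine L) (h2 : Nat.card (centralizer (L : Set G)) = 2) (hab : a ≠ b)
    (ha : Γ.Cent g a) (hb : g • b = b) : g ^ 2 = 1 := by
  rw [← h2, ← h.card_cent_eq hL (h.isLine hab), ← orderOf_dvd_iff_pow_eq_one]
  exact orderOf_dvd_card_of_mem ((h.isLine hab).F1 le_sup_left le_sup_right hab ha hb)

theorem HypA.a6_inv (h : Γ.HypA) (hn : Nat.card Ω = 672) (hL : Γ.IsLine L) (h2 : Nat.card (centralizer (L : Set G)) = 2)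
    {d σ : G} (db : d • b = b) (hs : Γ.sc d b = -1) (o : orderOf σ = 61) (hσ : Γ.Cent σ b) (hi : d * σ * d⁻¹ = σ⁻¹)
    (hab : a ≠ b) (hrb : r ≠ b) (da : d • a = a) (dr : d • r = r) : r = a := by
  haveI := Γ.finite_pts
  have cN : zpowers σ ≤ normalizer (Γ.pt b : Set G) := zpowers_le.2 ((Γ.smul_eq_iff _ _).1 hσ.smul_eq)
  have cX : Γ.pt b ⊔ zpowers σ ≤ centralizer (Γ.pt b : Set G) := sup_le (fun p hp => (Γ.cent_iff _ _).1 (Γ.cent_of_mem hp))
    (zpowers_le.2 ((Γ.cent_iff _ _).1 hσ))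
  have c : Nat.card ↥(Γ.pt b ⊔ zpowers σ) = 671 := by
    rw [card_sup_of_disjoint cN (disjoint_def.2 fun h1 h2 => eq_one_of_mem_of_coprime (by
      rw [Γ.card, Nat.card_zpowers, o]; norm_num) h1 h2), Γ.card, Nat.card_zpowers, o]
  have odd : ∀ x ∈ Γ.pt b ⊔ zpowers σ, x ^ 2 = 1 → x = 1 := fun x hx e =>
    (pow_eq_one_iff_of_coprime (by norm_num : Nat.Coprime 2 671)).1
      ⟨e, orderOf_dvd_iff_pow_eq_one.1 (c ▸ orderOf_dvd_card_of_mem hx)⟩
  have st : ∀ x ∈ Γ.pt b ⊔ zpowers σ, x • a = a → x = 1 := fun x hx e =>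
    odd x hx (h.a6_fix hL h2 hab.symm ((Γ.cent_iff _ _).2 (cX hx)) e)
  have k := card_orbit (Γ.pt b ⊔ zpowers σ) a
  rw [show (Γ.pt b ⊔ zpowers σ) ⊓ MulAction.stabilizer G a = ⊥ from eq_bot_iff.2 fun x hx => st x hx.1 hx.2, card_bot, c] at k
  obtain ⟨x, hx, rfl⟩ := (Set.eq_of_subset_of_ncard_le (t := {r | r ≠ b})
    (s := {r | ∃ u ∈ Γ.pt b ⊔ zpowers σ, u • a = r}) (by
      rintro _ ⟨u, hu, rfl⟩ e
      exact hab ((smul_left_cancel_iff u).1 (e.trans ((Γ.cent_iff _ _).2 (cX hu)).smul_eq.symm)))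
    (by rw [Γ.ncard_ne, hn]; omega)).ge hrb
  have dx : d * x * d⁻¹ = x⁻¹ := by
    obtain ⟨p, hp, _, ⟨k, rfl⟩, rfl⟩ := (mem_sup_of_right_le_normalizer cN).1 hx
    calc _ = d * p * d⁻¹ * (d * σ * d⁻¹) ^ k := by rw [conj_zpow]; group
      _ = _ := by rw [inv_of_sc_neg db hs hp, hi, inv_zpow, ← mul_inv_rev, (Commute.zpow_left (hσ p hp) k).eq]
  rw [odd x hx (st _ (pow_mem hx 2) ?_), one_smul]
  rw [sq, mul_smul, ← dr, ← mul_smul d, mul_inv_eq_iff_eq_mul.1 dx, mul_smul, da, smul_inv_smul]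

theorem HypA.a6_three (h : Γ.HypA) (hn : Nat.card Ω = 672) (hL : Γ.IsLine L)
    (h2 : Nat.card (centralizer (L : Set G)) = 2) {d ρ : G} (d2 : d * d = 1) (hab : a ≠ b) (da : d • a = a)
    (db : d • b = b) (hs : Γ.sc d a = -1) (o : orderOf ρ = 61) (hρ : Γ.Cent ρ a) (hc : Commute d ρ) : False := by
  haveI := Γ.finite_pts
  have mv : ∀ {ρ : G} {a b : Ω}, orderOf ρ = 61 → Γ.Cent ρ a → a ≠ b → ρ • b ≠ b := fun o hρ hab e =>
    absurd (o ▸ orderOf_dvd_of_pow_eq_one (h.a6_fix hL h2 hab hρ e)) (by decide)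
  obtain ⟨σ, o', hσ, hN⟩ := h.a6_syl hn hL b
  have sb : Γ.sc d b = -1 := by
    have := h.F3 hab da db
    rw [hs, neg_one_mul, neg_eq_iff_eq_neg] at this
    exact this
  have c' := (a6_pm o' (hN d db) d2).resolve_right fun e => hab ((smul_left_cancel_iff ρ).1 (hρ.smul_eq.trans
    (h.a6_inv hn hL h2 db sb o' hσ e hab (mv o hρ hab) da (smul_fix_of_comm hc.symm db)).symm))
  have k := card_orbit (centralizer {d}) a
  generalize e : {r | ∃ u ∈ centralizer ({d} : Set G), u • a = r} = O at k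
  have aO : a ∈ O := e ▸ ⟨1, one_mem _, one_smul _ _⟩
  have m := fix_mod_elt (p := 61) (k := 1) (by norm_num) (show ρ ^ 61 ^ 1 = 1 from o ▸ (pow_one (orderOf ρ)).symm ▸
    pow_orderOf_eq_one ρ) (Set.toFinite O) (by
      subst e
      rintro _ ⟨u, hu, rfl⟩
      exact ⟨ρ * u, mul_mem (mem_centralizer_singleton_iff.2 hc.symm) hu, mul_smul _ _ _⟩)
  rw [show {r | r ∈ O ∧ ρ • r = r} = {a} from Set.eq_singleton_iff_unique_mem.2 ⟨⟨aO, hρ.smul_eq⟩, fun r hr =>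
    by_contra fun q => mv o hρ (Ne.symm q) hr.2⟩, Set.ncard_singleton] at m
  have lt : 1 < O.ncard := (Set.one_lt_ncard_iff (Set.toFinite O)).2 ⟨σ • a, a,
    e ▸ ⟨σ, mem_centralizer_singleton_iff.2 c'.symm, rfl⟩, aO, mv o' hσ hab.symm⟩
  have lt2 : O.ncard < 672 := by
    rw [← hn, ← Set.ncard_univ]
    refine Set.ncard_lt_ncard (Set.ssubset_univ_iff.2 fun q => ?_)
    obtain rfl := h.faith d fun r => by
      obtain ⟨u, hu, rfl⟩ := e.ge (q.ge (Set.mem_univ r))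
      exact smul_fix_of_comm (mem_centralizer_singleton_iff.1 hu) da
    exact absurd (hs.symm.trans (Γ.sc_one a)) (by decide)
  have dv := (Dvd.intro _ k.symm).trans (card_subgroup_dvd_card _)
  rw [(h.card_G hab).1, ((h.isLine hab).card_stab le_sup_left le_sup_right hab).2.1 ⟨d, da, db, hs⟩,
    h.card_cent_eq hL (h.isLine hab), h2, hn] at dv
  obtain ⟨j, hj⟩ : ∃ j, O.ncard = 61 * j + 1 := ⟨O.ncard / 61, by omega⟩
  rw [hj] at dv lt lt2
  have : j < 11 := by omega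
  interval_cases j <;> omega

theorem HypA.a672a (h : Γ.HypA) (hL : Γ.IsLine L) (hn : Nat.card Ω = 672)
    (hc : Even (Nat.card (centralizer (L : Set G)))) :
    Nat.card (centralizer (L : Set G)) = 2 ∧
      (∀ t : G, orderOf t = 2 → ∀ a, t • a = a → Γ.Cent t a) ∧
      ∀ τ ∈ L, orderOf τ = 2 → ¬ Γ.T2 τ := by
  haveI := Γ.finite_pts
  have h2 := h.a6_two hn hL hc
  refine ⟨h2, fun d d2 a da => ?_, fun τ hτ _ => h.a6_not hn hL hτ⟩
  have dd : d ^ 2 = 1 := d2 ▸ pow_orderOf_eq_one d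
  refine (sc_sq_cases da dd).elim (Γ.sc_eq_one_iff da).1 fun hs => False.elim ?_
  have m := Γ.card_mod_fix (k := 1) Nat.prime_two dd
  obtain ⟨b, db, ne⟩ := Set.exists_ne_of_one_lt_ncard (s := {r : Ω | d • r = r}) (by
    have := (Set.ncard_pos (s := {r : Ω | d • r = r})).2 ⟨a, da⟩
    omega) a
  have hL' := h.isLine ne.symm
  obtain ⟨s, cs, s2⟩ := exists_mem_orderOf_eq_of_dvd_card (H := centralizer ((Γ.pt a ⊔ Γ.pt b : Subgroup G) : Set G))
    Nat.prime_two (by rw [h.card_cent_eq hL hL', h2])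
  obtain ⟨ρ, o, hρ, hN⟩ := h.a6_syl hn hL a
  have sa := Γ.cent_of_le cs le_sup_left
  have s1 := ne_one_of_ord s2 (by decide)
  rcases a6_pm o (hN d da) (sq_of_two d2) with e | e
  · exact h.a6_three hn hL h2 (sq_of_two d2) ne.symm da db hs o hρ e
  have e' := (a6_pm o (hN s sa.smul_eq) (sq_of_two s2)).resolve_left fun q => s1 (h.a6_faith hn hL' o cs q)
  have ds : d * s * d⁻¹ = s := (h.a6_uniq hn hL' cs s2 (conj_mem_of_mem_normalizer (normalizer_le_normalizer_centralizer _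
    (Γ.mem_normalizer_sup (Or.inl ⟨da, db⟩))) cs) (by rw [conj_pow, ← s2, pow_orderOf_eq_one]; simp)).resolve_left
      fun q => s1 (conj_eq_one_iff.1 q)
  refine h.a6_three hn hL h2 (d := d * s) ?_ ne.symm (by rw [mul_smul, sa.smul_eq, da])
    (by rw [mul_smul, (Γ.cent_of_le cs le_sup_right).smul_eq, db])
    (by rw [Γ.sc_mul da sa.smul_eq, hs, (Γ.sc_eq_one_iff sa.smul_eq).2 sa, mul_one]) o hρ (mul_inv_eq_iff_eq_mul.1 ?_)
  · rw [← mul_assoc, mul_inv_eq_iff_eq_mul.1 ds, mul_assoc s, sq_of_two d2, mul_one, sq_of_two s2]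
  · calc _ = d * (s * ρ * s⁻¹) * d⁻¹ := by group
      _ = (d * ρ * d⁻¹)⁻¹ := by rw [e']; group
      _ = ρ := by rw [e, inv_inv]

end Geo
end Cfsg.Agent.F11
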