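import Cfsg.Agent.F11.A3
import Cfsg.Agent.F11.A1

/-! The case of 672 points: final contradiction. -/

set_option autoImplicit false

namespace Cfsg.Agent.F11

open Subgroup MulAction Cfsg.Agent.Local

namespace A6b

variable {G : Type*} [Group G]

/-- the normaliser of `V ⟨e⟩` and `V` -/
def NE (V : Subgroup G) (e : G) : Subgroup G where
  carrier := {g | g ∈ normalizer (V : Set G) ∧ g * e * g⁻¹ * e⁻¹ ∈ V}
  one_mem' := ⟨one_mem _, by simp⟩
  mul_mem' := by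
    rintro a b ⟨ha, ha'⟩ ⟨hb, hb'⟩
    refine ⟨mul_mem ha hb, ?_⟩
    have := mul_mem ((mem_normalizer_iff.1 ha _).1 hb') ha'
    simpa [mul_assoc] using this
  inv_mem' := by
    rintro a ⟨ha, ha'⟩
    refine ⟨inv_mem ha, ?_⟩
    have := (mem_normalizer_iff.1 (inv_mem ha) _).1 (inv_mem ha')
    simpa [mul_assoc] using this

/-- the group of order 32 -/
def FF (V : Subgroup G) (e : G) : Subgroup G := NE V e ⊓ centralizer (V : Set G)

theorem mem_FF {V : Subgroup G} {e f : G} :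
    f ∈ FF V e ↔ f ∈ centralizer (V : Set G) ∧ f * e * f⁻¹ * e⁻¹ ∈ V :=
  ⟨fun h => ⟨h.2, h.1.2⟩, fun h => ⟨⟨centralizer_le_normalizer _ h.1, h.2⟩, h.1⟩⟩

theorem conj_FF {V : Subgroup G} {e f g : G} (hg : g ∈ normalizer (V : Set G)) (hf : f ∈ FF V e) :
    g * f * g⁻¹ ∈ FF V (g * e * g⁻¹) := by
  rw [mem_FF] at hf ⊢
  refine ⟨fun v hv => ?_, ?_⟩
  · have := congrArg (fun t => g * t * g⁻¹) (hf.1 _ ((mem_normalizer_iff''.1 hg v).1 hv))
    simpa [mul_assoc] using this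
  · have := (mem_normalizer_iff.1 hg _).1 hf.2
    simpa [mul_assoc] using this

variable [Finite G] {Ω : Type*} [MulAction G Ω] {Γ : Geo G Ω}

omit [Finite G] in
theorem T2.conj {t : G} (h : Γ.T2 t) (g : G) : Γ.T2 (g * t * g⁻¹) :=
  let ⟨a, ha⟩ := h.2
  ⟨((MulAut.conj g).orderOf_eq t).trans h.1, _, ha.conj g⟩

/-- the setting -/
structure St (Γ : Geo G Ω) (L : Subgroup G) (s : G) : Prop where
  h : Γ.HypA
  hL : Γ.IsLine L
  hn : Nat.card Ω = 672
  hc : Nat.card (centralizer (L : Set G)) = 2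
  h3 : ∀ t : G, orderOf t = 2 → ∀ a, t • a = a → Γ.Cent t a
  hτ : ∀ τ ∈ L, orderOf τ = 2 → ¬ Γ.T2 τ
  hs : s ∈ centralizer (L : Set G)
  s1 : s ≠ 1

namespace St

variable {L V : Subgroup G} {s e : G} (k : St Γ L s)
include k

theorem cases {c : G} (hc : c ∈ centralizer (L : Set G)) : c = 1 ∨ c = s := by
  obtain ⟨y, -, hy⟩ := (Nat.card_eq_two_iff' (1 : centralizer (L : Set G))).1 k.hc
  by_cases e : c = 1
  · exact .inl e
  · exact .inr (congrArg Subtype.val ((hy ⟨c, hc⟩ fun h => e (congrArg Subtype.val h)).trans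
      (hy ⟨s, k.hs⟩ fun h => k.s1 (congrArg Subtype.val h)).symm))

theorem o2 : orderOf s = 2 :=
  orderOf_eq_prime (orderOf_dvd_iff_pow_eq_one.1 (k.hc ▸ orderOf_dvd_natCard _ k.hs)) k.s1

theorem t2 : Γ.T2 s :=
  let ⟨a, ha⟩ := k.hL.2
  ⟨k.o2, a, Γ.cent_of_le k.hs ha⟩

theorem comm_of_norm {g : G} (hg : g ∈ normalizer (L : Set G)) : g * s * g⁻¹ = s := by
  have := Geo.conj_mem_cent k.hs g
  rw [Geo.map_of_mem_norm hg] at this
  exact (k.cases this).resolve_left (by simpa using k.s1)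

theorem norm_of_comm {g : G} (hg : Commute g s) : g ∈ normalizer (L : Set G) :=
  k.h.mem_normalizer k.hL k.hs k.s1 (by rw [hg.eq, mul_inv_cancel_right]; exact k.hs)

theorem t2_mul {τ : G} (hτ : τ ∈ L) (h2 : τ ^ 2 = 1) : Γ.T2 (τ * s) := by
  by_cases e : τ = 1
  · simpa [e] using k.t2
  have t2 := orderOf_eq_prime h2 e
  have h1 := k.h.count k.hL hτ t2
  have h3 : {s : G | s ∈ centralizer (L : Set G) ∧ orderOf s = 2}.ncard ≠ 0 :=
    Set.ncard_ne_zero_of_mem (a := s) ⟨k.hs, k.o2⟩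
  obtain ⟨c, hc, -, h4⟩ := Set.nonempty_of_ncard_ne_zero
    (s := {c : G | c ∈ centralizer (L : Set G) ∧ c ^ 2 = 1 ∧ Γ.T2 (τ * c)}) fun e => by
      rw [e, k.hn] at h1; omega
  rcases k.cases hc with rfl | rfl
  · exact absurd (by simpa using h4) (k.hτ τ hτ t2)
  · exact h4

theorem line (he : Γ.T2 e) : ∃ L', St Γ L' e ∧ {r : Ω | e • r = r}.ncard = 12 ∧
    ∃ g, L.map (MulAut.conj g).toMonoidHom = L' ∧ g * s * g⁻¹ = e := by
  obtain ⟨a, ha⟩ := he.2
  have e1 : e ≠ 1 := U.ne_one_of_ord he.1 (by decide)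
  rcases k.h.fix_cases ha e1 with h | ⟨L', hL', -, h1, h2⟩
  · have h1 := Γ.card_mod_fix Nat.prime_two (k := 1) (g := e) (he.1 ▸ pow_orderOf_eq_one e : e ^ 2 = 1)
    rw [k.hn, show {r : Ω | e • r = r} = {a} from Set.ext fun r => ⟨h r, fun e => e ▸ ha.smul_eq⟩,
      Set.ncard_singleton] at h1
    omega
  obtain ⟨g, rfl⟩ := k.h.line_conj k.hL hL'
  have k' : St Γ _ e := ⟨k.h, hL', k.hn, (k.h.card_cent_eq k.hL hL').trans k.hc, k.h3,
    fun τ hτ t2 h => k.hτ _ (U.mem_map_conj.1 hτ) (by simpa using (U.orderOf_conj g⁻¹ τ).trans t2)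
      (by simpa using T2.conj h g⁻¹), h1, e1⟩
  exact ⟨_, k', h2 ▸ hL'.ncard, g, rfl,
    (k'.cases (Geo.conj_mem_cent k.hs g)).resolve_left (by simpa using k.s1)⟩

variable (hV : Nat.card V = 4) (hVL : V ≤ L)
include hV hVL

theorem sqV {v : G} (hv : v ∈ V) : v ^ 2 = 1 := (k.hL.1.four hV hVL).1 v hv

theorem fpf {v : G} (hv : v ∈ V) {r : Ω} (h : v • r = r) : v = 1 := by
  by_contra e
  have h2 := orderOf_eq_prime (k.sqV hV hVL hv) e
  exact k.hτ v (hVL hv) h2 ⟨h2, r, k.h3 v h2 r h⟩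

theorem trans (he : Γ.T2 e) (hc : e ∈ centralizer (V : Set G)) :
    ∃ g ∈ normalizer (V : Set G), g * s * g⁻¹ = e := by
  obtain ⟨L', k', -, g, e1, e2⟩ := k.line he
  have h1 : V ≤ L' := fun v hv => by
    by_cases v1 : v = 1
    · exact v1 ▸ one_mem _
    have v2 := k.sqV hV hVL hv
    obtain ⟨l, hl, c, hc', e⟩ := k'.hL.inner_of_fpf (k'.norm_of_comm (hc v hv)) (v2 ▸ one_mem _)
      fun r _ h => v1 (k.fpf hV hVL hv h)
    rcases k'.cases hc' with rfl | rfl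
    · simpa [e] using hl
    · have h2 := v2
      rw [e, (A3.comm hl hc').mul_pow, ← mul_one 1] at h2
      have h3 := k'.t2_mul hl (A3.uniq k'.hL (pow_mem hl 2) (one_mem _) (pow_mem hc' 2) (one_mem _) h2).1
      exact absurd (e ▸ h3) (k.hτ v (hVL hv) (orderOf_eq_prime v2 v1))
  obtain ⟨l, hl, e3⟩ := k'.hL.1.conj4 (V := V.map (MulAut.conj g).toMonoidHom)
    ((card_map_of_injective (f := (MulAut.conj g).toMonoidHom) (MulAut.conj g).injective).trans hV)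
    (e1 ▸ map_mono hVL) hV h1
  refine ⟨l * g, Geo.mem_norm_of_map ?_, ?_⟩
  · refine Eq.trans ?_ e3
    rw [map_map]
    congr 1
    ext
    simp [mul_assoc]
  · rw [mul_inv_rev, ← mul_assoc, mul_assoc l, mul_assoc l, e2, k'.comm_of_norm (le_normalizer hl)]

theorem memE {g : G} : g ∈ FF V s ⊓ centralizer {s} ↔
    ∃ v ∈ V, ∃ c ∈ centralizer (L : Set G), g = v * c := by
  constructor
  · rintro ⟨h1, h2⟩
    exact k.hL.cent_four hV hVL (k.norm_of_comm (mem_centralizer_singleton_iff.1 h2)) h1.2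
  · rintro ⟨v, hv, c, hc, rfl⟩
    have h1 : Commute (v * c) s := (A3.comm (hVL hv) k.hs).mul_left (by
      rcases k.cases hc with rfl | rfl
      exacts [Commute.one_left _, Commute.refl _])
    refine ⟨mem_FF.2 ⟨mul_mem (fun w hw => LP.comm_of_sq (fun _ => k.sqV hV hVL) hw hv)
      fun w hw => hc w (hVL hw), ?_⟩, mem_centralizer_singleton_iff.2 h1⟩
    rw [h1.eq, mul_inv_cancel_right, mul_inv_cancel]
    exact one_mem _

theorem cardS : ∃ m, 8 ∣ m ∧ m ∣ Nat.card ↥(normalizer (V : Set G) ⊓ centralizer {s}) ∧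
    ¬ 16 * m ∣ Nat.card G := by
  obtain ⟨a, b, hab, ha, hb⟩ := k.hL.exists_two
  obtain ⟨S, hS, hVS⟩ := exists_isSylowIn_ge (p := 2) (IsPGroup.of_card (n := 2) hV)
    (hVL.trans le_normalizer)
  have h1 : S ≤ normalizer (V : Set G) ⊓ centralizer {s} := fun g hg => by
    have h2 := (LP.syl k.hL.1 hVL (p := 2) (k := 2) hV (by decide) (by decide)).eq_of_le
      (hS.isPGroup.to_le (inf_le_left (b := L))) (le_inf hVS hVL) inf_le_right
    refine ⟨mem_normalizer_fintype fun v hv => ?_, mem_centralizer_singleton_iff.2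
      (mul_inv_eq_iff_eq_mul.1 (k.comm_of_norm (hS.le hg)))⟩
    exact h2.le (mem_inf.2 ⟨mul_mem (mul_mem hg (hVS hv)) (inv_mem hg),
      (mem_normalizer_iff.1 (hS.le hg) v).1 (hVL hv)⟩)
  obtain ⟨h2, h3, h4⟩ := k.hL.card_stab ha hb hab
  have h5 := (k.h.card_G hab).1
  refine ⟨_, ?_, card_dvd_of_le h1, ?_⟩ <;>
    by_cases e : ∃ d : G, d • a = a ∧ d • b = b ∧ Γ.sc d a = -1
  · rw [U.syl_card hS (k := 4) (m := 165) (by rw [h2, h3 e, k.hc]; rfl) (by decide)]; decide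
  · rw [U.syl_card hS (k := 3) (m := 165) (by rw [h2, (h4 e).1, k.hc]; rfl) (by decide)]; decide
  · rw [U.syl_card hS (k := 4) (m := 165) (by rw [h2, h3 e, k.hc]; rfl) (by decide), h5, h3 e, k.hn, k.hc]
    decide
  · rw [U.syl_card hS (k := 3) (m := 165) (by rw [h2, (h4 e).1, k.hc]; rfl) (by decide), h5, (h4 e).1,
      k.hn, k.hc]
    decide

theorem small : Nat.card (NE V s) ≤ 6 * Nat.card (FF V s) := by
  obtain ⟨u, hu, u1⟩ : ∃ u ∈ V, u ≠ 1 :=
    (bot_or_exists_ne_one V).resolve_left fun e => by simp [e] at hV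
  have o2 := orderOf_eq_prime (k.sqV hV hVL hu) u1
  obtain ⟨w, hw, w1⟩ : ∃ w ∈ V, w ∉ zpowers u := by
    by_contra hn
    push Not at hn
    have := card_le_of_le (show V ≤ zpowers u from hn)
    rw [Nat.card_zpowers, o2] at this
    omega
  have h1 := U.card_class (NE V s) u
  have h2 := U.card_class (NE V s ⊓ centralizer {u}) w
  have h3 : {y | ∃ h ∈ NE V s, h * u * h⁻¹ = y}.ncard ≤ 3 := by
    refine (Set.ncard_le_ncard (t := (V : Set G) \ {1}) ?_).trans ?_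
    · rintro _ ⟨h, hh, rfl⟩
      exact ⟨(mem_normalizer_iff.1 hh.1 u).1 hu, by simpa using u1⟩
    · rw [Set.ncard_sdiff_singleton_of_mem (one_mem V), U.ncard_coe, hV]
  have h4 : {y | ∃ h ∈ NE V s ⊓ centralizer {u}, h * w * h⁻¹ = y}.ncard ≤ 2 := by
    refine (Set.ncard_le_ncard (t := (V : Set G) \ zpowers u) ?_).trans ?_
    · rintro _ ⟨h, hh, rfl⟩
      refine ⟨(mem_normalizer_iff.1 hh.1.1 w).1 hw, fun ⟨i, hi⟩ => w1 ⟨i, ?_⟩⟩
      have h5 : Commute h (u ^ i) := (show Commute h u from mem_centralizer_singleton_iff.1 hh.2).zpow_right i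
      have h6 : h * u ^ i * h⁻¹ = h * w * h⁻¹ := by rw [h5.eq, mul_inv_cancel_right]; exact hi
      simpa using h6
    · rw [Set.ncard_sdiff (zpowers_le_of_mem hu), U.ncard_coe, U.ncard_coe, hV, Nat.card_zpowers, o2]
  have h5 : NE V s ⊓ centralizer {u} ⊓ centralizer {w} ≤ FF V s := fun g hg => ⟨hg.1.1, by
    have h6 : V = zpowers u ⊔ zpowers w := by
      have h7 : zpowers u ⊔ zpowers w ≤ V := sup_le (zpowers_le_of_mem hu) (zpowers_le_of_mem hw)
      have h8 := card_dvd_of_le h7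
      have h9 : Nat.card (zpowers u) < Nat.card ↥(zpowers u ⊔ zpowers w) :=
        lt_of_le_of_ne (card_le_of_le le_sup_left) fun e =>
          w1 (eq_of_le_of_card_ge le_sup_left e.ge ▸ mem_sup_right (mem_zpowers w))
      rw [Nat.card_zpowers, o2] at h9
      refine (eq_of_le_of_card_ge h7 ?_).symm
      rw [hV] at h8 ⊢
      have := Nat.le_of_dvd (by decide) h8
      generalize Nat.card ↥(zpowers u ⊔ zpowers w) = n at *
      interval_cases n <;> omega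
    have h7 : V ≤ centralizer {g} := h6 ▸ sup_le
      (zpowers_le_of_mem (mem_centralizer_singleton_iff.2 (mem_centralizer_singleton_iff.1 hg.1.2).symm))
      (zpowers_le_of_mem (mem_centralizer_singleton_iff.2 (mem_centralizer_singleton_iff.1 hg.2).symm))
    exact fun v hv => mem_centralizer_singleton_iff.1 (h7 hv)⟩
  rw [h1, h2, show 6 = 3 * 2 from rfl, mul_assoc]
  exact Nat.mul_le_mul h3 (Nat.mul_le_mul h4 (card_le_of_le h5))

theorem cardF : Nat.card (FF V s) = 32 := by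
  obtain ⟨-, -, -, y, y0, y3, y1, y2⟩ := k.hL.1.four hV hVL
  have ys := k.comm_of_norm (le_normalizer y0)
  have h0 : ((· * s) '' (V : Set G)).ncard = 4 := by
    rw [Set.ncard_image_of_injective _ (mul_left_injective s), U.ncard_coe, hV]
  have h1 := U.card_class (NE V s) s
  have h2 : {y | ∃ h ∈ NE V s, h * s * h⁻¹ = y} = (· * s) '' (V : Set G) := by
    ext z
    constructor
    · rintro ⟨h, hh, rfl⟩
      exact ⟨_, hh.2, by simp⟩
    · rintro ⟨v, hv, rfl⟩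
      obtain ⟨g, hg, e⟩ := k.trans hV hVL (k.t2_mul (hVL hv) (k.sqV hV hVL hv))
        ((k.memE hV hVL).2 ⟨v, hv, s, k.hs, rfl⟩).1.2
      exact ⟨g, ⟨hg, by simpa [e] using hv⟩, e⟩
  obtain ⟨m, m1, m2, -⟩ := k.cardS hV hVL
  have h3 : normalizer (V : Set G) ⊓ centralizer {s} ≤ NE V s ⊓ centralizer {s} := fun g hg =>
    ⟨⟨hg.1, by rw [mem_centralizer_singleton_iff.1 hg.2]; simp⟩, hg.2⟩
  have h4 := (m1.trans m2).trans (card_dvd_of_le h3)
  have h5 := y3 ▸ orderOf_dvd_natCard _ (h3 ⟨y1, mem_centralizer_singleton_iff.2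
    (mul_inv_eq_iff_eq_mul.1 ys)⟩)
  have h6 := Nat.le_of_dvd Nat.card_pos (Nat.Coprime.mul_dvd_of_dvd_of_dvd (by decide) h4 h5)
  have h7 := k.small hV hVL
  have h8 := U.card_class (FF V s) s
  rw [A3.card_eq_mul k.hL hVL le_rfl fun _ => k.memE hV hVL, hV, k.hc] at h8
  have h9 : {y | ∃ h ∈ FF V s, h * s * h⁻¹ = y}.ncard ≤ 4 := h0 ▸ h2 ▸
    Set.ncard_le_ncard fun _ ⟨h, hh, e⟩ => ⟨h, hh.1, e⟩
  have h10 := LP.fix_mod_conj Nat.prime_three (k := 1) (y3 ▸ pow_orderOf_eq_one y : y ^ 3 = 1)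
    (s := {y | ∃ h ∈ FF V s, h * s * h⁻¹ = y}) (by
      rintro _ ⟨h, hh, rfl⟩
      refine ⟨_, ys ▸ conj_FF y1 hh, ?_⟩
      nth_rewrite 1 [← ys]
      simp [mul_assoc])
  rw [show {a | a ∈ {y | ∃ h ∈ FF V s, h * s * h⁻¹ = y} ∧ y * a * y⁻¹ = a} = {s} from ?_,
    Set.ncard_singleton] at h10
  · rw [h2, h0] at h1
    omega
  ext z
  refine ⟨?_, by rintro rfl; exact ⟨⟨1, one_mem _, by simp⟩, ys⟩⟩
  rintro ⟨⟨h, hh, rfl⟩, e⟩
  exact mul_inv_eq_one.1 (y2 _ hh.1.2 (Commute.mul_right (mul_inv_eq_iff_eq_mul.1 e)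
    (Commute.inv_right (mul_inv_eq_iff_eq_mul.1 ys))))

theorem sqF {f : G} (hf : f ∈ FF V s) : f ^ 2 ∈ V := by
  obtain ⟨h1, h2⟩ := mem_FF.1 hf
  have h3 : f ^ 2 * s * (f ^ 2)⁻¹ = s := by
    have e : f * s * f⁻¹ = (f * s * f⁻¹ * s⁻¹) * s := by simp
    set v := f * s * f⁻¹ * s⁻¹
    have e' : f ^ 2 * s * (f ^ 2)⁻¹ = f * (f * s * f⁻¹) * f⁻¹ := by simp [sq, mul_assoc]
    rw [e', e, ← conj_mul, e, ← h1 v h2, mul_inv_cancel_right, ← mul_assoc, ← sq, k.sqV hV hVL h2,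
      one_mul]
  obtain ⟨v, hv, c, hc, e⟩ := (k.memE hV hVL).1 ⟨pow_mem hf 2,
    mem_centralizer_singleton_iff.2 (mul_inv_eq_iff_eq_mul.1 h3)⟩
  rcases k.cases hc with rfl | rfl
  · simpa [e] using hv
  · have h4 : Commute f c := by
      rw [eq_inv_mul_of_mul_eq e.symm]
      exact Commute.mul_right (Commute.inv_right (h1 v hv).symm) (Commute.self_pow f 2)
    obtain ⟨w, hw, d, hd, rfl⟩ := (k.memE hV hVL).1 ⟨hf, mem_centralizer_singleton_iff.2 h4⟩
    rw [(A3.comm (hVL hw) hd).mul_pow, k.sqV hV hVL hw,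
      orderOf_dvd_iff_pow_eq_one.1 (k.hc ▸ orderOf_dvd_natCard _ hd), mul_one]
    exact one_mem _

theorem commF {f : G} (hf : f ∈ FF V s) (he : e ∈ FF V s) : f ∈ FF V e := by
  refine mem_FF.2 ⟨hf.2, ?_⟩
  have h1 := mul_mem (mul_mem (k.sqF hV hVL (mul_mem hf he))
    (inv_mem (k.sqF hV hVL he))) (inv_mem (k.sqF hV hVL (mul_mem (mul_mem he hf) (inv_mem he))))
  have h2 := he.2 _ (inv_mem (k.sqF hV hVL he))
  convert h1 using 1
  simp only [sq, mul_inv_rev, inv_inv, mul_assoc, mul_inv_cancel_left, inv_mul_cancel_left]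

theorem cntT : {e | e ∈ FF V s ∧ Γ.T2 e}.ncard = 16 := by
  classical
  have := Γ.finite_pts
  have := Fintype.ofFinite Ω
  have := Fintype.ofFinite G
  have := Fintype.ofFinite (Quotient (orbitRel (FF V s) Ω))
  have hF := k.cardF hV hVL
  have h1 := sum_card_fixedBy_eq_card_orbits_mul_card_group (FF V s) Ω
  have h2 : ∀ f : FF V s, Fintype.card (fixedBy Ω f) =
      (if f = 1 then 672 else 0) + if Γ.T2 f then 12 else 0 := by
    intro f
    rw [← Nat.card_eq_fintype_card, show Nat.card (fixedBy Ω f) = {r : Ω | (f : G) • r = r}.ncard from rfl]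
    by_cases f1 : f = 1
    · subst f1
      have : ¬ Γ.T2 1 := fun h => by simpa using h.1
      simp [this, Set.ncard_univ, ← k.hn]
    by_cases f2 : Γ.T2 f
    · obtain ⟨-, -, e, -⟩ := k.line f2
      simp [f1, f2, e]
    · rw [if_neg f1, if_neg f2, add_zero, Set.ncard_eq_zero, Set.eq_empty_iff_forall_notMem]
      intro r hr
      have h3 := orderOf_eq_prime (k.fpf hV hVL (k.sqF hV hVL f.2)
        (pow_mem (show (f : G) ∈ stabilizer G r from hr) 2)) fun e => f1 (Subtype.ext e)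
      exact f2 ⟨h3, r, k.h3 _ h3 r hr⟩
  have h3 : (Finset.univ.filter fun f : FF V s => Γ.T2 f).card = {e | e ∈ FF V s ∧ Γ.T2 e}.ncard := by
    rw [← Set.ncard_coe_finset, ← Set.ncard_image_of_injective _ Subtype.val_injective]
    congr 1
    ext e
    simp [and_comm]
  simp only [h2, Finset.sum_add_distrib, Finset.sum_ite_eq', Finset.mem_univ, if_true,
    ← Finset.sum_filter, Finset.sum_const, h3, smul_eq_mul, ← Nat.card_eq_fintype_card, hF] at h1
  have h4 : {e | e ∈ FF V s ∧ Γ.T2 e}.ncard ≤ 32 :=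
    hF ▸ U.ncard_coe (FF V s) ▸ Set.ncard_le_ncard fun _ h => h.1
  obtain ⟨-, -, -, y, y0, y3, y1, y2⟩ := k.hL.1.four hV hVL
  have ys := k.comm_of_norm (le_normalizer y0)
  have h5 := LP.fix_mod_conj Nat.prime_three (k := 1) (y3 ▸ pow_orderOf_eq_one y : y ^ 3 = 1)
    (s := {e | e ∈ FF V s ∧ Γ.T2 e}) fun e he => ⟨ys ▸ conj_FF y1 he.1, T2.conj he.2 y⟩
  rw [show {a | a ∈ {e | e ∈ FF V s ∧ Γ.T2 e} ∧ y * a * y⁻¹ = a} = {s} from ?_,
    Set.ncard_singleton] at h5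
  · omega
  ext e
  refine ⟨?_, by rintro rfl; exact ⟨⟨((k.memE hV hVL).2 ⟨1, one_mem _, _, k.hs, by simp⟩).1, k.t2⟩, ys⟩⟩
  rintro ⟨⟨h6, h7⟩, h8⟩
  have c1 : Commute y e := mul_inv_eq_iff_eq_mul.1 h8
  have c2 : Commute y s := mul_inv_eq_iff_eq_mul.1 ys
  have h9 := y2 _ h6.1.2 (((c1.mul_right c2).mul_right c1.inv_right).mul_right c2.inv_right)
  obtain ⟨v, hv, c, hc, rfl⟩ := (k.memE hV hVL).1 ⟨h6, mem_centralizer_singleton_iff.2
    (mul_inv_eq_iff_eq_mul.1 (mul_inv_eq_one.1 h9))⟩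
  rcases k.cases hc with rfl | rfl
  · rw [mul_one] at h7
    exact absurd h7 (k.hτ v (hVL hv) h7.1)
  · rw [y2 v hv (by simpa using c1.mul_right c2.inv_right), one_mul]
    rfl

theorem false : False := by
  obtain ⟨m, -, m2, m3⟩ := k.cardS hV hVL
  have h1 := U.card_class (normalizer (FF V s : Set G)) s
  have hs : s ∈ FF V s := ((k.memE hV hVL).2 ⟨1, one_mem _, _, k.hs, by simp⟩).1
  have h2 : {y | ∃ h ∈ normalizer (FF V s : Set G), h * s * h⁻¹ = y} = {e | e ∈ FF V s ∧ Γ.T2 e} := by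
    ext e
    constructor
    · rintro ⟨h, hh, rfl⟩
      exact ⟨(mem_normalizer_iff.1 hh s).1 hs, T2.conj k.t2 h⟩
    · rintro ⟨h3, h4⟩
      obtain ⟨g, hg, rfl⟩ := k.trans hV hVL h4 h3.2
      refine ⟨g, inv_mem_iff.1 (mem_normalizer_fintype fun f hf => ?_), rfl⟩
      simpa [mul_assoc] using conj_FF (inv_mem hg) (k.commF hV hVL hf h3)
  have h3 : normalizer (V : Set G) ⊓ centralizer {s} ≤
      normalizer (FF V s : Set G) ⊓ centralizer {s} := fun g hg =>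
    ⟨mem_normalizer_fintype fun f hf => by
      have := conj_FF hg.1 hf
      rwa [mem_centralizer_singleton_iff.1 hg.2, mul_inv_cancel_right] at this, hg.2⟩
  rw [h2, k.cntT hV hVL] at h1
  exact m3 ((Nat.mul_dvd_mul_left 16 (m2.trans (card_dvd_of_le h3))).trans
    (h1 ▸ card_subgroup_dvd_card _))

end St

end A6b

variable {G Ω : Type*} [Group G] [Finite G] [MulAction G Ω] {Γ : Geo G Ω} {L : Subgroup G}

theorem Geo.HypA.a672b (h : Γ.HypA) (hL : Γ.IsLine L) (hn : Nat.card Ω = 672)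
    (hc : Nat.card (centralizer (L : Set G)) = 2)
    (h3 : ∀ t : G, orderOf t = 2 → ∀ a, t • a = a → Γ.Cent t a)
    (hτ : ∀ τ ∈ L, orderOf τ = 2 → ¬ Γ.T2 τ) : False := by
  obtain ⟨s, hs, s1⟩ := (bot_or_exists_ne_one (centralizer (L : Set G))).resolve_left
    fun e => by simp [e] at hc
  obtain ⟨a, b, hab, ha, hb⟩ := hL.exists_two
  obtain ⟨-, τ, -, t0, -, t2, -⟩ := hL.frame ha hb hab
  obtain ⟨V, hVL, hV, -⟩ := hL.1.exists_four t0 t2
  exact A6b.St.false ⟨h, hL, hn, hc, h3, hτ, hs, s1⟩ hV hVL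

end Cfsg.Agent.F11
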