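import Cfsg.Agent.F11.Util

/-! Gleason's lemma. -/

set_option autoImplicit false

namespace Cfsg.Agent.F11

theorem gleason {H X : Type*} [Group H] [MulAction H X] [Finite X] (p : ℕ) (hp : p.Prime)
    (h : ∀ a : X, ∃ g : H, g ^ p = 1 ∧ ∀ b, g • b = b ↔ b = a) :
    ∀ a b : X, ∃ g : H, g • a = b := by
  intro a b
  by_contra hab
  haveI := Fact.mk hp
  have key : ∀ (c : X) (g : H), g ^ p = 1 →
      (MulAction.orbit H b).ncard % p = {x | x ∈ MulAction.orbit H b ∧ g • x = x}.ncard % p := by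
    intro c g hg
    let K := Subgroup.zpowers g
    have hK : IsPGroup p K := by
      rintro ⟨_, j, rfl⟩
      exact ⟨1, Subtype.ext (by
        show (g ^ j) ^ p ^ 1 = 1
        rw [pow_one, ← zpow_natCast, ← zpow_mul, mul_comm, zpow_mul, zpow_natCast, hg, one_zpow])⟩
    have h1 := hK.card_modEq_card_fixedPoints (MulAction.orbit H b)
    rw [Nat.ModEq] at h1
    rw [← Nat.card_coe_set_eq, h1, ← Nat.card_coe_set_eq]
    congr 1
    refine Nat.card_congr ⟨fun x => ⟨x.1.1, x.1.2, congrArg Subtype.val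
      (x.2 ⟨g, Subgroup.mem_zpowers g⟩)⟩, fun x => ⟨⟨x.1, x.2.1⟩, fun k => Subtype.ext ?_⟩,
      fun _ => rfl, fun _ => rfl⟩
    exact (Subgroup.zpowers_le.2 (MulAction.mem_stabilizer_iff.2 x.2.2) : K ≤ _) k.2
  obtain ⟨g, hg, h1⟩ := h a
  obtain ⟨g', hg', h2⟩ := h b
  have e1 : {x | x ∈ MulAction.orbit H b ∧ g • x = x} = ∅ := by
    ext x
    simp only [Set.mem_ofPred_eq, Set.mem_empty_iff_false, iff_false, h1]
    rintro ⟨⟨k, hk⟩, rfl⟩
    exact hab ⟨k⁻¹, by rw [← hk]; simp⟩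
  have e2 : {x | x ∈ MulAction.orbit H b ∧ g' • x = x} = {b} := by
    ext x
    simp only [Set.mem_ofPred_eq, Set.mem_singleton_iff, h2]
    exact ⟨fun h => h.2, fun h => ⟨h ▸ MulAction.mem_orbit_self _, h⟩⟩
  have k1 := key a g hg
  have k2 := key b g' hg'
  rw [e1, Set.ncard_empty, Nat.zero_mod] at k1
  rw [e2, Set.ncard_singleton, Nat.mod_eq_of_lt hp.one_lt, k1] at k2
  exact absurd k2 (by norm_num)

end Cfsg.Agent.F11
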