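import Cfsg.Agent.F11.LSign
import Cfsg.Agent.F11.Gleason

/-! Case A: basic facts. -/

set_option autoImplicit false

namespace Cfsg.Agent.F11

open Subgroup Cfsg.Agent.Local U

namespace Geo

variable {G Ω : Type*} [Group G] [Finite G] [MulAction G Ω] {Γ : Geo G Ω}
variable {L : Subgroup G} {a b r : Ω} {g : G}

theorem Faithful.simple (hf : Γ.Faithful) [Nontrivial Ω] : IsSimpleGroup G := by
  obtain ⟨a0, -⟩ := exists_pair_ne Ω
  obtain ⟨y0, -, hy0⟩ := Γ.exists_ne_one a0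
  haveI : Nontrivial G := ⟨y0, 1, hy0⟩
  refine ⟨fun N hN => ?_⟩
  by_cases h : ∀ n ∈ N, ∀ a : Ω, n • a = a
  · left; rw [eq_bot_iff]; exact fun n hn => hf n (h n hn)
  right
  push Not at h
  obtain ⟨n, hn, a, hna⟩ := h
  have hs := (Γ.sup_facts hna.symm).1
  rcases simple_cases hs (inf_le_right : N ⊓ (Γ.pt a ⊔ Γ.pt (n • a)) ≤ _)
    (fun l hl => mem_normalizer_of_conj_mem fun u hu =>
      mem_inf.2 ⟨hN.conj_mem u hu.1 l, mul_mem (mul_mem hl hu.2) (inv_mem hl)⟩) with e | e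
  · exfalso
    obtain ⟨y, hy, hy1⟩ := Γ.exists_ne_one a
    have h1 : n * y * n⁻¹ * y⁻¹ ∈ N ⊓ (Γ.pt a ⊔ Γ.pt (n • a)) := by
      refine mem_inf.2 ⟨?_, mul_mem (mem_sup_right (Γ.conj_mem hy)) (inv_mem (mem_sup_left hy))⟩
      have := mul_mem hn (hN.conj_mem _ (inv_mem hn) y)
      simpa [mul_assoc] using this
    rw [e, mem_bot, mul_inv_eq_one] at h1
    exact hna (Γ.eq_of_mem (h1 ▸ Γ.conj_mem hy) hy hy1)
  · have h1 : Γ.pt a ≤ N := le_sup_left.trans (inf_eq_right.1 e)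
    rw [eq_top_iff, ← Γ.gen]
    refine iSup_le fun b y hy => ?_
    obtain ⟨g, rfl⟩ := Γ.trans a b
    rw [Γ.mem_smul] at hy
    have := hN.conj_mem _ (h1 hy) g
    simpa [mul_assoc] using this

omit [Finite G] in
theorem HypA.isLine (h : Γ.HypA) (hab : a ≠ b) : Γ.IsLine (Γ.pt a ⊔ Γ.pt b) :=
  isLine_sup (h.lt a b hab)

theorem HypA.F3 (h : Γ.HypA) (hab : a ≠ b) (hga : g • a = a) (hgb : g • b = b) :
    Γ.sc g a * Γ.sc g b = 1 :=
  (h.isLine hab).F3 le_sup_left le_sup_right hab hga hgb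

theorem HypA.fix_two (h : Γ.HypA) (hab : a ≠ b) (hga : g • a = a) (hgb : g • b = b)
    (hs : Γ.sc g a ^ 2 ≠ 1) (hgr : g • r = r) : r = a ∨ r = b := by
  by_contra hcon
  push Not at hcon
  have h1 := h.F3 hab hga hgb
  have h2 := h.F3 hcon.1 hgr hga
  have h3 := h.F3 hcon.2 hgr hgb
  apply hs
  revert h1 h2 h3
  generalize Γ.sc g a = m
  generalize Γ.sc g b = n
  generalize Γ.sc g r = k
  revert m n k
  decide

theorem HypA.cent_of_fix (h : Γ.HypA) (hga : Γ.Cent g a) (hgr : g • r = r) : Γ.Cent g r := by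
  by_cases har : a = r
  · exact har ▸ hga
  exact Γ.cent_of_le ((h.isLine har).F1 le_sup_left le_sup_right har hga hgr) le_sup_right

theorem HypA.fix_cent (h : Γ.HypA) (hL : Γ.IsLine L) (hg : g ∈ centralizer (L : Set G))
    (h1 : g ≠ 1) (r : Ω) : g • r = r ↔ Γ.pt r ≤ L := by
  refine ⟨fun hr => ?_, fun hr => (Γ.cent_of_le hg hr).smul_eq⟩
  obtain ⟨a, b, hab, ha, hb⟩ := hL.exists_two
  rw [← hL.sup_eq ha hb hab]
  exact h.fixline g h1 a b r hab (Γ.cent_of_le hg ha) (Γ.cent_of_le hg hb)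
    (h.cent_of_fix (Γ.cent_of_le hg ha) hr)

theorem IsLine.eq_of_two {L' : Subgroup G} (hL : Γ.IsLine L) (hL' : Γ.IsLine L') (hab : a ≠ b)
    (ha : Γ.pt a ≤ L) (hb : Γ.pt b ≤ L) (ha' : Γ.pt a ≤ L') (hb' : Γ.pt b ≤ L') : L = L' :=
  (hL.sup_eq ha hb hab).symm.trans (hL'.sup_eq ha' hb' hab)

theorem HypA.line_eq (h : Γ.HypA) {L' : Subgroup G} (hL : Γ.IsLine L) (hL' : Γ.IsLine L')
    (hg : g ∈ centralizer (L : Set G)) (hg' : g ∈ centralizer (L' : Set G)) (h1 : g ≠ 1) :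
    L = L' := by
  obtain ⟨a, b, hab, ha, hb⟩ := hL.exists_two
  exact hL.eq_of_two hL' hab ha hb ((h.fix_cent hL' hg' h1 a).1 (Γ.cent_of_le hg ha).smul_eq)
    ((h.fix_cent hL' hg' h1 b).1 (Γ.cent_of_le hg hb).smul_eq)

omit [Finite G] in
theorem conj_mem_cent {H : Subgroup G} {c : G} (hc : c ∈ centralizer (H : Set G)) (g : G) :
    g * c * g⁻¹ ∈ centralizer ((H.map (MulAut.conj g).toMonoidHom : Subgroup G) : Set G) := by
  rw [mem_centralizer_iff]
  rintro _ ⟨y, hy, rfl⟩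
  change g * y * g⁻¹ * (g * c * g⁻¹) = g * c * g⁻¹ * (g * y * g⁻¹)
  rw [conj_mul, conj_mul, mem_centralizer_iff.1 hc y hy]

omit [Finite G] in
theorem mem_norm_of_map {H : Subgroup G} (h : H.map (MulAut.conj g).toMonoidHom = H) :
    g ∈ normalizer (H : Set G) :=
  mem_normalizer_iff_conj_smul_eq.2 h

omit [Finite G] in
theorem map_of_mem_norm {H : Subgroup G} (h : g ∈ normalizer (H : Set G)) :
    H.map (MulAut.conj g).toMonoidHom = H :=
  mem_normalizer_iff_conj_smul_eq.1 h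

omit [Finite G] in
theorem card_cent_conj (H : Subgroup G) (g : G) :
    Nat.card (centralizer ((H.map (MulAut.conj g).toMonoidHom : Subgroup G) : Set G)) =
      Nat.card (centralizer (H : Set G)) := by
  rw [map_conj_eq, centralizer_conj_smul, card_conj_smul]

/-- anything conjugating some `1 ≠ c ∈ C(L)` into `C(L)` normalises `L` -/
theorem HypA.mem_normalizer (h : Γ.HypA) (hL : Γ.IsLine L) {c : G}
    (hc : c ∈ centralizer (L : Set G)) (h1 : c ≠ 1)
    (hg : g * c * g⁻¹ ∈ centralizer (L : Set G)) : g ∈ normalizer (L : Set G) :=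
  mem_norm_of_map (h.line_eq (hL.conj g) hL (conj_mem_cent hc g) hg (by simpa using h1))

theorem HypA.frame (h : Γ.HypA) (hab : a ≠ b) : ∃ x : G, orderOf x = 5 ∧ x • a = a ∧ x • b = b ∧
    Γ.sc x a ≠ 1 ∧ Γ.sc x a ^ 5 = 1 ∧ ∀ r, x • r = r → r = a ∨ r = b := by
  obtain ⟨x, -, -, -, hx5, -, hxa, hxb, -, -, -, hs, -⟩ :=
    (h.isLine hab).frame le_sup_left le_sup_right hab
  have h5 := Γ.sc_pow_eq_one hxa (hx5 ▸ pow_orderOf_eq_one x)
  refine ⟨x, hx5, hxa, hxb, hs, h5, fun r hr => h.fix_two hab hxa hxb ?_ hr⟩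
  revert hs h5
  generalize Γ.sc x a = m
  revert m
  decide

theorem HypA.stab_trans (h : Γ.HypA) (hb : b ≠ a) (hr : r ≠ a) :
    ∃ g : G, g • a = a ∧ g • b = r := by
  haveI := Γ.finite_pts
  letI : MulAction (MulAction.stabilizer G a) {r // r ≠ a} :=
    { smul := fun g r => ⟨(g : G) • (r : Ω), fun e => r.2 (smul_left_cancel (g : G)
        (e.trans (show (g : G) • a = a from g.2).symm))⟩
      one_smul := fun r => Subtype.ext (one_smul G (r : Ω))
      mul_smul := fun m n r => Subtype.ext (mul_smul (m : G) (n : G) (r : Ω)) }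
  obtain ⟨g, hg⟩ := gleason (H := MulAction.stabilizer G a) (X := {r // r ≠ a}) 5 (by norm_num)
    (fun b => by
      obtain ⟨x, hx5, hxa, hxb, -, -, hx⟩ := h.frame b.2.symm
      refine ⟨⟨x, hxa⟩, Subtype.ext (hx5 ▸ pow_orderOf_eq_one x), fun r => ⟨fun e => ?_, ?_⟩⟩
      · exact Subtype.ext ((hx r (congrArg Subtype.val e)).resolve_left r.2)
      · rintro rfl; exact Subtype.ext hxb) ⟨b, hb⟩ ⟨r, hr⟩
  exact ⟨g, g.2, congrArg Subtype.val hg⟩

theorem HypA.two_trans (h : Γ.HypA) {a' b' : Ω} (hab : a ≠ b) (hab' : a' ≠ b') :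
    ∃ g : G, g • a = a' ∧ g • b = b' := by
  obtain ⟨g, e⟩ := Γ.trans a a'
  obtain ⟨k, e1, e2⟩ := h.stab_trans (a := a') (b := g • b) (r := b')
    (fun e' => hab (smul_left_cancel g (e.trans e'.symm))) hab'.symm
  exact ⟨k * g, by rw [mul_smul, e, e1], by rw [mul_smul, e2]⟩

theorem HypA.line_conj (h : Γ.HypA) {L' : Subgroup G} (hL : Γ.IsLine L) (hL' : Γ.IsLine L') :
    ∃ g : G, L.map (MulAut.conj g).toMonoidHom = L' := by
  obtain ⟨a, b, hab, ha, hb⟩ := hL.exists_two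
  obtain ⟨a', b', hab', ha', hb'⟩ := hL'.exists_two
  obtain ⟨g, e1, e2⟩ := h.two_trans hab hab'
  exact ⟨g, by rw [← hL.sup_eq ha hb hab, Γ.map_sup_pt, e1, e2, hL'.sup_eq ha' hb' hab']⟩

theorem HypA.card_cent_eq (h : Γ.HypA) {L' : Subgroup G} (hL : Γ.IsLine L) (hL' : Γ.IsLine L') :
    Nat.card (centralizer (L' : Set G)) = Nat.card (centralizer (L : Set G)) := by
  obtain ⟨g, rfl⟩ := h.line_conj hL hL'
  exact card_cent_conj L g

omit [Finite G] in
theorem ncard_ne (_Γ : Geo G Ω) (a : Ω) : {r | r ≠ a}.ncard = Nat.card Ω - 1 := by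
  have : {r | r ≠ a} = Set.univ \ {a} := by ext; simp
  rw [this, Set.ncard_sdiff_singleton_of_mem (Set.mem_univ a), Set.ncard_univ]

theorem HypA.card_G (h : Γ.HypA) (hab : a ≠ b) :
    Nat.card G = Nat.card Ω * (Nat.card Ω - 1) *
        Nat.card ↥(MulAction.stabilizer G a ⊓ MulAction.stabilizer G b) ∧
      Nat.card (MulAction.stabilizer G a) = (Nat.card Ω - 1) *
        Nat.card ↥(MulAction.stabilizer G a ⊓ MulAction.stabilizer G b) := by
  have h1 := card_orbit (⊤ : Subgroup G) a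
  have h2 := card_orbit (MulAction.stabilizer G a) b
  have e1 : {r | ∃ g ∈ (⊤ : Subgroup G), g • a = r} = Set.univ :=
    Set.eq_univ_of_forall fun r => (Γ.trans a r).imp fun g hg => ⟨mem_top g, hg⟩
  have e2 : {r | ∃ g ∈ MulAction.stabilizer G a, g • b = r} = {r | r ≠ a} := by
    ext r
    constructor
    · rintro ⟨g, hg, rfl⟩ e
      exact hab (smul_left_cancel g ((show g • a = a from hg).trans e.symm))
    · exact fun hr => h.stab_trans hab.symm hr
  rw [e2, Γ.ncard_ne] at h2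
  rw [e1, Set.ncard_univ, card_top, top_inf_eq, h2, ← mul_assoc] at h1
  exact ⟨h1, h2⟩

omit [Finite G] in
theorem sc_sq_cases (hga : g • a = a) (hg : g ^ 2 = 1) : Γ.sc g a = 1 ∨ Γ.sc g a = -1 := by
  have := Γ.sc_pow_eq_one hga hg
  revert this
  generalize Γ.sc g a = m
  revert m
  decide

omit [Finite G] in
/-- Of two commuting involutions fixing `r` and their product, one centralises `r`. -/
theorem cent_three {s t : G} (hs : s ^ 2 = 1) (ht : t ^ 2 = 1) (hsr : s • r = r)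
    (htr : t • r = r) : Γ.Cent s r ∨ Γ.Cent t r ∨ Γ.Cent (s * t) r := by
  rcases Γ.sc_sq_cases hsr hs with h1 | h1
  · exact .inl ((Γ.sc_eq_one_iff hsr).1 h1)
  rcases Γ.sc_sq_cases htr ht with h2 | h2
  · exact .inr (.inl ((Γ.sc_eq_one_iff htr).1 h2))
  refine .inr (.inr ((Γ.sc_eq_one_iff (by rw [mul_smul, htr, hsr])).1 ?_))
  rw [Γ.sc_mul hsr htr, h1, h2]; ring

/-- The fixed points of a nontrivial element centralising a point: that point or a line. -/
theorem HypA.fix_cases (h : Γ.HypA) (hg : Γ.Cent g a) (h1 : g ≠ 1) :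
    (∀ r, g • r = r → r = a) ∨ ∃ L, Γ.IsLine L ∧ Γ.pt a ≤ L ∧ g ∈ centralizer (L : Set G) ∧
      {r : Ω | g • r = r} = {r | Γ.pt r ≤ L} := by
  by_cases hc : ∀ r, g • r = r → r = a
  · exact .inl hc
  push Not at hc
  obtain ⟨b, hb, hba⟩ := hc
  have hL := h.isLine hba.symm
  have hgc := hL.F1 le_sup_left le_sup_right hba.symm hg hb
  exact .inr ⟨_, hL, le_sup_left, hgc, Set.ext fun r => h.fix_cent hL hgc h1 r⟩

theorem card_mod_fix (Γ : Geo G Ω) {p k : ℕ} (hp : p.Prime) (hg : g ^ p ^ k = 1) :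
    Nat.card Ω % p = {r : Ω | g • r = r}.ncard % p := by
  haveI := Γ.finite_pts
  have := fix_mod_elt hp hg (Set.finite_univ (α := Ω)) (fun _ _ => Set.mem_univ _)
  simpa [Set.ncard_univ] using this

omit [Finite G] in
theorem smul_fix_of_comm {u : G} (hc : Commute u g) (hr : g • r = r) : g • u • r = u • r := by
  rw [← mul_smul, ← hc.eq, mul_smul, hr]

theorem HypA.exists_line (h : Γ.HypA) [Nontrivial Ω] : ∃ L, Γ.IsLine L := by
  obtain ⟨a, b, hab⟩ := exists_pair_ne Ω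
  exact ⟨_, h.isLine hab⟩

theorem HypA.even (h : Γ.HypA) [Nontrivial Ω] : Even (Nat.card Ω) := by
  haveI := Γ.finite_pts
  haveI : Fact (Nat.Prime 2) := ⟨by norm_num⟩
  by_contra hodd
  rw [Nat.even_iff] at hodd
  obtain ⟨L, hL⟩ := h.exists_line
  obtain ⟨t, ht, ht2⟩ := exists_mem_orderOf_eq_of_dvd_card (H := L) (p := 2) (by norm_num)
    (by rw [hL.1.1]; norm_num)
  obtain ⟨V, hVL, hV, -⟩ := hL.1.exists_four ht ht2
  obtain ⟨hsq, -, -, y, hyL, hy3, hyn, hyf⟩ := hL.1.four hV hVL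
  have h1 := fix_mod (p := 2) (by norm_num) (H := V) (IsPGroup.of_card (n := 2) hV)
    (Set.finite_univ (α := Ω)) (fun _ _ _ _ => Set.mem_univ _)
  rw [Set.ncard_univ] at h1
  obtain ⟨r, -, hr⟩ := Set.nonempty_of_ncard_ne_zero
    (s := {a : Ω | a ∈ Set.univ ∧ ∀ h ∈ V, h • a = a}) (fun e => by rw [e] at h1; omega)
  obtain ⟨τ, hτV, hτ1, hτr⟩ : ∃ τ ∈ V, τ ≠ 1 ∧ Γ.Cent τ r := by
    obtain ⟨u, v, w, hu, hv, hw, huv, huw, hvw⟩ := (Set.two_lt_ncard_iff (Set.toFinite _)).1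
      (by rw [ncard_coe, hV]; norm_num : 2 < (V : Set G).ncard)
    have hs := mul_mem (inv_mem hu) hv
    have ht := mul_mem (inv_mem hw) hu
    rcases cent_three (Γ := Γ) (hsq _ ht) (hsq _ hs) (hr _ ht) (hr _ hs) with e | e | e
    · exact ⟨_, ht, fun e => huw (inv_mul_eq_one.1 e).symm, e⟩
    · exact ⟨_, hs, fun e => huv (inv_mul_eq_one.1 e), e⟩
    · refine ⟨_, mul_mem ht hs, fun e => hvw ?_, e⟩
      rw [mul_assoc, mul_inv_cancel_left] at e
      exact (inv_mul_eq_one.1 e).symm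
  have hτ2 : orderOf τ = 2 := orderOf_eq_prime (hsq τ hτV) hτ1
  have hu : ∀ q, τ • q = q → q = r := by
    rcases h.fix_cases hτr hτ1 with e | ⟨L', hL', -, -, e⟩
    · exact e
    · have := Γ.card_mod_fix (p := 2) (k := 1) (by norm_num) (hsq τ hτV)
      rw [e, hL'.ncard] at this
      omega
  have hC : L ⊓ centralizer {τ} ≤ L ⊓ MulAction.stabilizer G r := fun g hg =>
    mem_inf.2 ⟨hg.1, hu _ (smul_fix_of_comm (mem_centralizer_singleton_iff.1 hg.2) hτr.smul_eq)⟩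
  have hy : y ∈ L ⊓ MulAction.stabilizer G r := mem_inf.2 ⟨hyL, hu _ (by
    have := hr _ (inv_conj_mem_of_mem_normalizer hyn hτV)
    rw [mul_smul, mul_smul, inv_smul_eq_iff] at this
    exact this)⟩
  have hyC : y ∉ L ⊓ centralizer {τ} := fun hy =>
    hτ1 (hyf τ hτV (mem_centralizer_singleton_iff.1 hy.2))
  have h12 := card_dvd_of_le hC
  rw [hL.1.cent2 (hVL hτV) hτ2] at h12
  have h660 := LP.dvd660 hL.1 (inf_le_left : L ⊓ MulAction.stabilizer G r ≤ L)
  have hne : Nat.card ↥(L ⊓ MulAction.stabilizer G r) ≠ 12 := fun e => hyC (by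
    rw [eq_of_le_of_card_ge hC (by rw [e, hL.1.cent2 (hVL hτV) hτ2])]; exact hy)
  have hrL : Γ.pt r ≤ L := by
    have : 5 ∣ Nat.card ↥(L ⊓ MulAction.stabilizer G r) ∨
        11 ∣ Nat.card ↥(L ⊓ MulAction.stabilizer G r) := by
      generalize Nat.card ↥(L ⊓ MulAction.stabilizer G r) = n at *
      obtain ⟨k, rfl⟩ := h12
      have h8 : k ∣ 55 := Nat.dvd_of_mul_dvd_mul_left (by norm_num : 0 < 12) h660
      have := Nat.le_of_dvd (by norm_num) h8
      interval_cases k <;> omega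
    rcases this with h5 | h11
    · obtain ⟨x, hx, hx5⟩ := exists_mem_orderOf_eq_of_dvd_card (by norm_num) h5
      obtain ⟨a, b, hab, ha, hb, hxa, hxb⟩ := hL.five_fix hx.1 hx5
      have hs : Γ.sc x a ≠ 1 := ((hL.fix_order ha hx.1 hxa).resolve_left fun hm => by
        have := Γ.orderOf_mem hm (ne_one_of_ord hx5 (by norm_num)); omega).2
      have h5 := Γ.sc_pow_eq_one hxa (hx5 ▸ pow_orderOf_eq_one x)
      rcases h.fix_two hab hxa hxb (by
        revert hs h5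
        generalize Γ.sc x a = m
        revert m
        decide) (show x • r = r from hx.2) with e | e <;> rw [e] <;> assumption
    · obtain ⟨x, hx, hx11⟩ := exists_mem_orderOf_eq_of_dvd_card (by norm_num) h11
      obtain ⟨a, ha⟩ := hL.exists_pt (P := zpowers x) (by rw [Nat.card_zpowers, hx11])
        (zpowers_le.2 hx.1)
      rw [← eq_of_mem_smul (ha ▸ mem_zpowers x) (ne_one_of_ord hx11 (by norm_num)) hx.2, ha]
      exact zpowers_le.2 hx.1
  exact hτ1 (hL.inv_fpf (hVL hτV) (hsq τ hτV) hrL hτr.smul_eq)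

theorem HypA.not_mod_three (h : Γ.HypA) [Nontrivial Ω] : Nat.card Ω % 3 ≠ 1 := by
  haveI := Γ.finite_pts
  intro h3
  have hev := Nat.even_iff.1 h.even
  obtain ⟨L, hL⟩ := h.exists_line
  obtain ⟨y, hy, hy3⟩ := exists_mem_orderOf_eq_of_dvd_card (H := L) (p := 3) (by norm_num)
    (by rw [hL.1.1]; norm_num)
  have hy3' : y ^ 3 = 1 := hy3 ▸ pow_orderOf_eq_one y
  have h1 := Γ.card_mod_fix (p := 3) (k := 1) (by norm_num) hy3'
  obtain ⟨r, hr⟩ := Set.nonempty_of_ncard_ne_zero (s := {r : Ω | y • r = r})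
    (fun e => by rw [e] at h1; omega)
  have hr' : y • r = r := hr
  have hyr : Γ.Cent y r := by
    rw [← Γ.sc_eq_one_iff hr']
    have := Γ.sc_pow_eq_one hr' hy3'
    revert this
    generalize Γ.sc y r = m
    revert m
    decide
  have hu : ∀ q, y • q = q → q = r := by
    rcases h.fix_cases hyr (ne_one_of_ord hy3 (by norm_num)) with e | ⟨L', hL', -, -, e⟩
    · exact e
    · rw [e, hL'.ncard] at h1
      omega
  obtain ⟨-, τ, hτ, σ, hσ, hτ2, hσ2, hτy, hτσ, hσy⟩ := hL.1.three hy hy3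
  have hτr : τ • r = r := hu _ (smul_fix_of_comm hτy hr')
  have hσr : σ • r = r := hu _ (by
    have e : y * σ = σ * y⁻¹ := by
      have : σ * y⁻¹ * σ⁻¹ = y := by rw [← conj_inv, hσy, inv_inv]
      exact (mul_inv_eq_iff_eq_mul.1 this).symm
    rw [← mul_smul, e, mul_smul, inv_smul_eq_iff.2 hr'.symm])
  have hτs : τ ^ 2 = 1 := hτ2 ▸ pow_orderOf_eq_one τ
  have hσs : σ ^ 2 = 1 := hσ2 ▸ pow_orderOf_eq_one σ
  have hτc : Γ.Cent τ r := by
    have key : ∀ u ∈ L, orderOf u = 2 → Γ.Cent u r → Γ.Cent τ r := fun u hu hu2 hc => by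
      obtain ⟨g, -, e⟩ := hL.1.inv_conj hu hτ hu2 hτ2
      exact h.cent_of_fix (e ▸ hc.conj g) hτr
    rcases cent_three (Γ := Γ) hτs hσs hτr hσr with e | e | e
    · exact e
    · exact key σ hσ hσ2 e
    · refine key _ (mul_mem hτ hσ) (orderOf_eq_prime (by rw [hτσ.mul_pow, hτs, hσs, one_mul]) ?_) e
      intro e1
      have e2 : σ = τ := by
        rw [← inv_of_two hτ2]; exact (inv_eq_of_mul_eq_one_right e1).symm
      rw [e2, hτy.eq, mul_inv_cancel_right] at hσy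
      have : y ^ 2 = 1 := by rw [pow_two]; nth_rewrite 1 [hσy]; exact inv_mul_cancel y
      rw [← orderOf_dvd_iff_pow_eq_one, hy3] at this
      omega
  rcases h.fix_cases hτc (ne_one_of_ord hτ2 (by norm_num)) with e | ⟨L', hL', hrL, hc, -⟩
  · have h2 := Γ.card_mod_fix (p := 2) (k := 1) (by norm_num) hτs
    have : {q : Ω | τ • q = q} = {r} := Set.ext fun q => ⟨e q, fun hq => hq ▸ hτr⟩
    rw [this, Set.ncard_singleton] at h2
    omega
  · have hn : y ∈ normalizer (L' : Set G) := h.mem_normalizer hL' hc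
      (ne_one_of_ord hτ2 (by norm_num)) (by rw [← hτy.eq, mul_inv_cancel_right]; exact hc)
    have h2 := hL'.fix_mod (p := 3) (k := 1) (by norm_num) hn (by rw [pow_one, hy3']; exact one_mem _)
    have : {q : Ω | Γ.pt q ≤ L' ∧ y • q = q} = {r} :=
      Set.ext fun q => ⟨fun hq => hu q hq.2, fun hq => hq ▸ ⟨hrL, hr'⟩⟩
    rw [this, Set.ncard_singleton] at h2
    omega

theorem mod_arith {n : ℕ} (h3 : n % 3 ≠ 1) (h5 : n % 5 = 2 % 5) (h11 : n % 11 = 1 % 11)
    (h4 : 2 ^ 2 ∣ n) (h6 : 3 ∣ n ∨ 3 ∣ n - 1) (hpos : 0 < n) : n % 660 = 12 := by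
  have h3' : 3 ∣ n := h6.resolve_right fun h => h3 (by clear h4 h5 h11 h3 h6; omega)
  have h12 : 12 ∣ n := Nat.Coprime.mul_dvd_of_dvd_of_dvd (by norm_num : Nat.Coprime 4 3) h4 h3'
  clear h4 h6 h3 h3' hpos
  obtain ⟨k, rfl⟩ := h12
  have e5 : k % 5 = 1 := by omega
  have e11 : k % 11 = 1 := by omega
  have e55 : k % 55 = 1 := by omega
  omega

theorem HypA.mod (h : Γ.HypA) [Nontrivial Ω] : Nat.card Ω % 660 = 12 := by
  haveI := Γ.finite_pts
  obtain ⟨a, b, hab⟩ := exists_pair_ne Ω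
  have hev := Nat.even_iff.1 h.even
  have h3 := h.not_mod_three
  obtain ⟨x, hx5, hxa, hxb, -, -, hx⟩ := h.frame hab
  have h5 := Γ.card_mod_fix (p := 5) (k := 1) (by norm_num) (g := x)
    (by rw [pow_one, ← hx5, pow_orderOf_eq_one])
  have e5 : {q : Ω | x • q = q} = {a, b} := Set.ext fun q => ⟨hx q, by
    rintro (rfl | rfl) <;> assumption⟩
  rw [e5, Set.ncard_pair hab] at h5
  obtain ⟨p, hp, hp1⟩ := Γ.exists_ne_one a
  have h11 := Γ.card_mod_fix (p := 11) (k := 1) (g := p) (by norm_num)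
    (by rw [pow_one]; exact Γ.pow_eleven hp)
  have e11 : {q : Ω | p • q = q} = {a} := Set.ext fun q =>
    ⟨fun hq => (eq_of_mem_smul hp hp1 hq).symm, fun hq => hq ▸ Γ.smul_of_mem hp⟩
  rw [e11, Set.ncard_singleton] at h11
  have h1 := card_subgroup_dvd_card (normalizer ((Γ.pt a ⊔ Γ.pt b : Subgroup G) : Set G))
  rw [((h.isLine hab).card_stab le_sup_left le_sup_right hab).1, (h.card_G hab).1] at h1
  have h2 := Nat.dvd_of_mul_dvd_mul_right Nat.card_pos h1
  have hpos : 0 < Nat.card Ω := Nat.card_pos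
  generalize Nat.card Ω = n at *
  have hc : Nat.Coprime (2 ^ 2) (n - 1) :=
    Nat.Coprime.pow_left 2 ((Nat.coprime_two_left).2 (Nat.odd_iff.2 (by omega)))
  have h4 : 2 ^ 2 ∣ n := hc.dvd_of_dvd_mul_right ((show 2 ^ 2 ∣ 132 by norm_num).trans h2)
  have h6 := (Nat.Prime.dvd_mul (by norm_num : Nat.Prime 3)).1 ((show 3 ∣ 132 by norm_num).trans h2)
  exact mod_arith h3 h5 h11 h4 h6 hpos

theorem HypA.cent_trans (h : Γ.HypA) (hb : b ≠ a) (hr : r ≠ a) :
    ∃ g : G, Γ.Cent g a ∧ g • b = r := by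
  haveI := Γ.finite_pts
  haveI : Nontrivial Ω := ⟨a, b, hb.symm⟩
  obtain ⟨x, hx5, hxa, hxb, hs, h5, -⟩ := h.frame hb.symm
  have hcase : ∀ r, r ≠ a → ∃ g : G, g • a = a ∧ g • b = r ∧ (Γ.sc g a = 1 ∨ Γ.sc g a = -1) := by
    intro r hr
    obtain ⟨g, hga, hgb⟩ := h.stab_trans hb hr
    obtain ⟨k, hk⟩ := dec_sq2 _ _ h5 hs (Γ.sc_ne_zero hga)
    have ea : x ^ (k : ℕ) • a = a := pow_mem (show x ∈ MulAction.stabilizer G a from hxa) _
    have eb : x ^ (k : ℕ) • b = b := pow_mem (show x ∈ MulAction.stabilizer G b from hxb) _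
    exact ⟨g * x ^ (k : ℕ), by rw [mul_smul, ea, hga], by rw [mul_smul, eb, hgb],
      by rwa [Γ.sc_mul hga ea, Γ.sc_pow hxa]⟩
  by_contra hcon
  push Not at hcon
  obtain ⟨d, hda, hdb, hd⟩ := hcase r hr
  replace hd := hd.resolve_left fun e => hcon d ((Γ.sc_eq_one_iff hda).1 e) hdb
  have hda' : d⁻¹ • a = a := inv_smul_eq_iff.2 hda.symm
  have hd' : Γ.sc d⁻¹ a = -1 := by
    have := Γ.sc_inv_mul hda
    rw [hd] at this
    linear_combination -this
  let O : Set Ω := {q | ∃ g : G, g • a = a ∧ Γ.sc g a = 1 ∧ g • b = q}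
  have hne : ∀ g : G, g • a = a → g • b ≠ a := fun g hg e => hb (smul_left_cancel g (e.trans hg.symm))
  have e : {q | q ≠ a} = O ∪ (fun q => d • q) '' O := by
    ext q
    constructor
    · intro hq
      obtain ⟨g, hga, hgb, hg | hg⟩ := hcase q hq
      · exact .inl ⟨g, hga, hg, hgb⟩
      · refine .inr ⟨(d⁻¹ * g) • b, ⟨d⁻¹ * g, by rw [mul_smul, hga, hda'], ?_, rfl⟩, ?_⟩
        · rw [Γ.sc_mul hda' hga, hd', hg]; ring
        · simp only [mul_smul, smul_inv_smul, hgb]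
    · rintro (⟨g, hga, -, rfl⟩ | ⟨_, ⟨g, hga, -, rfl⟩, rfl⟩)
      · exact hne g hga
      · simp only [← mul_smul]; exact hne _ (by rw [mul_smul, hga, hda])
  have hd2 : Disjoint O ((fun q => d • q) '' O) := by
    rw [Set.disjoint_left]
    rintro _ ⟨g, hga, hg, rfl⟩ ⟨_, ⟨k, hka, hk, rfl⟩, e⟩
    simp only at e
    have hka' : k⁻¹ • a = a := inv_smul_eq_iff.2 hka.symm
    have h1 : (d * (k⁻¹ * (d⁻¹ * g))) • a = a := by simp only [mul_smul, hga, hda', hka', hda]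
    refine hcon (d * (k⁻¹ * (d⁻¹ * g))) ((Γ.sc_eq_one_iff h1).1 ?_) ?_
    · have hk' := Γ.sc_inv_mul hka
      rw [hk, mul_one] at hk'
      rw [Γ.sc_mul hda (by simp only [mul_smul, hga, hda', hka']),
        Γ.sc_mul hka' (by simp only [mul_smul, hga, hda']), Γ.sc_mul hda' hga, hd, hd', hk', hg]
      ring
    · simp only [mul_smul]
      rw [← e, inv_smul_smul, inv_smul_smul, hdb]
  have h1 := Γ.ncard_ne a
  rw [e, Set.ncard_union_eq hd2, Set.ncard_image_of_injective _ (MulAction.injective d)] at h1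
  have hev := Nat.even_iff.1 h.even
  have hpos : 0 < Nat.card Ω := Nat.card_pos
  omega

theorem HypA.card_cent (h : Γ.HypA) (hL : Γ.IsLine L) (a : Ω) :
    Nat.card (centralizer (Γ.pt a : Set G)) =
      (Nat.card Ω - 1) * Nat.card (centralizer (L : Set G)) := by
  obtain ⟨b, hb, -⟩ := hL.exists_ne a
  have h1 := card_orbit (centralizer (Γ.pt a : Set G)) b
  have hL' := h.isLine hb.symm
  have e1 : {r | ∃ g ∈ centralizer (Γ.pt a : Set G), g • b = r} = {r | r ≠ a} := by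
    ext r
    constructor
    · rintro ⟨g, hg, rfl⟩ e
      exact hb (smul_left_cancel g (e.trans ((Γ.cent_iff g a).2 hg).smul_eq.symm))
    · exact fun hr => (h.cent_trans hb hr).imp fun g hg => ⟨(Γ.cent_iff g a).1 hg.1, hg.2⟩
  have e2 : centralizer (Γ.pt a : Set G) ⊓ MulAction.stabilizer G b =
      centralizer ((Γ.pt a ⊔ Γ.pt b : Subgroup G) : Set G) := by
    ext g
    exact ⟨fun hg => hL'.F1 le_sup_left le_sup_right hb.symm ((Γ.cent_iff g a).2 hg.1) hg.2,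
      fun hg => mem_inf.2 ⟨(Γ.cent_iff g a).1 (Γ.cent_of_le hg le_sup_left),
        (Γ.cent_of_le hg le_sup_right).smul_eq⟩⟩
  rw [h1, e1, e2, Γ.ncard_ne, h.card_cent_eq hL hL']

end Geo

end Cfsg.Agent.F11
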