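import Cfsg.Agent.F11.BGeo

/-! Case B of S3403: counting around an involution. -/

set_option autoImplicit false
set_option linter.unusedSectionVars false

namespace Cfsg.Agent.F11

open Subgroup U

namespace BC

theorem ncard_fib {α β : Type*} {S : Set α} {B : Set β} (hS : S.Finite) (hB : B.Finite)
    (R : α → β → Prop) {k : ℕ} (h1 : ∀ s ∈ S, ∃! J, J ∈ B ∧ R s J)
    (h2 : ∀ J ∈ B, {s | s ∈ S ∧ R s J}.ncard = k) : S.ncard = k * B.ncard := by
  classical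
  have := Finset.card_mul_eq_card_mul (s := hS.toFinset) (t := hB.toFinset) (m := 1) (n := k) R
    (fun s hs => by
      obtain ⟨J, hJ, hu⟩ := h1 s (by simpa using hs)
      rw [Finset.card_eq_one]
      exact ⟨J, by
        ext J'
        simp only [Finset.mem_bipartiteAbove, Set.Finite.mem_toFinset, Finset.mem_singleton]
        exact ⟨hu J', fun e => e ▸ hJ⟩⟩)
    (fun J hJ => by
      rw [← h2 J (by simpa using hJ), ← Set.ncard_coe_finset]
      congr 1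
      ext s
      simp)
  rw [Set.ncard_eq_toFinset_card S hS, Set.ncard_eq_toFinset_card B hB, mul_comm k, ← this, mul_one]

variable {G : Type*} [Group G]

theorem norm_iff {g : G} {H : Subgroup G} :
    H.map (MulAut.conj g).toMonoidHom = H ↔ g ∈ normalizer (H : Set G) := by
  rw [mem_normalizer_iff'']
  constructor
  · intro e y
    rw [← mem_map_conj, e]
  · intro e
    ext y
    rw [mem_map_conj]
    exact (e y).symm

theorem conj_conj (g h : G) (H : Subgroup G) :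
    (H.map (MulAut.conj h).toMonoidHom).map (MulAut.conj g).toMonoidHom =
      H.map (MulAut.conj (g * h)).toMonoidHom := by
  ext y
  simp only [mem_map_conj, mul_inv_rev, mul_assoc]

end BC

open BC

namespace Geo

variable {G Ω : Type*} [Group G] [Finite G] [MulAction G Ω] {Γ : Geo G Ω}
variable {J : Subgroup G} {a b r : Ω} {g x t : G}

theorem IsBlock.bc_sc_inv (hf : Γ.Faithful) (hJ : Γ.IsBlock J) (ht2 : orderOf t = 2)
    (hta : t • a = a) : Γ.sc t a = -1 := by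
  have h1 := Γ.sc_pow_eq_one hta (n := 2) (ht2 ▸ pow_orderOf_eq_one t)
  have h2 : Γ.sc t a ≠ 1 := fun e => hJ.not_cent hf ht2 a ((Γ.sc_eq_one_iff hta).1 e)
  revert h1 h2
  generalize Γ.sc t a = k
  revert k
  decide

theorem IsBlock.fpf (hf : Γ.Faithful) (hJ : Γ.IsBlock J) (ht2 : orderOf t = 2) {s : G}
    (hs2 : orderOf s = 2) (hc : Commute s t) (hst : s ≠ t) (hta : t • a = a) : s • a ≠ a := by
  intro hsa
  refine hJ.not_cent hf (t := s * t) (two_of_sq ?_ fun e => hst ?_) a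
    ((Γ.sc_eq_one_iff (by rw [mul_smul, hta, hsa])).1 ?_)
  · rw [mul_assoc, ← mul_assoc t, ← hc.eq, mul_assoc, sq_of_two ht2, mul_one, sq_of_two hs2]
  · rw [← inv_of_two ht2]; exact eq_inv_of_mul_eq_one_left e
  · rw [Γ.sc_mul hsa hta, hJ.bc_sc_inv hf ht2 hta, hJ.bc_sc_inv hf hs2 hsa]; simp

theorem IsBlock.mem_of_pair (hf : Γ.Faithful) (hJ : Γ.IsBlock J) (ht2 : orderOf t = 2)
    (ha : Γ.pt a ≤ J) (hb : Γ.pt b ≤ J) (hab : a ≠ b)
    (h : (t • a = a ∧ t • b = b) ∨ (t • a = b ∧ t • b = a)) : t ∈ J := by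
  refine hJ.inv_mem hf ht2 (norm_iff.1 ((hJ.conj t).unique hJ hab ?_ ?_ ha hb))
  · rcases h with h | h
    · exact h.1 ▸ le_map_conj ha t
    · exact h.2 ▸ le_map_conj hb t
  · rcases h with h | h
    · exact h.2 ▸ le_map_conj hb t
    · exact h.1 ▸ le_map_conj ha t

theorem comm_fix (hc : Commute g t) (hta : t • a = a) : t • g • a = g • a := by
  rw [← mul_smul, ← hc.eq, mul_smul, hta]

theorem IsBlock.exists_fix (hJ : Γ.IsBlock J) (ht : t ∈ J) (ht2 : orderOf t = 2) :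
    ∃ a, Γ.pt a ≤ J ∧ t • a = a :=
  Set.nonempty_of_ncard_ne_zero (s := {r | Γ.pt r ≤ J ∧ t • r = r})
    (by rw [(hJ.inv_fix ht ht2).1]; norm_num)

theorem IsBlock.flag {J' : Subgroup G} (hJ : Γ.IsBlock J) (hJ' : Γ.IsBlock J') (ht : t ∈ J)
    (ht' : t ∈ J') (ht2 : orderOf t = 2) (ha : Γ.pt a ≤ J) (ha' : Γ.pt a ≤ J') (hta : t • a = a) :
    ∃ h : G, Commute h t ∧ h • a = a ∧ J.map (MulAut.conj h).toMonoidHom = J' := by
  obtain ⟨g, hg⟩ := hJ.exists_conj hJ'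
  obtain ⟨j, hj, e⟩ := hJ'.1.inv_conj (s := g * t * g⁻¹) (t := t)
    (hg ▸ mem_map_conj.2 (by simpa [mul_assoc] using ht)) ht' (by rw [orderOf_conj, ht2]) ht2
  have c1 : Commute (j * g) t := by
    rw [Commute, SemiconjBy, ← mul_inv_eq_iff_eq_mul]
    conv_rhs => rw [← e]
    group
  have e1 : J.map (MulAut.conj (j * g)).toMonoidHom = J' := by
    rw [← conj_conj, hg, norm_iff]
    exact le_normalizer hj
  obtain ⟨k, hk, c2, e2⟩ := (hJ'.inv_fix ht' ht2).2.2.1 _ a (e1 ▸ le_map_conj ha (j * g)) ha'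
    (comm_fix c1 hta) hta
  refine ⟨k * (j * g), c2.mul_left c1, by rw [mul_smul, e2], ?_⟩
  rw [← conj_conj, e1, norm_iff]
  exact le_normalizer hk

theorem IsBlock.card_flag (hJ : Γ.IsBlock J) (ht : t ∈ J) (ht2 : orderOf t = 2)
    (ha : Γ.pt a ≤ J) (hta : t • a = a) :
    Nat.card ↥(centralizer {t} ⊓ MulAction.stabilizer G a ⊓ normalizer (J : Set G)) =
      10 * Nat.card (centralizer (J : Set G)) := by
  have h1 := card_orbit (J ⊓ centralizer {t}) a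
  have h2 : {b | ∃ h ∈ J ⊓ centralizer {t}, h • a = b} = {r | Γ.pt r ≤ J ∧ t • r = r} := by
    ext b
    constructor
    · rintro ⟨h, hh, rfl⟩
      exact ⟨Γ.smul_le_of_mem hh.1 ha, comm_fix (mem_centralizer_singleton_iff.1 hh.2) hta⟩
    · rintro ⟨h3, h4⟩
      obtain ⟨g, hg, c, e⟩ := (hJ.inv_fix ht ht2).2.2.1 a b ha h3 hta h4
      exact ⟨g, ⟨hg, mem_centralizer_singleton_iff.2 c⟩, e⟩
  rw [h2, (hJ.inv_fix ht ht2).1, hJ.1.cent2 ht ht2] at h1
  rw [show 10 = Nat.card ↥(J ⊓ centralizer {t} ⊓ MulAction.stabilizer G a) by omega,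
    ← Nat.card_prod]
  have hct : ∀ c ∈ centralizer (J : Set G), c ∈ centralizer ({t} : Set G) := fun c hc =>
    mem_centralizer_singleton_iff.2 (hc t ht).symm
  have hca : ∀ c ∈ centralizer (J : Set G), c ∈ MulAction.stabilizer G a := fun c hc =>
    (Γ.cent_of_le hc ha).smul_eq
  refine (Nat.card_eq_of_bijective (fun p => ⟨p.1.1 * p.2.1,
    ⟨mul_mem p.1.2.1.2 (hct _ p.2.2), mul_mem p.1.2.2 (hca _ p.2.2)⟩,
    mul_mem (le_normalizer p.1.2.1.1) (centralizer_le_normalizer _ p.2.2)⟩) ⟨?_, ?_⟩).symm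
  · rintro ⟨⟨d, hd⟩, ⟨c, hc⟩⟩ ⟨⟨d', hd'⟩, ⟨c', hc'⟩⟩ e
    have e1 : d * c = d' * c' := congrArg Subtype.val e
    have e2 : d'⁻¹ * d = c' * c⁻¹ := by
      rw [inv_mul_eq_iff_eq_mul, ← mul_assoc, ← e1, mul_inv_cancel_right]
    have e3 := hJ.inf_cent (mul_mem (InvMemClass.inv_mem hd'.1.1) hd.1.1)
      (e2 ▸ mul_mem hc' (InvMemClass.inv_mem hc))
    obtain rfl : d' = d := inv_mul_eq_one.1 e3
    obtain rfl : c = c' := mul_left_cancel e1
    rfl
  · rintro ⟨g, ⟨h3, h4⟩, h5⟩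
    obtain ⟨j, hj, c, hc, rfl⟩ := hJ.out h5
    exact ⟨⟨⟨j, ⟨hj, (mul_mem_cancel_right (hct c hc)).1 h3⟩,
      (mul_mem_cancel_right (hca c hc)).1 h4⟩, ⟨c, hc⟩⟩, rfl⟩

theorem IsBlock.count (hf : Γ.Faithful) (hJ : Γ.IsBlock J) (ht : t ∈ J) (ht2 : orderOf t = 2) :
    ∃ w : ℕ, {r : Ω | t • r = r}.ncard = 1 + 11 * w ∧ Odd w ∧
      Nat.card (centralizer ({t} : Set G)) =
        10 * Nat.card (centralizer (J : Set G)) * (1 + 11 * w) * w ∧
      {s : G | orderOf s = 2 ∧ Commute s t ∧ s ≠ t}.ncard = 30 * w ∧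
      ∃ s₀ : G, ∀ s : G, orderOf s = 2 → Commute s t → s ≠ t →
        ∃ y : G, Commute y t ∧ (y * s₀ * y⁻¹ = s ∨ y * (s₀ * t) * y⁻¹ = s) := by
  have := Γ.finite_pts
  obtain ⟨a, ha, hta⟩ := hJ.exists_fix ht ht2
  obtain ⟨-, s₀, hs₀, o₀, c₀, n₀, hs⟩ := hJ.1.inv_cent2 ht ht2
  set B : Set (Subgroup G) := {J' | Γ.IsBlock J' ∧ Γ.pt a ≤ J' ∧ t ∈ J'} with hB
  have hthr : ∀ r, t • r = r → r ≠ a → ∃! J', J' ∈ B ∧ Γ.pt r ≤ J' := fun r hr hra => by
    obtain ⟨J', h1, h2, h3⟩ := hJ.exists_through a r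
    exact ⟨J', ⟨⟨h1, h2, h1.mem_of_pair hf ht2 h2 h3 hra.symm (Or.inl ⟨hta, hr⟩)⟩, h3⟩,
      fun J'' h => h.1.1.unique h1 hra.symm h.1.2.1 h.2 h2 h3⟩
  have hF : {r : Ω | t • r = r}.ncard = 1 + 11 * B.ncard := by
    rw [← ncard_fib (S := {r : Ω | t • r = r} \ {a}) (Set.toFinite _) (Set.toFinite _)
      (fun r J' => Γ.pt r ≤ J') (fun r hr => hthr r hr.1 hr.2) fun J' hJ' => ?_,
      add_comm, Set.ncard_sdiff_singleton_add_one (s := {r : Ω | t • r = r}) hta]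
    have h1 := Set.ncard_sdiff_singleton_add_one (s := {r | Γ.pt r ≤ J' ∧ t • r = r}) (a := a)
      ⟨hJ'.2.1, hta⟩
    rw [(hJ'.1.inv_fix hJ'.2.2 ht2).1] at h1
    rw [show 11 = ({r | Γ.pt r ≤ J' ∧ t • r = r} \ {a}).ncard by omega]
    congr 1
    ext r
    simp only [Set.mem_ofPred_eq, Set.mem_sdiff]
    tauto
  have hmem : ∀ s, orderOf s = 2 → Commute s t → s ≠ t → ∃! J', J' ∈ B ∧ s ∈ J' := by
    intro s o c n
    have h0 := hJ.fpf hf ht2 o c n hta
    obtain ⟨J', ⟨h1, h2⟩, hu⟩ := hthr (s • a) (comm_fix c hta) h0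
    exact ⟨J', ⟨h1, h1.1.mem_of_pair hf o h1.2.1 h2 h0.symm (Or.inr ⟨rfl, by
      rw [← mul_smul, sq_of_two o, one_smul]⟩)⟩,
      fun J'' h => hu J'' ⟨h.1, Γ.smul_le_of_mem h.2 h.1.2.1⟩⟩
  refine ⟨B.ncard, hF, ?_, ?_, ?_, s₀, fun s o c n => ?_⟩
  · have h1 := fix_mod_elt Nat.prime_two (g := s₀) (k := 1)
      (by rw [pow_one, ← o₀, pow_orderOf_eq_one]) (Set.toFinite {r : Ω | t • r = r})
      fun r hr => comm_fix c₀ hr
    rw [show {r | r ∈ {r : Ω | t • r = r} ∧ s₀ • r = r} = ∅ from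
      Set.eq_empty_of_forall_notMem fun r hr => hJ.fpf hf ht2 o₀ c₀ n₀ hr.1 hr.2, hF,
      Set.ncard_empty] at h1
    rw [Nat.odd_iff]
    omega
  · have h1 := card_orbit (centralizer {t}) a
    have h2 : {b | ∃ h ∈ centralizer ({t} : Set G), h • a = b} = {r : Ω | t • r = r} := by
      ext b
      constructor
      · rintro ⟨h, hh, rfl⟩
        exact comm_fix (mem_centralizer_singleton_iff.1 hh) hta
      · intro hb
        by_cases e : b = a
        · exact ⟨1, one_mem _, by rw [e, one_smul]⟩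
        obtain ⟨J', ⟨h3, h4⟩, -⟩ := hthr b hb e
        obtain ⟨g, -, c, e⟩ := (h3.1.inv_fix h3.2.2 ht2).2.2.1 a b h3.2.1 h4 hta hb
        exact ⟨g, mem_centralizer_singleton_iff.2 c, e⟩
    let _ : MulAction G (Subgroup G) :=
      { smul := fun g H => H.map (MulAut.conj g).toMonoidHom
        one_smul := fun H => norm_iff.2 (one_mem _)
        mul_smul := fun g h H => (conj_conj g h H).symm }
    have h3 := card_orbit (centralizer {t} ⊓ MulAction.stabilizer G a) J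
    have h4 : {b | ∃ h ∈ centralizer ({t} : Set G) ⊓ MulAction.stabilizer G a, h • J = b} = B := by
      ext J'
      constructor
      · rintro ⟨h, hh, rfl⟩
        refine ⟨hJ.conj h, (show h • a = a from hh.2) ▸ le_map_conj ha h, mem_map_conj.2 ?_⟩
        rwa [mul_assoc, ← mem_centralizer_singleton_iff.1 hh.1, inv_mul_cancel_left]
      · intro h
        obtain ⟨g, c, e1, e2⟩ := hJ.flag h.1 ht h.2.2 ht2 ha h.2.1 hta
        exact ⟨g, ⟨mem_centralizer_singleton_iff.2 c, e1⟩, e2⟩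
    have h5 : MulAction.stabilizer G J = normalizer (J : Set G) := by
      ext g
      exact norm_iff
    rw [h4, h5, hJ.card_flag ht ht2 ha hta] at h3
    rw [h1, h2, hF, h3]
    ring
  · refine ncard_fib (Set.toFinite _) (Set.toFinite _) (fun s J' => s ∈ J')
      (fun s h => hmem s h.1 h.2.1 h.2.2) fun J' hJ' => ?_
    rw [← (hJ'.1.1.inv_cent2 hJ'.2.2 ht2).1]
    congr 1
    ext s
    simp only [Set.mem_ofPred_eq]
    tauto
  · obtain ⟨J', ⟨h1, h2⟩, -⟩ := hmem s o c n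
    obtain ⟨g, cg, -, e⟩ := hJ.flag h1.1 ht h1.2.2 ht2 ha h1.2.1 hta
    have e0 : g⁻¹ * t * g = t := by rw [mul_assoc, ← cg.eq, inv_mul_cancel_left]
    obtain ⟨y, -, cy, h3⟩ := hs (g⁻¹ * s * g) (mem_map_conj.1 (e ▸ h2))
      (by simpa using (orderOf_conj g⁻¹ s).trans o) ((cg.inv_left.mul_left c).mul_left cg)
      fun e1 => n (by
        rw [← e0] at e1
        exact mul_left_cancel (mul_right_cancel e1))
    refine ⟨g * y, cg.mul_left cy, h3.imp (fun h => ?_) fun h => ?_⟩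
    · rw [show g * y * s₀ * (g * y)⁻¹ = g * (y * s₀ * y⁻¹) * g⁻¹ by group, h]; group
    · rw [show g * y * (s₀ * t) * (g * y)⁻¹ = g * (y * (s₀ * t) * y⁻¹) * g⁻¹ by group, h]; group

end Geo

end Cfsg.Agent.F11
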