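import Cfsg.Agent.F11.Util
import Cfsg.Agent.Block.BS
import Cfsg.Agent.Zass.Even

/-! An order formula for groups with a four-group as Sylow `2`-subgroup. -/

set_option autoImplicit false
set_option linter.unusedSectionVars false

namespace Cfsg.Agent.F11

open Subgroup Cfsg.Agent.Char Cfsg.Agent.Zass Cfsg.Agent.Block Cfsg.Agent.Local
open scoped ComplexConjugate

namespace LB

variable {G : Type*} [Group G] [Finite G]

omit [Finite G] in
theorem inv_int {χ : G → ℂ} (hχ : IsIrrCharacter G χ) {s : G} (hs : orderOf s = 2) :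
    ∃ k : ℤ, χ s = k := by
  obtain ⟨m, hm⟩ := char_param_mult (irr_isCharacter hχ) (fun i : ZMod 2 => s ^ i.val)
    (pow_val_add' (hs ▸ pow_orderOf_eq_one s)) (fun _ => 1) (by simp)
  rw [show (Finset.univ : Finset (ZMod 2)) = {0, 1} from rfl, Finset.sum_pair (by decide),
    ZMod.val_zero, pow_zero, show (1 : ZMod 2).val = 1 from rfl, pow_one, irr_deg hχ,
    ZMod.card] at hm
  exact ⟨2 * m - deg χ, by push_cast at hm ⊢; linear_combination hm⟩

omit [Group G] [Finite G] in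
theorem le_four (h8 : ¬ 8 ∣ Nat.card G) {k : ℕ} (h : 2 ^ k ∣ Nat.card G) : 2 ^ k ≤ 4 := by
  have : k ≤ 2 := by
    by_contra hk
    exact h8 ((pow_dvd_pow 2 (by omega : 3 ≤ k)).trans h)
  exact Nat.pow_le_pow_right two_pos this

theorem npc (h8 : ¬ 8 ∣ Nat.card G) {s : G} (hs : orderOf s = 2) :
    HasNPC 2 (centralizer ({s} : Set G)) := by
  refine hasNPC_of_local fun X hXH hX _ x hx hxX hodd a ha => ?_
  have hY : IsPGroup 2 ↥(X ⊔ zpowers s) :=
    hX.to_sup_of_normal_right' (IsPGroup.of_card (n := 1) (by rw [Nat.card_zpowers, hs]; rfl))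
      (hXH.trans ((U.cent_zpowers s).ge.trans (centralizer_le_normalizer _)))
  obtain ⟨k, hk⟩ := hY.exists_card_eq
  have h4 := le_four h8 (hk ▸ card_subgroup_dvd_card _)
  have hs1 := U.ne_one_of_ord hs (by norm_num)
  by_cases h1 : a = 1
  · simp [h1]
  by_cases h2 : a = s
  · rw [h2]; exact (mem_centralizer_singleton_iff.1 hx).symm
  have hc := U.card_class (zpowers x) a
  have hsub : {y | ∃ h ∈ zpowers x, h * a * h⁻¹ = y} ⊆ ((X ⊔ zpowers s : Subgroup G) : Set G) \ {1, s} := by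
    rintro _ ⟨h, hh, rfl⟩
    refine ⟨mem_sup_left (conj_mem_of_mem_normalizer (zpowers_le_of_mem hxX hh) ha), ?_⟩
    rintro (e | e)
    · exact h1 (by simpa using e)
    · have e2 := mem_centralizer_singleton_iff.1 (zpowers_le_of_mem hx hh)
      apply h2
      rw [Set.mem_singleton_iff, mul_inv_eq_iff_eq_mul, ← e2] at e
      exact mul_left_cancel e
  have h3 := Set.ncard_le_ncard hsub
  rw [Set.ncard_sdiff (by
    rintro y (rfl | rfl)
    · exact one_mem _
    · exact mem_sup_right (mem_zpowers _)), U.ncard_coe, hk, Set.ncard_pair hs1.symm] at h3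
  have h5 : Odd {y | ∃ h ∈ zpowers x, h * a * h⁻¹ = y}.ncard :=
    (Nat.coprime_two_right.1 hodd).of_dvd_nat (by rw [← Nat.card_zpowers, hc]; exact dvd_mul_right _ _)
  obtain ⟨b, hb⟩ := Set.ncard_eq_one.1
    (by obtain ⟨m, hm⟩ := h5; omega : {y | ∃ h ∈ zpowers x, h * a * h⁻¹ = y}.ncard = 1)
  have e1 : a ∈ ({b} : Set G) := hb ▸ ⟨1, one_mem _, by simp⟩
  have e2 : x * a * x⁻¹ ∈ ({b} : Set G) := hb ▸ ⟨x, mem_zpowers _, rfl⟩
  rw [Set.mem_singleton_iff] at e1 e2
  exact (mul_inv_eq_iff_eq_mul.1 (e2.trans e1.symm)).symm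

open Classical in
theorem b0 (h8 : ¬ 8 ∣ Nat.card G) {s : G} (hs : orderOf s = 2) (v : IrrCharacter G → ℤ)
    (hv : ∀ χ : IrrCharacter G, χ.1 s = v χ) :
    ∑ χ : IrrCharacter G, (if InB0 2 χ.1 then v χ ^ 2 else 0) ≤ 4 := by
  have h := npc h8 hs
  have := Fintype.ofFinite h.compl
  obtain ⟨k, hk⟩ := h.exists_relIndex
  have h1 : Nat.card h.compl * 2 ^ k = Nat.card (centralizer ({s} : Set G)) := by
    rw [← hk, ← Nat.card_congr (subgroupOfEquivOfLe h.compl_le).toEquiv]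
    exact card_mul_index _
  have h4 := le_four h8 ((Dvd.intro_left _ h1).trans (card_subgroup_dvd_card _))
  have h2 : ∑ χ : IrrCharacter G, (∑ c : h.compl, χ.1 (s * c)) * conj (χ.1 s) =
      Nat.card (centralizer ({s} : Set G)) := by
    simp only [Finset.sum_mul]
    rw [Finset.sum_comm, Finset.sum_eq_single 1]
    · rw [sum_irr_mul_conj, if_pos (by simpa using IsConj.refl s)]
    · intro c _ hc
      rw [sum_irr_mul_conj, if_neg]
      intro e
      obtain ⟨g, hg⟩ := isConj_iff.1 e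
      have e1 : s * c * (s * c) = 1 := by rw [← hg, conj_mul, U.sq_of_two hs]; simp
      have e2 := mem_centralizer_singleton_iff.1 c.2.1
      rw [mul_assoc, ← mul_assoc (c : G), e2, ← mul_assoc, ← mul_assoc, U.sq_of_two hs,
        one_mul] at e1
      exact hc (Subtype.ext (eq_one_of_pow_eq_one_of_coprime c.2.2 (pow_orderOf_eq_one _)
        (by rw [sq, e1])))
    · simp
  have h3 : ((Nat.card h.compl * ∑ χ : IrrCharacter G, (if InB0 2 χ.1 then v χ ^ 2 else 0) : ℤ) : ℂ)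
      = ((Nat.card h.compl * 2 ^ k : ℕ) : ℂ) := by
    rw [h1, ← h2]
    push_cast
    rw [Finset.mul_sum]
    refine Finset.sum_congr rfl fun χ _ => ?_
    rw [sum_compl_eq χ.2 (n := 1) (by rw [pow_one, ← hs, pow_orderOf_eq_one]) h, hv]
    split_ifs <;> simp [sq, mul_assoc]
  have h5 : (Nat.card h.compl * ∑ χ : IrrCharacter G, (if InB0 2 χ.1 then v χ ^ 2 else 0) : ℤ)
      = Nat.card h.compl * (2 ^ k : ℕ) := by exact_mod_cast h3
  rw [mul_left_cancel₀ (by exact_mod_cast Nat.card_pos.ne') h5]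
  exact_mod_cast h4

theorem core (h8 : ¬ 8 ∣ Nat.card G) {s : G} (hs : orderOf s = 2) {χ ψ : IrrCharacter G}
    (h1 : χ.1 ≠ 1) (h2 : ψ.1 ≠ 1) (h12 : χ ≠ ψ) {c d : ℤ} (hc : c = 1 ∨ c = -1)
    (hd : d = 1 ∨ d = -1) (h : ∀ g, 2 ∣ orderOf g → 1 + (c * χ.1 g + d * ψ.1 g) = 0) :
    (c * χ.1 s = -1 ∧ ψ.1 s = 0) ∨ (χ.1 s = 0 ∧ d * ψ.1 s = -1) := by
  classical
  choose v hv using fun θ : IrrCharacter G => inv_int θ.2 hs
  have hb := b0 h8 hs v hv
  have hN := npc h8 hs
  have := Fintype.ofFinite hN.compl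
  have hp : s ^ 2 ^ 1 = 1 := by rw [pow_one, ← hs, pow_orderOf_eq_one]
  have e1 : ∑ k : hN.compl, (1 + (c * χ.1 (s * k) + d * ψ.1 (s * k))) = 0 :=
    Finset.sum_eq_zero fun k _ => h _ (by
      have e : Commute s k := (mem_centralizer_singleton_iff.1 k.2.1).symm
      rw [e.orderOf_mul_eq_mul_orderOf_of_coprime (by rw [hs]; exact k.2.2.symm), hs]
      exact dvd_mul_right _ _)
  rw [Finset.sum_add_distrib, Finset.sum_add_distrib, ← Finset.mul_sum, ← Finset.mul_sum,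
    sum_compl_eq χ.2 hp, sum_compl_eq ψ.2 hp, Finset.sum_const, Finset.card_univ,
    ← Nat.card_eq_fintype_card, hv, hv] at e1
  have e2 : (1 + (c * (if InB0 2 χ.1 then v χ else 0) + d * (if InB0 2 ψ.1 then v ψ else 0)) : ℤ)
      = 0 := by
    have h0 := card_ne_zero' hN.compl
    apply Int.cast_injective (α := ℂ)
    apply mul_left_cancel₀ h0
    rw [Int.cast_zero, mul_zero, ← e1]
    split_ifs <;> push_cast <;> simp <;> ring
  have e3 : (1 + (c * v χ + d * v ψ) : ℤ) = 0 := by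
    have := h s (by rw [hs])
    rw [hv, hv] at this
    exact_mod_cast this
  have e4 := (Finset.sum_le_sum_of_subset_of_nonneg
    (Finset.subset_univ {(⟨1, irr_one⟩ : IrrCharacter G), χ, ψ})
    fun θ _ _ => by split_ifs <;> positivity).trans hb
  have v1 : v ⟨1, irr_one⟩ = 1 := by
    have := hv ⟨1, irr_one⟩
    simp only [Pi.one_apply] at this
    exact_mod_cast this.symm
  rw [Finset.sum_insert (by
    simp only [Finset.mem_insert, Finset.mem_singleton, not_or]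
    exact ⟨fun e => h1 (by rw [← e]), fun e => h2 (by rw [← e])⟩), Finset.sum_pair h12,
    if_pos (one_inB0 2 G), v1] at e4
  rw [hv, hv]
  have key : (c * v χ = -1 ∧ v ψ = 0) ∨ (v χ = 0 ∧ d * v ψ = -1) := by
    generalize v χ = a at *
    generalize v ψ = b at *
    split_ifs at e2 e4
    · have a1 : a ≤ 1 := by nlinarith
      have a2 : -1 ≤ a := by nlinarith
      rcases hc with rfl | rfl <;> rcases hd with rfl | rfl <;> interval_cases a <;>
        first | omega | (exfalso; nlinarith)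
    · rcases hc with rfl | rfl <;> rcases hd with rfl | rfl <;> omega
    · rcases hc with rfl | rfl <;> rcases hd with rfl | rfl <;> omega
    · omega
  exact_mod_cast key

theorem sum_J0 [Fintype G] (hone : ∀ u v : G, orderOf u = 2 → orderOf v = 2 → IsConj u v)
    {s : G} (hs : orderOf s = 2) {χ : G → ℂ} (hχ : IsIrrCharacter G χ) :
    ∑ u, J0 G u * χ u = χ 1 + {s : G | orderOf s = 2}.ncard * χ s := by
  classical
  have h : ∀ u, J0 G u * χ u = (if u = 1 then χ 1 else 0) + if orderOf u = 2 then χ s else 0 := by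
    intro u
    by_cases h1 : u = 1
    · simp [h1, J0_of_sq]
    by_cases h2 : orderOf u = 2
    · rw [J0_of_sq (U.sq_of_two h2), if_neg h1, if_pos h2,
        classFun_of_isConj (irr_isClassFunction hχ) (hone u s h2 hs)]
      simp
    · rw [J0_of_not fun e => h2 (U.two_of_sq e h1)]
      simp [h1, h2]
  rw [Finset.sum_congr rfl fun u _ => h u, Finset.sum_add_distrib, Finset.sum_ite_eq',
    ← Finset.sum_filter, Set.ncard_eq_toFinset_card', Set.toFinset_ofPred]
  simp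

theorem eq_one_of_odd {H : Subgroup G} (h : Odd (Nat.card H)) {y : G} (hy : y ∈ H)
    (e : y * y = 1) : y = 1 :=
  eq_one_of_pow_eq_one_of_coprime (Nat.coprime_two_right.2 h)
    (congrArg Subtype.val (pow_card_eq_one' (x := (⟨y, hy⟩ : H)))) (by rw [sq, e])

/-- The local configuration. -/
structure Cf (x r : G) (C : Subgroup G) : Prop where
  hx : orderOf x = 5
  hr : orderOf r = 2
  hrx : r * x * r⁻¹ = x⁻¹
  odd : Odd (Nat.card C)
  cx : ∀ c ∈ C, Commute c x
  cr : ∀ c ∈ C, Commute c r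
  nm : x ∉ C
  ti : ∀ g ∈ zpowers x ⊔ C, g ∉ C → ∀ y : G, y * g * y⁻¹ ∈ zpowers x ⊔ C →
      y ∈ zpowers x ⊔ C ∨ y * r ∈ zpowers x ⊔ C

namespace Cf

variable {x r : G} {C : Subgroup G} (h : Cf x r C)
include h

theorem xn : zpowers x ≤ normalizer (C : Set G) :=
  zpowers_le_of_mem (centralizer_le_normalizer _ fun c hc => (h.cx c hc).eq)

theorem dec {a : G} (ha : a ∈ zpowers x ⊔ C) : ∃ (j : ℤ) (c : G), c ∈ C ∧ a = x ^ j * c := by
  rw [mem_sup_of_left_le_normalizer h.xn] at ha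
  obtain ⟨_, ⟨j, rfl⟩, k, hk, rfl⟩ := ha
  exact ⟨j, k, hk, rfl⟩

theorem rr : r * r = 1 := U.sq_of_two h.hr

theorem rj (j : ℤ) {c : G} (hc : c ∈ C) : r * (x ^ j * c) * r⁻¹ = (x ^ j)⁻¹ * c := by
  rw [← inv_zpow, ← h.hrx, conj_zpow, mul_assoc (r * x ^ j) r⁻¹, ← (h.cr c hc).inv_right.eq]
  group

theorem rA {a : G} (ha : a ∈ zpowers x ⊔ C) : r * a * r⁻¹ ∈ zpowers x ⊔ C := by
  obtain ⟨j, c, hc, rfl⟩ := h.dec ha
  rw [h.rj j hc]
  exact mul_mem (mem_sup_left (inv_mem ⟨j, rfl⟩)) (mem_sup_right hc)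

theorem lam : Nat.card ↥(zpowers x ⊔ C) = Nat.card C * 5 ∧ ∃ (ζ : ℂ) (μ : ↥(zpowers x ⊔ C) →* ℂ),
    IsPrimitiveRoot ζ 5 ∧ μ ⟨x, mem_sup_left (mem_zpowers x)⟩ = ζ ∧
      ∀ c : ↥(zpowers x ⊔ C), (c : G) ∈ C → μ c = 1 := by
  have hxA : x ∈ zpowers x ⊔ C := mem_sup_left (mem_zpowers x)
  let K : Subgroup ↥(zpowers x ⊔ C) := C.subgroupOf _
  have hK : K.Normal := normal_subgroupOf_of_le_normalizer (sup_le h.xn le_normalizer)
  have hg : ∀ y : _ ⧸ K, y ∈ zpowers (QuotientGroup.mk (s := K) ⟨x, hxA⟩) := by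
    intro y
    obtain ⟨c, rfl⟩ := QuotientGroup.mk_surjective y
    obtain ⟨j, k, hk, e⟩ := h.dec c.2
    refine ⟨j, ?_⟩
    change (QuotientGroup.mk (s := K) ⟨x, hxA⟩) ^ j = _
    rw [← QuotientGroup.mk_zpow, QuotientGroup.eq]
    change (x ^ j)⁻¹ * c ∈ C
    rwa [e, inv_mul_cancel_left]
  have : Fact (Nat.Prime 5) := ⟨by norm_num⟩
  have ho : orderOf (QuotientGroup.mk (s := K) ⟨x, hxA⟩) = 5 := by
    refine orderOf_eq_prime ?_ fun e => h.nm ((QuotientGroup.eq_one_iff (N := K) _).1 e)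
    rw [← QuotientGroup.mk_pow, QuotientGroup.eq_one_iff]
    change x ^ 5 ∈ C
    rw [← h.hx, pow_orderOf_eq_one]
    exact one_mem _
  have hζ := Complex.isPrimitiveRoot_exp 5 (by norm_num)
  generalize Complex.exp (2 * Real.pi * Complex.I / (5 : ℕ)) = ζ at hζ
  have hζ0 : ζ ≠ 0 := hζ.ne_zero (by norm_num)
  have ho' : orderOf (Units.mk0 ζ hζ0) ∣ orderOf (QuotientGroup.mk (s := K) ⟨x, hxA⟩) :=
    ho ▸ orderOf_dvd_of_pow_eq_one (Units.ext hζ.pow_eq_one)
  refine ⟨?_, ζ, (Units.coeHom ℂ).comp ((monoidHomOfForallMemZpowers hg ho').comp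
    (QuotientGroup.mk' K)), hζ, ?_, fun c hc => ?_⟩
  · rw [← K.card_mul_index, index_eq_card, ← orderOf_eq_card_of_forall_mem_zpowers hg, ho,
      Nat.card_congr (subgroupOfEquivOfLe le_sup_right).toEquiv]
  · simp only [MonoidHom.comp_apply, QuotientGroup.mk'_apply,
      monoidHomOfForallMemZpowers_apply_gen, Units.coeHom_apply, Units.val_mk0]
  · have : QuotientGroup.mk' K c = 1 := (QuotientGroup.eq_one_iff c).2 hc
    simp only [MonoidHom.comp_apply, this, map_one]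

theorem oddA : Odd (Nat.card ↥(zpowers x ⊔ C)) := h.lam.1 ▸ h.odd.mul (by decide)

theorem t0 {g u : G} (hg : g ∈ zpowers x ⊔ C) (hgC : g ∉ C) (hu : u * u = 1)
    (hug : u * g * (u * g) = 1) : g ∈ zpowers x ∧ u * r ∈ zpowers x := by
  have hi : u⁻¹ = u := inv_eq_of_mul_eq_one_right hu
  have e : u * g * u⁻¹ = g⁻¹ := by rw [hi]; exact eq_inv_of_mul_eq_one_left (by rw [← hug]; group)
  rcases h.ti g hg hgC u (e ▸ inv_mem hg) with h1 | h1
  · rw [eq_one_of_odd h.oddA h1 hu, one_mul] at hug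
    exact absurd (eq_one_of_odd h.oddA hg hug ▸ one_mem C) hgC
  obtain ⟨j, c, hc, e1⟩ := h.dec h1
  obtain ⟨i, d, hd, rfl⟩ := h.dec hg
  have e2 : u = x ^ j * c * r⁻¹ := eq_mul_inv_of_mul_eq e1
  have e3 := h.rj j hc
  have hc1 : c = 1 := by
    refine eq_one_of_odd h.odd hc ?_
    rw [e2] at hu
    nth_rw 1 [U.inv_of_two h.hr] at hu
    rw [show x ^ j * c * r * (x ^ j * c * r⁻¹) = x ^ j * c * (r * (x ^ j * c) * r⁻¹) by group, e3,
      mul_assoc, ← mul_assoc c, ((h.cx c hc).zpow_right j).inv_right.eq] at hu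
    simpa [mul_assoc] using hu
  rw [hc1, mul_one] at e1 e2
  refine ⟨?_, e1 ▸ ⟨j, rfl⟩⟩
  have hd1 : d = 1 := by
    refine eq_one_of_odd h.odd hd ?_
    have a1 : Commute d u := e2 ▸ ((h.cx d hd).zpow_right j).mul_right (h.cr d hd).inv_right
    have a2 : u * x ^ i * u⁻¹ = (x ^ i)⁻¹ := by
      have := h.rj i (one_mem C)
      rw [mul_one, mul_one] at this
      rw [e2, U.inv_of_two h.hr]
      calc x ^ j * r * x ^ i * (x ^ j * r)⁻¹ = x ^ j * (r * x ^ i * r⁻¹) * (x ^ j)⁻¹ := by group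
        _ = _ := by rw [this]; group
    rw [← mul_assoc, mul_assoc _ d, a1.inv_right.eq, ← mul_assoc, a2, mul_inv_rev,
      ((h.cx d hd).zpow_right i).inv_inv.eq] at e
    exact mul_eq_one_iff_eq_inv.2 (mul_left_cancel e)
  rw [hd1, mul_one]
  exact ⟨i, rfl⟩

theorem t1 {g u : G} (hg : g ∈ zpowers x) (hu : u * r ∈ zpowers x) :
    u * u = 1 ∧ u * g * (u * g) = 1 := by
  obtain ⟨i, rfl⟩ := hg
  obtain ⟨j, e⟩ := hu
  have e2 : u = x ^ j * r := by rw [← U.inv_of_two h.hr]; exact (mul_inv_eq_of_eq_mul e).symm ▸ rfl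
  have a : ∀ k : ℤ, r * x ^ k * r = (x ^ k)⁻¹ := fun k => by
    have := h.rj k (one_mem C)
    rwa [mul_one, mul_one, U.inv_of_two h.hr] at this
  simp only
  rw [e2]
  constructor
  · rw [show x ^ j * r * (x ^ j * r) = x ^ j * (r * x ^ j * r) by group, a, mul_inv_cancel]
  · rw [show x ^ j * r * x ^ i * (x ^ j * r * x ^ i) = x ^ j * (r * x ^ (i + j) * r) * x ^ i by group,
      a]
    group

open Classical in
theorem tau_eq [Fintype G] {g : G} (hg : g ∈ zpowers x ⊔ C) (hgC : g ∉ C) :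
    tau G g = if g ∈ zpowers x then 5 else 0 := by
  have h1 : ∀ u, J0 G u * J0 G (u * g) = if g ∈ zpowers x ∧ u * r ∈ zpowers x then 1 else 0 := by
    intro u
    split_ifs with h2
    · rw [J0_of_sq (h.t1 h2.1 h2.2).1, J0_of_sq (h.t1 h2.1 h2.2).2, mul_one]
    · by_cases h3 : u * u = 1
      · rw [J0_of_not (y := u * g) fun h4 => h2 (h.t0 hg hgC h3 h4), mul_zero]
      · rw [J0_of_not h3, zero_mul]
  simp only [tau, h1]
  split_ifs with h2
  · simp only [h2, true_and]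
    rw [← (Equiv.mulRight r).symm.sum_comp]
    simp only [Equiv.mulRight_symm, Equiv.coe_mulRight, inv_mul_cancel_right]
    rw [Finset.sum_boole, ← Fintype.card_subtype, ← Nat.card_eq_fintype_card]
    exact_mod_cast (Nat.card_zpowers x).trans h.hx
  · simp [h2]

theorem alpha [Fintype G] : ∃ α : G → ℂ, IsGeneralizedCharacter G α ∧ classInner α 1 = 1 ∧
    classInner α α = 3 ∧ α 1 = 0 ∧ (∀ g, 2 ∣ orderOf g → α g = 0) ∧
    Nat.card C * classInner α (tau G) = 5 := by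
  classical
  obtain ⟨hcard, ζ, l, hζ, h1, h2⟩ := h.lam
  have := Fintype.ofFinite ↥(zpowers x ⊔ C)
  have hxA : x ∈ zpowers x ⊔ C := mem_sup_left (mem_zpowers x)
  have hl := irr_of_monoidHom l
  have hl' := irr_conj' hl
  have hl1 : (l : _ → ℂ) ≠ 1 := fun e =>
    hζ.ne_one (by norm_num) (by rw [← h1, e, Pi.one_apply])
  have hl1' : (fun g => conj (l g)) ≠ 1 := by
    intro e
    apply hl1
    ext g
    simpa using congrArg conj (congrFun e g)
  have hll : (l : _ → ℂ) ≠ fun g => conj (l g) := by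
    intro e
    have h4 : l ⟨x, hxA⟩ * l ⟨x, hxA⟩ = 1 := by
      nth_rw 2 [congrFun e ⟨x, hxA⟩]
      rw [← char_apply_inv (irr_isCharacter hl), ← map_mul, mul_inv_cancel, map_one]
    exact absurd (hζ.dvd_of_pow_eq_one 2 (by rw [← h4, h1]; ring)) (by norm_num)
  have h3 : ∀ c : ↥(zpowers x ⊔ C), l ⟨r * c * r⁻¹, h.rA c.2⟩ = conj (l c) := by
    intro c
    obtain ⟨j, k, hk, e⟩ := h.dec c.2
    have e1 : c = ⟨x, hxA⟩ ^ j * ⟨k, mem_sup_right hk⟩ := Subtype.ext e
    have e2 : (⟨r * c * r⁻¹, h.rA c.2⟩ : ↥(zpowers x ⊔ C)) =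
        (⟨x, hxA⟩ ^ j)⁻¹ * ⟨k, mem_sup_right hk⟩ := Subtype.ext (by
      change r * c * r⁻¹ = (x ^ j)⁻¹ * k
      rw [e, h.rj j hk])
    rw [e2, map_mul, h2 ⟨k, _⟩ hk, mul_one, char_apply_inv (irr_isCharacter hl), e1, map_mul,
      h2 ⟨k, _⟩ hk, mul_one]
  have hev : ∀ g : G, 2 ∣ orderOf g → g ∉ zpowers x ⊔ C := fun g hg hh =>
    (Nat.not_even_iff_odd.2 h.oddA) (even_iff_two_dvd.2 (hg.trans (orderOf_dvd_natCard _ hh)))
  refine ⟨indFun _ (1 - (l : _ → ℂ)), gen_indFun _ (gen_sub (gen_of_char char_one')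
    (gen_of_char (irr_isCharacter hl))), ?_, ?_, ?_, fun g hg => ?_, ?_⟩
  · rw [inner_indFun_left _ _ classFun_one]
    change classInner _ 1 = 1
    rw [Char.inner_sub_left, inner_one_one, inner_irr_ne hl irr_one hl1, sub_zero]
  · rw [inner_indFun_left _ _ (indFun_isClassFunction _ _)]
    have h4 : classInner (1 - (l : _ → ℂ))
        (fun c : ↥(zpowers x ⊔ C) => indFun _ (1 - (l : _ → ℂ)) (c : G)) =
        classInner (1 - (l : _ → ℂ)) ((1 - (l : _ → ℂ)) + (1 - fun g => conj (l g))) := by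
      unfold classInner
      congr 1
      refine Finset.sum_congr rfl fun c _ => ?_
      by_cases h4 : (c : G) ∈ C
      · simp [h2 c h4]
      · congr 2
        refine indFun_apply_two _ _ (hev r (by rw [h.hr])) _ _ (fun g hg => ?_) (fun g hg => ?_)
          (fun g hg hg' => extendByZero_of_notMem _ _ fun hh => ?_)
        · rw [extendByZero_of_mem _ _ (mul_mem (mul_mem (inv_mem hg) c.2) hg)]
          exact classFun_conj' (classFun_sub classFun_one (irr_isClassFunction hl)) c ⟨g, hg⟩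
        · have e : g⁻¹ * c * g = r * (((⟨_, hg⟩ : ↥(zpowers x ⊔ C))⁻¹ * c *
              ⟨_, hg⟩ : ↥(zpowers x ⊔ C)) : G) * r⁻¹ := by
            simp [mul_assoc]
          rw [e, extendByZero_of_mem _ _ (h.rA (Subtype.property _)), Pi.sub_apply, h3,
            classFun_conj' (irr_isClassFunction hl)]
          rfl
        · rcases h.ti c c.2 h4 g⁻¹ (by rwa [inv_inv]) with e | e
          · exact hg (inv_mem_iff.1 e)
          · have := h.rA (inv_mem e)
            rw [show r * (g⁻¹ * r)⁻¹ * r⁻¹ = g * r⁻¹ by group, U.inv_of_two h.hr] at this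
            exact hg' this
    rw [h4]
    simp only [Char.inner_add_right, Char.inner_sub_left, Char.inner_sub_right, inner_one_one,
      inner_irr_self hl, inner_irr_ne hl irr_one hl1, inner_irr_ne irr_one hl hl1.symm,
      inner_irr_ne irr_one hl' hl1'.symm, inner_irr_ne hl hl' hll]
    norm_num
  · rw [indFun_one]; simp
  · rw [indFun_apply, Finset.sum_eq_zero, mul_zero]
    intro y _
    refine extendByZero_of_notMem _ _ (hev _ ?_)
    have := U.orderOf_conj y⁻¹ g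
    rw [inv_inv] at this
    rwa [this]
  · rw [inner_indFun_left _ _ (tau_classFun)]
    unfold classInner
    have h5 : ∑ c : ↥(zpowers x ⊔ C), (1 - (l : _ → ℂ)) c * conj (tau G c) = 25 := by
      have h6 : ∑ i ∈ Finset.range 5, (1 - ζ ^ i) * 5 = 25 := by
        rw [← Finset.sum_mul, Finset.sum_sub_distrib, hζ.geom_sum_eq_zero (by norm_num)]
        norm_num
      rw [← h6]
      refine (Finset.sum_of_injOn (fun i => (⟨x, hxA⟩ : ↥(zpowers x ⊔ C)) ^ i) ?_
        (fun _ _ => Finset.mem_univ _) (fun c _ hc => ?_) fun i _ => ?_).symm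
      · intro i hi j hj e
        exact pow_injOn_Iio_orderOf (x := x) (by simpa [h.hx] using hi) (by simpa [h.hx] using hj)
          (congrArg Subtype.val e)
      · by_cases h4 : (c : G) ∈ C
        · simp [h2 c h4]
        · rw [h.tau_eq c.2 h4, if_neg, map_zero, mul_zero]
          intro e
          rw [mem_zpowers_iff_mem_range_orderOf, h.hx, Finset.mem_image] at e
          obtain ⟨i, hi, e⟩ := e
          exact hc ⟨i, hi, Subtype.ext e⟩
      · by_cases h4 : x ^ i ∈ C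
        · have := h2 (⟨x, hxA⟩ ^ i) h4
          rw [Pi.sub_apply, this, ← h1, ← map_pow, this]
          simp
        · rw [h.tau_eq (Subtype.property _) h4, if_pos (by exact pow_mem (mem_zpowers x) i), Pi.sub_apply,
            map_pow, h1]
          simp [map_ofNat]
    rw [h5, hcard]
    have := card_ne_zero' C
    push_cast
    field_simp
    norm_num

end Cf

end LB

open LB in
theorem lemB {G : Type*} [Group G] [Finite G] (h8 : ¬ 8 ∣ Nat.card G)
    (h4 : ∀ g : G, orderOf g ≠ 4) (h4' : 4 ∣ Nat.card G)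
    (hone : ∀ u v : G, orderOf u = 2 → orderOf v = 2 → IsConj u v)
    {x r : G} (C : Subgroup G) (hx : orderOf x = 5) (hr : orderOf r = 2)
    (hrx : r * x * r⁻¹ = x⁻¹) (hCodd : Odd (Nat.card C)) (hCx : ∀ c ∈ C, Commute c x)
    (hCr : ∀ c ∈ C, Commute c r) (hxC : x ∉ C)
    (hTI : ∀ g ∈ zpowers x ⊔ C, g ∉ C → ∀ y : G, y * g * y⁻¹ ∈ zpowers x ⊔ C →
      y ∈ zpowers x ⊔ C ∨ y * r ∈ zpowers x ⊔ C) :
    ∃ u : ℤ, u ≠ 0 ∧
      (({s : G | orderOf s = 2}.ncard : ℤ)) ^ 2 * Nat.card C * (u + 1) = 5 * Nat.card G * u := by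
  classical
  have := Fintype.ofFinite G
  obtain ⟨α, hα, a1, a2, a3, a4, a5⟩ := (Cf.mk hx hr hrx hCodd hCx hCr hxC hTI).alpha
  obtain ⟨c, hc1, hc2, hc3⟩ := gen_exists_coeff hα
  have hc0 : c ⟨1, irr_one⟩ = 1 := by exact_mod_cast (hc1 ⟨1, irr_one⟩).symm.trans a1
  obtain ⟨T, hT1, hT2, hT3, hT4⟩ := exists_support c _ hc0 (m := 2) (by norm_num)
    (by rw [a2] at hc3; exact_mod_cast hc3.symm)
  have hE : ∀ g, α g = ∑ χ : IrrCharacter G, c χ * χ.1 g := fun g => by
    rw [hc2]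
    simp [Finset.sum_apply]
  have hI : Nat.card G * classInner α (tau G) = ∑ χ : IrrCharacter G,
      c χ * ((χ.1 1 + {s : G | orderOf s = 2}.ncard * χ.1 r) ^ 2 / χ.1 1) := by
    rw [hc2, Char.inner_sum_left, Finset.mul_sum]
    refine Finset.sum_congr rfl fun χ _ => ?_
    have := irr_one_ne_zero χ.2
    rw [Char.inner_smul_left, ← sum_J0 hone hr χ.2, ← inner_tau χ.2]
    field_simp
  have key : ∀ χ ψ : IrrCharacter G, χ ≠ ψ → T = {χ, ψ} → c χ * χ.1 r = -1 → ψ.1 r = 0 →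
      ∃ u : ℤ, u ≠ 0 ∧ (({s : G | orderOf s = 2}.ncard : ℤ)) ^ 2 * Nat.card C * (u + 1) =
        5 * Nat.card G * u := by
    intro χ ψ h12 e k1 k2
    subst e
    have z1 := irr_one_ne_zero χ.2
    have z2 := irr_one_ne_zero ψ.2
    have m1 := hT3 χ (by simp)
    have E1 := hE 1
    rw [hT4, Finset.sum_pair h12, a3] at E1
    rw [hT4, Finset.sum_pair h12, k2] at hI
    simp only [Pi.one_apply] at E1 hI
    refine ⟨c χ * deg χ.1, mul_ne_zero (by omega) (by exact_mod_cast (irr_deg_pos χ.2).ne'), ?_⟩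
    apply Int.cast_injective (α := ℂ)
    push_cast
    rw [← irr_deg χ.2]
    generalize ({s : G | orderOf s = 2}.ncard : ℂ) = i at *
    have hI' : Nat.card G * classInner α (tau G) * χ.1 1 = (1 + i) ^ 2 * χ.1 1 +
        c χ * (χ.1 1 + i * χ.1 r) ^ 2 + c ψ * ψ.1 1 * χ.1 1 := by
      rw [hI]; field_simp; ring
    rw [show c ψ * ψ.1 1 = -1 - c χ * χ.1 1 by linear_combination -E1] at hI'
    rcases m1 with m | m <;> rw [m] at k1 hI' ⊢ <;> push_cast at k1 hI' ⊢
    · rw [show χ.1 r = -1 by linear_combination k1] at hI'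
      linear_combination (Nat.card G * χ.1 1) * a5 - Nat.card C * hI'
    · rw [show χ.1 r = 1 by linear_combination -k1] at hI'
      linear_combination (-Nat.card G * χ.1 1) * a5 + Nat.card C * hI'
  obtain ⟨χ, ψ, h12, e⟩ := Finset.card_eq_two.1 hT1
  have n1 : χ.1 ≠ 1 := fun e1 => hT2 (by rw [e, ← show χ = ⟨1, irr_one⟩ from Subtype.ext e1]; simp)
  have n2 : ψ.1 ≠ 1 := fun e1 => hT2 (by rw [e, ← show ψ = ⟨1, irr_one⟩ from Subtype.ext e1]; simp)
  rcases core h8 hr n1 n2 h12 (hT3 χ (by simp [e])) (hT3 ψ (by simp [e])) (fun g hg => by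
    have := hE g
    rw [hT4, e, Finset.sum_pair h12, a4 g hg] at this
    exact this.symm) with ⟨k1, k2⟩ | ⟨k1, k2⟩
  · exact key χ ψ h12 e k1 k2
  · exact key ψ χ h12.symm (e.trans (Finset.pair_comm _ _)) k2 k1

end Cfsg.Agent.F11
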