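import Cfsg.Agent.F11.BCount
import Cfsg.Agent.F11.S8
import Cfsg.Agent.F11.LemB

/-! Case B of S3403: a block contains every point. -/

set_option autoImplicit false
set_option linter.unusedSectionVars false

namespace Cfsg.Agent.F11

open Subgroup U BC

namespace BF

variable {G : Type*} [Group G] [Finite G] {t : G} {Y : Subgroup G}

/-- `Y` is a complement to `⟨t⟩` in `C(t)`. -/
structure Sp (t : G) (Y : Subgroup G) : Prop where
  ht : orderOf t = 2
  le : Y ≤ centralizer {t}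
  nm : t ∉ Y
  or : ∀ y : G, Commute y t → y ∈ Y ∨ y * t ∈ Y

namespace Sp

variable (h : Sp t Y)
include h

theorem comm {y : G} (hy : y ∈ Y) : Commute y t := mem_centralizer_singleton_iff.1 (h.le hy)

theorem card : Nat.card (centralizer ({t} : Set G)) = 2 * Nat.card Y := by
  have ht : t ∈ centralizer ({t} : Set G) := mem_centralizer_singleton_iff.2 rfl
  have h1 : (Y.subgroupOf (centralizer {t})).index = 2 := by
    rw [index_eq_two_iff]
    refine ⟨⟨t, ht⟩, fun b => ?_⟩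
    change Xor (b * t ∈ Y) (b.1 ∈ Y)
    rcases h.or b (mem_centralizer_singleton_iff.1 b.2) with e | e
    · exact Or.inr ⟨e, fun e' => h.nm ((mul_mem_cancel_left e).1 e')⟩
    · exact Or.inl ⟨e, fun e' => h.nm ((mul_mem_cancel_left e').1 e)⟩
  rw [← (Y.subgroupOf (centralizer {t})).card_mul_index, h1,
    Nat.card_congr (subgroupOfEquivOfLe h.le).toEquiv, mul_comm]

theorem odd {y : G} (hc : Commute y t) (ho : Odd (orderOf y)) : y ∈ Y := by
  refine (h.or y hc).resolve_right fun e => h.nm ?_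
  have := pow_mem e (orderOf y)
  obtain ⟨k, hk⟩ := ho
  rwa [hc.mul_pow, pow_orderOf_eq_one, one_mul, hk, pow_succ, pow_mul, ← h.ht, pow_orderOf_eq_one,
    one_pow, one_mul] at this

theorem two {s : G} (o : orderOf s = 2) (c : Commute s t) (n : s ≠ t) : orderOf (s * t) = 2 := by
  refine two_of_sq ?_ fun e => n ?_
  · rw [mul_assoc, ← mul_assoc t, ← c.eq, mul_assoc, sq_of_two h.ht, mul_one, sq_of_two o]
  · rw [← inv_of_two h.ht]; exact eq_inv_of_mul_eq_one_left e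

theorem ncard : {s : G | orderOf s = 2 ∧ Commute s t ∧ s ≠ t}.ncard =
    2 * {s : Y | orderOf s = 2}.ncard := by
  have tt := sq_of_two h.ht
  have e : {s : G | orderOf s = 2 ∧ Commute s t ∧ s ≠ t} = Subtype.val '' {s : Y | orderOf s = 2} ∪
      (fun s : Y => s * t) '' {s : Y | orderOf s = 2} := by
    ext s
    constructor
    · rintro ⟨o, c, n⟩
      rcases h.or s c with e | e
      · exact Or.inl ⟨⟨s, e⟩, by simpa using o, rfl⟩
      · exact Or.inr ⟨⟨s * t, e⟩, by simpa using h.two o c n, by simp [mul_assoc, tt]⟩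
    · rintro (⟨y, o, rfl⟩ | ⟨y, o, rfl⟩)
      · exact ⟨by simpa using o, h.comm y.2, fun e => h.nm (e ▸ y.2)⟩
      · have o' : orderOf (y : G) = 2 := by simpa using o
        exact ⟨h.two o' (h.comm y.2) fun e => h.nm (e ▸ y.2), (h.comm y.2).mul_left (Commute.refl t),
          fun e => ne_one_of_ord o' (by norm_num) (by simpa using e)⟩
  rw [e, Set.ncard_union_eq, Set.ncard_image_of_injective _ Subtype.val_injective,
    Set.ncard_image_of_injective _ fun a b e => Subtype.ext (mul_right_cancel e), two_mul]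
  rw [Set.disjoint_left]
  rintro _ ⟨y, -, rfl⟩ ⟨z, -, e⟩
  exact h.nm ((mul_mem_cancel_left z.2).1 ((show (z : G) * t = y from e) ▸ y.2))

theorem conj {s₀ : G} (hs : ∀ s : G, orderOf s = 2 → Commute s t → s ≠ t →
    ∃ y : G, Commute y t ∧ (y * s₀ * y⁻¹ = s ∨ y * (s₀ * t) * y⁻¹ = s))
    (u v : Y) (hu : orderOf u = 2) (hv : orderOf v = 2) : IsConj u v := by
  have key : ∀ u : Y, orderOf u = 2 → ∃ z : Y, (z = s₀ ∨ z = s₀ * t) ∧ IsConj z u := by
    intro u hu
    obtain ⟨y, c, e⟩ := hs u (by simpa using hu) (h.comm u.2) fun e => h.nm (e ▸ u.2)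
    obtain ⟨z, e1, e2⟩ : ∃ z, (z = s₀ ∨ z = s₀ * t) ∧ y * z * y⁻¹ = u :=
      e.elim (fun e => ⟨_, Or.inl rfl, e⟩) fun e => ⟨_, Or.inr rfl, e⟩
    obtain ⟨y', hy', e3⟩ : ∃ y' ∈ Y, y' * z * y'⁻¹ = u := by
      refine (h.or y c).elim (fun e => ⟨y, e, e2⟩) fun e => ⟨y * t, e, ?_⟩
      have : Commute z t := by
        rw [show z = y⁻¹ * u * y by rw [← e2]; group]
        exact (c.inv_left.mul_left (h.comm u.2)).mul_left c
      rw [← e2, mul_assoc y, ← this.eq]
      group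
    have hz : z ∈ Y := by
      rw [show z = y'⁻¹ * u * y' by rw [← e3]; group]
      exact mul_mem (mul_mem (inv_mem hy') u.2) hy'
    exact ⟨⟨z, hz⟩, e1, isConj_iff.2 ⟨⟨y', hy'⟩, Subtype.ext e3⟩⟩
  obtain ⟨z, e1, c1⟩ := key u hu
  obtain ⟨z', e2, c2⟩ := key v hv
  obtain rfl : z = z' := by
    rcases e1 with e1 | e1 <;> rcases e2 with e2 | e2
    · exact Subtype.ext (e1.trans e2.symm)
    · exact absurd ((mul_mem_cancel_left (e1 ▸ z.2)).1 (e2 ▸ z'.2)) h.nm
    · exact absurd ((mul_mem_cancel_left (e2 ▸ z'.2)).1 (e1 ▸ z.2)) h.nm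
    · exact Subtype.ext (e1.trans e2.symm)
  exact c1.symm.trans c2

end Sp

theorem arith {w c : ℕ} {u : ℤ} (hw : Odd w) (hc : 0 < c)
    (h : ((15 * w : ℕ) : ℤ) ^ 2 * c * (u + 1) = 5 * (5 * c * (1 + 11 * w) * w : ℕ) * u) : w = 1 := by
  have h0 : (25 * c * w : ℤ) ≠ 0 := by have := hw.pos; positivity
  have h1 : (9 * w : ℤ) = (2 * w + 1) * u := by
    apply mul_left_cancel₀ h0
    push_cast at h
    linear_combination h
  have h2 : (2 * w + 1 : ℤ) * (9 - 2 * u) = 9 := by linear_combination 2 * h1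
  have h3 : (2 * w + 1 : ℕ) ∣ 9 := by exact_mod_cast Dvd.intro _ h2
  have h4 := Nat.le_of_dvd (by norm_num) h3
  obtain ⟨k, rfl⟩ := hw
  have : k ≤ 1 := by omega
  interval_cases k
  · rfl
  · exact absurd h3 (by norm_num)

end BF

open BF

namespace Geo

variable {G Ω : Type*} [Group G] [Finite G] [MulAction G Ω] {Γ : Geo G Ω}
variable {J : Subgroup G} {a : Ω} {x t r : G}

theorem IsBlock.two_fix (hJ : Γ.IsBlock J) (ht : t ∈ J) (ht2 : orderOf t = 2) (ha : Γ.pt a ≤ J)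
    (hta : t • a = a) (hx : x ∈ J) (hx5 : orderOf x = 5) (htx : Commute t x) (hxa : x • a = a)
    (hr : r ∈ J) (hrt : Commute r t) (hrx : r * x * r⁻¹ = x⁻¹) {g : G}
    (hg : g ∈ zpowers x ⊔ centralizer (J : Set G)) :
    g • a = a ∧ g • r • a = r • a ∧ (g ∉ centralizer (J : Set G) →
      ∀ p : Ω, g • p = p → t • p = p → p = a ∨ p = r • a) := by
  have hra : Γ.pt (r • a) ≤ J := Γ.smul_le_of_mem hr ha
  rw [Local.mem_sup_of_left_le_normalizer (zpowers_le_of_mem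
    (centralizer_le_normalizer _ fun c hc => (hc x hx).symm))] at hg
  obtain ⟨y, hy, c, hc, rfl⟩ := hg
  have hyJ : y ∈ J := zpowers_le_of_mem hx hy
  have hya : y • a = a := zpowers_le_of_mem (H := MulAction.stabilizer G a) hxa hy
  have e1 : r * y⁻¹ * r⁻¹ = y := by
    obtain ⟨j, rfl⟩ := hy
    simp only
    rw [← zpow_neg, ← conj_zpow, hrx]
    simp
  have hya' : y⁻¹ • a = a := by rw [inv_smul_eq_iff, hya]
  have hyr : y • r • a = r • a := by
    rw [← e1, ← mul_smul, inv_mul_cancel_right, mul_smul, hya']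
  have hcp : ∀ p, Γ.pt p ≤ J → c • p = p := fun p hp => (Γ.cent_of_le hc hp).smul_eq
  refine ⟨by rw [mul_smul, hcp a ha, hya], by rw [mul_smul, hcp _ hra, hyr], fun hn p h1 h2 => ?_⟩
  have : Fact (Nat.Prime 5) := ⟨by norm_num⟩
  have hy5 : y ^ 5 = 1 := by
    have := pow_card_eq_one' (x := (⟨y, hy⟩ : zpowers x))
    rw [Nat.card_zpowers, hx5] at this
    exact congrArg Subtype.val this
  have oy : orderOf y = 5 := orderOf_eq_prime hy5 fun e => hn (by rwa [e, one_mul])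
  have hty : Commute t y := by
    obtain ⟨j, rfl⟩ := hy
    exact htx.zpow_right j
  obtain ⟨f1, f2, -⟩ := hJ.five hyJ oy ha hya
  have e2 : Γ.sc (y * c) a = Γ.sc y a := by
    rw [Γ.sc_mul hya (hcp a ha), (Γ.sc_eq_one_iff (hcp a ha)).2 (Γ.cent_of_le hc ha), mul_one]
  have hp : Γ.pt p ≤ J := hJ.step1 ha (by rw [mul_smul, hcp a ha, hya])
    (e2 ▸ Γ.sc_pow_eq_one hya hy5) (e2 ▸ f1)
    (mul_mem (le_normalizer hyJ) (centralizer_le_normalizer _ hc)) h1
  rw [mul_smul, hcp p hp] at h1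
  refine (f2 p hp h1).imp (fun e => hJ.inv_unique hyJ oy ht ht2 hty hp ha h1 hya h2 hta e)
    fun e => hJ.inv_unique hyJ oy ht ht2 hty hp hra h1 hyr h2 (comm_fix hrt hta) ?_
  have : Fact (Nat.Prime 11) := ⟨by norm_num⟩
  apply mul_right_cancel₀ (Γ.sc_ne_zero hya)
  rw [e]
  nth_rw 1 [← e1]
  rw [Γ.sc_conj hya', Γ.sc_inv_mul hya]

theorem IsBlock.caseB (hf : Γ.Faithful) (hJ : Γ.IsBlock J) (r : Ω) : Γ.pt r ≤ J := by
  have := Γ.finite_pts
  obtain ⟨t, ht, ht2⟩ : ∃ t ∈ J, orderOf t = 2 := by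
    obtain ⟨t, e⟩ : 2 ∈ Set.range (orderOf : J → ℕ) := by rw [hJ.1.2.2]; simp
    exact ⟨t, t.2, by simpa using e⟩
  obtain ⟨w, w1, w2, w3, w4, s₀, w5⟩ := hJ.count hf ht ht2
  have h16 := s8 (hJ.no_four hf) ht2 (fun u hu => hJ.inv_isConj hf ht2 hu) w5
  obtain ⟨Y, y1, y2, y3⟩ := split_inv (hJ.no_four hf) ht2
  have h : Sp t Y := ⟨ht2, y1, y2, y3⟩
  obtain ⟨a, ha, hta⟩ := hJ.exists_fix ht ht2
  obtain ⟨x, hx, hx5, htx, hxa, hD⟩ := (hJ.inv_fix ht ht2).2.2.2 a ha hta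
  have hxY : x ∈ Y := h.odd htx.symm (by rw [hx5]; decide)
  obtain ⟨ρ, hρ, hρY, oρ, hρx⟩ : ∃ ρ ∈ J, ρ ∈ Y ∧ orderOf ρ = 2 ∧ ρ * x * ρ⁻¹ = x⁻¹ := by
    obtain ⟨ρ, h1, h2, h3, h4⟩ := hJ.1.exists_inverter hx hx5 ht ht2 htx
    refine (h.or ρ h3).elim (fun e => ⟨ρ, h1, e, h2, h4⟩) fun e => ⟨ρ * t, mul_mem h1 ht, e,
      h.two h2 h3 ?_, by rw [← h4, mul_assoc ρ, htx.eq]; group⟩
    rintro rfl
    rw [htx.eq, mul_inv_cancel_right] at h4
    have : orderOf x ∣ 2 := orderOf_dvd_of_pow_eq_one (by rw [sq]; exact mul_eq_one_iff_eq_inv.2 h4)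
    rw [hx5] at this
    exact absurd this (by norm_num)
  have hCY : centralizer (J : Set G) ≤ Y := fun c hc =>
    h.odd (hc t ht).symm ((hJ.odd_cent hf).of_dvd_nat (orderOf_dvd_natCard _ hc))
  have hcY : Nat.card Y = 5 * Nat.card (centralizer (J : Set G)) * (1 + 11 * w) * w := by
    have := h.card
    rw [w3] at this
    linarith
  have hmem : ∀ g : Y, g ∈ zpowers (⟨x, hxY⟩ : Y) ⊔ (centralizer (J : Set G)).subgroupOf Y ↔
      (g : G) ∈ zpowers x ⊔ centralizer (J : Set G) := fun g => by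
    rw [← mem_map_iff_mem (f := Y.subtype) Subtype.val_injective, Subgroup.map_sup,
      MonoidHom.map_zpowers, subgroupOf_map_subtype, inf_eq_left.2 hCY]
    rfl
  have hcC : Nat.card ((centralizer (J : Set G)).subgroupOf Y) =
      Nat.card (centralizer (J : Set G)) := Nat.card_congr (subgroupOfEquivOfLe hCY).toEquiv
  have hne : ρ • a ≠ a := hJ.fpf hf ht2 oρ (h.comm hρY) (fun e => h.nm (e ▸ hρY)) hta
  have hρρ : ρ • ρ • a = a := by rw [← mul_smul, sq_of_two oρ, one_smul]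
  have hz : ∀ z ∈ Y, z • a = a → z • ρ • a = ρ • a → z ∈ zpowers x ⊔ centralizer (J : Set G) := by
    intro z hz z1 z2
    have hn := Γ.mem_normalizer_sup (Or.inl ⟨z1, z2⟩)
    rw [hJ.J4 ht ht2 ha (Γ.smul_le_of_mem hρ ha) hne.symm hta (comm_fix (h.comm hρY) hta)] at hn
    obtain ⟨j, hj, c, hc, rfl⟩ := hJ.out hn
    have hjY := (mul_mem_cancel_right (hCY hc)).1 hz
    rw [mul_smul, (Γ.cent_of_le hc ha).smul_eq] at z1
    rcases hD j hj (h.comm hjY) z1 with e | e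
    · exact mul_mem (mem_sup_left e) (mem_sup_right hc)
    · exact absurd ((mul_mem_cancel_left hjY).1 (zpowers_le_of_mem hxY e)) h.nm
  obtain ⟨u, -, e⟩ := lemB (G := Y) (x := ⟨x, hxY⟩) (r := ⟨ρ, hρY⟩)
    (fun h8 => h16 ((h.card ▸ Nat.mul_dvd_mul_left 2 h8 : 16 ∣ _).trans (card_subgroup_dvd_card _)))
    (fun g e => hJ.no_four hf g (by simpa using e))
    (by
      have h1 := card_dvd_of_le (inf_le_right : J ⊓ centralizer {t} ≤ _)
      rw [hJ.1.cent2 ht ht2, h.card] at h1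
      omega)
    (h.conj w5) ((centralizer (J : Set G)).subgroupOf Y) (by simpa using hx5) (by simpa using oρ)
    (Subtype.ext hρx) (hcC ▸ hJ.odd_cent hf) (fun c hc => Subtype.ext (hc x hx).symm)
    (fun c hc => Subtype.ext (hc ρ hρ).symm)
    (fun e => ne_one_of_ord hx5 (by norm_num) (hJ.inf_cent hx e))
    (fun g hg hgC y hy => by
      rw [hmem] at hg hy
      rw [hmem, hmem]
      have T := fun {g : G} hg => hJ.two_fix ht ht2 ha hta hx hx5 htx hxa hρ (h.comm hρY) hρx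
        (g := g) hg
      obtain ⟨a1, a2, -⟩ := T hy
      have key : ∀ p : Ω, (y * g * y⁻¹ : Y).1 • p = p → t • p = p →
          (y : G) • a = p ∨ (y : G) • ρ • a = p := fun p p1 p2 => by
        refine ((T hg).2.2 hgC ((y : G)⁻¹ • p) ?_ (comm_fix (h.comm y.2).inv_left p2)).imp
          (fun e => by rw [← e, smul_inv_smul]) fun e => by rw [← e, smul_inv_smul]
        rw [eq_inv_smul_iff, ← mul_smul, ← mul_smul]
        exact p1
      rcases key a a1 hta with k1 | k1 <;>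
        rcases key _ a2 (comm_fix (h.comm hρY) hta) with k2 | k2
      · exact absurd (k2.symm.trans k1) hne
      · exact Or.inl (hz y y.2 k1 k2)
      · exact Or.inr (hz (y * ρ) (mul_mem y.2 hρY) (by rw [mul_smul, k1])
          (by rw [mul_smul, hρρ, k2]))
      · exact absurd (k2.symm.trans k1) hne)
  have h15 : {s : Y | orderOf s = 2}.ncard = 15 * w := by
    have := h.ncard
    omega
  rw [h15, hcC, hcY] at e
  obtain rfl := arith w2 Nat.card_pos e
  have hF : ∀ {J'}, Γ.IsBlock J' → t ∈ J' → ∀ p, t • p = p → Γ.pt p ≤ J' := fun {J'} h1 h2 p hp => by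
    have : {r | Γ.pt r ≤ J' ∧ t • r = r} = {r : Ω | t • r = r} :=
      Set.eq_of_subset_of_ncard_le (fun _ h => h.2) (by rw [w1, (h1.inv_fix h2 ht2).1])
    exact (this.ge hp).1
  by_cases hr : t • r = r
  · exact hF hJ ht r hr
  obtain ⟨J', h1, h2, h3⟩ := hJ.exists_through r (t • r)
  have h4 := h1.mem_of_pair hf ht2 h2 h3 (Ne.symm hr) (Or.inr ⟨rfl, by
    rw [← mul_smul, sq_of_two ht2, one_smul]⟩)
  rwa [hJ.unique h1 hne.symm ha (Γ.smul_le_of_mem hρ ha) (hF h1 h4 a hta)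
    (hF h1 h4 _ (comm_fix (h.comm hρY) hta))]

end Geo

end Cfsg.Agent.F11
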