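import Cfsg.Agent.F11.Out
import Cfsg.Agent.F11.Gleason

/-! Case B of S3403: two points lie in a unique block, and involutions lie in blocks. -/

set_option autoImplicit false
set_option linter.unusedSectionVars false

namespace Cfsg.Agent.F11
open Subgroup Cfsg.Agent.Local U
open scoped Pointwise
namespace Geo
variable {G Ω : Type*} [Group G] [Finite G] [MulAction G Ω] {Γ : Geo G Ω}
variable {J : Subgroup G} {a b r : Ω} {g x t : G}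

theorem IsBlock.bg_dec (hJ : Γ.IsBlock J) (hg : g ∈ normalizer (J : Set G)) :
    ∃ j ∈ J, ∃ c ∈ centralizer (J : Set G), g = j * c ∧ (∀ r, Γ.pt r ≤ J → j • r = g • r) ∧
      (∀ r, Γ.pt r ≤ J → g • r = r → Γ.sc j r = Γ.sc g r) ∧ ∀ n : ℕ, g ^ n = 1 → j ^ n = 1 ∧ c ^ n = 1 := by
  obtain ⟨j, hj, c, hc, rfl⟩ := hJ.out hg
  have h1 : ∀ r, Γ.pt r ≤ J → c • r = r := fun r hr => (Γ.cent_of_le hc hr).smul_eq
  refine ⟨j, hj, c, hc, rfl, fun r hr => by rw [mul_smul, h1 r hr], fun r hr e => ?_, fun n e => ?_⟩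
  · rw [mul_smul, h1 r hr] at e
    rw [Γ.sc_mul e (h1 r hr), (Γ.sc_eq_one_iff (h1 r hr)).2 (Γ.cent_of_le hc hr), mul_one]
  · rw [Commute.mul_pow (hc j hj)] at e
    have : j ^ n = 1 := hJ.inf_cent (pow_mem hj n) (eq_inv_of_mul_eq_one_left e ▸ inv_mem (pow_mem hc n))
    exact ⟨this, by simpa [this] using e⟩

theorem IsBlock.bg_five (hJ : Γ.IsBlock J) (ha : Γ.pt a ≤ J) (hx : x ∈ J) (hxa : x • a = a)
    {p : ℕ} (hp : p.Prime) (h5 : Γ.sc x a ^ p = 1) (h1 : Γ.sc x a ≠ 1) : orderOf x = p :=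
  have := Fact.mk hp
  orderOf_eq_prime (hJ.pow_eq_one ha hx hxa h1 h5) fun e => h1 (e ▸ Γ.sc_one a)

theorem bg_sq : ∀ l : ZMod 11, l ^ 5 = 1 → l ≠ 1 → l ^ 2 ≠ 1 := by decide

theorem bg_sc (h : Commute t g) (hg : g • r = r) : g • t • r = t • r ∧ Γ.sc g (t • r) = Γ.sc g r :=
  ⟨by rw [← mul_smul, ← h.eq, mul_smul, hg], by rw [← Γ.sc_conj hg t, h.eq, mul_inv_cancel_right]⟩

theorem bg_dich (hga : g • a = a) (h5 : Γ.sc g a ^ 5 = 1) (h1 : Γ.sc g a ≠ 1) (hgr : g • r = r) :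
    Γ.sc g r = Γ.sc g a ∨ Γ.sc g r * Γ.sc g a = 1 := by
  by_cases e : a = r
  · exact .inl (e ▸ rfl)
  rcases Γ.pair a r e with h | h
  · exact .inr (mul_comm (Γ.sc g a) _ ▸ (isLine_sup h).F3 le_sup_left le_sup_right e hga hgr)
  obtain ⟨j, hj, -, -, -, h2, h3, -⟩ := (isBlock_sup h).bg_dec (Γ.mem_normalizer_sup (.inl ⟨hga, hgr⟩))
  have ja := (h2 a le_sup_left).trans hga
  rw [← h3 a le_sup_left hga] at h5 h1 ⊢
  rw [← h3 r le_sup_right hgr]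
  exact ((isBlock_sup h).five hj ((isBlock_sup h).bg_five le_sup_left hj ja Nat.prime_five h5 h1) le_sup_left ja).2.1 r
    le_sup_right ((h2 r le_sup_right).trans hgr)

theorem bg_uniq (htg : Commute t g) (hga : g • a = a) (hgb : g • b = b) (hta : t • a = a) (htb : t • b = b)
    (h5 : Γ.sc g a ^ 5 = 1) (h1 : Γ.sc g a ≠ 1) (hs : Γ.sc g a = Γ.sc g b) (ht : Γ.sc t a = -1) : a = b := by
  by_contra e
  have hJ := isBlock_sup (jt_of_sc_eq e hga hgb hs (bg_sq _ h5 h1))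
  obtain ⟨j, hj, c, hc, e1, h2, h3, -⟩ := hJ.bg_dec (Γ.mem_normalizer_sup (.inl ⟨hga, hgb⟩))
  obtain ⟨k, hk, d, hd, e2, k2, k3, -⟩ := hJ.bg_dec (Γ.mem_normalizer_sup (.inl ⟨hta, htb⟩))
  have ja := (h2 a le_sup_left).trans hga
  have ka := (k2 a le_sup_left).trans hta
  rw [← h3 a le_sup_left hga] at h5 h1 hs
  rw [← k3 a le_sup_left hta] at ht
  refine e (hJ.inv_unique hj (hJ.bg_five le_sup_left hj ja Nat.prime_five h5 h1) hk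
    (hJ.bg_five le_sup_left hk ka Nat.prime_two (by rw [ht]; decide) (by rw [ht]; decide)) ?_ le_sup_left le_sup_right ja
    ((h2 b le_sup_right).trans hgb) ka ((k2 b le_sup_right).trans htb) (hs.trans (h3 b le_sup_right hgb).symm))
  have e3 : k * j * (d * c) = j * k * (c * d) := by
    calc _ = k * (j * d) * c := by group
      _ = t * g := by rw [hd j hj, e1, e2]; group
      _ = j * (c * k) * d := by rw [htg.eq, e1, e2]; group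
      _ = _ := by rw [← hc k hk]; group
  refine inv_mul_eq_one.1 (hJ.inf_cent (mul_mem (inv_mem (mul_mem hk hj)) (mul_mem hj hk)) ?_)
  rw [show (k * j)⁻¹ * (j * k) = d * c * (c * d)⁻¹ by rw [inv_mul_eq_iff_eq_mul, ← mul_assoc, e3]; group]
  exact mul_mem (mul_mem hd hc) (inv_mem (mul_mem hc hd))

theorem IsBlock.bg_two (hJ : Γ.IsBlock J) (hg : g ∈ normalizer (J : Set G)) (ht : t ∈ normalizer (J : Set G))
    (ht2 : t ^ 2 ^ 1 = 1) (htg : Commute t g) (ha : Γ.pt a ≤ J) (hga : g • a = a) (h5 : Γ.sc g a ^ 5 = 1)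
    (h1 : Γ.sc g a ≠ 1) : (∃ s, Γ.pt s ≤ J ∧ g • s = s ∧ t • s = s ∧ Γ.sc g s = Γ.sc g a) ∧
      ∃ s, Γ.pt s ≤ J ∧ g • s = s ∧ t • s = s ∧ Γ.sc g s * Γ.sc g a = 1 := by
  obtain ⟨j, hj, -, -, -, h2, h3, -⟩ := hJ.bg_dec hg
  have ja := (h2 a ha).trans hga
  obtain ⟨-, -, n1, n2, -⟩ := hJ.five hj (hJ.bg_five ha hj ja Nat.prime_five (h3 a ha hga ▸ h5) (h3 a ha hga ▸ h1)) ha ja
  have := Γ.finite_pts
  have key : ∀ P : ZMod 11 → Prop, {r | Γ.pt r ≤ J ∧ j • r = r ∧ P (Γ.sc j r)}.ncard = 3 →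
      ∃ s, Γ.pt s ≤ J ∧ g • s = s ∧ t • s = s ∧ P (Γ.sc g s) := fun P hP => by
    rw [show {r | Γ.pt r ≤ J ∧ j • r = r ∧ P (Γ.sc j r)} = {r | Γ.pt r ≤ J ∧ g • r = r ∧ P (Γ.sc g r)} from
      Set.ext fun r => and_congr_right fun hr => by
        rw [h2 r hr]
        exact and_congr_right fun e => by rw [h3 r hr e]] at hP
    have := fix_mod_elt Nat.prime_two ht2 (s := {r | Γ.pt r ≤ J ∧ g • r = r ∧ P (Γ.sc g r)}) (Set.toFinite _)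
      fun r hr => ⟨Γ.smul_le_of_mem_normalizer ht hr.1, (bg_sc (Γ := Γ) htg hr.2.1).1, (bg_sc htg hr.2.1).2 ▸ hr.2.2⟩
    obtain ⟨s, hs, e⟩ := Set.nonempty_of_ncard_ne_zero (s := {a | a ∈ {r | Γ.pt r ≤ J ∧ g • r = r ∧ P (Γ.sc g r)} ∧
      t • a = a}) (by omega)
    exact ⟨s, hs.1, hs.2.1, e, hs.2.2⟩
  rw [h3 a ha hga] at n1 n2
  exact ⟨key (· = Γ.sc g a) n1, key (· * Γ.sc g a = 1) n2⟩

theorem IsBlock.step1 (hJ : Γ.IsBlock J) (ha : Γ.pt a ≤ J) (hga : g • a = a)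
    (h5 : Γ.sc g a ^ 5 = 1) (h1 : Γ.sc g a ≠ 1) (hg : g ∈ normalizer (J : Set G))
    (hgr : g • r = r) : Γ.pt r ≤ J := by
  obtain ⟨j, hj, c, hc, e1, h2, h3, -⟩ := hJ.bg_dec hg
  have ja := (h2 a ha).trans hga
  obtain ⟨-, -, -, -, t, tJ, t2, tj, ta⟩ :=
    hJ.five hj (hJ.bg_five ha hj ja Nat.prime_five (h3 a ha hga ▸ h5) (h3 a ha hga ▸ h1)) ha ja
  have tg : Commute t g := e1 ▸ tj.mul_right (hc t tJ)
  have tt : t ^ 2 ^ 1 = 1 := by simpa [t2] using pow_orderOf_eq_one t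
  obtain ⟨-, s, s1, s2, s3, s4⟩ := hJ.bg_two hg (le_normalizer tJ) tt tg ha hga h5 h1
  have u1 : ∀ v, g • v = v → t • v = v → Γ.sc g v = Γ.sc g a → a = v := fun v v1 v2 v3 =>
    bg_uniq tg hga v1 ta v2 h5 h1 v3.symm ((hJ.inv_fix tJ t2).2.1 a ha ta)
  have d1 : ∀ l m : ZMod 11, l ^ 5 = 1 → l ≠ 1 → m * l = 1 → m ^ 5 = 1 ∧ m ≠ 1 ∧ m ≠ l ∧
    (∀ k, k * l = 1 → m = k) ∧ ∀ k, k * m = 1 → k = l := by decide
  obtain ⟨m1, m2, m3, m4, -⟩ := d1 _ _ h5 h1 s4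
  have u2 : ∀ v, g • v = v → t • v = v → Γ.sc g v * Γ.sc g a = 1 → s = v := fun v v1 v2 v3 =>
    bg_uniq tg s2 v1 s3 v2 m1 m2 (m4 _ v3) ((hJ.inv_fix tJ t2).2.1 s s1 s3)
  have hd := bg_dich hga h5 h1 hgr
  by_cases e : r = t • r
  · exact hd.elim (fun d => u1 r hgr e.symm d ▸ ha) fun d => u2 r hgr e.symm d ▸ s1
  have r5 : Γ.sc g r ^ 5 = 1 ∧ Γ.sc g r ≠ 1 := hd.elim (fun d => d ▸ ⟨h5, h1⟩) fun d => ⟨(d1 _ _ h5 h1 d).1, (d1 _ _ h5 h1 d).2.1⟩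
  have hK := isBlock_sup (jt_of_sc_eq e hgr (bg_sc (Γ := Γ) tg hgr).1 (bg_sc tg hgr).2.symm (bg_sq _ r5.1 r5.2))
  obtain ⟨⟨v, v1, v2, v3, v4⟩, w, w1, w2, w3, w4⟩ := hK.bg_two (Γ.mem_normalizer_sup (.inl ⟨hgr, (bg_sc (Γ := Γ) tg hgr).1⟩))
    (Γ.mem_normalizer_sup (.inr ⟨rfl, by rw [← mul_smul, sq_of_two t2, one_smul]⟩)) tt tg le_sup_left hgr r5.1 r5.2
  have le : Γ.pt a ⊔ Γ.pt s ≤ Γ.pt r ⊔ Γ.pt (t • r) := hd.elim
    (fun d => sup_le (u1 v v2 v3 (v4.trans d) ▸ v1) (u2 w w2 w3 (d ▸ w4) ▸ w1))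
    fun d => sup_le (u1 w w2 w3 ((d1 _ _ h5 h1 d).2.2.2.2 _ w4) ▸ w1) (u2 v v2 v3 (v4 ▸ d) ▸ v1)
  rw [hJ.J4 tJ t2 ha s1 (fun e => m3 (e ▸ rfl)) ta s3] at le
  exact eq_of_le_of_card_ge le (hK.1.1.trans hJ.1.1.symm).le ▸ le_sup_left

theorem IsBlock.bg_one {J' : Subgroup G} (hJ : Γ.IsBlock J) (hJ' : Γ.IsBlock J') (ha : Γ.pt a ≤ J) (ha' : Γ.pt a ≤ J')
    (hga : g • a = a) (h5 : Γ.sc g a ^ 5 = 1) (h1 : Γ.sc g a ≠ 1) (hg : g ∈ normalizer (J : Set G))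
    (hg' : g ∈ normalizer (J' : Set G)) : J = J' := by
  obtain ⟨j, hj, -, -, -, h2, h3, -⟩ := hJ.bg_dec hg
  have ja := (h2 a ha).trans hga
  obtain ⟨-, -, n1, -⟩ := hJ.five hj (hJ.bg_five ha hj ja Nat.prime_five (h3 a ha hga ▸ h5) (h3 a ha hga ▸ h1)) ha ja
  obtain ⟨u, ⟨u1, u2, u3⟩, u4⟩ := Set.exists_ne_of_one_lt_ncard (n1 ▸ (by decide : 1 < 3)) a
  rw [h2 u u1] at u2
  have := jt_of_sc_eq u4.symm hga u2 (by rw [← h3 a ha hga, ← h3 u u1 u2, u3]) (bg_sq _ h5 h1)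
  exact (hJ.sup_eq ha u1 this).symm.trans (hJ'.sup_eq ha' (hJ'.step1 ha' hga h5 h1 hg' u2) this)

theorem IsBlock.unique {J' : Subgroup G} (hJ : Γ.IsBlock J) (hJ' : Γ.IsBlock J') (hab : a ≠ b)
    (ha : Γ.pt a ≤ J) (hb : Γ.pt b ≤ J) (ha' : Γ.pt a ≤ J') (hb' : Γ.pt b ≤ J') : J = J' := by
  rcases Γ.pair a b hab with h | h
  · obtain ⟨x, -, x1, -, x5, -, xa, -, -, -, -, x2, -⟩ := (isLine_sup h).frame le_sup_left le_sup_right hab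
    exact hJ.bg_one hJ' ha ha' xa (Γ.sc_pow_eq_one xa (x5 ▸ pow_orderOf_eq_one x)) x2
      (le_normalizer (sup_le ha hb x1)) (le_normalizer (sup_le ha' hb' x1))
  · exact (hJ.sup_eq ha hb h).symm.trans (hJ'.sup_eq ha' hb' h)

theorem IsBlock.bg_x (hJ : Γ.IsBlock J) (ha : Γ.pt a ≤ J) : ∃ x : G, x • a = a ∧ x ^ 5 = 1 ∧
    ∀ K, Γ.IsBlock K → Γ.pt a ≤ K → (MulAut.conj x • K = K ↔ K = J) := by
  obtain ⟨x, x1, x2, x3⟩ := hJ.sc_surj ha (k := 3) (by decide)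
  have h5 : Γ.sc x a ^ 5 = 1 := by rw [x3]; decide
  have h1 : Γ.sc x a ≠ 1 := by rw [x3]; decide
  exact ⟨x, x2, hJ.pow_eq_one ha x1 x2 h1 h5, fun K hK aK => ⟨fun e => hK.bg_one hJ aK ha x2 h5 h1
    (mem_normalizer_iff_conj_smul_eq.2 e) (le_normalizer x1), fun e => e ▸ mem_normalizer_iff_conj_smul_eq.1
      (le_normalizer x1)⟩⟩

theorem IsBlock.bg_at (hJ : Γ.IsBlock J) (a : Ω) : ∃ g : G, Γ.pt a ≤ J.map (MulAut.conj g).toMonoidHom := by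
  obtain ⟨b, hb⟩ := hJ.2
  obtain ⟨g, rfl⟩ := Γ.trans b a
  exact ⟨g, le_map_conj hb g⟩

theorem IsBlock.exists_through (hJ : Γ.IsBlock J) (a b : Ω) :
    ∃ J', Γ.IsBlock J' ∧ Γ.pt a ≤ J' ∧ Γ.pt b ≤ J' := by
  obtain ⟨g, hg⟩ := hJ.bg_at a
  by_cases hab : a = b
  · exact ⟨_, hJ.conj g, hg, hab ▸ hg⟩
  rcases Γ.pair a b hab with h | h
  swap
  · exact ⟨_, isBlock_sup h, le_sup_left, le_sup_right⟩
  obtain ⟨x, -, -, -, x5, -, xa, xb, -, -, -, x2, -⟩ := (isLine_sup h).frame le_sup_left le_sup_right hab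
  obtain ⟨y, y1, y2, y3⟩ := (hJ.conj g).bg_x hg
  let _ : MulAction G (Subgroup G) := MulAction.compHom _ (MulAut.conj (G := G))
  have key : ∀ z : G, z • a = a → z ^ 5 ^ 1 = 1 → {K | Γ.IsBlock K ∧ Γ.pt a ≤ K}.ncard % 5 =
      {K | K ∈ {K | Γ.IsBlock K ∧ Γ.pt a ≤ K} ∧ MulAut.conj z • K = K}.ncard % 5 := fun z z1 z2 =>
    fix_mod_elt Nat.prime_five z2 (Set.toFinite _) fun K hK => ⟨hK.1.conj z, z1 ▸ le_map_conj hK.2 z⟩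
  have k1 := key y y1 y2
  rw [show {K | K ∈ {K | Γ.IsBlock K ∧ Γ.pt a ≤ K} ∧ MulAut.conj y • K = K} = {J.map (MulAut.conj g).toMonoidHom} from
    Set.ext fun K => ⟨fun e => (y3 K e.1.1 e.1.2).1 e.2, fun e => e ▸ ⟨⟨hJ.conj g, hg⟩, (y3 _ (hJ.conj g) hg).2 rfl⟩⟩,
    Set.ncard_singleton, key x xa (by simpa [x5] using pow_orderOf_eq_one x)] at k1
  obtain ⟨K, ⟨K1, K2⟩, K3⟩ := Set.nonempty_of_ncard_ne_zero
    (s := {K | K ∈ {K | Γ.IsBlock K ∧ Γ.pt a ≤ K} ∧ MulAut.conj x • K = K}) (by omega)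
  exact ⟨K, K1, K2, K1.step1 K2 xa (Γ.sc_pow_eq_one xa (x5 ▸ pow_orderOf_eq_one x)) x2
    (mem_normalizer_iff_conj_smul_eq.2 K3) xb⟩

theorem IsBlock.exists_conj {J' : Subgroup G} (hJ : Γ.IsBlock J) (hJ' : Γ.IsBlock J') :
    ∃ g : G, J.map (MulAut.conj g).toMonoidHom = J' := by
  obtain ⟨a, ha⟩ := hJ'.2
  obtain ⟨g, hg⟩ := hJ.bg_at a
  let _ : MulAction (MulAction.stabilizer G a) {K // Γ.IsBlock K ∧ Γ.pt a ≤ K} :=
    { smul := fun h K => ⟨MulAut.conj h.1 • K.1, K.2.1.conj h.1, by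
        have := le_map_conj K.2.2 h.1
        rwa [show h.1 • a = a from h.2] at this⟩
      one_smul := fun K => Subtype.ext (show MulAut.conj (1 : G) • K.1 = K.1 by simp)
      mul_smul := fun h k K => Subtype.ext (conj_smul_conj_smul h.1 k.1 K.1).symm }
  obtain ⟨h, e⟩ := gleason (H := MulAction.stabilizer G a) (X := {K // Γ.IsBlock K ∧ Γ.pt a ≤ K}) 5 Nat.prime_five
    (fun K => by
      obtain ⟨y, y1, y2, y3⟩ := K.2.1.bg_x K.2.2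
      exact ⟨⟨y, y1⟩, Subtype.ext y2, fun K' => Subtype.ext_iff.trans ((y3 _ K'.2.1 K'.2.2).trans Subtype.ext_iff.symm)⟩)
    ⟨_, hJ.conj g, hg⟩ ⟨_, hJ', ha⟩
  exact ⟨h.1 * g, (conj_smul_conj_smul h.1 g J).symm.trans (congrArg Subtype.val e)⟩

theorem IsBlock.bg_norm (hJ : Γ.IsBlock J) (hab : a ≠ b) (ha : Γ.pt a ≤ J) (hb : Γ.pt b ≤ J)
    (h : (g • a = a ∧ g • b = b) ∨ (g • a = b ∧ g • b = a)) : g ∈ normalizer (J : Set G) := by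
  have h1 := le_map_conj ha g
  have h2 := le_map_conj hb g
  refine mem_normalizer_iff_conj_smul_eq.2 ?_
  rcases h with ⟨e1, e2⟩ | ⟨e1, e2⟩
  exacts [(hJ.conj g).unique hJ hab (e1 ▸ h1) (e2 ▸ h2) ha hb, (hJ.conj g).unique hJ hab (e2 ▸ h2) (e1 ▸ h1) ha hb]

theorem IsBlock.bg_swap (hJ : Γ.IsBlock J) (h1 : g • r ≠ r) (h2 : g • g • r = r) :
    ∃ K, Γ.IsBlock K ∧ Γ.pt r ≤ K ∧ g ∈ normalizer (K : Set G) := by
  obtain ⟨K, hK, k1, k2⟩ := hJ.exists_through r (g • r)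
  exact ⟨K, hK, k1, hK.bg_norm h1.symm k1 k2 (.inr ⟨rfl, h2⟩)⟩

theorem IsBlock.bg_move (hf : Γ.Faithful) (hJ : Γ.IsBlock J) (ht2 : orderOf t = 2) :
    ∃ r K, t • r ≠ r ∧ Γ.IsBlock K ∧ Γ.pt r ≤ K ∧ t ∈ normalizer (K : Set G) := by
  obtain ⟨r, hr⟩ := not_forall.1 fun h => ne_one_of_ord ht2 (by decide) (hf t h)
  obtain ⟨K, hK⟩ := hJ.bg_swap hr (by rw [← mul_smul, sq_of_two ht2, one_smul])
  exact ⟨r, K, hr, hK⟩

theorem IsBlock.not_cent (hf : Γ.Faithful) (hJ : Γ.IsBlock J) (ht2 : orderOf t = 2) (a : Ω) :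
    ¬ Γ.Cent t a := fun hc => by
  have tt : t ^ 2 = 1 := ht2 ▸ pow_orderOf_eq_one t
  have ta := (Γ.sc_eq_one_iff hc.smul_eq).2 hc
  obtain ⟨r, K, hr, hK, rK, tK⟩ := hJ.bg_move hf ht2
  obtain ⟨j, hj, c, -, -, h2, h3, h4⟩ := hK.bg_dec tK
  obtain ⟨n, h5, -⟩ := hK.inv_fix hj (orderOf_eq_prime (h4 2 tt).1 fun e => hr (by rw [← h2 r rK, e, one_smul]))
  obtain ⟨s, s1, s2⟩ := Set.nonempty_of_ncard_ne_zero (n ▸ (by decide : 12 ≠ 0))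
  have ts := (h2 s s1).symm.trans s2
  have s3 : Γ.sc t s ≠ 1 := by rw [← h3 s s1 ts, h5 s s1 s2]; decide
  obtain ⟨K', hK', k1, k2⟩ := hJ.exists_through a s
  obtain ⟨i, hi, d, -, -, i2, i3, i4⟩ := hK'.bg_dec (hK'.bg_norm (fun e : a = s => s3 (e ▸ ta)) k1 k2 (.inl ⟨hc.smul_eq, ts⟩))
  have i5 := Γ.pow_eleven (hK'.cent_mem k1 hi ((Γ.sc_eq_one_iff ((i2 a k1).trans hc.smul_eq)).1
    ((i3 a k1 hc.smul_eq).trans ta)))
  obtain rfl : i = 1 := (pow_eq_one_iff_of_coprime (by norm_num)).1 ⟨(i4 2 tt).1, i5⟩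
  exact s3 ((i3 s k2 ts).symm.trans (Γ.sc_one s))

theorem IsBlock.odd_cent (hf : Γ.Faithful) (hJ : Γ.IsBlock J) :
    Odd (Nat.card (centralizer (J : Set G))) := by
  refine Nat.not_even_iff_odd.1 fun h => ?_
  obtain ⟨c, c1, c2⟩ := exists_mem_orderOf_eq_of_dvd_card Nat.prime_two h.two_dvd
  obtain ⟨a, ha⟩ := hJ.2
  exact hJ.not_cent hf c2 a (Γ.cent_of_le c1 ha)

theorem IsBlock.bg_mem (hf : Γ.Faithful) (hJ : Γ.IsBlock J) {k : ℕ} (hk : g ^ 2 ^ k = 1)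
    (hg : g ∈ normalizer (J : Set G)) : g ∈ J := by
  obtain ⟨j, hj, c, hc, e, -, -, h4⟩ := hJ.bg_dec hg
  obtain rfl : c = 1 := (pow_eq_one_iff_of_coprime ((hJ.odd_cent hf).coprime_two_left.pow_left k)).1
    ⟨(h4 _ hk).2, orderOf_dvd_iff_pow_eq_one.1 (orderOf_dvd_card_of_mem hc)⟩
  rwa [e, mul_one]

theorem IsBlock.inv_mem (hf : Γ.Faithful) (hJ : Γ.IsBlock J) (ht2 : orderOf t = 2)
    (ht : t ∈ normalizer (J : Set G)) : t ∈ J :=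
  hJ.bg_mem hf (k := 1) (by simpa [ht2] using pow_orderOf_eq_one t) ht

theorem IsBlock.bg_in (hf : Γ.Faithful) (hJ : Γ.IsBlock J) (ht2 : orderOf t = 2) : ∃ K, Γ.IsBlock K ∧ t ∈ K := by
  obtain ⟨-, K, -, hK, -, tK⟩ := hJ.bg_move hf ht2
  exact ⟨K, hK, hK.inv_mem hf ht2 tK⟩

theorem IsBlock.inv_isConj (hf : Γ.Faithful) (hJ : Γ.IsBlock J) {s : G} (hs2 : orderOf s = 2)
    (ht2 : orderOf t = 2) : IsConj s t := by
  obtain ⟨K, hK, sK⟩ := hJ.bg_in hf hs2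
  obtain ⟨K', hK', tK⟩ := hJ.bg_in hf ht2
  obtain ⟨g, rfl⟩ := hK.exists_conj hK'
  obtain ⟨h, -, e⟩ := hK'.1.inv_conj (s := g * s * g⁻¹) ⟨s, sK, rfl⟩ tK ((orderOf_conj g s).trans hs2) ht2
  exact isConj_iff.2 ⟨h * g, by rw [← e]; group⟩

theorem IsBlock.no_four (hf : Γ.Faithful) (hJ : Γ.IsBlock J) (g : G) : orderOf g ≠ 4 := fun h4 => by
  have t2 : orderOf (g * g) = 2 := by rw [← sq, orderOf_pow_of_dvd two_ne_zero (by rw [h4]; decide), h4]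
  obtain ⟨K, hK, tK⟩ := hJ.bg_in hf t2
  obtain ⟨n, h5, -⟩ := hK.inv_fix tK t2
  obtain ⟨s, s1, s2⟩ := Set.nonempty_of_ncard_ne_zero (n ▸ (by decide : 12 ≠ 0))
  by_cases e : g • s = s
  · have := h5 s s1 s2
    rw [Γ.sc_mul e e] at this
    exact (by decide : ∀ l : ZMod 11, l * l ≠ -1) _ this
  obtain ⟨K', hK', -, gK⟩ := hJ.bg_swap e (mul_smul g g s ▸ s2)
  have := hK'.1.orderOf_mem (hK'.bg_mem hf (k := 2) (by simpa [h4] using pow_orderOf_eq_one g) gK)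
  simp [h4] at this

end Geo
end Cfsg.Agent.F11
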