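import Cfsg.Agent.F11.Util
import Cfsg.Agent.M11.Count
import Cfsg.Agent.Comp.J1.Spec
import Cfsg.Agent.Spec.PSL2
import Cfsg.Agent.PSL2Rec.Card

/-! `PSL(2,11)` and `J₁` satisfy the order-level descriptions. -/

set_option autoImplicit false

namespace Cfsg.Agent.F11

open Subgroup Cfsg.Agent.M11

theorem lt_psl {F : Type*} [Field F] [Fintype F] (hF : Fintype.card F = 11) :
    LT (Matrix.ProjectiveSpecialLinearGroup (Fin 2) F) := by
  haveI : Fact (Nat.Prime 11) := ⟨by norm_num⟩
  haveI : CharP F 11 := charP_of_card_eq_prime hF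
  refine ⟨?_, Matrix.ProjectiveSpecialLinearGroup.rank_two_simple
    (by rw [Nat.card_eq_fintype_card, hF]; norm_num), fun x => ?_⟩
  · have := PSL2Rec.card_psl2 (F := F)
    rw [hF] at this
    norm_num at this
    omega
  · have h : orderOf x ∈ Set.range
        (orderOf : Matrix.ProjectiveSpecialLinearGroup (Fin 2) F → ℕ) := ⟨x, rfl⟩
    rw [Spec.spec_psl2 11, hF] at h
    norm_num at h
    generalize orderOf x = n at h
    simp only [Set.mem_insert_iff, Set.mem_singleton_iff]
    have : n ≤ 11 := by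
      rcases h with h | h | h <;> have := Nat.le_of_dvd (by norm_num) h <;> omega
    interval_cases n <;> simp_all

namespace Inst

variable {H : Type*} [Group H] [Finite H]

theorem cc_eq (hc : Nat.card H = 175560)
    (hs : ∀ x : H, orderOf x ∈ [1, 2, 3, 5, 6, 7, 10, 11, 15, 19]) {x : H} {p : ℕ}
    (hp : p = 7 ∨ p = 11 ∨ p = 19) (hx : orderOf x = p) : cc x = p := by
  have nd : ∀ q : ℕ, q.Prime → q ≠ p → (cc x).Coprime q := by
    intro q hq hqp
    rw [Nat.coprime_comm, hq.coprime_iff_not_dvd]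
    intro h
    obtain ⟨y, hy, hyx⟩ := exists_of_prime_dvd_cc hq h
    have h1 := hs (y * x)
    have hpp : p.Prime := by rcases hp with rfl | rfl | rfl <;> norm_num
    rw [hyx.orderOf_mul_eq_mul_orderOf_of_coprime
      (by rw [hx, hy]; exact (Nat.coprime_primes hq hpp).2 hqp), hx, hy] at h1
    have := hq.two_le
    simp only [List.mem_cons, List.not_mem_nil, or_false] at h1
    rcases hp with rfl | rfl | rfl <;> omega
  have h0 : cc x ∣ 175560 := hc ▸ cc_dvd x
  refine Nat.dvd_antisymm ?_ (hx ▸ orderOf_dvd_cc rfl)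
  have h2 := (nd 2 (by norm_num) (by omega)).pow_right 3
  have h3 := nd 3 (by norm_num) (by omega)
  have h5 := nd 5 (by norm_num) (by omega)
  have h := (h2.mul_right h3).mul_right h5
  rcases hp with rfl | rfl | rfl
  · exact ((h.mul_right (nd 11 (by norm_num) (by omega))).mul_right
      (nd 19 (by norm_num) (by omega))).dvd_of_dvd_mul_left h0
  · exact ((h.mul_right (nd 7 (by norm_num) (by omega))).mul_right
      (nd 19 (by norm_num) (by omega))).dvd_of_dvd_mul_left h0
  · exact ((h.mul_right (nd 7 (by norm_num) (by omega))).mul_right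
      (nd 11 (by norm_num) (by omega))).dvd_of_dvd_mul_left h0

theorem alt (hc : Nat.card H = 175560)
    (hs : ∀ x : H, orderOf x ∈ [1, 2, 3, 5, 6, 7, 10, 11, 15, 19]) {p : ℕ}
    (hp : p = 7 ∨ p = 11 ∨ p = 19) (N : Subgroup H) [N.Normal] :
    N.index ∣ p - 1 ∨ Nat.card N % p = 1 := by
  have hpp : p.Prime := by rcases hp with rfl | rfl | rfl <;> norm_num
  haveI := Fact.mk hpp
  by_cases h : p ∣ Nat.card N
  · left
    obtain ⟨x, hx⟩ := exists_prime_orderOf_dvd_card' p h
    rw [← orderOf_coe] at hx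
    obtain ⟨P, hP⟩ := exists_sylow_mem hx
    have h1 : Nat.card P = p := by
      have := card_sylow_eq P 1 (175560 / p) (by rw [hc]; rcases hp with rfl | rfl | rfl <;> norm_num)
        (by rcases hp with rfl | rfl | rfl <;> norm_num)
      rwa [pow_one] at this
    have h2 : zpowers (x : H) = P :=
      eq_of_le_of_card_ge (zpowers_le.2 hP) (by rw [Nat.card_zpowers, hx, h1])
    have h3 : (P : Subgroup H) ≤ N := h2 ▸ zpowers_le.2 x.2
    have h4 := P.normalizer_sup_eq_top' h3
    obtain ⟨j, h5, h6⟩ := U.nc_prime ⊤ (P : Subgroup H) hpp h1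
    rw [top_inf_eq, top_inf_eq, ← h2, U.cent_zpowers, h2] at h5
    change _ = j * cc (x : H) at h5
    rw [cc_eq hc hs hp hx] at h5
    have h7 : N.index = N.relIndex (normalizer ((P : Subgroup H) : Set H)) := by
      rw [← relIndex_top_right, ← h4]
      exact relIndex_sup_right _ _
    have h8 := (N.subgroupOf (normalizer ((P : Subgroup H) : Set H))).card_mul_index
    have h9 : p ∣ Nat.card (N.subgroupOf (normalizer ((P : Subgroup H) : Set H))) := by
      refine h1.symm.dvd.trans ?_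
      rw [← Pres.card_subgroupOf_of_le (le_normalizer (H := (P : Subgroup H)))]
      exact card_dvd_of_le fun g hg => h3 hg
    obtain ⟨k, hk⟩ := h9
    rw [hk, h5, mul_comm j, mul_assoc] at h8
    refine Dvd.dvd.trans ?_ h6
    rw [h7, relIndex, ← Nat.eq_of_mul_eq_mul_left hpp.pos h8]
    exact dvd_mul_left _ _
  · right
    obtain ⟨x, hx⟩ := exists_prime_orderOf_dvd_card' (G := H) p
      (by rw [hc]; rcases hp with rfl | rfl | rfl <;> norm_num)
    have h1 : p ∣ ((N : Set H) \ {1}).ncard := by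
      by_contra h1
      obtain ⟨u, hu, hxu⟩ := exists_commute_of_not_dvd (X := (N : Set H) \ {1}) hpp
        (hx ▸ pow_orderOf_eq_one x) (fun u hu => ⟨‹N.Normal›.conj_mem u hu.1 x, fun e => hu.2
          (by simpa using e)⟩) h1
      have h2 := orderOf_dvd_cc hxu.eq.symm
      rw [cc_eq hc hs hp hx] at h2
      rcases (Nat.dvd_prime hpp).1 h2 with e | e
      · exact hu.2 (orderOf_eq_one_iff.1 e)
      · exact h (e ▸ N.orderOf_dvd_natCard hu.1)
    rw [Set.ncard_sdiff_singleton_of_mem (by simp), U.ncard_coe] at h1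
    have : 0 < Nat.card N := Nat.card_pos
    rcases hp with rfl | rfl | rfl <;> omega

theorem index_dvd (hc : Nat.card H = 175560)
    (hs : ∀ x : H, orderOf x ∈ [1, 2, 3, 5, 6, 7, 10, 11, 15, 19]) (N : Subgroup H) [N.Normal]
    (hN : N ≠ ⊥) : N.index = 1 ∨ N.index = 2 := by
  have h7 := alt hc hs (p := 7) (by simp) N
  have h11 := alt hc hs (p := 11) (by simp) N
  have h19 := alt hc hs (p := 19) (by simp) N
  have h0 := N.card_mul_index
  have h1 : 1 < Nat.card N := one_lt_card_iff_ne_bot N |>.2 hN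
  rw [hc] at h0
  generalize Nat.card N = d at *
  generalize N.index = i at *
  have small : i ≤ 18 → i = 1 ∨ i = 2 := by
    intro h
    interval_cases i <;> omega
  rcases h7 with h7 | h7
  · exact small ((Nat.le_of_dvd (by norm_num) h7).trans (by norm_num))
  rcases h11 with h11 | h11
  · exact small ((Nat.le_of_dvd (by norm_num) h11).trans (by norm_num))
  rcases h19 with h19 | h19
  · exact small ((Nat.le_of_dvd (by norm_num) h19).trans (by norm_num))
  exfalso
  have c : ∀ q : ℕ, q.Prime → d % q = 1 → d.Coprime q := fun q hq h => by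
    rw [Nat.coprime_comm, hq.coprime_iff_not_dvd]
    intro h'
    rw [Nat.mod_eq_zero_of_dvd h'] at h
    exact absurd h (by norm_num)
  have h2 : d ∣ 120 := (((c 7 (by norm_num) h7).mul_right (c 11 (by norm_num) h11)).mul_right
    (c 19 (by norm_num) h19)).dvd_of_dvd_mul_left ⟨i, by rw [h0]⟩
  have := Nat.le_of_dvd (by norm_num) h2
  omega

end Inst

theorem jt_J1 : JT Cfsg.Spor.J1 := by
  haveI := Comp.J1.finite_J1
  have hc := Comp.J1.card_J1
  have hs : ∀ x : Cfsg.Spor.J1, orderOf x ∈ [1, 2, 3, 5, 6, 7, 10, 11, 15, 19] := fun x => by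
    have : orderOf x ∈ Set.range (orderOf : Cfsg.Spor.J1 → ℕ) := ⟨x, rfl⟩
    rwa [Comp.J1.spec_J1] at this
  refine ⟨hc, ?_, by rw [Comp.J1.spec_J1]; ext n; simp⟩
  haveI : Nontrivial Cfsg.Spor.J1 := Finite.one_lt_card_iff_nontrivial.1 (by rw [hc]; norm_num)
  refine ⟨fun N hN => ?_⟩
  by_cases h : N = ⊥
  · exact .inl h
  right
  rcases Inst.index_dvd hc hs N h with e | e
  · exact index_eq_one.1 e
  have odd : ∀ (g : Cfsg.Spor.J1) (k : ℕ), g ^ (2 * k + 1) = 1 → g ∈ N := by
    intro g k hg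
    have : g = (g ^ 2) ^ (k + 1) := by
      rw [← pow_mul, show 2 * (k + 1) = 2 * k + 1 + 1 by ring, pow_succ, hg, one_mul]
    rw [this]
    exact pow_mem (sq_mem_of_index_two e g) _
  have hX : Cfsg.Spor.jankoX ^ 7 = 1 := by
    apply Units.ext
    rw [Units.val_pow_eq_pow_val]
    show Cfsg.jankoMatrixX ^ 7 = 1
    decide +kernel
  have hY : Cfsg.Spor.jankoY ^ 5 = 1 := by
    apply Units.ext
    rw [Units.val_pow_eq_pow_val]
    show Cfsg.jankoMatrixY ^ 5 = 1
    decide +kernel
  have h1 : Cfsg.Spor.J1 ≤ N.map Cfsg.Spor.J1.subtype := by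
    unfold Cfsg.Spor.J1
    rw [closure_le]
    rintro g (rfl | rfl)
    · exact ⟨⟨_, subset_closure (.inl rfl)⟩, odd _ 3 (Subtype.ext hX), rfl⟩
    · exact ⟨⟨_, subset_closure (.inr rfl)⟩, odd _ 2 (Subtype.ext hY), rfl⟩
  rw [eq_top_iff]
  intro g _
  obtain ⟨n, hn, e⟩ := h1 g.2
  rwa [← Subtype.ext e]

end Cfsg.Agent.F11
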