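import Cfsg.Agent.F11.LGeo
import Cfsg.Agent.F11.JPure

/-! Geometry of a block. -/

set_option autoImplicit false

namespace Cfsg.Agent.F11

open Subgroup Cfsg.Agent.Local U

theorem JT.sq {G : Type*} [Group G] [Finite G] {J : Subgroup G} (hJ : JT ↥J) {g : G} (hg : g ∈ J)
    {k : ℕ} (h : g ^ 2 ^ k = 1) : g * g = 1 :=
  congrArg Subtype.val (JP.sq_of_two_pow hJ (g := ⟨g, hg⟩) (k := k) (Subtype.ext h))

theorem JT.sq_of_pgroup {G : Type*} [Group G] [Finite G] {J S : Subgroup G} (hJ : JT ↥J)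
    (hS : IsPGroup 2 S) (hSJ : S ≤ J) {g : G} (hg : g ∈ S) : g * g = 1 := by
  obtain ⟨k, hk⟩ := hS ⟨g, hg⟩
  exact hJ.sq (hSJ hg) (k := k) (congrArg Subtype.val hk)

theorem JT.comm_of_pgroup {G : Type*} [Group G] [Finite G] {J S : Subgroup G} (hJ : JT ↥J)
    (hS : IsPGroup 2 S) (hSJ : S ≤ J) {g h : G} (hg : g ∈ S) (hh : h ∈ S) : Commute g h :=
  JP.comm_of_sq (hJ.sq_of_pgroup hS hSJ hg) (hJ.sq_of_pgroup hS hSJ hh)
    (hJ.sq_of_pgroup hS hSJ (mul_mem hg hh))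

/-- an element of `J` normalising `⟨x⟩` centralises or inverts `x` -/
theorem JT.conj5 {G : Type*} [Group G] [Finite G] {J : Subgroup G} (hJ : JT ↥J) {x n : G}
    (hx : x ∈ J) (hx5 : orderOf x = 5) (hn : n ∈ J) (h : n * x * n⁻¹ ∈ zpowers x) :
    n * x * n⁻¹ = x ∨ n * x * n⁻¹ = x⁻¹ := by
  classical
  obtain ⟨h30, h60, -⟩ := hJ.cent5 hx hx5
  have hle : J ⊓ centralizer {x} ≤ J ⊓ normalizer (zpowers x : Set G) :=
    inf_le_inf_left _ (by rw [← cent_zpowers]; exact centralizer_le_normalizer _)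
  have hi : ((J ⊓ centralizer {x}).subgroupOf (J ⊓ normalizer (zpowers x : Set G))).index = 2 := by
    have := card_mul_relIndex hle
    rw [h30, h60] at this
    change (J ⊓ centralizer {x}).relIndex _ = 2
    omega
  have hN : n ∈ normalizer (zpowers x : Set G) := mem_normalizer_of_conj_mem (by
    rintro _ ⟨k, rfl⟩
    simp only
    rw [← conj_zpow]; exact zpow_mem h k)
  have h2 : n * n ∈ J ⊓ centralizer {x} := mul_self_mem_of_index_two hi ⟨n, hn, hN⟩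
  have h3 : n * n * x = x * (n * n) := mem_centralizer_singleton_iff.1 h2.2
  rw [mem_zpowers_iff_mem_range_orderOf, hx5] at h
  simp only [Finset.mem_image, Finset.mem_range] at h
  obtain ⟨i, hi5, e⟩ := h
  have h7 : x ^ (i * i) = x ^ 1 := by
    rw [pow_mul, e, conj_pow, e, pow_one]
    calc n * (n * x * n⁻¹) * n⁻¹ = (n * n * x) * (n * n)⁻¹ := by group
      _ = x := by rw [h3, mul_inv_cancel_right]
  rw [pow_eq_pow_iff_modEq, hx5] at h7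
  interval_cases i
  · simp [Nat.ModEq] at h7
  · left; rw [← e, pow_one]
  · simp [Nat.ModEq] at h7
  · simp [Nat.ModEq] at h7
  · right
    rw [← e]
    apply eq_inv_of_mul_eq_one_left
    rw [← pow_succ]; exact orderOf_dvd_iff_pow_eq_one.1 (by rw [hx5])

namespace Geo

variable {G Ω : Type*} [Group G] [Finite G] [MulAction G Ω] {Γ : Geo G Ω}
variable {J : Subgroup G} {a b r : Ω} {g x t : G}

omit [Finite G] in
theorem isBlock_sup (h : JT ↥(Γ.pt a ⊔ Γ.pt b)) : Γ.IsBlock (Γ.pt a ⊔ Γ.pt b) :=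
  ⟨h, a, le_sup_left⟩

omit [Finite G] in
theorem IsBlock.conj (hJ : Γ.IsBlock J) (g : G) :
    Γ.IsBlock (J.map (MulAut.conj g).toMonoidHom) := by
  obtain ⟨h, a, ha⟩ := hJ
  exact ⟨h.conj g, g • a, le_map_conj ha g⟩

theorem IsBlock.sup_eq (hJ : Γ.IsBlock J) (ha : Γ.pt a ≤ J) (hb : Γ.pt b ≤ J)
    (h : JT ↥(Γ.pt a ⊔ Γ.pt b)) : Γ.pt a ⊔ Γ.pt b = J :=
  eq_of_le_of_card_ge (sup_le ha hb) (by rw [hJ.1.1, h.1])

theorem IsBlock.trans (hJ : Γ.IsBlock J) (ha : Γ.pt a ≤ J) (hb : Γ.pt b ≤ J) :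
    ∃ g ∈ J, g • a = b := by
  obtain ⟨g, hg, e⟩ := hJ.1.conj11 (Γ.card a) ha (Γ.card b) hb
  exact ⟨g, hg, Γ.inj (by rw [Γ.pt_smul, e])⟩

theorem IsBlock.cent_mem (hJ : Γ.IsBlock J) (ha : Γ.pt a ≤ J) (hg : g ∈ J) (hc : Γ.Cent g a) :
    g ∈ Γ.pt a :=
  hJ.1.cent11 (Γ.card a) ha hg ((Γ.cent_iff g a).1 hc)

theorem IsBlock.card_stab (hJ : Γ.IsBlock J) (ha : Γ.pt a ≤ J) :
    Nat.card ↥(J ⊓ MulAction.stabilizer G a) = 110 := by
  rw [Γ.stab_eq]; exact hJ.1.norm11 (Γ.card a) ha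

theorem IsBlock.ord_dvd (hJ : Γ.IsBlock J) (ha : Γ.pt a ≤ J) (hg : g ∈ J) (hga : g • a = a) :
    orderOf g ∣ 110 := by
  rw [← hJ.card_stab ha]
  exact orderOf_dvd_card_of_mem (show g ∈ J ⊓ MulAction.stabilizer G a from ⟨hg, hga⟩)

theorem IsBlock.sc_surj (hJ : Γ.IsBlock J) (ha : Γ.pt a ≤ J) {k : ZMod 11} (hk : k ≠ 0) :
    ∃ j ∈ J, j • a = a ∧ Γ.sc j a = k := by
  haveI : Fact (Nat.Prime 11) := ⟨by norm_num⟩
  let f : ↥(J ⊓ MulAction.stabilizer G a) →* ZMod 11 :=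
    { toFun := fun g => Γ.sc g a
      map_one' := Γ.sc_one a
      map_mul' := fun g h => Γ.sc_mul g.2.2 h.2.2 }
  have hle : Γ.pt a ≤ J ⊓ MulAction.stabilizer G a := fun y hy => ⟨ha hy, Γ.smul_of_mem hy⟩
  have hk' : f.toHomUnits.ker = (Γ.pt a).subgroupOf _ := by
    ext g
    rw [MonoidHom.mem_ker, mem_subgroupOf, Units.ext_iff]
    change Γ.sc g a = 1 ↔ _
    rw [Γ.sc_eq_one_iff g.2.2]
    exact ⟨hJ.cent_mem ha g.2.1, Γ.cent_of_mem⟩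
  have h1 := f.toHomUnits.ker.card_mul_index
  rw [index_ker, hk', Pres.card_subgroupOf_of_le hle, Γ.card, hJ.card_stab ha] at h1
  have h2 : f.toHomUnits.range = ⊤ := by
    apply eq_top_of_le_card
    rw [Nat.card_eq_fintype_card, ZMod.card_units]
    omega
  obtain ⟨g, hg⟩ : Units.mk0 k hk ∈ f.toHomUnits.range := h2 ▸ mem_top _
  exact ⟨g, g.2.1, g.2.2, congrArg Units.val hg⟩

omit [Finite G] in
theorem pow_smul_eq (hga : g • a = a) (n : ℕ) : g ^ n • a = a :=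
  pow_mem (show g ∈ MulAction.stabilizer G a from hga) n

theorem IsBlock.pow_eq_one (hJ : Γ.IsBlock J) (ha : Γ.pt a ≤ J) (hg : g ∈ J) (hga : g • a = a)
    (h1 : Γ.sc g a ≠ 1) {n : ℕ} (hn : Γ.sc g a ^ n = 1) : g ^ n = 1 := by
  have h2 : g ^ n ∈ Γ.pt a := hJ.cent_mem ha (pow_mem hg n)
    ((Γ.sc_eq_one_iff (pow_smul_eq hga n)).1 (by rw [Γ.sc_pow hga, hn]))
  by_contra h3
  apply h1
  rw [Γ.sc_eq_one_iff hga]
  intro y hy
  rw [← Γ.zpowers_eq h2 h3] at hy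
  obtain ⟨k, rfl⟩ := hy
  exact ((Commute.self_pow g n).zpow_right k).eq

theorem jt_of_sc_eq (hab : a ≠ b) (hga : g • a = a) (hgb : g • b = b)
    (hs : Γ.sc g a = Γ.sc g b) (h2 : Γ.sc g a ^ 2 ≠ 1) : JT ↥(Γ.pt a ⊔ Γ.pt b) := by
  refine (Γ.pair a b hab).resolve_left fun h => h2 ?_
  have := (isLine_sup h).F3 le_sup_left le_sup_right hab hga hgb
  rwa [← hs, ← pow_two] at this

theorem IsBlock.sc_ne_one (hJ : Γ.IsBlock J) (ha : Γ.pt a ≤ J) (hg : g ∈ J) (hga : g • a = a)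
    (h1 : g ≠ 1) (h11 : orderOf g ≠ 11) : Γ.sc g a ≠ 1 := fun h =>
  h11 (Γ.orderOf_mem (hJ.cent_mem ha hg ((Γ.sc_eq_one_iff hga).1 h)) h1)

theorem IsBlock.sc_inv (hJ : Γ.IsBlock J) (ha : Γ.pt a ≤ J) (ht : t ∈ J) (ht2 : orderOf t = 2)
    (hta : t • a = a) : Γ.sc t a = -1 := by
  have h1 := hJ.sc_ne_one ha ht hta (ne_one_of_ord ht2 (by norm_num)) (by omega)
  have h2 := Γ.sc_pow_eq_one hta (ht2 ▸ pow_orderOf_eq_one t : t ^ 2 = 1)
  revert h1 h2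
  generalize Γ.sc t a = m
  revert m
  decide

theorem IsBlock.frame (hJ : Γ.IsBlock J) (ha : Γ.pt a ≤ J) :
    ∃ x ∈ J, ∃ t ∈ J, orderOf x = 5 ∧ orderOf t = 2 ∧ Commute t x ∧ x • a = a ∧ t • a = a := by
  obtain ⟨j, hj, hja, hs⟩ := hJ.sc_surj ha (k := 2) (by decide)
  have h10 : j ^ 10 = 1 := hJ.pow_eq_one ha hj hja (by rw [hs]; decide) (by rw [hs]; decide)
  haveI : Fact (Nat.Prime 5) := ⟨by norm_num⟩
  refine ⟨j ^ 2, pow_mem hj _, j ^ 5, pow_mem hj _, orderOf_eq_prime (by rw [← pow_mul, h10])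
    fun e => ?_, orderOf_eq_prime (by rw [← pow_mul, h10]) fun e => ?_,
    Commute.pow_pow_self j 5 2, pow_smul_eq hja _, pow_smul_eq hja _⟩
  · have := Γ.sc_pow_eq_one hja e
    rw [hs] at this
    exact absurd this (by decide)
  · have := Γ.sc_pow_eq_one hja e
    rw [hs] at this
    exact absurd this (by decide)

/-- conjugacy of subgroups of order 2 or 5 in the stabiliser of a point -/
theorem IsBlock.conj_stab (hJ : Γ.IsBlock J) (ha : Γ.pt a ≤ J) {p : ℕ} (hp : p = 2 ∨ p = 5)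
    {u v : G} (hu : u ∈ J) (hv : v ∈ J) (hua : u • a = a) (hva : v • a = a) (ou : orderOf u = p)
    (ov : orderOf v = p) : ∃ h ∈ J, h • a = a ∧ h * u * h⁻¹ ∈ zpowers v ∧
      v ∈ zpowers (h * u * h⁻¹) := by
  have hpp : p.Prime := by rcases hp with rfl | rfl <;> norm_num
  haveI := Fact.mk hpp
  obtain ⟨h, hh, e⟩ := Pres.exists_conj_of_card (p := p) (k := 1)
    (H := J ⊓ MulAction.stabilizer G a) (P := zpowers u) (Q := zpowers v)
    (zpowers_le.2 ⟨hu, hua⟩) (zpowers_le.2 ⟨hv, hva⟩) (by rw [Nat.card_zpowers, ou, pow_one])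
    (by rw [Nat.card_zpowers, ov, pow_one])
    (by rw [hJ.card_stab ha]; rcases hp with rfl | rfl <;> norm_num)
  have h1 : h * u * h⁻¹ ∈ zpowers v := e ▸ ⟨u, mem_zpowers u, rfl⟩
  refine ⟨h, hh.1, hh.2, h1, ?_⟩
  rw [JP.zpowers_eq_of_mem hpp ov (by rw [orderOf_conj, ou]) h1]
  exact mem_zpowers v

omit [Finite G] in
theorem eq_of_mem_zpowers_two {u v : G} (ov : orderOf v = 2) (h : u ∈ zpowers v) (h1 : u ≠ 1) :
    u = v := by
  obtain ⟨k, rfl⟩ := h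
  simp only at h1 ⊢
  have h2 : v ^ (2 : ℤ) = 1 := by rw [zpow_two, sq_of_two ov]
  rcases Int.even_or_odd' k with ⟨j, rfl | rfl⟩
  · exact absurd (by rw [zpow_mul, h2, one_zpow]) h1
  · rw [zpow_add, zpow_mul, h2, one_zpow, one_mul, zpow_one]

omit [Finite G] in
theorem conj_smul_eq {h u : G} (hh : h • a = a) (hu : u • a = a) : (h * u * h⁻¹) • a = a := by
  rw [mul_smul, mul_smul, inv_smul_eq_iff.2 hh.symm, hu, hh]

theorem IsBlock.exists_inv (hJ : Γ.IsBlock J) (hx : x ∈ J) (hx5 : orderOf x = 5)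
    (ha : Γ.pt a ≤ J) (hxa : x • a = a) : ∃ t ∈ J, orderOf t = 2 ∧ Commute t x ∧ t • a = a := by
  obtain ⟨x', hx', t, ht, o5, o2, hc, e1, e2⟩ := hJ.frame ha
  obtain ⟨h, hh, hha, -, k, hk⟩ := hJ.conj_stab ha (.inr rfl) hx' hx e1 hxa o5 hx5
  refine ⟨h * t * h⁻¹, mul_mem (mul_mem hh ht) (inv_mem hh), by rw [orderOf_conj, o2], ?_,
    conj_smul_eq hha e2⟩
  rw [← hk]
  exact Commute.zpow_right (hc.map (MulAut.conj h)) k

theorem IsBlock.exists_five (hJ : Γ.IsBlock J) (ht : t ∈ J) (ht2 : orderOf t = 2)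
    (ha : Γ.pt a ≤ J) (hta : t • a = a) : ∃ x ∈ J, orderOf x = 5 ∧ Commute t x ∧ x • a = a := by
  obtain ⟨x, hx, t', ht', o5, o2, hc, e1, e2⟩ := hJ.frame ha
  obtain ⟨h, hh, hha, -, k, hk⟩ := hJ.conj_stab ha (.inl rfl) ht' ht e2 hta o2 ht2
  refine ⟨h * x * h⁻¹, mul_mem (mul_mem hh hx) (inv_mem hh), by rw [orderOf_conj, o5], ?_,
    conj_smul_eq hha e1⟩
  rw [← hk]
  exact Commute.zpow_left (hc.map (MulAut.conj h)) k

omit [Finite G] in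
theorem sc_smul_of_comm {c : G} (hc : Commute c g) (hga : g • a = a) :
    g • c • a = c • a ∧ Γ.sc g (c • a) = Γ.sc g a := by
  refine ⟨by rw [← mul_smul, ← hc.eq, mul_smul, hga], ?_⟩
  have := Γ.sc_conj hga c
  rwa [hc.eq, mul_inv_cancel_right] at this

omit [Finite G] in
theorem sc_smul_of_inv {c : G} (hc : c * g * c⁻¹ = g⁻¹) (hga : g • a = a) :
    g • c • a = c • a ∧ Γ.sc g (c • a) * Γ.sc g a = 1 := by
  have h1 : g • c • a = c • a := by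
    symm
    rw [← inv_smul_eq_iff (g := g), ← hc, mul_smul, mul_smul, inv_smul_smul, hga]
  refine ⟨h1, ?_⟩
  have := Γ.sc_conj hga c
  rw [hc] at this
  rw [← this, mul_comm]
  exact Γ.sc_inv_mul h1

theorem IsBlock.five_trans (hJ : Γ.IsBlock J) (hx : x ∈ J) (hx5 : orderOf x = 5)
    (ha : Γ.pt a ≤ J) (hxa : x • a = a) (hr : Γ.pt r ≤ J) (hxr : x • r = r) :
    ∃ n ∈ J, n • a = r ∧ (Commute n x ∨ n * x * n⁻¹ = x⁻¹) := by
  obtain ⟨g, hg, rfl⟩ := hJ.trans ha hr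
  obtain ⟨h, hh, hha, h1, -⟩ := hJ.conj_stab ha (.inr rfl) (u := g⁻¹ * x * g⁻¹⁻¹)
    (mul_mem (mul_mem (inv_mem hg) hx) (inv_mem (inv_mem hg))) hx
    (by rw [inv_inv, mul_smul, mul_smul, hxr, inv_smul_smul]) hxa (by rw [orderOf_conj, hx5]) hx5
  have hn : h * g⁻¹ ∈ J := mul_mem hh (inv_mem hg)
  refine ⟨(h * g⁻¹)⁻¹, inv_mem hn, by rw [mul_inv_rev, inv_inv, mul_smul,
    inv_smul_eq_iff.2 hha.symm], ?_⟩
  rcases hJ.1.conj5 hx hx5 hn (by convert h1 using 1; group) with e | e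
  · exact .inl (Commute.inv_left (mul_inv_eq_iff_eq_mul.1 e))
  · right
    have : x = (h * g⁻¹) * x⁻¹ * (h * g⁻¹)⁻¹ := by
      rw [← conj_inv, e, inv_inv]
    nth_rewrite 1 [this]
    group

theorem dec5 : ∀ m : ZMod 11, m ^ 5 = 1 → m * m = 1 → m = 1 := by decide

theorem IsBlock.card_ten (hJ : Γ.IsBlock J) (hx : x ∈ J) (hx5 : orderOf x = 5) (ht : t ∈ J)
    (ht2 : orderOf t = 2) (htx : Commute t x) (ha : Γ.pt a ≤ J) (hxa : x • a = a)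
    (hta : t • a = a) {z : G} (hz : z = x ∨ z = t) :
    J ⊓ centralizer {z} ⊓ MulAction.stabilizer G a = zpowers (t * x) ∧ orderOf (t * x) = 10 := by
  have ho : orderOf (t * x) = 10 := by
    rw [htx.orderOf_mul_eq_mul_orderOf_of_coprime (by rw [hx5, ht2]; norm_num), hx5, ht2]
  refine ⟨(eq_of_le_of_card_ge (zpowers_le.2 (mem_inf.2 ⟨mem_inf.2 ⟨mul_mem ht hx,
    mem_centralizer_singleton_iff.2 ?_⟩,
    by change (t * x) • a = a; rw [mul_smul, hxa, hta]⟩)) ?_).symm, ho⟩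
  · rcases hz with rfl | rfl
    · exact (htx.mul_left (Commute.refl _)).eq
    · exact ((Commute.refl _).mul_left htx.symm).eq
  · rw [Nat.card_zpowers, ho]
    apply Nat.le_of_dvd (by norm_num)
    have h1 : Nat.card ↥(J ⊓ centralizer {z} ⊓ MulAction.stabilizer G a) ∣ 110 := by
      rw [← hJ.card_stab ha]
      exact card_dvd_of_le (inf_le_inf_right _ inf_le_left)
    have h2 : Nat.card ↥(J ⊓ centralizer {z} ⊓ MulAction.stabilizer G a) ∣ 120 := by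
      refine (card_dvd_of_le inf_le_left).trans ?_
      rcases hz with rfl | rfl
      · rw [(hJ.1.cent5 hx hx5).1]; norm_num
      · rw [hJ.1.cent2 ht ht2]
    exact Nat.dvd_gcd h1 h2

theorem IsBlock.plus_eq (hJ : Γ.IsBlock J) (hx : x ∈ J) (hx5 : orderOf x = 5) (ha : Γ.pt a ≤ J)
    (hxa : x • a = a) : {r | Γ.pt r ≤ J ∧ x • r = r ∧ Γ.sc x r = Γ.sc x a} =
      {r | ∃ c ∈ J ⊓ centralizer {x}, c • a = r} := by
  ext r
  constructor
  · rintro ⟨h1, h2, h3⟩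
    obtain ⟨n, hn, rfl, e | e⟩ := hJ.five_trans hx hx5 ha hxa h1 h2
    · exact ⟨n, ⟨hn, mem_centralizer_singleton_iff.2 e.eq⟩, rfl⟩
    · have := (sc_smul_of_inv (Γ := Γ) e hxa).2
      rw [h3] at this
      exact absurd (dec5 _ (Γ.sc_pow_eq_one hxa (hx5 ▸ pow_orderOf_eq_one x)) this)
        (hJ.sc_ne_one ha hx hxa (ne_one_of_ord hx5 (by norm_num)) (by omega))
  · rintro ⟨c, hc, rfl⟩
    have := sc_smul_of_comm (Γ := Γ) (mem_centralizer_singleton_iff.1 hc.2) hxa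
    exact ⟨Γ.smul_le_of_mem hc.1 ha, this.1, this.2⟩

theorem IsBlock.five (hJ : Γ.IsBlock J) (hx : x ∈ J) (hx5 : orderOf x = 5) (ha : Γ.pt a ≤ J)
    (hxa : x • a = a) :
    Γ.sc x a ≠ 1 ∧
      (∀ r, Γ.pt r ≤ J → x • r = r → Γ.sc x r = Γ.sc x a ∨ Γ.sc x r * Γ.sc x a = 1) ∧
      {r | Γ.pt r ≤ J ∧ x • r = r ∧ Γ.sc x r = Γ.sc x a}.ncard = 3 ∧
      {r | Γ.pt r ≤ J ∧ x • r = r ∧ Γ.sc x r * Γ.sc x a = 1}.ncard = 3 ∧
      ∃ t ∈ J, orderOf t = 2 ∧ Commute t x ∧ t • a = a := by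
  have plus : ∀ a, Γ.pt a ≤ J → x • a = a →
      {r | Γ.pt r ≤ J ∧ x • r = r ∧ Γ.sc x r = Γ.sc x a}.ncard = 3 := by
    intro a ha hxa
    obtain ⟨t, ht, ht2, htx, hta⟩ := hJ.exists_inv hx hx5 ha hxa
    have h1 := card_orbit (J ⊓ centralizer {x}) a
    obtain ⟨h2, h3⟩ := hJ.card_ten hx hx5 ht ht2 htx ha hxa hta (.inl rfl)
    rw [h2, Nat.card_zpowers, h3, (hJ.1.cent5 hx hx5).1] at h1
    rw [hJ.plus_eq hx hx5 ha hxa]
    omega
  obtain ⟨t, ht, ht2, htx, hta⟩ := hJ.exists_inv hx hx5 ha hxa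
  refine ⟨hJ.sc_ne_one ha hx hxa (ne_one_of_ord hx5 (by norm_num)) (by omega), fun r h1 h2 => ?_,
    plus a ha hxa, ?_, t, ht, ht2, htx, hta⟩
  · obtain ⟨n, hn, rfl, e | e⟩ := hJ.five_trans hx hx5 ha hxa h1 h2
    · exact .inl (sc_smul_of_comm e hxa).2
    · exact .inr (sc_smul_of_inv e hxa).2
  · obtain ⟨ρ, hρ, -, -, e⟩ := hJ.1.exists_inverter hx hx5 ht ht2 htx
    obtain ⟨h1, h2⟩ := sc_smul_of_inv (Γ := Γ) e hxa
    rw [← plus (ρ • a) (Γ.smul_le_of_mem hρ ha) h1]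
    congr 1
    ext r
    simp only [Set.mem_ofPred_eq]
    refine and_congr_right fun _ => and_congr_right fun _ => ?_
    rw [← h2]
    haveI : Fact (Nat.Prime 11) := ⟨by norm_num⟩
    exact mul_left_inj' (Γ.sc_ne_zero hxa)

theorem IsBlock.inv_unique (hJ : Γ.IsBlock J) (hx : x ∈ J) (hx5 : orderOf x = 5) (ht : t ∈ J)
    (ht2 : orderOf t = 2) (htx : Commute t x) (ha : Γ.pt a ≤ J) (hb : Γ.pt b ≤ J)
    (hxa : x • a = a) (hxb : x • b = b) (hta : t • a = a) (htb : t • b = b)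
    (hs : Γ.sc x a = Γ.sc x b) : a = b := by
  haveI := Γ.finite_pts
  by_contra hab
  have h3 := (hJ.five hx hx5 ha hxa).2.2.1
  set F := {r | Γ.pt r ≤ J ∧ x • r = r ∧ Γ.sc x r = Γ.sc x a} with hF
  have h1 := fix_mod_elt (p := 2) (k := 1) Nat.prime_two (g := t)
    (by rw [pow_one, pow_two, sq_of_two ht2]) (Set.toFinite F) (fun r hr =>
      ⟨Γ.smul_le_of_mem ht hr.1, (sc_smul_of_comm (Γ := Γ) htx hr.2.1).1,
        (sc_smul_of_comm htx hr.2.1).2.trans hr.2.2⟩)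
  have h2 : 1 < {r | r ∈ F ∧ t • r = r}.ncard := (Set.one_lt_ncard_iff (Set.toFinite _)).2
    ⟨a, b, ⟨⟨ha, hxa, rfl⟩, hta⟩, ⟨⟨hb, hxb, hs.symm⟩, htb⟩, hab⟩
  have h4 : {r | r ∈ F ∧ t • r = r}.ncard ≤ F.ncard := Set.ncard_le_ncard fun r hr => hr.1
  have h5 : {r | r ∈ F ∧ t • r = r} = F :=
    Set.eq_of_subset_of_ncard_le (fun r hr => hr.1) (by omega) (Set.toFinite _)
  obtain ⟨y, hy, hy3, hyx, -, hinv⟩ := (hJ.1.cent5 hx hx5).2.2
  have h6 : y • a ∈ F := ⟨Γ.smul_le_of_mem hy ha, (sc_smul_of_comm (Γ := Γ) hyx hxa).1,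
    (sc_smul_of_comm hyx hxa).2⟩
  rw [← h5] at h6
  have h7 : y⁻¹ • a = y • a := by
    rw [← hinv t ht ht2 htx, mul_smul, mul_smul, inv_smul_eq_iff.2 hta.symm, h6.2]
  have h8 : (y * y) • a = a := by rw [mul_smul, ← h7, smul_inv_smul]
  have h9 := hJ.ord_dvd ha (mul_mem hy hy) h8
  rw [← pow_two, orderOf_pow' _ (by norm_num), hy3] at h9
  norm_num at h9

theorem IsBlock.inv_trans (hJ : Γ.IsBlock J) (ht : t ∈ J) (ht2 : orderOf t = 2)
    (ha : Γ.pt a ≤ J) (hb : Γ.pt b ≤ J) (hta : t • a = a) (htb : t • b = b) :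
    ∃ g ∈ J, Commute g t ∧ g • a = b := by
  obtain ⟨g, hg, rfl⟩ := hJ.trans ha hb
  have o2 : orderOf (g⁻¹ * t * g⁻¹⁻¹) = 2 := by rw [orderOf_conj, ht2]
  obtain ⟨h, hh, hha, h1, -⟩ := hJ.conj_stab ha (.inl rfl) (u := g⁻¹ * t * g⁻¹⁻¹)
    (mul_mem (mul_mem (inv_mem hg) ht) (inv_mem (inv_mem hg))) ht
    (by rw [inv_inv, mul_smul, mul_smul, htb, inv_smul_smul]) hta o2 ht2
  have h2 := eq_of_mem_zpowers_two ht2 h1 (ne_one_of_ord (by rw [orderOf_conj, o2]) (by norm_num))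
  refine ⟨(h * g⁻¹)⁻¹, inv_mem (mul_mem hh (inv_mem hg)), Commute.inv_left ?_,
    by rw [mul_inv_rev, inv_inv, mul_smul, inv_smul_eq_iff.2 hha.symm]⟩
  change h * g⁻¹ * t = t * (h * g⁻¹)
  nth_rewrite 2 [← h2]
  group

theorem IsBlock.inv_fix (hJ : Γ.IsBlock J) (ht : t ∈ J) (ht2 : orderOf t = 2) :
    {r | Γ.pt r ≤ J ∧ t • r = r}.ncard = 12 ∧ (∀ r, Γ.pt r ≤ J → t • r = r → Γ.sc t r = -1) ∧
      (∀ a b, Γ.pt a ≤ J → Γ.pt b ≤ J → t • a = a → t • b = b →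
        ∃ g ∈ J, Commute g t ∧ g • a = b) ∧
      ∀ a, Γ.pt a ≤ J → t • a = a → ∃ x ∈ J, orderOf x = 5 ∧ Commute t x ∧ x • a = a ∧
        ∀ g ∈ J, Commute g t → g • a = a → g ∈ zpowers x ∨ g * t ∈ zpowers x := by
  refine ⟨?_, fun r h1 h2 => hJ.sc_inv h1 ht ht2 h2,
    fun a b h1 h2 h3 h4 => hJ.inv_trans ht ht2 h1 h2 h3 h4, fun a ha hta => ?_⟩
  · obtain ⟨a₀, ha₀⟩ := hJ.2
    obtain ⟨-, -, t', ht', -, o2, -, -, e2⟩ := hJ.frame ha₀
    obtain ⟨g, hg, e⟩ := hJ.1.inv_conj ht' ht o2 ht2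
    have ha := Γ.smul_le_of_mem hg ha₀
    have hta : t • g • a₀ = g • a₀ := by rw [← e, mul_smul, mul_smul, inv_smul_smul, e2]
    obtain ⟨x, hx, hx5, htx, hxa⟩ := hJ.exists_five ht ht2 ha hta
    have h1 := card_orbit (J ⊓ centralizer {t}) (g • a₀)
    obtain ⟨h2, h3⟩ := hJ.card_ten hx hx5 ht ht2 htx ha hxa hta (.inr rfl)
    rw [h2, Nat.card_zpowers, h3, hJ.1.cent2 ht ht2] at h1
    have h4 : {r | Γ.pt r ≤ J ∧ t • r = r} = {r | ∃ c ∈ J ⊓ centralizer {t}, c • g • a₀ = r} := by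
      ext r
      constructor
      · rintro ⟨k1, k2⟩
        obtain ⟨c, hc, k3, k4⟩ := hJ.inv_trans ht ht2 ha k1 hta k2
        exact ⟨c, ⟨hc, mem_centralizer_singleton_iff.2 k3.eq⟩, k4⟩
      · rintro ⟨c, hc, rfl⟩
        exact ⟨Γ.smul_le_of_mem hc.1 ha,
          (sc_smul_of_comm (Γ := Γ) (mem_centralizer_singleton_iff.1 hc.2) hta).1⟩
    rw [h4]
    omega
  · obtain ⟨x, hx, hx5, htx, hxa⟩ := hJ.exists_five ht ht2 ha hta
    refine ⟨x, hx, hx5, htx, hxa, fun g hg h1 h2 => ?_⟩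
    have h3 : g ∈ zpowers (t * x) := by
      rw [← (hJ.card_ten hx hx5 ht ht2 htx ha hxa hta (.inr rfl)).1]
      exact ⟨⟨hg, mem_centralizer_singleton_iff.2 h1.eq⟩, h2⟩
    obtain ⟨k, rfl⟩ := h3
    simp only
    rw [htx.mul_zpow]
    by_cases h4 : t ^ k = 1
    · left; rw [h4, one_mul]; exact zpow_mem (mem_zpowers x) k
    · right
      rw [eq_of_mem_zpowers_two ht2 (zpow_mem (mem_zpowers t) k) h4, (htx.zpow_right k).eq,
        mul_assoc, sq_of_two ht2, mul_one]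
      exact zpow_mem (mem_zpowers x) k

theorem IsBlock.J4 (hJ : Γ.IsBlock J) (ht : t ∈ J) (ht2 : orderOf t = 2) (ha : Γ.pt a ≤ J)
    (hb : Γ.pt b ≤ J) (hab : a ≠ b) (hta : t • a = a) (htb : t • b = b) :
    Γ.pt a ⊔ Γ.pt b = J := by
  rcases Γ.pair a b hab with h | h
  swap
  · exact hJ.sup_eq ha hb h
  exfalso
  have hL := isLine_sup h
  set L := Γ.pt a ⊔ Γ.pt b with hLd
  have hLJ : L ≤ J := sup_le ha hb
  have htn : t ∈ normalizer (L : Set G) := Γ.mem_normalizer_sup (.inl ⟨hta, htb⟩)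
  obtain ⟨S, hS, htS⟩ := exists_isSylowIn_ge (p := 2) (Q := zpowers t)
    (N := J ⊓ normalizer (L : Set G)) (IsPGroup.of_card (n := 1) (by rw [Nat.card_zpowers, ht2]; rfl))
    (zpowers_le.2 ⟨ht, htn⟩)
  have h1 := hS.inf_of_le_normalizer (le_inf hLJ le_normalizer) inf_le_right
  have h4 : Nat.card ↥(S ⊓ L) = 2 ^ 2 := syl_card h1 (m := 165) (by rw [h.1]; norm_num) (by norm_num)
  have hSJ : S ≤ J := hS.le.trans inf_le_left
  have nf : ∀ v ∈ S ⊓ L, v • a = a → v = 1 := by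
    intro v hv e
    by_contra h1
    have o2 := two_of_sq (hJ.1.sq_of_pgroup hS.isPGroup hSJ hv.1) h1
    rcases hL.fix_order le_sup_left hv.2 e with k | k
    · have := Γ.orderOf_mem k h1; omega
    · omega
  have mv : ∀ v ∈ S ⊓ L, v ≠ 1 → v • a = b := by
    intro v hv h1
    have hc := hJ.1.comm_of_pgroup hS.isPGroup hSJ hv.1 (htS (mem_zpowers t))
    exact (hL.neg_fix le_sup_left le_sup_right (Γ.smul_le_of_mem hv.2 le_sup_left) hab hta htb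
      (hJ.sc_inv ha ht ht2 hta) (sc_smul_of_comm (Γ := Γ) hc hta).1).resolve_left
      fun e => h1 (nf v hv e)
  have h5 : ((S ⊓ L : Subgroup G) : Set G).ncard = 4 := by rw [ncard_coe, h4]; rfl
  have h6 : 1 < (((S ⊓ L : Subgroup G) : Set G) \ {1}).ncard := by
    rw [Set.ncard_sdiff_singleton_of_mem (by simp), h5]; norm_num
  obtain ⟨v, w, hv, hw, hvw⟩ := (Set.one_lt_ncard_iff (Set.toFinite _)).1 h6
  have := nf (v⁻¹ * w) (mul_mem (inv_mem hv.1) hw.1) (by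
    rw [mul_smul, mv w hw.1 hw.2, inv_smul_eq_iff, mv v hv.1 hv.2])
  exact hvw (inv_mul_eq_one.1 this)

end Geo

end Cfsg.Agent.F11
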