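import Cfsg.Agent.F11.LPure

/-! Geometry of a line. -/

set_option autoImplicit false

namespace Cfsg.Agent.F11

open Subgroup Cfsg.Agent.Local U

namespace Geo

variable {G Ω : Type*} [Group G] [Finite G] [MulAction G Ω] {Γ : Geo G Ω}
variable {L : Subgroup G} {a b r : Ω} {g : G}

theorem finite_pts (Γ : Geo G Ω) : Finite Ω := Finite.of_injective _ Γ.inj

omit [Finite G] in
theorem sup_facts (Γ : Geo G Ω) (hab : a ≠ b) :
    IsSimpleGroup ↥(Γ.pt a ⊔ Γ.pt b) ∧ 660 ≤ Nat.card ↥(Γ.pt a ⊔ Γ.pt b) := by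
  rcases Γ.pair a b hab with h | h
  · exact ⟨h.2.1, h.1.ge⟩
  · exact ⟨h.2.1, by rw [h.1]; norm_num⟩

theorem eq_of_mem_smul {y : G} (hy : y ∈ Γ.pt a) (h1 : y ≠ 1) (h : y • b = b) : a = b := by
  by_contra hab
  obtain ⟨hs, hc⟩ := Γ.sup_facts hab
  have hn : Γ.pt a ⊔ Γ.pt b ≤ normalizer (Γ.pt b : Set G) := by
    refine sup_le ?_ le_normalizer
    rw [← Γ.zpowers_eq hy h1, zpowers_le, ← Γ.smul_eq_iff]; exact h
  rcases simple_cases hs le_sup_right hn with e | e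
  · have := Γ.card b; rw [e] at this; simp at this
  · rw [← e, Γ.card] at hc; omega

omit [Finite G] in
theorem isLine_sup (h : LT ↥(Γ.pt a ⊔ Γ.pt b)) : Γ.IsLine (Γ.pt a ⊔ Γ.pt b) :=
  ⟨h, a, le_sup_left⟩

omit [Finite G] in
theorem le_map_conj {H : Subgroup G} (ha : Γ.pt a ≤ H) (g : G) :
    Γ.pt (g • a) ≤ H.map (MulAut.conj g).toMonoidHom := by
  rw [Γ.pt_smul]; exact map_mono ha

omit [Finite G] in
theorem le_map_conj_iff {H : Subgroup G} (g : G) :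
    Γ.pt a ≤ H.map (MulAut.conj g).toMonoidHom ↔ Γ.pt (g⁻¹ • a) ≤ H := by
  constructor
  · intro h y hy
    rw [Γ.mem_smul] at hy
    have := mem_map_conj.1 (h hy)
    simpa [mul_assoc] using this
  · intro h
    have := le_map_conj h g
    rwa [smul_inv_smul] at this

omit [Finite G] in
theorem IsLine.conj (hL : Γ.IsLine L) (g : G) :
    Γ.IsLine (L.map (MulAut.conj g).toMonoidHom) := by
  obtain ⟨h, a, ha⟩ := hL
  exact ⟨h.conj g, g • a, le_map_conj ha g⟩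

theorem IsLine.sup_eq (hL : Γ.IsLine L) (ha : Γ.pt a ≤ L) (hb : Γ.pt b ≤ L) (hab : a ≠ b) :
    Γ.pt a ⊔ Γ.pt b = L :=
  eq_of_le_of_card_ge (sup_le ha hb) (by rw [hL.1.1]; exact (Γ.sup_facts hab).2)

theorem IsLine.exists_pt (hL : Γ.IsLine L) {P : Subgroup G} (hP : Nat.card P = 11)
    (hPL : P ≤ L) : ∃ a, Γ.pt a = P := by
  obtain ⟨h, a, ha⟩ := hL
  obtain ⟨g, -, e⟩ := h.conj11 (Γ.card a) ha hP hPL
  exact ⟨g • a, by rw [Γ.pt_smul, e]⟩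

theorem IsLine.trans (hL : Γ.IsLine L) (ha : Γ.pt a ≤ L) (hb : Γ.pt b ≤ L) :
    ∃ g ∈ L, g • a = b := by
  obtain ⟨g, hg, e⟩ := hL.1.conj11 (Γ.card a) ha (Γ.card b) hb
  exact ⟨g, hg, Γ.inj (by rw [Γ.pt_smul, e])⟩

omit [Finite G] in
theorem stab_eq (Γ : Geo G Ω) (a : Ω) :
    MulAction.stabilizer G a = normalizer (Γ.pt a : Set G) := by
  ext g; rw [MulAction.mem_stabilizer_iff, Γ.smul_eq_iff]

theorem IsLine.card_stab1 (hL : Γ.IsLine L) (ha : Γ.pt a ≤ L) :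
    Nat.card ↥(L ⊓ MulAction.stabilizer G a) = 55 := by
  rw [Γ.stab_eq]; exact hL.1.norm11 (Γ.card a) ha

theorem IsLine.ncard (hL : Γ.IsLine L) : {r | Γ.pt r ≤ L}.ncard = 12 := by
  obtain ⟨a, ha⟩ := hL.2
  have h1 := card_orbit L a
  have h2 : {b | ∃ h ∈ L, h • a = b} = {r | Γ.pt r ≤ L} := by
    ext r
    exact ⟨fun ⟨h, hh, e⟩ => e ▸ Γ.smul_le_of_mem hh ha, fun hr => hL.trans ha hr⟩
  rw [h2, hL.card_stab1 ha, hL.1.1] at h1
  omega

theorem IsLine.exists_two (hL : Γ.IsLine L) :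
    ∃ a b, a ≠ b ∧ Γ.pt a ≤ L ∧ Γ.pt b ≤ L := by
  haveI := Γ.finite_pts
  obtain ⟨a, b, ha, hb, hab⟩ := (Set.one_lt_ncard_iff (Set.toFinite _)).1
    (by rw [hL.ncard]; norm_num : 1 < {r | Γ.pt r ≤ L}.ncard)
  exact ⟨a, b, hab, ha, hb⟩

theorem IsLine.exists_ne (hL : Γ.IsLine L) (a : Ω) : ∃ b, b ≠ a ∧ Γ.pt b ≤ L := by
  obtain ⟨b, c, hbc, hb, hc⟩ := hL.exists_two
  by_cases h : b = a
  · exact ⟨c, fun e => hbc (h.trans e.symm), hc⟩
  · exact ⟨b, h, hb⟩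

theorem pt_inf_stab (hba : b ≠ a) : Γ.pt a ⊓ MulAction.stabilizer G b = ⊥ := by
  rw [eq_bot_iff]
  intro y hy
  by_contra h1
  exact hba (eq_of_mem_smul hy.1 h1 hy.2).symm

theorem IsLine.orbit_pt (hL : Γ.IsLine L) (ha : Γ.pt a ≤ L) (hb : Γ.pt b ≤ L) (hba : b ≠ a) :
    {r | ∃ p ∈ Γ.pt a, p • b = r} = {r | Γ.pt r ≤ L} \ {a} := by
  haveI := Γ.finite_pts
  have h1 := card_orbit (Γ.pt a) b
  rw [pt_inf_stab hba, card_bot, mul_one, Γ.card] at h1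
  refine Set.eq_of_subset_of_ncard_le ?_ ?_ (Set.toFinite _)
  · rintro _ ⟨p, hp, rfl⟩
    refine ⟨Γ.smul_le_of_mem (ha hp) hb, fun e => hba ?_⟩
    have e' : p • b = a := e
    rw [← Γ.smul_of_mem hp] at e'
    exact smul_left_cancel _ e'
  · rw [Set.ncard_sdiff_singleton_of_mem (show a ∈ {r | Γ.pt r ≤ L} from ha), hL.ncard, ← h1]

theorem IsLine.regular (hL : Γ.IsLine L) (ha : Γ.pt a ≤ L) (hb : Γ.pt b ≤ L) (hr : Γ.pt r ≤ L)
    (hba : b ≠ a) (hra : r ≠ a) : ∃! p : G, p ∈ Γ.pt a ∧ p • b = r := by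
  have : r ∈ {r | ∃ p ∈ Γ.pt a, p • b = r} := by rw [hL.orbit_pt ha hb hba]; exact ⟨hr, hra⟩
  obtain ⟨p, hp, e⟩ := this
  refine ⟨p, ⟨hp, e⟩, fun q hq => ?_⟩
  have : p⁻¹ * q ∈ Γ.pt a ⊓ MulAction.stabilizer G b :=
    mem_inf.2 ⟨mul_mem (inv_mem hp) hq.1, by
      change (p⁻¹ * q) • b = b
      rw [mul_smul, hq.2, ← e, inv_smul_smul]⟩
  rw [pt_inf_stab hba, mem_bot] at this
  exact (inv_mul_eq_one.1 this).symm

theorem IsLine.two_trans (hL : Γ.IsLine L) {a' b' : Ω} (ha : Γ.pt a ≤ L) (hb : Γ.pt b ≤ L)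
    (ha' : Γ.pt a' ≤ L) (hb' : Γ.pt b' ≤ L) (hab : a ≠ b) (hab' : a' ≠ b') :
    ∃ g ∈ L, g • a = a' ∧ g • b = b' := by
  obtain ⟨g, hg, e⟩ := hL.trans ha ha'
  obtain ⟨p, ⟨hp, e2⟩, -⟩ := hL.regular ha' (Γ.smul_le_of_mem hg hb) hb'
    (fun h => hab (smul_left_cancel g (e.trans h.symm))) hab'.symm
  exact ⟨p * g, mul_mem (ha' hp) hg, by rw [mul_smul, e, Γ.smul_of_mem hp], by rw [mul_smul, e2]⟩

theorem IsLine.card_stab2 (hL : Γ.IsLine L) (ha : Γ.pt a ≤ L) (hb : Γ.pt b ≤ L) (hab : a ≠ b) :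
    Nat.card ↥(L ⊓ MulAction.stabilizer G a ⊓ MulAction.stabilizer G b) = 5 := by
  have h1 := card_orbit (L ⊓ MulAction.stabilizer G a) b
  have h2 : {r | ∃ h ∈ L ⊓ MulAction.stabilizer G a, h • b = r} = {r | Γ.pt r ≤ L} \ {a} := by
    apply Set.Subset.antisymm
    · rintro _ ⟨h, hh, rfl⟩
      refine ⟨Γ.smul_le_of_mem hh.1 hb, fun e => hab ?_⟩
      have e' : h • b = a := e
      exact smul_left_cancel h ((show h • a = a from hh.2).trans e'.symm)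
    · rw [← hL.orbit_pt ha hb hab.symm]
      rintro _ ⟨p, hp, rfl⟩
      exact ⟨p, ⟨ha hp, Γ.smul_of_mem hp⟩, rfl⟩
  rw [h2, Set.ncard_sdiff_singleton_of_mem (show a ∈ {r | Γ.pt r ≤ L} from ha), hL.ncard,
    hL.card_stab1 ha] at h1
  omega

theorem IsLine.cent_mem (hL : Γ.IsLine L) (ha : Γ.pt a ≤ L) (hg : g ∈ L) (hc : Γ.Cent g a) :
    g ∈ Γ.pt a :=
  hL.1.cent11 (Γ.card a) ha hg ((Γ.cent_iff g a).1 hc)

theorem IsLine.frame (hL : Γ.IsLine L) (ha : Γ.pt a ≤ L) (hb : Γ.pt b ≤ L) (hab : a ≠ b) :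
    ∃ x τ : G, x ∈ L ∧ τ ∈ L ∧ orderOf x = 5 ∧ orderOf τ = 2 ∧ x • a = a ∧ x • b = b ∧
      τ • a = b ∧ τ • b = a ∧ τ * x * τ⁻¹ = x⁻¹ ∧ Γ.sc x a ≠ 1 ∧
      ∀ g ∈ L, g • a = a → g • b = b → g ∈ zpowers x := by
  obtain ⟨x, hx5, hx⟩ := LP.gen (by norm_num) (hL.card_stab2 ha hb hab)
  have hxm : x ∈ L ⊓ MulAction.stabilizer G a ⊓ MulAction.stabilizer G b := hx ▸ mem_zpowers x
  have hst : ∀ g ∈ L, g • a = a → g • b = b → g ∈ zpowers x := fun g h1 h2 h3 => by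
    rw [hx]; exact ⟨⟨h1, h2⟩, h3⟩
  obtain ⟨τ, hτ, e1, e2⟩ := hL.two_trans ha hb hb ha hab hab.symm
  have hxa : x • a = a := hxm.1.2
  have hxb : x • b = b := hxm.2
  have hτx : τ ∉ zpowers x := fun h => by
    rw [hx] at h; exact hab ((show τ • a = a from h.1.2).symm.trans e1)
  have hn : τ ∈ normalizer (zpowers x : Set G) := by
    apply mem_normalizer_of_conj_mem
    intro y hy
    rw [hx] at hy
    refine hst _ (mul_mem (mul_mem hτ hy.1.1) (inv_mem hτ)) ?_ ?_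
    · rw [mul_smul, mul_smul, inv_smul_eq_iff.2 e2.symm, show y • b = b from hy.2, e2]
    · rw [mul_smul, mul_smul, inv_smul_eq_iff.2 e1.symm, show y • a = a from hy.1.2, e1]
  have hτ2 : orderOf τ = 2 := by
    have h1 := orderOf_dvd_card_of_mem (show τ ∈ L ⊓ normalizer (zpowers x : Set G) from ⟨hτ, hn⟩)
    rw [hL.1.norm5 hxm.1.1 hx5] at h1
    have h2 := hL.1.orderOf_mem hτ
    have h3 : ¬ τ ^ 5 = 1 := fun h => by
      have h4 : τ ^ 5 • a = b := by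
        simp only [pow_succ, pow_zero, one_mul, mul_smul, e1, e2]
      rw [h, one_smul] at h4
      exact hab h4
    rw [← orderOf_dvd_iff_pow_eq_one] at h3
    simp only [Set.mem_insert_iff, Set.mem_singleton_iff] at h2
    rcases h2 with h | h | h | h | h | h <;> rw [h] at h1 h3 <;> omega
  have hinv : τ * x * τ⁻¹ = x⁻¹ := by
    set w := τ * x * τ⁻¹ * x with hw
    have hw1 : w ∈ zpowers x := mul_mem (conj_mem_of_mem_normalizer hn (mem_zpowers x))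
      (mem_zpowers x)
    have hcx : τ * x * τ⁻¹ * x = x * (τ * x * τ⁻¹) := by
      obtain ⟨k, hk⟩ := conj_mem_of_mem_normalizer hn (mem_zpowers x)
      simp only at hk
      rw [← hk]; exact (Commute.zpow_self x k).eq
    have hw2 : Commute τ w := by
      have e : τ * w * τ⁻¹ = w := by
        have : τ * w * τ⁻¹ = (τ * τ) * x * (τ * τ)⁻¹ * (τ * x * τ⁻¹) := by rw [hw]; group
        rw [this, sq_of_two hτ2, hw, hcx]; simp
      exact mul_inv_eq_iff_eq_mul.1 e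
    by_contra hne
    have hw3 : w ≠ 1 := fun h => hne (eq_inv_of_mul_eq_one_left h)
    haveI : Fact (Nat.Prime 5) := ⟨by norm_num⟩
    have hw5 : orderOf w = 5 := orderOf_eq_prime (by
      obtain ⟨k, hk⟩ := hw1
      simp only at hk
      rw [← hk, ← zpow_natCast, ← zpow_mul, mul_comm, zpow_mul, zpow_natCast, ← hx5,
        pow_orderOf_eq_one, one_zpow]) hw3
    have := hL.1.cent5 (zpowers_le.2 hxm.1.1 hw1) hw5 hτ hw2
    exact hτx (zpowers_le.2 hw1 this)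
  refine ⟨x, τ, hxm.1.1, hτ, hx5, hτ2, hxa, hxb, e1, e2, hinv, fun h => ?_, hst⟩
  have := Γ.orderOf_mem (hL.cent_mem ha hxm.1.1 ((Γ.sc_eq_one_iff hxa).1 h))
    (ne_one_of_ord hx5 (by norm_num))
  omega

theorem IsLine.fix_order (hL : Γ.IsLine L) (ha : Γ.pt a ≤ L) (hg : g ∈ L) (hga : g • a = a) :
    g ∈ Γ.pt a ∨ (orderOf g = 5 ∧ Γ.sc g a ≠ 1) := by
  by_cases h : Γ.sc g a = 1
  · exact .inl (hL.cent_mem ha hg ((Γ.sc_eq_one_iff hga).1 h))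
  refine .inr ⟨?_, h⟩
  have h1 := orderOf_dvd_card_of_mem (show g ∈ L ⊓ MulAction.stabilizer G a from ⟨hg, hga⟩)
  rw [hL.card_stab1 ha] at h1
  have h2 := hL.1.orderOf_mem hg
  have h3 : ¬ g ^ 11 = 1 := fun e => by
    have h4 := Γ.sc_pow_eq_one hga e
    rw [pow_succ, Γ.sc_pow_ten hga, one_mul] at h4
    exact h h4
  rw [← orderOf_dvd_iff_pow_eq_one] at h3
  simp only [Set.mem_insert_iff, Set.mem_singleton_iff] at h2
  rcases h2 with h | h | h | h | h | h <;> rw [h] at h1 h3 <;> omega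

theorem IsLine.five_fix (hL : Γ.IsLine L) (hg : g ∈ L) (h5 : orderOf g = 5) :
    ∃ a b, a ≠ b ∧ Γ.pt a ≤ L ∧ Γ.pt b ≤ L ∧ g • a = a ∧ g • b = b := by
  haveI := Γ.finite_pts
  have h1 := fix_mod_elt (p := 5) (k := 1) (by norm_num) (g := g)
    (by rw [pow_one, ← h5, pow_orderOf_eq_one]) (Set.toFinite {r | Γ.pt r ≤ L})
    (fun r hr => Γ.smul_le_of_mem hg hr)
  rw [hL.ncard] at h1
  obtain ⟨a, b, ha, hb, hab⟩ := (Set.one_lt_ncard_iff (Set.toFinite _)).1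
    (by omega : 1 < {r | r ∈ {r | Γ.pt r ≤ L} ∧ g • r = r}.ncard)
  exact ⟨a, b, hab, ha.1, hb.1, ha.2, hb.2⟩

theorem IsLine.inf_cent (hL : Γ.IsLine L) (hg : g ∈ L) (hc : g ∈ centralizer (L : Set G)) :
    g = 1 := by
  obtain ⟨a, b, hab, ha, hb⟩ := hL.exists_two
  by_contra h1
  exact hab (Γ.eq_of_mem (hL.cent_mem ha hg (Γ.cent_of_le hc ha))
    (hL.cent_mem hb hg (Γ.cent_of_le hc hb)) h1)

/-- An element of `L` fixing all points of `L` is trivial. -/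
theorem IsLine.eq_one_of_fix (hL : Γ.IsLine L) (hg : g ∈ L)
    (h : ∀ r, Γ.pt r ≤ L → g • r = r) : g = 1 := by
  let W : Subgroup G :=
    { carrier := {g | g ∈ L ∧ ∀ r, Γ.pt r ≤ L → g • r = r}
      mul_mem' := fun {u v} hu hv => ⟨mul_mem hu.1 hv.1, fun r hr => by
        rw [mul_smul, hv.2 r hr, hu.2 r hr]⟩
      one_mem' := ⟨one_mem _, fun r _ => one_smul _ _⟩
      inv_mem' := fun {u} hu => ⟨inv_mem hu.1, fun r hr => by
        rw [inv_smul_eq_iff, hu.2 r hr]⟩ }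
  have hn : L ≤ normalizer (W : Set G) := fun l hl => mem_normalizer_of_conj_mem fun u hu =>
    ⟨mul_mem (mul_mem hl hu.1) (inv_mem hl), fun r hr => by
      rw [mul_smul, mul_smul, hu.2 _ (Γ.smul_le_of_mem (inv_mem hl) hr), smul_inv_smul]⟩
  rcases simple_cases hL.1.2.1 (fun u hu => hu.1 : W ≤ L) hn with e | e
  · have : g ∈ W := ⟨hg, h⟩
    rwa [e, mem_bot] at this
  · obtain ⟨a, b, hab, ha, hb⟩ := hL.exists_two
    obtain ⟨y, hy, h1⟩ := Γ.exists_ne_one a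
    have : y ∈ W := e ▸ ha hy
    exact absurd (eq_of_mem_smul hy h1 (this.2 b hb)) hab

/-- An element of `N(L)` fixing all points of `L` centralises `L`. -/
theorem IsLine.cent_of_fix (hL : Γ.IsLine L) (hn : g ∈ normalizer (L : Set G))
    (h : ∀ r, Γ.pt r ≤ L → g • r = r) : g ∈ centralizer (L : Set G) := by
  rw [mem_centralizer_iff]
  intro l hl
  have := hL.eq_one_of_fix (g := g * l * g⁻¹ * l⁻¹)
    (mul_mem (conj_mem_of_mem_normalizer hn hl) (inv_mem hl)) (fun r hr => by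
      have h1 := Γ.smul_le_of_mem (inv_mem hl) hr
      rw [mul_smul, mul_smul, mul_smul, inv_smul_eq_iff.2 (h _ h1).symm, smul_inv_smul, h r hr])
  rw [mul_inv_eq_one, mul_inv_eq_iff_eq_mul] at this
  exact this.symm

theorem IsLine.mem_norm (hL : Γ.IsLine L) (ha : Γ.pt a ≤ L) (hb : Γ.pt b ≤ L) (hab : a ≠ b)
    (h : (g • a = a ∧ g • b = b) ∨ (g • a = b ∧ g • b = a)) : g ∈ normalizer (L : Set G) := by
  rw [← hL.sup_eq ha hb hab]; exact Γ.mem_normalizer_sup h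

theorem IsLine.F1 (hL : Γ.IsLine L) (ha : Γ.pt a ≤ L) (hb : Γ.pt b ≤ L) (hab : a ≠ b)
    (hga : Γ.Cent g a) (hgb : g • b = b) : g ∈ centralizer (L : Set G) := by
  refine hL.cent_of_fix (hL.mem_norm ha hb hab (.inl ⟨hga.smul_eq, hgb⟩)) fun r hr => ?_
  by_cases hra : r = a
  · rw [hra, hga.smul_eq]
  obtain ⟨p, ⟨hp, e⟩, -⟩ := hL.regular ha hb hr hab.symm hra
  rw [← e, ← mul_smul, hga p hp, mul_smul, hgb]

theorem dec_sq : ∀ l m : ZMod 11, l ^ 5 = 1 → l ≠ 1 → m ^ 5 = 1 →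
    ∃ k : Fin 5, m * l ^ (k : ℕ) = 1 := by decide

theorem IsLine.sc_frame (hL : Γ.IsLine L) {x τ : G} (hxa : x • a = a)
    (hτa : τ • a = b) (hinv : τ * x * τ⁻¹ = x⁻¹) (hxb : x • b = b) :
    Γ.sc x a * Γ.sc x b = 1 := by
  have _ := hL
  have h1 := Γ.sc_conj hxa τ
  rw [hinv, hτa] at h1
  rw [← h1]; exact Γ.sc_inv_mul hxb

theorem IsLine.F3_aux (hL : Γ.IsLine L) (ha : Γ.pt a ≤ L) (hb : Γ.pt b ≤ L) (hab : a ≠ b)
    (hga : g • a = a) (hgb : g • b = b) (h5 : Γ.sc g a ^ 5 = 1) : Γ.sc g a * Γ.sc g b = 1 := by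
  obtain ⟨x, τ, -, -, hx5, -, hxa, hxb, hτa, -, hinv, hs, -⟩ := hL.frame ha hb hab
  have hxx := hL.sc_frame hxa hτa hinv hxb
  obtain ⟨k, hk⟩ := dec_sq (Γ.sc x a) (Γ.sc g a)
    (Γ.sc_pow_eq_one hxa (hx5 ▸ pow_orderOf_eq_one x)) hs h5
  have ea : x ^ (k : ℕ) • a = a := pow_mem (show x ∈ MulAction.stabilizer G a from hxa) _
  have eb : x ^ (k : ℕ) • b = b := pow_mem (show x ∈ MulAction.stabilizer G b from hxb) _
  have h1 : Γ.Cent (g * x ^ (k : ℕ)) a := by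
    rw [← Γ.sc_eq_one_iff (by rw [mul_smul, ea, hga]), Γ.sc_mul hga ea, Γ.sc_pow hxa, hk]
  have h2 := Γ.cent_of_le (hL.F1 ha hb hab h1 (by rw [mul_smul, eb, hgb])) hb
  rw [← Γ.sc_eq_one_iff (by rw [mul_smul, eb, hgb]), Γ.sc_mul hgb eb, Γ.sc_pow hxb] at h2
  calc Γ.sc g a * Γ.sc g b = Γ.sc g a * Γ.sc g b * (Γ.sc x a * Γ.sc x b) ^ (k : ℕ) := by
        rw [hxx, one_pow, mul_one]
    _ = (Γ.sc g a * Γ.sc x a ^ (k : ℕ)) * (Γ.sc g b * Γ.sc x b ^ (k : ℕ)) := by ring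
    _ = 1 := by rw [hk, h2, one_mul]

theorem IsLine.F3 (hL : Γ.IsLine L) (ha : Γ.pt a ≤ L) (hb : Γ.pt b ≤ L) (hab : a ≠ b)
    (hga : g • a = a) (hgb : g • b = b) : Γ.sc g a * Γ.sc g b = 1 := by
  by_cases h1 : Γ.sc g a ^ 5 = 1
  · exact hL.F3_aux ha hb hab hga hgb h1
  by_cases h2 : Γ.sc g b ^ 5 = 1
  · rw [mul_comm]; exact hL.F3_aux hb ha hab.symm hgb hga h2
  have ea : g ^ 2 • a = a := pow_mem (show g ∈ MulAction.stabilizer G a from hga) _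
  have eb : g ^ 2 • b = b := pow_mem (show g ∈ MulAction.stabilizer G b from hgb) _
  have h3 := hL.F3_aux ha hb hab ea eb (by rw [Γ.sc_pow hga, ← pow_mul, Γ.sc_pow_ten hga])
  rw [Γ.sc_pow hga, Γ.sc_pow hgb] at h3
  revert h1 h2 h3
  generalize Γ.sc g a = m
  generalize Γ.sc g b = n
  revert m n
  decide

theorem inv_of_sc_neg (hga : g • a = a) (hs : Γ.sc g a = -1) {p : G} (hp : p ∈ Γ.pt a) :
    g * p * g⁻¹ = p⁻¹ := by
  rw [Γ.sc_spec hga p hp, hs]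
  apply eq_inv_of_mul_eq_one_left
  rw [← pow_succ]
  exact Γ.pow_eleven hp

/-- An element inverting a point of `L` and fixing a second one fixes no third point of `L`. -/
theorem IsLine.neg_fix (hL : Γ.IsLine L) (ha : Γ.pt a ≤ L) (hb : Γ.pt b ≤ L) (hr : Γ.pt r ≤ L)
    (hab : a ≠ b) (hga : g • a = a) (hgb : g • b = b) (hs : Γ.sc g a = -1) (hgr : g • r = r) :
    r = a ∨ r = b := by
  by_cases hra : r = a
  · exact .inl hra
  obtain ⟨p, ⟨hp, e⟩, hu⟩ := hL.regular ha hb hr hab.symm hra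
  have h1 : p⁻¹ = p := hu _ ⟨inv_mem hp, by
    rw [← inv_of_sc_neg hga hs hp, mul_smul, mul_smul, inv_smul_eq_iff.2 hgb.symm, e, hgr]⟩
  have h2 : p = 1 := by
    by_contra h
    have h3 : p ^ 2 = 1 := by rw [pow_two]; nth_rewrite 1 [← h1]; exact inv_mul_cancel p
    rw [← orderOf_dvd_iff_pow_eq_one, Γ.orderOf_mem hp h] at h3
    omega
  right; rw [← e, h2, one_smul]

theorem IsLine.F0 (hL : Γ.IsLine L) (ha : Γ.pt a ≤ L) (hb : Γ.pt b ≤ L) (hr : Γ.pt r ≤ L)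
    (hab : a ≠ b) (har : a ≠ r) (hbr : b ≠ r) (hga : g • a = a) (hgb : g • b = b)
    (hgr : g • r = r) : g ∈ centralizer (L : Set G) := by
  have h1 := hL.F3 ha hb hab hga hgb
  have h2 := hL.F3 ha hr har hga hgr
  have h3 := hL.F3 hb hr hbr hgb hgr
  have h4 : Γ.sc g a = 1 ∨ Γ.sc g a = -1 := by
    revert h1 h2 h3
    generalize Γ.sc g a = m
    generalize Γ.sc g b = n
    generalize Γ.sc g r = k
    revert m n k
    decide
  rcases h4 with h | h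
  · exact hL.F1 ha hb hab ((Γ.sc_eq_one_iff hga).1 h) hgb
  · rcases hL.neg_fix ha hb hr hab hga hgb h hgr with e | e
    · exact absurd e.symm har
    · exact absurd e.symm hbr

end Geo

end Cfsg.Agent.F11
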