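import Cfsg.Agent.F11.LGeo

/-! The normaliser of a line. -/

set_option autoImplicit false

namespace Cfsg.Agent.F11

open Subgroup Cfsg.Agent.Local U

variable {G : Type*} [Group G]

theorem Inner.of_mem {L : Subgroup G} {l : G} (hl : l ∈ L) : Inner L l :=
  ⟨l, hl, 1, one_mem _, (mul_one l).symm⟩

theorem Inner.of_cent {L : Subgroup G} {c : G} (hc : c ∈ centralizer (L : Set G)) : Inner L c :=
  ⟨1, one_mem _, c, hc, (one_mul c).symm⟩

theorem Inner.mul {L : Subgroup G} {g h : G} (hg : Inner L g) (hh : Inner L h) :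
    Inner L (g * h) := by
  obtain ⟨l, hl, c, hc, rfl⟩ := hg
  obtain ⟨l', hl', c', hc', rfl⟩ := hh
  refine ⟨l * l', mul_mem hl hl', c * c', mul_mem hc hc', ?_⟩
  have := mem_centralizer_iff.1 hc l' hl'
  calc l * c * (l' * c') = l * (c * l') * c' := by group
    _ = l * l' * (c * c') := by rw [← this]; group

theorem Inner.inv {L : Subgroup G} {g : G} (hg : Inner L g) : Inner L g⁻¹ := by
  obtain ⟨l, hl, c, hc, rfl⟩ := hg
  rw [mul_inv_rev]
  exact (Inner.of_cent (inv_mem hc)).mul (Inner.of_mem (inv_mem hl))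

theorem Inner.mem_norm {L : Subgroup G} {g : G} (hg : Inner L g) : g ∈ normalizer (L : Set G) := by
  obtain ⟨l, hl, c, hc, rfl⟩ := hg
  exact mul_mem (le_normalizer hl) (centralizer_le_normalizer _ hc)

namespace Geo

variable {Ω : Type*} [Finite G] [MulAction G Ω] {Γ : Geo G Ω}
variable {L : Subgroup G} {a b r : Ω} {g : G}

theorem dec_sq2 : ∀ l m : ZMod 11, l ^ 5 = 1 → l ≠ 1 → m ≠ 0 →
    ∃ k : Fin 5, m * l ^ (k : ℕ) = 1 ∨ m * l ^ (k : ℕ) = -1 := by decide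

/-- Every element of `N(L)` is, modulo `L`, an element fixing `a, b` with scalar `± 1`. -/
theorem IsLine.decomp (hL : Γ.IsLine L) (ha : Γ.pt a ≤ L) (hb : Γ.pt b ≤ L) (hab : a ≠ b)
    (hg : g ∈ normalizer (L : Set G)) :
    ∃ l ∈ L, ∃ k, g = l * k ∧ k • a = a ∧ k • b = b ∧
      (k ∈ centralizer (L : Set G) ∨ Γ.sc k a = -1) := by
  obtain ⟨x, τ, hx, -, hx5, -, hxa, hxb, -, -, -, hs, -⟩ := hL.frame ha hb hab
  obtain ⟨l, hl, e1, e2⟩ := hL.two_trans ha hb (Γ.smul_le_of_mem_normalizer hg ha)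
    (Γ.smul_le_of_mem_normalizer hg hb) hab (fun h => hab (smul_left_cancel g h))
  have ha1 : (l⁻¹ * g) • a = a := by rw [mul_smul, ← e1, inv_smul_smul]
  have hb1 : (l⁻¹ * g) • b = b := by rw [mul_smul, ← e2, inv_smul_smul]
  obtain ⟨k, hk⟩ := dec_sq2 (Γ.sc x a) (Γ.sc (l⁻¹ * g) a)
    (Γ.sc_pow_eq_one hxa (hx5 ▸ pow_orderOf_eq_one x)) hs (Γ.sc_ne_zero ha1)
  have ea : x ^ (k : ℕ) • a = a := pow_mem (show x ∈ MulAction.stabilizer G a from hxa) _
  have eb : x ^ (k : ℕ) • b = b := pow_mem (show x ∈ MulAction.stabilizer G b from hxb) _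
  have ha2 : (x ^ (k : ℕ) * (l⁻¹ * g)) • a = a := by rw [mul_smul, ha1, ea]
  have hb2 : (x ^ (k : ℕ) * (l⁻¹ * g)) • b = b := by rw [mul_smul, hb1, eb]
  refine ⟨l * (x ^ (k : ℕ))⁻¹, mul_mem hl (inv_mem (pow_mem hx _)), x ^ (k : ℕ) * (l⁻¹ * g),
    by group, ha2, hb2, ?_⟩
  rw [← Γ.sc_pow hxa, mul_comm, ← Γ.sc_mul ea ha1] at hk
  exact hk.imp (fun h => hL.F1 ha hb hab ((Γ.sc_eq_one_iff ha2).1 h) hb2) id

theorem IsLine.inner_mul (hL : Γ.IsLine L) {h : G} (hg : g ∈ normalizer (L : Set G))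
    (hh : h ∈ normalizer (L : Set G)) (h1 : ¬ Inner L g) (h2 : ¬ Inner L h) :
    Inner L (g * h) := by
  obtain ⟨a, b, hab, ha, hb⟩ := hL.exists_two
  obtain ⟨l, hl, k, rfl, ka, kb, hk⟩ := hL.decomp ha hb hab hg
  obtain ⟨l', hl', k', rfl, ka', kb', hk'⟩ := hL.decomp ha hb hab hh
  have hk1 := hk.resolve_left fun h => h1 ⟨l, hl, k, h, rfl⟩
  have hk2 := hk'.resolve_left fun h => h2 ⟨l', hl', k', h, rfl⟩
  have hn : k ∈ normalizer (L : Set G) := hL.mem_norm ha hb hab (.inl ⟨ka, kb⟩)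
  refine ⟨l * (k * l' * k⁻¹), mul_mem hl (conj_mem_of_mem_normalizer hn hl'), k * k', ?_,
    by group⟩
  refine hL.F1 ha hb hab ?_ (by rw [mul_smul, kb', kb])
  rw [← Γ.sc_eq_one_iff (by rw [mul_smul, ka', ka]), Γ.sc_mul ka ka', hk1, hk2]
  ring

theorem IsLine.inner_sq (hL : Γ.IsLine L) (hg : g ∈ normalizer (L : Set G)) :
    Inner L (g ^ 2) := by
  rw [pow_two]
  by_cases h : Inner L g
  · exact h.mul h
  · exact hL.inner_mul hg hg h h

theorem IsLine.not_inner (hL : Γ.IsLine L) (ha : Γ.pt a ≤ L) (hga : g • a = a)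
    (hs : Γ.sc g a = -1) : ¬ Inner L g := by
  rintro ⟨l, hl, c, hc, rfl⟩
  have hca := Γ.cent_of_le hc ha
  have hla : l • a = a := by rwa [mul_smul, hca.smul_eq] at hga
  rw [Γ.sc_mul hla hca.smul_eq, (Γ.sc_eq_one_iff hca.smul_eq).2 hca, mul_one] at hs
  rcases hL.fix_order ha hl hla with h | h
  · rw [(Γ.sc_eq_one_iff hla).2 (Γ.cent_of_mem h)] at hs
    exact absurd hs (by decide)
  · have := Γ.sc_pow_eq_one hla (h.1 ▸ pow_orderOf_eq_one l)
    rw [hs] at this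
    exact absurd this (by decide)

/-- The action of `N(L)` on the points of `L`. -/
@[reducible] def lineAct (Γ : Geo G Ω) (L : Subgroup G) :
    MulAction (normalizer (L : Set G)) {r // Γ.pt r ≤ L} where
  smul n r := ⟨(n : G) • (r : Ω), Γ.smul_le_of_mem_normalizer n.2 r.2⟩
  one_smul r := Subtype.ext (one_smul G (r : Ω))
  mul_smul m n r := Subtype.ext (mul_smul (m : G) (n : G) (r : Ω))

theorem IsLine.exists_sign (hL : Γ.IsLine L) : ∃ s : normalizer (L : Set G) →* ℤˣ,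
    (∀ n : normalizer (L : Set G), Inner L n → s n = 1) ∧
    ∀ n : normalizer (L : Set G), (n : G) ^ 2 ∈ centralizer (L : Set G) →
      s n = (-1) ^ ((12 - {r | Γ.pt r ≤ L ∧ (n : G) • r = r}.ncard) / 2) := by
  classical
  haveI := Γ.finite_pts
  letI := Γ.lineAct L
  letI : Fintype {r // Γ.pt r ≤ L} := Fintype.ofFinite _
  let s : normalizer (L : Set G) →* ℤˣ :=
    Equiv.Perm.sign.comp (MulAction.toPermHom (normalizer (L : Set G)) {r // Γ.pt r ≤ L})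
  have hC : ∀ n : normalizer (L : Set G), (n : G) ∈ centralizer (L : Set G) →
      MulAction.toPermHom (normalizer (L : Set G)) {r // Γ.pt r ≤ L} n = 1 := fun n hn =>
    Equiv.ext fun r => Subtype.ext (Γ.cent_of_le hn r.2).smul_eq
  have hLs : ∀ l (hl : l ∈ L), s ⟨l, le_normalizer hl⟩ = 1 := by
    let t : L →* ℤˣ := s.comp (Subgroup.inclusion le_normalizer)
    rcases hL.1.2.1.eq_bot_or_eq_top_of_normal t.ker inferInstance with h | h
    · have := card_dvd_of_injective t ((MonoidHom.ker_eq_bot_iff t).1 h)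
      rw [hL.1.1, Nat.card_eq_fintype_card, Fintype.card_units_int] at this
      omega
    · intro l hl
      have : (⟨l, hl⟩ : L) ∈ t.ker := h ▸ mem_top _
      exact this
  refine ⟨s, ?_, ?_⟩
  · rintro ⟨_, hn⟩ ⟨l, hl, c, hc, rfl⟩
    have : (⟨l * c, hn⟩ : normalizer (L : Set G)) =
      ⟨l, le_normalizer hl⟩ * ⟨c, centralizer_le_normalizer _ hc⟩ := rfl
    rw [this, map_mul, hLs l hl, one_mul]
    change Equiv.Perm.sign (MulAction.toPermHom _ _ _) = 1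
    rw [hC _ hc, map_one]
  · intro n hn
    change Equiv.Perm.sign (MulAction.toPermHom _ _ n) = _
    rw [Equiv.Perm.sign_of_pow_two_eq_one (by rw [← map_pow]; exact hC _ hn)]
    congr 3
    · rw [← Nat.card_eq_fintype_card]; exact hL.ncard
    · rw [← Nat.card_eq_fintype_card, ← Nat.card_coe_set_eq]
      exact Nat.card_congr ⟨fun r => ⟨r.1.1, r.1.2, congrArg Subtype.val r.2⟩,
        fun r => ⟨⟨r.1, r.2.1⟩, Subtype.ext r.2.2⟩, fun _ => rfl, fun _ => rfl⟩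

theorem IsLine.inner_of_fpf (hL : Γ.IsLine L) (hg : g ∈ normalizer (L : Set G))
    (hg2 : g ^ 2 ∈ centralizer (L : Set G)) (hf : ∀ r, Γ.pt r ≤ L → g • r ≠ r) : Inner L g := by
  obtain ⟨s, hs1, hs2⟩ := hL.exists_sign
  obtain ⟨a, b, hab, ha, hb⟩ := hL.exists_two
  obtain ⟨l, hl, k, e, ka, kb, hk⟩ := hL.decomp ha hb hab hg
  rcases hk with hk | hk
  · exact ⟨l, hl, k, hk, e⟩
  exfalso
  have hn : k ∈ normalizer (L : Set G) := hL.mem_norm ha hb hab (.inl ⟨ka, kb⟩)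
  have h1 := hs2 ⟨g, hg⟩ hg2
  have h2 := hs2 ⟨k, hn⟩ (hL.F1 ha hb hab (by
    rw [← Γ.sc_eq_one_iff (pow_mem (show k ∈ MulAction.stabilizer G a from ka) 2), Γ.sc_pow ka, hk]
    ring) (pow_mem (show k ∈ MulAction.stabilizer G b from kb) 2))
  have e1 : {r | Γ.pt r ≤ L ∧ g • r = r} = ∅ :=
    Set.eq_empty_of_forall_notMem fun r hr => hf r hr.1 hr.2
  have e2 : {r | Γ.pt r ≤ L ∧ k • r = r} = {a, b} := by
    ext r
    exact ⟨fun hr => hL.neg_fix ha hb hr.1 hab ka kb hk hr.2, by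
      rintro (rfl | rfl)
      exacts [⟨ha, ka⟩, ⟨hb, kb⟩]⟩
  simp only [e1, e2, Set.ncard_empty, Set.ncard_pair hab] at h1 h2
  have e3 : (⟨g, hg⟩ : normalizer (L : Set G)) = ⟨l, le_normalizer hl⟩ * ⟨k, hn⟩ := Subtype.ext e
  rw [e3, map_mul, hs1 ⟨l, le_normalizer hl⟩ (Inner.of_mem hl), h2] at h1
  exact absurd h1 (by decide)

theorem IsLine.fix_mod (hL : Γ.IsLine L) {p k : ℕ} (hp : p.Prime)
    (hg : g ∈ normalizer (L : Set G)) (hg2 : g ^ p ^ k ∈ centralizer (L : Set G)) :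
    12 % p = {r | Γ.pt r ≤ L ∧ g • r = r}.ncard % p := by
  haveI := Γ.finite_pts
  letI := Γ.lineAct L
  let σ := MulAction.toPermHom (normalizer (L : Set G)) {r // Γ.pt r ≤ L} ⟨g, hg⟩
  have h1 := fix_mod_elt (G := Equiv.Perm {r // Γ.pt r ≤ L}) hp (k := k) (g := σ) (by
    rw [← map_pow]
    exact Equiv.ext fun r => Subtype.ext (Γ.cent_of_le hg2 r.2).smul_eq)
    (Set.finite_univ (α := {r // Γ.pt r ≤ L})) (fun _ _ => Set.mem_univ _)
  rw [Set.ncard_univ] at h1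
  have e1 : Nat.card {r // Γ.pt r ≤ L} = 12 := hL.ncard
  rw [e1] at h1
  rw [h1, ← Nat.card_coe_set_eq, ← Nat.card_coe_set_eq]
  congr 1
  exact Nat.card_congr ⟨fun r => ⟨r.1.1, r.1.2, congrArg Subtype.val r.2.2⟩,
    fun r => ⟨⟨r.1, r.2.1⟩, Set.mem_univ _, Subtype.ext r.2.2⟩, fun _ => rfl, fun _ => rfl⟩

theorem IsLine.second_fix (hL : Γ.IsLine L) (hg : g ∈ normalizer (L : Set G))
    (hg2 : g ^ 2 ∈ centralizer (L : Set G)) (ha : Γ.pt a ≤ L) (hga : g • a = a) :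
    ∃ b, b ≠ a ∧ Γ.pt b ≤ L ∧ g • b = b := by
  have h1 := hL.fix_mod (p := 2) (k := 1) (by norm_num) hg hg2
  by_contra hcon
  push Not at hcon
  have : {r | Γ.pt r ≤ L ∧ g • r = r} = {a} := by
    ext r
    exact ⟨fun hr => by_contra fun h => hcon r h hr.1 hr.2, by rintro rfl; exact ⟨ha, hga⟩⟩
  rw [this, Set.ncard_singleton] at h1
  omega

theorem IsLine.inv_fpf (hL : Γ.IsLine L) (hg : g ∈ L) (hg2 : g ^ 2 = 1) (ha : Γ.pt a ≤ L)
    (hga : g • a = a) : g = 1 := by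
  by_contra h1
  have h2 : orderOf g = 2 := orderOf_eq_prime hg2 h1
  rcases hL.fix_order ha hg hga with h | h
  · have := Γ.orderOf_mem h h1; omega
  · omega

/-- An element fixing a point of `L` and commuting with a four-subgroup of `L` centralises `L`. -/
theorem IsLine.cent_of_four (hL : Γ.IsLine L) {V : Subgroup G} (hV : Nat.card V = 4)
    (hVL : V ≤ L) (hgV : g ∈ centralizer (V : Set G)) (ha : Γ.pt a ≤ L) (hga : g • a = a) :
    g ∈ centralizer (L : Set G) := by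
  have hsq := (hL.1.four hV hVL).1
  obtain ⟨u, v, w, hu, hv, hw, huv, huw, hvw⟩ := (Set.two_lt_ncard_iff (Set.toFinite _)).1
    (by rw [ncard_coe, hV]; norm_num : 2 < (V : Set G).ncard)
  have hfix : ∀ u ∈ V, g • u • a = u • a := fun u hu => by
    rw [← mul_smul, ← mem_centralizer_iff.1 hgV u hu, mul_smul, hga]
  have hne : ∀ u ∈ V, ∀ v ∈ V, u ≠ v → u • a ≠ v • a := fun u hu v hv h e => h (by
    have := hL.inv_fpf (hVL (mul_mem (inv_mem hv) hu)) (hsq _ (mul_mem (inv_mem hv) hu)) ha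
      (by rw [mul_smul, e, inv_smul_smul])
    exact (inv_mul_eq_one.1 this).symm)
  exact hL.F0 (Γ.smul_le_of_mem (hVL hu) ha) (Γ.smul_le_of_mem (hVL hv) ha)
    (Γ.smul_le_of_mem (hVL hw) ha) (hne u hu v hv huv) (hne u hu w hw huw) (hne v hv w hw hvw)
    (hfix u hu) (hfix v hv) (hfix w hw)

theorem IsLine.cent_four_inner (hL : Γ.IsLine L) {V : Subgroup G} (hV : Nat.card V = 4)
    (hVL : V ≤ L) (hg : Inner L g) (hgV : g ∈ centralizer (V : Set G)) :
    ∃ v ∈ V, ∃ c ∈ centralizer (L : Set G), g = v * c := by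
  obtain ⟨l, hl, c, hc, rfl⟩ := hg
  refine ⟨l, ?_, c, hc, rfl⟩
  rw [← (hL.1.four hV hVL).2.1]
  have := mul_mem hgV (inv_mem (centralizer_le (show (V : Set G) ⊆ L from hVL) hc))
  exact ⟨hl, by simpa using this⟩

theorem IsLine.cent_four (hL : Γ.IsLine L) {V : Subgroup G} (hV : Nat.card V = 4) (hVL : V ≤ L)
    (hg : g ∈ normalizer (L : Set G)) (hgV : g ∈ centralizer (V : Set G)) :
    ∃ v ∈ V, ∃ c ∈ centralizer (L : Set G), g = v * c := by
  by_cases hin : Inner L g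
  · exact hL.cent_four_inner hV hVL hin hgV
  exfalso
  obtain ⟨hsq, hCV, -⟩ := hL.1.four hV hVL
  obtain ⟨v0, hv0, c0, hc0, e0⟩ := hL.cent_four_inner hV hVL (hL.inner_sq hg) (pow_mem hgV 2)
  have hVV : V ≤ centralizer (V : Set G) := fun v hv => by rw [← hCV] at hv; exact hv.2
  -- all elements `v * g` are fixed-point free on the points of `L`
  have hfree : ∀ v ∈ V, ∀ r, Γ.pt r ≤ L → (v * g) • r ≠ r := fun v hv r hr e =>
    hin ⟨v⁻¹, inv_mem (hVL hv), v * g, hL.cent_of_four hV hVL (mul_mem (hVV hv) hgV) hr e,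
      by group⟩
  haveI := Γ.finite_pts
  have hcg : ∀ c ∈ centralizer (L : Set G), g * c * g⁻¹ ∈ centralizer (L : Set G) := fun c hc =>
    conj_mem_of_mem_normalizer (normalizer_le_normalizer_centralizer L hg) hc
  have hcg' : ∀ c ∈ centralizer (L : Set G), g⁻¹ * c * g ∈ centralizer (L : Set G) := fun c hc =>
    inv_conj_mem_of_mem_normalizer (normalizer_le_normalizer_centralizer L hg) hc
  have hvc : ∀ v ∈ V, ∀ c ∈ centralizer (L : Set G), c * v = v * c := fun v hv c hc =>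
    (mem_centralizer_iff.1 hc v (hVL hv)).symm
  have hvg : ∀ v ∈ V, g * v = v * g := fun v hv => (mem_centralizer_iff.1 hgV v hv).symm
  let S : Set G := {h | ∃ v ∈ V, ∃ c ∈ centralizer (L : Set G), h = v * c ∨ h = v * g * c}
  have hS1 : ∀ v ∈ V, ∀ h ∈ S, v * h ∈ S := by
    rintro v hv _ ⟨w, hw, c, hc, rfl | rfl⟩
    · exact ⟨v * w, mul_mem hv hw, c, hc, .inl (by group)⟩
    · exact ⟨v * w, mul_mem hv hw, c, hc, .inr (by group)⟩
  have hS2 : ∀ c ∈ centralizer (L : Set G), ∀ h ∈ S, c * h ∈ S := by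
    rintro c hc _ ⟨w, hw, d, hd, rfl | rfl⟩
    · exact ⟨w, hw, c * d, mul_mem hc hd, .inl (by rw [← mul_assoc, hvc w hw c hc, mul_assoc])⟩
    · refine ⟨w, hw, g⁻¹ * c * g * d, mul_mem (hcg' c hc) hd, .inr ?_⟩
      rw [← mul_assoc, ← mul_assoc, hvc w hw c hc]; group
  have hS3 : ∀ h ∈ S, g * h ∈ S := by
    rintro _ ⟨w, hw, d, hd, rfl | rfl⟩
    · exact ⟨w, hw, d, hd, .inr (by rw [← mul_assoc, hvg w hw])⟩
    · refine ⟨w * v0, mul_mem hw hv0, c0 * d, mul_mem hc0 hd, .inl ?_⟩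
      rw [← mul_assoc, ← mul_assoc, hvg w hw, mul_assoc w g g, ← pow_two, e0]; group
  have hS4 : ∀ h ∈ S, g⁻¹ * h ∈ S := fun h hh => by
    have : g⁻¹ * h = c0⁻¹ * (v0⁻¹ * (g * h)) := by
      have : g⁻¹ = (g ^ 2)⁻¹ * g := by group
      rw [this, e0]; group
    rw [this]
    exact hS2 _ (inv_mem hc0) _ (hS1 _ (inv_mem hv0) _ (hS3 h hh))
  have hS5 : ∀ k ∈ S, ∀ h ∈ S, k⁻¹ * h ∈ S := by
    rintro _ ⟨w, hw, d, hd, rfl | rfl⟩ h hh
    · rw [mul_inv_rev, mul_assoc]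
      exact hS2 _ (inv_mem hd) _ (hS1 _ (inv_mem hw) _ hh)
    · rw [mul_inv_rev, mul_inv_rev, mul_assoc, mul_assoc]
      exact hS2 _ (inv_mem hd) _ (hS4 _ (hS1 _ (inv_mem hw) _ hh))
  have hO : ∀ r, Γ.pt r ≤ L → {q | ∃ h ∈ S, h • r = q}.ncard = 8 ∧
      {q | ∃ h ∈ S, h • r = q} ⊆ {q | Γ.pt q ≤ L} := by
    intro r hr
    have hr' := Γ.smul_le_of_mem_normalizer hg hr
    have e : {q | ∃ h ∈ S, h • r = q} =
        (fun v => v • r) '' (V : Set G) ∪ (fun v => v • g • r) '' (V : Set G) := by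
      ext q
      constructor
      · rintro ⟨_, ⟨v, hv, c, hc, rfl | rfl⟩, rfl⟩
        · exact .inl ⟨v, hv, by rw [mul_smul, (Γ.cent_of_le hc hr).smul_eq]⟩
        · exact .inr ⟨v, hv, by rw [mul_smul, (Γ.cent_of_le hc hr).smul_eq, mul_smul]⟩
      · rintro (⟨v, hv, rfl⟩ | ⟨v, hv, rfl⟩)
        · exact ⟨v, ⟨v, hv, 1, one_mem _, .inl (mul_one v).symm⟩, rfl⟩
        · exact ⟨v * g, ⟨v, hv, 1, one_mem _, .inr (mul_one _).symm⟩, mul_smul _ _ _⟩
    have hinj : ∀ q, Γ.pt q ≤ L → Set.InjOn (fun v => v • q) (V : Set G) :=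
      fun q hq u hu v hv e => by
        have := hL.inv_fpf (hVL (mul_mem (inv_mem hv) hu)) (hsq _ (mul_mem (inv_mem hv) hu)) hq
          (by rw [mul_smul, show u • q = v • q from e, inv_smul_smul])
        exact (inv_mul_eq_one.1 this).symm
    rw [e]
    constructor
    · rw [Set.ncard_union_eq ?_ (Set.toFinite _) (Set.toFinite _), (hinj r hr).ncard_image,
        (hinj _ hr').ncard_image, ncard_coe, hV]
      rw [Set.disjoint_left]
      rintro _ ⟨u, hu, rfl⟩ ⟨v, hv, e⟩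
      refine hfree (u⁻¹ * v) (mul_mem (inv_mem hu) hv) r hr ?_
      rw [mul_smul, mul_smul, show v • g • r = u • r from e, inv_smul_smul]
    · rintro _ (⟨v, hv, rfl⟩ | ⟨v, hv, rfl⟩)
      · exact Γ.smul_le_of_mem (hVL hv) hr
      · exact Γ.smul_le_of_mem (hVL hv) hr'
  obtain ⟨a, ha⟩ := hL.2
  obtain ⟨r, hr, hra⟩ := Set.exists_mem_notMem_of_ncard_lt_ncard
    (s := {q | ∃ h ∈ S, h • a = q}) (t := {q | Γ.pt q ≤ L}) (by rw [(hO a ha).1, hL.ncard]; omega)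
  have hd : Disjoint {q | ∃ h ∈ S, h • a = q} {q | ∃ h ∈ S, h • r = q} := by
    rw [Set.disjoint_left]
    rintro _ ⟨h, hh, rfl⟩ ⟨k, hk, e⟩
    exact hra ⟨k⁻¹ * h, hS5 k hk h hh, by rw [mul_smul, ← e, inv_smul_smul]⟩
  have := Set.ncard_le_ncard (Set.union_subset (hO a ha).2 (hO r hr).2)
  rw [Set.ncard_union_eq hd, (hO a ha).1, (hO r hr).1, hL.ncard] at this
  omega

/-- The scalar map on a point stabiliser as a homomorphism. -/
noncomputable def scHom (Γ : Geo G Ω) (a : Ω) : MulAction.stabilizer G a →* ZMod 11 where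
  toFun g := Γ.sc g a
  map_one' := Γ.sc_one a
  map_mul' g h := Γ.sc_mul g.2 h.2

theorem card_eq_of_sc {K C : Subgroup G} (hK : K ≤ MulAction.stabilizer G a)
    (hC : ∀ g, g ∈ C ↔ g ∈ K ∧ Γ.sc g a = 1) :
    Nat.card K = {m | ∃ g ∈ K, Γ.sc g a = m}.ncard * Nat.card C := by
  let f : K →* (ZMod 11)ˣ := ((Γ.scHom a).comp (Subgroup.inclusion hK)).toHomUnits
  have hf : ∀ g : K, ((f g : (ZMod 11)ˣ) : ZMod 11) = Γ.sc g a := fun g => rfl
  have hCK : C ≤ K := fun g hg => ((hC g).1 hg).1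
  have h1 : f.ker = C.subgroupOf K := by
    ext g
    rw [MonoidHom.mem_ker, mem_subgroupOf, hC, ← Units.val_eq_one, hf]
    simp
  rw [← f.ker.index_mul_card, index_ker, h1, Nat.card_congr (subgroupOfEquivOfLe hCK).toEquiv]
  congr 1
  rw [← ncard_coe, ← Set.ncard_image_of_injective _ Units.val_injective]
  congr 1
  ext m
  constructor
  · rintro ⟨_, ⟨g, rfl⟩, rfl⟩; exact ⟨g, g.2, rfl⟩
  · rintro ⟨g, hg, rfl⟩; exact ⟨_, ⟨⟨g, hg⟩, rfl⟩, rfl⟩

theorem dec_sq4 : ∀ l m : ZMod 11, l ^ 5 = 1 → l ≠ 1 → m ^ 5 = 1 →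
    ∃ k : Fin 5, l ^ (k : ℕ) = m := by decide

theorem dec_sq5 : ∀ l m : ZMod 11, l ^ 5 = 1 → l ≠ 1 → m ≠ 0 →
    ∃ k : Fin 5, l ^ (k : ℕ) = m ∨ -1 * l ^ (k : ℕ) = m := by decide

theorem IsLine.card_stab (hL : Γ.IsLine L) (ha : Γ.pt a ≤ L) (hb : Γ.pt b ≤ L) (hab : a ≠ b) :
    Nat.card (normalizer (L : Set G)) =
        132 * Nat.card ↥(MulAction.stabilizer G a ⊓ MulAction.stabilizer G b) ∧
      ((∃ d : G, d • a = a ∧ d • b = b ∧ Γ.sc d a = -1) →
        Nat.card ↥(MulAction.stabilizer G a ⊓ MulAction.stabilizer G b) =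
          10 * Nat.card (centralizer (L : Set G))) ∧
      ((¬ ∃ d : G, d • a = a ∧ d • b = b ∧ Γ.sc d a = -1) →
        Nat.card ↥(MulAction.stabilizer G a ⊓ MulAction.stabilizer G b) =
          5 * Nat.card (centralizer (L : Set G)) ∧
        ∀ g ∈ normalizer (L : Set G), Inner L g) := by
  obtain ⟨x, τ, hx, -, hx5, -, hxa, hxb, -, -, -, hs, -⟩ := hL.frame ha hb hab
  have hx5' := Γ.sc_pow_eq_one hxa (hx5 ▸ pow_orderOf_eq_one x)
  have hxK : x ∈ MulAction.stabilizer G a ⊓ MulAction.stabilizer G b := ⟨hxa, hxb⟩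
  have hK := card_eq_of_sc (Γ := Γ) (K := MulAction.stabilizer G a ⊓ MulAction.stabilizer G b)
    (C := centralizer (L : Set G)) inf_le_left (fun g => ⟨fun hg =>
      ⟨⟨(Γ.cent_of_le hg ha).smul_eq, (Γ.cent_of_le hg hb).smul_eq⟩,
        (Γ.sc_eq_one_iff (Γ.cent_of_le hg ha).smul_eq).2 (Γ.cent_of_le hg ha)⟩,
      fun hg => hL.F1 ha hb hab ((Γ.sc_eq_one_iff hg.1.1).1 hg.2) hg.1.2⟩)
  refine ⟨?_, fun ⟨d, hda, hdb, hd⟩ => ?_, fun hno => ⟨?_, fun g hg => ?_⟩⟩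
  · have h1 := card_orbit (normalizer (L : Set G)) a
    have h2 := card_orbit (normalizer (L : Set G) ⊓ MulAction.stabilizer G a) b
    have e1 : {r | ∃ h ∈ normalizer (L : Set G), h • a = r} = {r | Γ.pt r ≤ L} := by
      ext r
      exact ⟨fun ⟨h, hh, e⟩ => e ▸ Γ.smul_le_of_mem_normalizer hh ha, fun hr =>
        (hL.trans ha hr).imp fun h hh => ⟨le_normalizer hh.1, hh.2⟩⟩
    have e2 : {r | ∃ h ∈ normalizer (L : Set G) ⊓ MulAction.stabilizer G a, h • b = r} =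
        {r | Γ.pt r ≤ L} \ {a} := by
      apply Set.Subset.antisymm
      · rintro _ ⟨h, hh, rfl⟩
        refine ⟨Γ.smul_le_of_mem_normalizer hh.1 hb, fun e => hab ?_⟩
        have e' : h • b = a := e
        exact smul_left_cancel h ((show h • a = a from hh.2).trans e'.symm)
      · rw [← hL.orbit_pt ha hb hab.symm]
        rintro _ ⟨p, hp, rfl⟩
        exact ⟨p, ⟨le_normalizer (ha hp), Γ.smul_of_mem hp⟩, rfl⟩
    have e3 : normalizer (L : Set G) ⊓ MulAction.stabilizer G a ⊓ MulAction.stabilizer G b =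
        MulAction.stabilizer G a ⊓ MulAction.stabilizer G b := by
      rw [inf_assoc, inf_eq_right]
      exact fun g hg => hL.mem_norm ha hb hab (.inl hg)
    rw [e2, e3, Set.ncard_sdiff_singleton_of_mem (show a ∈ {r | Γ.pt r ≤ L} from ha),
      hL.ncard] at h2
    rw [h1, e1, hL.ncard, h2]; ring
  · have : {m | ∃ g ∈ MulAction.stabilizer G a ⊓ MulAction.stabilizer G b, Γ.sc g a = m} =
        ((Finset.univ.filter fun m : ZMod 11 => m ≠ 0 : Finset (ZMod 11)) : Set (ZMod 11)) := by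
      ext m
      simp only [Set.mem_ofPred_eq, Finset.coe_filter, Finset.mem_univ, true_and]
      constructor
      · rintro ⟨g, hg, rfl⟩; exact Γ.sc_ne_zero hg.1
      · intro hm
        obtain ⟨k, hk | hk⟩ := dec_sq5 _ m hx5' hs hm
        · exact ⟨x ^ (k : ℕ), pow_mem hxK _, by rw [Γ.sc_pow hxa, hk]⟩
        · exact ⟨d * x ^ (k : ℕ), mul_mem (mem_inf.2 ⟨hda, hdb⟩) (pow_mem hxK _), by
            rw [Γ.sc_mul hda (pow_mem hxK _).1, Γ.sc_pow hxa, hd, hk]⟩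
    rw [hK, this, Set.ncard_coe_finset]
    rfl
  · have : {m | ∃ g ∈ MulAction.stabilizer G a ⊓ MulAction.stabilizer G b, Γ.sc g a = m} =
        ((Finset.univ.filter fun m : ZMod 11 => m ^ 5 = 1 : Finset (ZMod 11)) : Set (ZMod 11)) := by
      ext m
      simp only [Set.mem_ofPred_eq, Finset.coe_filter, Finset.mem_univ, true_and]
      constructor
      · rintro ⟨g, hg, rfl⟩
        have h1 := Γ.sc_pow_ten hg.1
        have h2 : Γ.sc g a ^ 5 ≠ -1 := fun h => hno ⟨g ^ 5, (pow_mem hg 5).1, (pow_mem hg 5).2,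
          by rw [Γ.sc_pow hg.1, h]⟩
        revert h1 h2
        generalize Γ.sc g a = m
        revert m
        decide
      · intro hm
        obtain ⟨k, hk⟩ := dec_sq4 _ m hx5' hs hm
        exact ⟨x ^ (k : ℕ), pow_mem hxK _, by rw [Γ.sc_pow hxa, hk]⟩
    rw [hK, this, Set.ncard_coe_finset]
    rfl
  · obtain ⟨l, hl, k, e, ka, kb, hk⟩ := hL.decomp ha hb hab hg
    exact ⟨l, hl, k, hk.resolve_right fun h => hno ⟨k, ka, kb, h⟩, e⟩

end Geo

end Cfsg.Agent.F11
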