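import Cfsg.Agent.F11.Wrap
import Cfsg.Agent.F11.A672a
import Cfsg.Agent.F11.A672b
import Cfsg.Agent.F11.A2
import Cfsg.Agent.F11.A3
import Cfsg.Agent.F11.BFinal

/-! The two cases of S3403. -/

set_option autoImplicit false

namespace Cfsg.Agent.F11.Geo

universe u v

theorem caseA : CaseA.{u, v} := by
  intro G Ω _ _ _ Γ _ h
  obtain ⟨L, hL⟩ := h.exists_line
  rcases Nat.even_or_odd (Nat.card (Subgroup.centralizer (L : Set G))) with hc | hc
  · rcases h.a1_cases hL hc with e | e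
    · exact e
    · obtain ⟨h1, h2, h3⟩ := h.a672a hL e hc
      exact (h.a672b hL e h1 h2 h3).elim
  · by_cases hd : ∃ (d : G) (a : Ω), d • a = a ∧ Γ.sc d a = -1
    · obtain ⟨d, a, h1, h2⟩ := hd
      exact h.a2 hL hc h1 h2
    · exact h.a3 hL hc fun d a h1 h2 => hd ⟨d, a, h1, h2⟩

theorem caseB' : CaseB.{u, v} := fun _ _ _ _ _ _ _ hf hJ r => hJ.caseB hf r

end Cfsg.Agent.F11.Geo
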