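import Cfsg.Agent.F11.JGeo
import Cfsg.Agent.F11.LSign
import Cfsg.Agent.F11.S8

/-! Every element normalising a block induces an inner automorphism. -/

set_option autoImplicit false
set_option linter.unusedSectionVars false

namespace Cfsg.Agent.F11
open Subgroup Cfsg.Agent.Local U
namespace Geo
variable {G Ω : Type*} [Group G] [Finite G] [MulAction G Ω] {Γ : Geo G Ω}
variable {J : Subgroup G} {a b r : Ω} {g x t : G}

theorem IsBlock.inf_cent (hJ : Γ.IsBlock J) (hg : g ∈ J) (hc : g ∈ centralizer (J : Set G)) :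
    g = 1 := by
  obtain ⟨a, ha⟩ := hJ.2
  rcases simple_cases hJ.1.2.1 (inf_le_left (b := centralizer (J : Set G))) (le_normalizer_inf le_normalizer
    (le_normalizer.trans (normalizer_le_normalizer_centralizer J))) with h | h
  · exact mem_bot.1 (h ▸ ⟨hg, hc⟩)
  · have := card_le_of_le (show J ≤ Γ.pt a from fun y hy => hJ.cent_mem ha hy (Γ.cent_of_le (h.ge hy).2 ha))
    rw [hJ.1.1, Γ.card] at this
    omega

theorem out_inv (hga : g • a = a) (hs : Γ.sc g a = -1) {p : G} (hp : p ∈ Γ.pt a) (hc : Commute g p) : p = 1 := by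
  have h1 := inv_of_sc_neg hga hs hp
  rw [hc.eq, mul_inv_cancel_right] at h1
  exact (pow_eq_one_iff_of_coprime (by norm_num : Nat.Coprime 2 11)).1
    ⟨by rw [sq, ← eq_inv_iff_mul_eq_one]; exact h1, Γ.pow_eleven hp⟩

theorem IsBlock.out_two (hJ : Γ.IsBlock J) (hg : g ∈ normalizer (J : Set G)) (ha : Γ.pt a ≤ J) (hc : Γ.Cent g a)
    (ht : t ∈ J) (ht2 : orderOf t = 2) (hta : t • a = a) (hgt : Commute g t) {k : ℕ} (hk : g ^ 2 ^ k = 1)
    (h2 : g ^ 2 ∈ centralizer (J : Set G)) : g ∈ centralizer (J : Set G) := by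
  have gK : g ∈ normalizer ((J ⊓ centralizer {t} : Subgroup G) : Set G) := mem_normalizer_of_conj_mem fun y hy =>
    ⟨conj_mem_of_mem_normalizer hg hy.1, mem_centralizer_singleton_iff.2
      ((hgt.mul_left (mem_centralizer_singleton_iff.1 hy.2)).mul_left hgt.inv_left)⟩
  obtain ⟨P, hP, gP⟩ := exists_isSylowIn_ge (p := 2) (Q := zpowers g) (N := J ⊓ centralizer {t} ⊔ zpowers g)
    (fun ⟨_, n, rfl⟩ => ⟨k, Subtype.ext (show (g ^ n) ^ 2 ^ k = 1 by
      rw [← zpow_natCast, ← zpow_mul, mul_comm, zpow_mul, zpow_natCast, hk, one_zpow])⟩) le_sup_right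
  have hE := hP.inf_of_le_normalizer le_sup_left (sup_le le_normalizer (zpowers_le.2 gK))
  have gE := le_normalizer_inf (gP.trans le_normalizer) (zpowers_le.2 gK) (mem_zpowers g)
  generalize P ⊓ (J ⊓ centralizer {t}) = E at hE gE
  have c8 : Nat.card E = 2 ^ 3 := syl_card hE (m := 15) (hJ.1.cent2 ht ht2) (by decide)
  have sq1 : ∀ e ∈ E, e * e = 1 := fun e he => by
    obtain ⟨n, hn⟩ := hE.isPGroup ⟨e, he⟩
    exact congrArg Subtype.val (JP.sq_of_two_pow hJ.1 (g := ⟨e, (hE.le he).1⟩) (k := n)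
      (Subtype.ext (show e ^ 2 ^ n = 1 from congrArg Subtype.val hn)))
  have cm : ∀ e ∈ E, ∀ f ∈ E, Commute e f := fun e he f hf =>
    S8.comm_of_sq (sq1 e he) (sq1 f hf) (sq1 _ (mul_mem he hf))
  have et : ∀ e ∈ E, Commute e t := fun e he => mem_centralizer_singleton_iff.1 (hE.le he).2
  obtain ⟨s, sE, s1, st, gs⟩ : ∃ s ∈ E, s ≠ 1 ∧ s ≠ t ∧ g * s * g⁻¹ = s := by
    by_contra! n
    have key : ∀ e ∈ E, e ≠ 1 → e ≠ t → g * e * g⁻¹ = e * t := fun e he e1 e2 => by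
      have m := conj_mem_of_mem_normalizer gE he
      by_contra d
      refine n _ (mul_mem he m) (fun d => n e he e1 e2 ?_) (fun d1 => d ?_) ?_
      · rw [← mul_right_inj e, d, sq1 e he]
      · rw [← d1, ← mul_assoc, sq1 e he, one_mul]
      · calc _ = g * e * g⁻¹ * (g ^ 2 * e * (g ^ 2)⁻¹) := by rw [sq]; group
          _ = _ := by rw [← h2 e (hE.le he).1, mul_inv_cancel_right, (cm _ he _ m).eq]
    obtain ⟨e, he, e1⟩ := S8.exists_notMem E [1, t] (by simp [c8])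
    obtain ⟨f, hf, f1⟩ := S8.exists_notMem E [1, t, e, e * t] (by simp [c8])
    simp only [List.mem_cons, List.not_mem_nil, or_false, not_or] at e1 f1
    refine n _ (mul_mem he hf) (fun d => f1.2.2.1 ?_) (fun d => f1.2.2.2 ?_) ?_
    · rw [← mul_right_inj e, d, sq1 e he]
    · rw [← d, ← mul_assoc, sq1 e he, one_mul]
    · calc _ = g * e * g⁻¹ * (g * f * g⁻¹) := by group
        _ = e * (t * f) * t := by rw [key e he e1.1 e1.2, key f hf f1.1 f1.2.1]; group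
        _ = _ := by rw [← (et f hf).eq, mul_assoc, mul_assoc, sq_of_two ht2, mul_one]
  have sJ := (hE.le sE).1
  have ne : a ≠ s • a := fun d => by
    have h1 : Γ.sc (s * t) a = 1 := by
      rw [Γ.sc_mul d.symm hta, (hJ.inv_fix sJ (two_of_sq (sq1 s sE) s1)).2.1 a ha d.symm, (hJ.inv_fix ht ht2).2.1 a ha hta]
      decide
    have h3 := out_inv hta ((hJ.inv_fix ht ht2).2.1 a ha hta) (hJ.cent_mem ha (mul_mem sJ ht)
      ((Γ.sc_eq_one_iff (by rw [mul_smul, hta, ← d])).1 h1)) ((et s sE).symm.mul_right (Commute.refl t))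
    exact st (by rw [← mul_left_inj t, h3, sq_of_two ht2])
  rw [← hJ.J4 ht ht2 ha (Γ.smul_le_of_mem sJ ha) ne hta (by rw [← mul_smul, ← (et s sE).eq, mul_smul, hta])]
  refine Γ.cent_sup hc ?_
  have := hc.conj s
  rwa [← mul_inv_eq_iff_eq_mul.1 gs, mul_inv_cancel_right] at this

theorem IsBlock.out_cent (hJ : Γ.IsBlock J) (hg : g ∈ normalizer (J : Set G)) (ha : Γ.pt a ≤ J) (hc : Γ.Cent g a)
    (ht : t ∈ J) (ht2 : orderOf t = 2) (hta : t • a = a) (hgt : Commute g t) : g ∈ centralizer (J : Set G) := by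
  have ts := (hJ.inv_fix ht ht2).2.1 a ha hta
  obtain ⟨x, xJ, x5, tx, xa, -⟩ := (hJ.inv_fix ht ht2).2.2.2 a ha hta
  have gx : Commute g x := by
    have h1 : (g * x * g⁻¹) • a = a := by rw [mul_smul, mul_smul, inv_smul_eq_iff.2 hc.smul_eq.symm, xa, hc.smul_eq]
    have h2 : x⁻¹ • a = a := inv_smul_eq_iff.2 xa.symm
    have h3 : Γ.sc (x⁻¹ * (g * x * g⁻¹)) a = 1 := by
      rw [Γ.sc_mul h2 h1, show Γ.sc (g * x * g⁻¹) a = Γ.sc x a by simpa [hc.smul_eq] using Γ.sc_conj xa g,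
        Γ.sc_inv_mul xa]
    exact mul_inv_eq_iff_eq_mul.1 (inv_mul_eq_one.1 (out_inv hta ts (hJ.cent_mem ha (mul_mem (inv_mem xJ)
      (conj_mem_of_mem_normalizer hg xJ)) ((Γ.sc_eq_one_iff (by rw [mul_smul, h1, h2])).1 h3))
        (tx.inv_right.mul_right ((hgt.symm.mul_right tx).mul_right hgt.symm.inv_right)))).symm
  obtain ⟨-, -, y, yJ, y3, yx, hy, -⟩ := hJ.1.cent5 xJ x5
  have yy : y ^ 3 = 1 := y3 ▸ pow_orderOf_eq_one y
  have gy : Commute (g ^ 2) y := by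
    obtain ⟨i, hi⟩ := mem_powers_iff_mem_zpowers.2 (hy _ (conj_mem_of_mem_normalizer hg yJ)
      ((gx.mul_left yx).mul_left gx.inv_left) (by rw [conj_pow, yy]; simp))
    have hi : y ^ i = g * y * g⁻¹ := hi
    have i3 : ¬ 3 ∣ i := fun d => ne_one_of_ord y3 (by decide)
      (conj_eq_one_iff.1 (hi ▸ orderOf_dvd_iff_pow_eq_one.1 (y3 ▸ d)))
    refine mul_inv_eq_iff_eq_mul.1 ?_
    calc _ = g * (g * y * g⁻¹) * g⁻¹ := by rw [sq]; group
      _ = y ^ (i * i) := by rw [← hi, ← conj_pow, ← hi, pow_mul]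
      _ = y ^ 1 := pow_eq_pow_iff_modEq.2 (by
        rw [y3, Nat.ModEq, Nat.mul_mod]
        rcases (by omega : i % 3 = 1 ∨ i % 3 = 2) with e | e <;> rw [e])
      _ = y := pow_one y
  have ne : a ≠ y • a := fun d => by
    have := Γ.orderOf_mem (hJ.cent_mem ha yJ ((Γ.sc_eq_one_iff d.symm).1 ((by decide : ∀ l : ZMod 11, l ^ 3 = 1 → l = 1) _
      (Γ.sc_pow_eq_one d.symm yy)))) (ne_one_of_ord y3 (by decide))
    omega
  have c2 : Γ.Cent (g ^ 2) a := fun p hp => (Commute.pow_left (hc p hp) 2).eq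
  have h2 : g ^ 2 ∈ centralizer (J : Set G) := by
    rw [← hJ.sup_eq ha (Γ.smul_le_of_mem yJ ha) (jt_of_sc_eq ne xa (by rw [← mul_smul, ← yx.eq, mul_smul, xa])
      (by rw [← Γ.sc_conj xa y, yx.eq, mul_inv_cancel_right]) ((by decide : ∀ l : ZMod 11, l ^ 5 = 1 → l ≠ 1 → l ^ 2 ≠ 1) _
        (Γ.sc_pow_eq_one xa (x5 ▸ pow_orderOf_eq_one x)) (hJ.five xJ x5 ha xa).1))]
    refine Γ.cent_sup c2 ?_
    have := c2.conj y
    rwa [← gy.eq, mul_inv_cancel_right] at this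
  obtain ⟨k, _, ⟨m, rfl⟩, e⟩ := Nat.exists_eq_two_pow_mul_odd (orderOf_pos g).ne'
  have := hJ.out_two (pow_mem hg (2 * m + 1)) ha (fun p hp => (Commute.pow_left (hc p hp) _).eq) ht ht2 hta
    (hgt.pow_left _) (k := k) (by rw [← pow_mul, mul_comm, ← e, pow_orderOf_eq_one])
    (by rw [← pow_mul, mul_comm, pow_mul]; exact pow_mem h2 _)
  rwa [pow_succ, pow_mul, mul_mem_cancel_left (pow_mem h2 m)] at this

theorem IsBlock.out (hJ : Γ.IsBlock J) (hg : g ∈ normalizer (J : Set G)) : Inner J g := by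
  obtain ⟨a, ha⟩ := hJ.2
  obtain ⟨j, jJ, ja⟩ := hJ.trans (Γ.smul_le_of_mem_normalizer hg ha) ha
  rw [← mul_smul] at ja
  obtain ⟨k, kJ, ka, ks⟩ := hJ.sc_surj ha (Γ.sc_ne_zero (inv_smul_eq_iff.2 ja.symm))
  have c1 : Γ.Cent (k * (j * g)) a := (Γ.sc_eq_one_iff (by rw [mul_smul, ja, ka])).1
    (by rw [Γ.sc_mul ka ja, ks, Γ.sc_inv_mul ja])
  have n1 := mul_mem (le_normalizer kJ) (mul_mem (le_normalizer jJ) hg)
  obtain ⟨t, tJ, ta, ts⟩ := hJ.sc_surj ha (k := -1) (by decide)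
  have t2 : orderOf t = 2 := orderOf_eq_prime (hJ.pow_eq_one ha tJ ta (by rw [ts]; decide) (by rw [ts]; decide))
    fun e => absurd (ts.symm.trans (e ▸ Γ.sc_one a)) (by decide)
  generalize e : k * (j * g) = u at c1 n1
  have h1 : (u * t * u⁻¹) • a = a := by rw [mul_smul, mul_smul, inv_smul_eq_iff.2 c1.smul_eq.symm, ta, c1.smul_eq]
  have pm : u * t * u⁻¹ * t ∈ Γ.pt a := hJ.cent_mem ha (mul_mem (conj_mem_of_mem_normalizer n1 tJ) tJ)
    ((Γ.sc_eq_one_iff (by rw [mul_smul, ta, h1])).1 (by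
      rw [Γ.sc_mul h1 ta, show Γ.sc (u * t * u⁻¹) a = Γ.sc t a by simpa [c1.smul_eq] using Γ.sc_conj ta u, ts]
      decide))
  generalize e2 : u * t * u⁻¹ * t = p at pm
  have p5 := pow_mem pm 5
  have := hJ.out_cent (mul_mem (le_normalizer (ha p5)) n1) ha
    (fun y hy => (Commute.mul_left (Γ.comm_mem p5 hy) (c1 y hy)).eq) tJ t2 ta (mul_inv_eq_iff_eq_mul.1 (by
      calc p ^ 5 * u * t * (p ^ 5 * u)⁻¹ = p ^ 5 * (u * t * u⁻¹ * t) * (t⁻¹ * (p ^ 5)⁻¹ * t⁻¹⁻¹) * t⁻¹ := by group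
        _ = p ^ 11 * t := by rw [e2, inv_of_two t2, inv_of_sc_neg ta ts (inv_mem p5), inv_inv]; group
        _ = t := by rw [Γ.pow_eleven pm, one_mul]))
  exact ⟨(p ^ 5 * k * j)⁻¹, inv_mem (mul_mem (mul_mem (ha p5) kJ) jJ), _, this, by rw [← e]; group⟩

end Geo
end Cfsg.Agent.F11
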