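import Cfsg.Agent.F11.ABase

/-! Reduction to a faithful action and the induction for case A. -/

set_option autoImplicit false

namespace Cfsg.Agent.F11

open Subgroup Cfsg.Agent.Local U

namespace Geo

universe u v

variable {G : Type u} {Ω : Type v} [Group G] [Finite G] [MulAction G Ω] (Γ : Geo G Ω)

/-- The kernel of the action on the points. -/
abbrev Ker (_Γ : Geo G Ω) : Subgroup G := (MulAction.toPermHom G Ω).ker

omit [Finite G] in
theorem mem_ker {z : G} : z ∈ Γ.Ker ↔ ∀ a : Ω, z • a = a := by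
  rw [MonoidHom.mem_ker, Equiv.ext_iff]; rfl

theorem ker_inf {a b : Ω} (hab : a ≠ b) {z : G} (hz : z ∈ Γ.Ker) (h : z ∈ Γ.pt a ⊔ Γ.pt b) :
    z = 1 := by
  rcases simple_cases (Γ.sup_facts hab).1 (inf_le_right : Γ.Ker ⊓ (Γ.pt a ⊔ Γ.pt b) ≤ _)
    (fun l hl => mem_normalizer_of_conj_mem fun u hu =>
      mem_inf.2 ⟨(MonoidHom.normal_ker _).conj_mem u hu.1 l,
        mul_mem (mul_mem hl hu.2) (inv_mem hl)⟩) with e | e
  · have : z ∈ Γ.Ker ⊓ (Γ.pt a ⊔ Γ.pt b) := ⟨hz, h⟩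
    rwa [e, mem_bot] at this
  · obtain ⟨y, hy, h1⟩ := Γ.exists_ne_one a
    have : y ∈ Γ.Ker := (inf_eq_right.1 e) (mem_sup_left hy)
    exact absurd (eq_of_mem_smul hy h1 (Γ.mem_ker.1 this b)) hab

theorem ker_cent [Nontrivial Ω] {z : G} (hz : z ∈ Γ.Ker) (a : Ω) : Γ.Cent z a := by
  obtain ⟨b, hb⟩ := exists_ne a
  intro y hy
  have h1 : z * y * z⁻¹ * y⁻¹ ∈ Γ.pt a := by
    have := Γ.conj_mem (g := z) hy
    rw [Γ.mem_ker.1 hz a] at this
    exact mul_mem this (inv_mem hy)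
  have h2 : z * y * z⁻¹ * y⁻¹ ∈ Γ.Ker := by
    have := mul_mem hz ((MonoidHom.normal_ker _).conj_mem _ (inv_mem hz) y)
    simpa [mul_assoc] using this
  have := Γ.ker_inf hb.symm h2 (mem_sup_left h1)
  rwa [mul_inv_eq_one, mul_inv_eq_iff_eq_mul] at this

/-- The action of the quotient by the kernel. -/
@[reducible] noncomputable def quotAct : MulAction (G ⧸ Γ.Ker) Ω :=
  MulAction.compHom Ω (QuotientGroup.kerLift (MulAction.toPermHom G Ω))

omit [Finite G] in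
theorem quot_smul (g : G) (a : Ω) :
    letI := Γ.quotAct; ((g : G ⧸ Γ.Ker) • a) = g • a := rfl

/-- The join of two points maps isomorphically to the quotient. -/
noncomputable def quotEquiv {a b : Ω} (hab : a ≠ b) (H : Subgroup G) (hH : H ≤ Γ.pt a ⊔ Γ.pt b) :
    H ≃* H.map (QuotientGroup.mk' Γ.Ker) :=
  MulEquiv.ofBijective ((QuotientGroup.mk' Γ.Ker).subgroupMap H)
    ⟨(injective_iff_map_eq_one _).2 fun x hx => Subtype.ext (Γ.ker_inf hab
      ((QuotientGroup.eq_one_iff _).1 (congrArg Subtype.val hx)) (hH x.2)),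
      MonoidHom.subgroupMap_surjective _ _⟩

/-- The geometry induced on the quotient by the kernel. -/
noncomputable def quotGeo [Nontrivial Ω] : @Geo (G ⧸ Γ.Ker) Ω _ Γ.quotAct :=
  letI := Γ.quotAct
  { pt := fun a => (Γ.pt a).map (QuotientGroup.mk' Γ.Ker)
    inj := fun a b e => by
      by_contra hab
      obtain ⟨y, hy, h1⟩ := Γ.exists_ne_one a
      have h2 : QuotientGroup.mk' Γ.Ker y ∈ (Γ.pt b).map (QuotientGroup.mk' Γ.Ker) := by
        simp only at e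
        rw [← e]; exact ⟨y, hy, rfl⟩
      obtain ⟨w, hw, e2⟩ := h2
      have h3 := Γ.ker_inf hab (QuotientGroup.eq.1 e2)
        (mul_mem (inv_mem (mem_sup_right hw)) (mem_sup_left hy))
      exact hab (Γ.eq_of_mem hy (inv_mul_eq_one.1 h3 ▸ hw) h1)
    card := fun a => by
      obtain ⟨b, hb⟩ := exists_ne a
      rw [← Nat.card_congr (Γ.quotEquiv hb.symm _ le_sup_left).toEquiv, Γ.card]
    mem_smul := fun g a y => by
      induction g using QuotientGroup.induction_on with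
      | H g =>
      rw [Γ.quot_smul]
      constructor
      · rintro ⟨w, hw, rfl⟩
        exact ⟨g⁻¹ * w * g, (Γ.mem_smul g a w).1 hw, rfl⟩
      · rintro ⟨w, hw, e⟩
        refine ⟨g * w * g⁻¹, Γ.conj_mem hw, ?_⟩
        rw [map_mul, map_mul, e]
        simp [mul_assoc]
    trans := fun a b => by
      obtain ⟨g, hg⟩ := Γ.trans a b
      exact ⟨g, hg⟩
    gen := by
      rw [← Subgroup.map_iSup, Γ.gen]
      exact map_top_of_surjective _ (QuotientGroup.mk'_surjective _)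
    pair := fun a b hab => by
      rw [← Subgroup.map_sup]
      exact (Γ.pair a b hab).imp (fun h => h.of_equiv (Γ.quotEquiv hab _ le_rfl))
        (fun h => h.of_equiv (Γ.quotEquiv hab _ le_rfl)) }

theorem quot_faithful [Nontrivial Ω] : @Faithful _ _ _ Γ.quotAct Γ.quotGeo := by
  intro g hg
  induction g using QuotientGroup.induction_on with
  | H g => exact (QuotientGroup.eq_one_iff g).2 (Γ.mem_ker.2 hg)

theorem quot_lt [Nontrivial Ω] {a b : Ω} (hab : a ≠ b) (h : LT ↥(Γ.pt a ⊔ Γ.pt b)) :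
    letI := Γ.quotAct; LT ↥(Γ.quotGeo.pt a ⊔ Γ.quotGeo.pt b) := by
  change LT ↥((Γ.pt a).map (QuotientGroup.mk' Γ.Ker) ⊔ (Γ.pt b).map (QuotientGroup.mk' Γ.Ker))
  rw [← Subgroup.map_sup]
  exact h.of_equiv (Γ.quotEquiv hab _ le_rfl)

theorem top_of_quot [Nontrivial Ω] {a b : Ω}
    (h : letI := Γ.quotAct; Γ.quotGeo.pt a ⊔ Γ.quotGeo.pt b = ⊤) : Γ.pt a ⊔ Γ.pt b = ⊤ := by
  change (Γ.pt a).map (QuotientGroup.mk' Γ.Ker) ⊔ (Γ.pt b).map (QuotientGroup.mk' Γ.Ker) = ⊤ at h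
  rw [← Subgroup.map_sup] at h
  rw [eq_top_iff, ← Γ.gen]
  refine iSup_le fun r => ?_
  obtain ⟨g, rfl⟩ := Γ.trans a r
  obtain ⟨m, hm, e⟩ : QuotientGroup.mk' Γ.Ker g ∈ (Γ.pt a ⊔ Γ.pt b).map
    (QuotientGroup.mk' Γ.Ker) := h ▸ mem_top _
  have h2 := Γ.mem_ker.1 (QuotientGroup.eq.1 e) a
  rw [mul_smul, inv_smul_eq_iff] at h2
  rw [h2]
  exact Γ.smul_le_of_mem hm le_sup_left

/-- The subgroup generated by the points centralised by `c`. -/
abbrev Sub (c : G) : Subgroup G := ⨆ r : {r // Γ.Cent c r}, Γ.pt r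

omit [Finite G] in
theorem sub_le (c : G) : Γ.Sub c ≤ centralizer {c} :=
  iSup_le fun r y hy => mem_centralizer_singleton_iff.2 (r.2 y hy).symm

/-- Its action on these points. -/
@[reducible] def subAct (c : G) : MulAction (Γ.Sub c) {r // Γ.Cent c r} where
  smul h r := ⟨(h : G) • (r : Ω), by
    have := r.2.conj h
    rwa [mem_centralizer_singleton_iff.1 (Γ.sub_le c h.2), mul_inv_cancel_right] at this⟩
  one_smul r := Subtype.ext (one_smul G (r : Ω))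
  mul_smul m n r := Subtype.ext (mul_smul (m : G) (n : G) (r : Ω))

omit [Finite G] in
theorem le_sub {c : G} (r : {r // Γ.Cent c r}) : Γ.pt r ≤ Γ.Sub c :=
  le_iSup (fun r : {r // Γ.Cent c r} => Γ.pt r) r

omit [Finite G] in
theorem sub_lt {c : G} {a b : {r // Γ.Cent c r}} (h : LT ↥(Γ.pt a ⊔ Γ.pt b)) :
    LT ↥((Γ.pt a).subgroupOf (Γ.Sub c) ⊔ (Γ.pt b).subgroupOf (Γ.Sub c)) := by
  rw [← subgroupOf_sup (Γ.le_sub a) (Γ.le_sub b)]
  exact h.of_equiv (subgroupOfEquivOfLe (sup_le (Γ.le_sub a) (Γ.le_sub b))).symm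

/-- The geometry of the points centralised by `c`. -/
noncomputable def subGeo (hlt : ∀ a b, a ≠ b → LT ↥(Γ.pt a ⊔ Γ.pt b)) (c : G) :
    @Geo (Γ.Sub c) {r // Γ.Cent c r} _ (Γ.subAct c) :=
  letI := Γ.subAct c
  { pt := fun r => (Γ.pt r).subgroupOf (Γ.Sub c)
    inj := fun a b e => by
      have := congrArg (Subgroup.map (Γ.Sub c).subtype) e
      simp only [map_subgroupOf_eq_of_le (Γ.le_sub _)] at this
      exact Subtype.ext (Γ.inj this)
    card := fun a => by rw [Nat.card_congr (subgroupOfEquivOfLe (Γ.le_sub a)).toEquiv, Γ.card]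
    mem_smul := fun g a y => Γ.mem_smul g a y
    trans := fun a b => by
      by_cases hab : (a : Ω) = b
      · exact ⟨1, Subtype.ext ((one_smul G (a : Ω)).trans hab)⟩
      obtain ⟨g, hg, e⟩ := (isLine_sup (hlt a b hab)).trans le_sup_left le_sup_right
      exact ⟨⟨g, sup_le (Γ.le_sub a) (Γ.le_sub b) hg⟩, Subtype.ext e⟩
    gen := by
      apply Subgroup.map_injective (Γ.Sub c).subtype_injective
      rw [Subgroup.map_iSup, ← MonoidHom.range_eq_map, range_subtype]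
      exact iSup_congr fun r => map_subgroupOf_eq_of_le (Γ.le_sub r)
    pair := fun a b hab => .inl (Γ.sub_lt (hlt a b fun e => hab (Subtype.ext e))) }

/-- The statement of case A. -/
def CaseA : Prop := ∀ (G : Type u) (Ω : Type v) [Group G] [Finite G] [MulAction G Ω]
  (Γ : Geo G Ω) [Nontrivial Ω], Γ.HypA → Nat.card Ω = 12

/-- The statement of case B. -/
def CaseB : Prop := ∀ (G : Type u) (Ω : Type v) [Group G] [Finite G] [MulAction G Ω]
  (Γ : Geo G Ω) (J : Subgroup G), Γ.Faithful → Γ.IsBlock J → ∀ r, Γ.pt r ≤ J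

theorem allA (hA : CaseA.{u, v}) (n : ℕ) : ∀ (G : Type u) (Ω : Type v) [Group G] [Finite G]
    [MulAction G Ω] (Γ : Geo G Ω), Nat.card G = n → (∀ a b, a ≠ b → LT ↥(Γ.pt a ⊔ Γ.pt b)) →
    ∀ a b, a ≠ b → Γ.pt a ⊔ Γ.pt b = ⊤ := by
  induction n using Nat.strong_induction_on with
  | _ n ih =>
  intro G Ω _ _ _ Γ hn hlt a b hab
  haveI : Nontrivial Ω := ⟨a, b, hab⟩
  apply Γ.top_of_quot
  letI := Γ.quotAct
  have hle : Nat.card (G ⧸ Γ.Ker) ≤ n := hn ▸ Nat.le_of_dvd Nat.card_pos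
    (card_quotient_dvd_card _)
  have hf := Γ.quot_faithful
  have hlt' : ∀ a b, a ≠ b → LT ↥(Γ.quotGeo.pt a ⊔ Γ.quotGeo.pt b) := fun a b hab =>
    Γ.quot_lt hab (hlt a b hab)
  generalize Γ.quotGeo = Δ at hf hlt'
  have hyp : Δ.HypA := ⟨hf, hlt', fun c hc a b r hab ha hb hr => by
    letI := Δ.subAct c
    have hne : Δ.Sub c ≠ ⊤ := fun e => hc (hf c fun q => Cent.smul_eq (Γ := Δ) fun y _ =>
      (mem_centralizer_singleton_iff.1 (Δ.sub_le c (e ▸ mem_top y))).symm)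
    have hlt2 : Nat.card (Δ.Sub c) < n := lt_of_lt_of_le
      (lt_of_le_of_ne (card_le_card_group _) fun e => hne (eq_top_of_card_eq _ e)) hle
    have := ih _ hlt2 _ _ (Δ.subGeo hlt' c) rfl
      (fun a b hab => Δ.sub_lt (hlt' a b fun e => hab (Subtype.ext e))) ⟨a, ha⟩ ⟨b, hb⟩
      (fun e => hab (congrArg Subtype.val e))
    change (Δ.pt a).subgroupOf (Δ.Sub c) ⊔ (Δ.pt b).subgroupOf (Δ.Sub c) = ⊤ at this
    rw [← subgroupOf_sup (Δ.le_sub ⟨a, ha⟩) (Δ.le_sub ⟨b, hb⟩), subgroupOf_eq_top] at this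
    exact (Δ.le_sub ⟨r, hr⟩).trans this⟩
  have h12 := hA _ _ Δ hyp
  haveI := Δ.finite_pts
  have h1 : {r | Δ.pt r ≤ Δ.pt a ⊔ Δ.pt b} = Set.univ :=
    Set.eq_of_subset_of_ncard_le (Set.subset_univ _)
      (by rw [(hyp.isLine hab).ncard, Set.ncard_univ, h12])
  rw [eq_top_iff, ← Δ.gen]
  exact iSup_le fun r => (show r ∈ {r | Δ.pt r ≤ Δ.pt a ⊔ Δ.pt b} from h1 ▸ Set.mem_univ r)

theorem main_of (hA : CaseA.{u, v}) (hB : CaseB.{u, v}) [Nontrivial Ω] :
    ∃ a b, a ≠ b ∧ Γ.pt a ⊔ Γ.pt b = ⊤ := by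
  by_cases hlt : ∀ a b, a ≠ b → LT ↥(Γ.pt a ⊔ Γ.pt b)
  · obtain ⟨a, b, hab⟩ := exists_pair_ne Ω
    exact ⟨a, b, hab, allA hA _ G Ω Γ rfl hlt a b hab⟩
  push Not at hlt
  obtain ⟨a, b, hab, h⟩ := hlt
  refine ⟨a, b, hab, Γ.top_of_quot ?_⟩
  letI := Γ.quotAct
  have hJ : JT ↥(Γ.quotGeo.pt a ⊔ Γ.quotGeo.pt b) := by
    change JT ↥((Γ.pt a).map (QuotientGroup.mk' Γ.Ker) ⊔ (Γ.pt b).map (QuotientGroup.mk' Γ.Ker))
    rw [← Subgroup.map_sup]
    exact ((Γ.pair a b hab).resolve_left h).of_equiv (Γ.quotEquiv hab _ le_rfl)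
  rw [eq_top_iff, ← Γ.quotGeo.gen]
  exact iSup_le (hB _ _ Γ.quotGeo _ Γ.quot_faithful ⟨hJ, a, le_sup_left⟩)

end Geo

end Cfsg.Agent.F11
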