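import Cfsg.Agent.F11.Red
import Cfsg.Agent.F11.Inst

/-! From the statement S3403 to the geometry. -/

set_option autoImplicit false

namespace Cfsg.Agent.F11

open Subgroup Cfsg.Agent.Local U
open scoped Pointwise

universe u

theorem wrap (hA : Geo.CaseA.{u, u}) (hB : Geo.CaseB.{u, u}) {G : Type u} [Group G] [Finite G]
    {F : Type*} [Field F] [Fintype F] (hF : Fintype.card F = 11)
    (P : Subgroup G) (hP : Nat.card ↥P = 11) (hPn : ¬ P.Normal)
    (hgen : Subgroup.normalClosure (P : Set G) = ⊤)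
    (hpair : ∀ g : G, P.map (MulAut.conj g).toMonoidHom ≠ P →
      Nonempty (↥(P ⊔ P.map (MulAut.conj g).toMonoidHom) ≃*
        Matrix.ProjectiveSpecialLinearGroup (Fin 2) F) ∨
        Cfsg.Spor.IsoJ1 ↥(P ⊔ P.map (MulAut.conj g).toMonoidHom)) :
    Nonempty (G ≃* Matrix.ProjectiveSpecialLinearGroup (Fin 2) F) ∨ Cfsg.Spor.IsoJ1 G := by
  let Ω := {Q : Subgroup G // ∃ g : G, MulAut.conj g • P = Q}
  letI : MulAction G Ω :=
    { smul := fun g Q => ⟨MulAut.conj g • Q.1, by
        obtain ⟨h, e⟩ := Q.2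
        exact ⟨g * h, by rw [← e, conj_smul_conj_smul]⟩⟩
      one_smul := fun Q => Subtype.ext (by
        change MulAut.conj (1 : G) • Q.1 = Q.1
        rw [map_one, one_smul])
      mul_smul := fun g h Q => Subtype.ext (by
        change MulAut.conj (g * h) • Q.1 = MulAut.conj g • MulAut.conj h • Q.1
        rw [map_mul, mul_smul]) }
  have hsm : ∀ (g : G) (Q : Ω), (g • Q).1 = MulAut.conj g • Q.1 := fun _ _ => rfl
  let p0 : Ω := ⟨P, 1, by rw [map_one, one_smul]⟩
  have htr : ∀ Q : Ω, ∃ g : G, g • p0 = Q := fun Q => Q.2.imp fun g e => Subtype.ext e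
  have key : ∀ a b : Ω, a ≠ b → ∃ g h : G, P.map (MulAut.conj g).toMonoidHom ≠ P ∧
      (P ⊔ P.map (MulAut.conj g).toMonoidHom).map (MulAut.conj h).toMonoidHom = a.1 ⊔ b.1 := by
    intro a b hab
    obtain ⟨h, rfl⟩ := htr a
    obtain ⟨k, rfl⟩ := htr b
    refine ⟨h⁻¹ * k, h, fun e => hab ?_, ?_⟩
    · have : (h⁻¹ * k) • p0 = p0 := Subtype.ext e
      rw [mul_smul, inv_smul_eq_iff] at this
      exact this.symm
    · rw [Subgroup.map_sup, hsm, hsm, map_conj_eq, map_conj_eq, map_conj_eq, conj_smul_conj_smul,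
        mul_inv_cancel_left]
  let Γ : Geo G Ω :=
    { pt := fun Q => Q.1
      inj := Subtype.val_injective
      card := fun Q => by obtain ⟨g, e⟩ := Q.2; rw [← e, card_conj_smul, hP]
      mem_smul := fun g Q y => mem_map_conj
      trans := fun a b => by
        obtain ⟨h, rfl⟩ := htr a
        obtain ⟨k, rfl⟩ := htr b
        exact ⟨k * h⁻¹, by rw [mul_smul, inv_smul_smul]⟩
      gen := by
        rw [eq_top_iff, ← hgen]
        haveI : (⨆ Q : Ω, Q.1).Normal := ⟨fun n hn g => by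
          have : (⨆ Q : Ω, Q.1).map (MulAut.conj g).toMonoidHom ≤ ⨆ Q : Ω, Q.1 := by
            rw [Subgroup.map_iSup]
            exact iSup_le fun Q => le_iSup (fun Q : Ω => Q.1) (g • Q)
          exact this ⟨n, hn, rfl⟩⟩
        exact normalClosure_le_normal (le_iSup (fun Q : Ω => Q.1) p0)
      pair := fun a b hab => by
        obtain ⟨g, h, h1, e⟩ := key a b hab
        rw [← e]
        exact (hpair g h1).imp (fun ⟨f⟩ => ((lt_psl hF).of_equiv f.symm).conj h)
          (fun ⟨f⟩ => (jt_J1.of_equiv f.symm).conj h) }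
  haveI : Nontrivial Ω := by
    by_contra hn
    rw [not_nontrivial_iff_subsingleton] at hn
    refine hPn ⟨fun n hn' g => ?_⟩
    have := congrArg Subtype.val (Subsingleton.elim (g • p0) p0)
    rw [hsm] at this
    change MulAut.conj g • P = P at this
    rw [← this]
    exact conj_mem_conj_smul g hn'
  obtain ⟨a, b, hab, e⟩ := Γ.main_of hA hB
  obtain ⟨g, h, h1, e2⟩ := key a b hab
  have e3 : P ⊔ P.map (MulAut.conj g).toMonoidHom = ⊤ := by
    change a.1 ⊔ b.1 = ⊤ at e
    rw [e] at e2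
    rw [eq_top_iff]
    intro y _
    have : h * y * h⁻¹ ∈ (P ⊔ P.map (MulAut.conj g).toMonoidHom).map
      (MulAut.conj h).toMonoidHom := e2 ▸ mem_top _
    simpa [mul_assoc] using mem_map_conj.1 this
  have := hpair g h1
  rw [e3] at this
  exact this.imp (fun ⟨f⟩ => ⟨topEquiv.symm.trans f⟩) (fun ⟨f⟩ => ⟨topEquiv.symm.trans f⟩)

end Cfsg.Agent.F11
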